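import Cfsg.Agent.Lib.FusionModels.SmallIndexCenter
import Cfsg.Agent.Lib.Alperin.Theorem

/-!
Essential subgroups of a saturated system over a `p`-group with an abelian subgroup of index `p`
(Oliver, Simple fusion systems over `p`-groups with abelian subgroup of index `p`, Lemma 2.3).
-/

set_option autoImplicit false
set_option linter.style.haveILetI false

namespace CfsgLib.FusionModels

open Cfsg Cfsg.FusionSystem CfsgLib.Alperin
open scoped commutatorElement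

variable {Ω : Type*} [Group Ω] {S : Subgroup Ω} {p : ℕ} [Fact p.Prime]

/-- For a normal subgroup of prime index, every element is a power of an outside element times an
element of the subgroup. -/
theorem exists_zpow_mem_of_prime_index {G : Type*} [Group G] (H : Subgroup G) [H.Normal]
    (hH : H.index = p) {w : G} (hw : w ∉ H) (g : G) : ∃ i : ℤ, g * (w ^ i)⁻¹ ∈ H := by
  have hcard : Nat.card (G ⧸ H) = p := by rw [← Subgroup.index_eq_card, hH]
  have htop := zpowers_eq_top_of_prime_card hcard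
    (g := (QuotientGroup.mk' H w)) (fun h => hw ((QuotientGroup.eq_one_iff w).mp h))
  obtain ⟨i, hi⟩ := htop.ge (Subgroup.mem_top (QuotientGroup.mk' H g))
  refine ⟨i, (QuotientGroup.eq_one_iff _).mp ?_⟩
  show QuotientGroup.mk' H (g * (w ^ i)⁻¹) = 1
  rw [map_mul, map_inv, map_zpow, show QuotientGroup.mk' H w ^ i = QuotientGroup.mk' H g from hi,
    mul_inv_cancel]

/-- The `p`-th power of every element lies in a normal subgroup of index `p`. -/
theorem pow_mem_of_prime_index {G : Type*} [Group G] (H : Subgroup G) [H.Normal]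
    (hH : H.index = p) (g : G) : g ^ p ∈ H := by
  have := H.pow_index_mem g
  rwa [hH] at this

/-- A `p`-subgroup normalized by a Sylow subgroup is contained in it. -/
theorem le_sylow_of_normalized {G : Type*} [Group G] (R : Sylow p G) {K : Subgroup G}
    (hK : IsPGroup p K) (h : (R : Subgroup G) ≤ Subgroup.normalizer (K : Set G)) :
    K ≤ (R : Subgroup G) := by
  have hp : IsPGroup p ((R : Subgroup G) ⊔ K : Subgroup G) :=
    IsPGroup.to_sup_of_normal_right' R.isPGroup' hK h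
  exact (le_sup_right : K ≤ (R : Subgroup G) ⊔ K).trans (R.is_maximal' hp le_sup_left).le

theorem fix_conj_twoStep {A : Type*} [Group A] {C : Subgroup A} {γ h : MulAut A}
    (hγ : ∀ c ∈ C, γ c ∈ C) (hγ' : ∀ c ∈ C, γ⁻¹ c ∈ C) (hh : h ∈ twoStepStab C C le_rfl) :
    γ * h * γ⁻¹ ∈ twoStepStab C C le_rfl := by
  obtain ⟨h1, -, h3⟩ := hh
  have hfix : ∀ c ∈ C, (γ * h * γ⁻¹) c = c := fun c hc => by
    show γ (h (γ⁻¹ c)) = c
    rw [h3 _ (hγ' c hc)]
    simp
  refine ⟨fun a => ?_, fun w hw => ?_, hfix⟩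
  · have := hγ _ (h1 (γ⁻¹ a))
    simpa using this
  · rw [hfix w hw]
    simp

/-- An element inducing an automorphism stabilizing a series `1 ≤ C ≤ P` with invariant `C` lies in
the centric radical subgroup `P`. -/
theorem mem_of_invariant_series [Finite S] (hS : IsPGroup p S) {F : FusionSystem S} {P : Subgroup Ω}
    (hc : F.IsCentric P) (hr : F.IsRadical p P) (C : Subgroup P)
    (hC : ∀ α ∈ F.autGroup P, ∀ c ∈ C, α c ∈ C) {t : Ω} (htS : t ∈ S)
    (ht : t ∈ Subgroup.normalizer (P : Set Ω))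
    (h1 : ∀ y : P, y⁻¹ * conjAut P t ht y ∈ C) (h2 : ∀ c ∈ C, conjAut P t ht c = c) : t ∈ P := by
  haveI := finite_of_le hc.1
  let K : Subgroup (F.autGroup P) := (twoStepStab C C le_rfl).subgroupOf (F.autGroup P)
  haveI : K.Normal := ⟨fun h hh γ => Subgroup.mem_subgroupOf.mpr
    (fix_conj_twoStep (hC _ γ.2) (hC _ ((F.autGroup P).inv_mem γ.2))
      (Subgroup.mem_subgroupOf.mp hh))⟩
  have hK : IsPGroup p K :=
    (isPGroup_twoStepStab (isPGroup_of_le hS hc.1) C C le_rfl).comap_subtype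
  have hmemA := autInducedBy_le_autGroup F hc.1 (conjAut_mem htS ht)
  have hmem : (⟨conjAut P t ht, hmemA⟩ : F.autGroup P) ∈ pCore p _ :=
    le_sSup (show K ∈ {N : Subgroup (F.autGroup P) | N.Normal ∧ IsPGroup p N} from
      ⟨inferInstance, hK⟩) (Subgroup.mem_subgroupOf.mpr
        ⟨h1, fun w hw => by rw [h2 w hw, inv_mul_cancel]; exact C.one_mem, h2⟩)
  refine mem_of_conjAut_mem_inn hc.1 (hc.2 P (isConj_refl F hc.1)) htS
    (α := conjAut P t ht) (fun _ => rfl) ?_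
  rw [← hr.2]
  exact ⟨_, hmem, rfl⟩

/-- `A` is an abelian subgroup of index `p` of the nonabelian `p`-group `S`, `x ∈ S ∖ A`. -/
structure AbIndex (p : ℕ) (S A : Subgroup Ω) (x : Ω) : Prop where
  le : A ≤ S
  comm : ∀ a ∈ A, ∀ b ∈ A, a * b = b * a
  index : (A.subgroupOf S).index = p
  conj : ∀ s ∈ S, ∀ a ∈ A, s * a * s⁻¹ ∈ A
  x_mem : x ∈ S
  x_not_mem : x ∉ A
  nonabelian : ¬ IsMulCommutative ↥S

theorem conj_mem_of_index [Finite S] (hS : IsPGroup p S) {A : Subgroup Ω} (hA : A ≤ S)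
    (hidx : (A.subgroupOf S).index = p) : ∀ s ∈ S, ∀ a ∈ A, s * a * s⁻¹ ∈ A := by
  obtain ⟨n, hn⟩ := IsPGroup.iff_card.mp hS
  have hp := (Fact.out : p.Prime)
  have hn0 : n ≠ 0 := fun h => by
    have h1 := (A.subgroupOf S).index_dvd_card
    rw [hidx, hn, h, pow_zero, Nat.dvd_one] at h1
    exact hp.ne_one h1
  haveI : (A.subgroupOf S).Normal := by
    refine Subgroup.normal_of_index_eq_minFac_card ?_
    rw [hidx, hn, Nat.pow_minFac hn0, hp.minFac_eq]
  intro s hs a ha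
  exact (inferInstance : (A.subgroupOf S).Normal).conj_mem ⟨a, hA ha⟩ ha ⟨s, hs⟩

theorem exists_not_mem_of_index {A : Subgroup Ω} (hA : A ≤ S)
    (hidx : (A.subgroupOf S).index = p) : ∃ x ∈ S, x ∉ A := by
  by_contra h
  push Not at h
  rw [Subgroup.subgroupOf_eq_top.mpr h, Subgroup.index_top] at hidx
  exact (Fact.out : p.Prime).ne_one hidx.symm

namespace AbIndex

variable {A : Subgroup Ω} {x : Ω} (h : AbIndex p S A x)

include h

theorem normal : (A.subgroupOf S).Normal := ⟨fun a ha s => h.conj s s.2 a ha⟩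

theorem decomp {s : Ω} (hs : s ∈ S) : ∃ i : ℤ, s * (x ^ i)⁻¹ ∈ A := by
  haveI := h.normal
  obtain ⟨i, hi⟩ := exists_zpow_mem_of_prime_index (A.subgroupOf S) h.index
    (w := ⟨x, h.x_mem⟩) h.x_not_mem ⟨s, hs⟩
  exact ⟨i, hi⟩

/-- Every element of `S` commuting with `x` is central up to a power of `x`. -/
theorem centre_mem_A {z : Ω} (hz : z ∈ S ⊓ Subgroup.centralizer (S : Set Ω)) : z ∈ A := by
  by_contra hzA
  refine h.nonabelian ⟨⟨fun a b => Subtype.ext ?_⟩⟩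
  have key : AbIndex p S A z := ⟨h.le, h.comm, h.index, h.conj, hz.1, hzA, h.nonabelian⟩
  haveI := key.normal
  have hdec : ∀ s ∈ S, ∃ i : ℤ, s * (z ^ i)⁻¹ ∈ A := fun s hs => by
    obtain ⟨i, hi⟩ := exists_zpow_mem_of_prime_index (A.subgroupOf S) h.index
      (w := ⟨z, hz.1⟩) hzA ⟨s, hs⟩
    exact ⟨i, hi⟩
  obtain ⟨i, hi⟩ := hdec a a.2
  obtain ⟨j, hj⟩ := hdec b b.2
  have c1 : Commute ((a : Ω) * (z ^ i)⁻¹) ((b : Ω) * (z ^ j)⁻¹) := h.comm _ hi _ hj
  have c2 : ∀ s ∈ S, ∀ k : ℤ, Commute s (z ^ k) := fun s hs k =>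
    have c : Commute s z := hz.2 s hs
    c.zpow_right k
  have e1 : Commute ((a : Ω) * (z ^ i)⁻¹ * z ^ i) ((b : Ω) * (z ^ j)⁻¹ * z ^ j) :=
    Commute.mul_left (c1.mul_right (c2 _ (h.le hi) j))
      (((c2 _ (h.le hj) i).symm).mul_right ((Commute.refl z).zpow_zpow i j))
  simpa only [inv_mul_cancel_right, commute_iff_eq, Subgroup.coe_mul] using e1

theorem centre_iff {a : Ω} (ha : a ∈ A) :
    a ∈ S ⊓ Subgroup.centralizer (S : Set Ω) ↔ x * a = a * x := by
  refine ⟨fun hz => hz.2 x h.x_mem, fun hxa => ⟨h.le ha, fun s hs => ?_⟩⟩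
  obtain ⟨i, hi⟩ := h.decomp hs
  have e : s = s * (x ^ i)⁻¹ * x ^ i := by group
  rw [e]
  have c1 : Commute (s * (x ^ i)⁻¹) a := h.comm _ hi _ ha
  have c2 : Commute x a := hxa
  exact c1.mul_left (c2.zpow_left i)

theorem pow_mem : x ^ p ∈ A := by
  haveI := h.normal
  exact pow_mem_of_prime_index (A.subgroupOf S) h.index ⟨x, h.x_mem⟩

/-- `c(a) = [x, a]` -/
theorem comm_mem {a : Ω} (ha : a ∈ A) : ⁅x, a⁆ ∈ A := by
  rw [commutatorElement_def]
  exact A.mul_mem (h.conj x h.x_mem a ha) (A.inv_mem ha)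

theorem comm_mul {a b : Ω} (ha : a ∈ A) (hb : b ∈ A) : ⁅x, a * b⁆ = ⁅x, a⁆ * ⁅x, b⁆ := by
  calc ⁅x, a * b⁆ = ⁅x, a⁆ * (a * ⁅x, b⁆ * a⁻¹) := by simp only [commutatorElement_def]; group
    _ = _ := by rw [h.comm a ha _ (h.comm_mem hb), mul_inv_cancel_right]

/-- The commutator with `x` as a homomorphism on `A`. -/
theorem comm_zpow {a : Ω} (ha : a ∈ A) (i : ℤ) : ⁅x, a ^ i⁆ = ⁅x, a⁆ ^ i := by
  let f : A →* Ω := MonoidHom.mk' (fun b => ⁅x, (b : Ω)⁆) fun b c => h.comm_mul b.2 c.2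
  exact map_zpow f ⟨a, ha⟩ i

end AbIndex

/-- The conclusion for an essential subgroup `P` not contained in `A`. -/
structure EssShape (S A P : Subgroup Ω) (x : Ω) (p : ℕ) : Prop where
  shape : P = (S ⊓ Subgroup.centralizer (S : Set Ω)) ⊔ Subgroup.zpowers x ∨
    ((Subgroup.upperCentralSeries ↥S 2).map S.subtype ≤ A ∧
      P = (Subgroup.upperCentralSeries ↥S 2).map S.subtype ⊔ Subgroup.zpowers x)
  index : (P.subgroupOf (S ⊓ Subgroup.normalizer (P : Set Ω))).index = p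

/-- If `N = P⟨t⟩` with `t^p ∈ P` and `t ∉ P`, the index is `p`. -/
theorem index_eq_of_generated {P N : Subgroup Ω} (hN : ∀ n ∈ N, ∀ y ∈ P, n * y * n⁻¹ ∈ P)
    (hPN : P ≤ N) {t : Ω} (ht : t ∈ N) (htP : t ∉ P) (htp : t ^ p ∈ P)
    (hgen : ∀ n ∈ N, ∃ i : ℤ, n * (t ^ i)⁻¹ ∈ P) : (P.subgroupOf N).index = p := by
  haveI : (P.subgroupOf N).Normal := ⟨fun y hy n => hN n n.2 y hy⟩
  set q := QuotientGroup.mk' (P.subgroupOf N) with hq
  have hgen' : Subgroup.zpowers (q ⟨t, ht⟩) = ⊤ := by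
    refine eq_top_iff.mpr fun u _ => ?_
    obtain ⟨n, rfl⟩ := QuotientGroup.mk'_surjective _ u
    obtain ⟨i, hi⟩ := hgen n n.2
    refine ⟨i, (?_ : q ⟨t, ht⟩ ^ i = q n)⟩
    have h1 : q (n * (⟨t, ht⟩ ^ i)⁻¹) = 1 := (QuotientGroup.eq_one_iff _).mpr hi
    rw [map_mul, map_inv, map_zpow, mul_inv_eq_one] at h1
    exact h1.symm
  rw [Subgroup.index_eq_card, ← Nat.card_congr Subgroup.topEquiv.toEquiv, ← hgen', Nat.card_zpowers]
  refine orderOf_eq_prime ?_ fun h1 => htP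
    (Subgroup.mem_subgroupOf.mp ((QuotientGroup.eq_one_iff (⟨t, ht⟩ : N)).mp h1))
  rw [← map_pow]
  exact (QuotientGroup.eq_one_iff _).mpr htp

/-- An element of a fully normalized centric subgroup `P` with a hyperplane `P0` fixed by `Aut_S(P)`:
stabilizing the series below the intersection of `P0` with a different conjugate forces membership. -/
theorem mem_of_fixed_hyperplane [Finite S] (hS : IsPGroup p S) {F : FusionSystem S}
    (hF : F.IsSaturated p) {P : Subgroup Ω} (hP : F.IsEssential p P) (P0 : Subgroup P) [P0.Normal]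
    (hP0i : P0.index = p) (hfix0 : ∀ g ∈ S, ∀ c ∈ P0, g * (c : Ω) * g⁻¹ = c) {α : MulAut P}
    (hα : α ∈ F.autGroup P) {y₀ : P} (hy₀ : y₀ ∈ P0) (hy₀' : α y₀ ∉ P0) {t : Ω} (htS : t ∈ S)
    (ht : t ∈ Subgroup.normalizer (P : Set Ω))
    (h1 : ∀ y : P, y⁻¹ * conjAut P t ht y ∈ P0 ⊓ P0.map α.toMonoidHom)
    (h2 : ∀ c ∈ P0, conjAut P t ht c = c) : t ∈ P := by
  have hPS : P ≤ S := hP.1.1
  haveI := finite_of_le hPS
  haveI := finite_autGroup F hPS
  set C := P0 ⊓ P0.map α.toMonoidHom with hC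
  obtain ⟨-, -, R, hR⟩ := centralized_automized_of_fullyNormalized hS hF hP.2.1
  have hRfix : ∀ r ∈ (R : Subgroup (F.autGroup P)), ∀ c ∈ P0, (r : MulAut P) c = c := by
    intro r hr c hc
    rw [hR] at hr
    obtain ⟨g, hg, hgx⟩ := mem_autInducedBy_iff.mp (Subgroup.mem_subgroupOf.mp hr)
    exact Subtype.ext ((hgx c).trans (hfix0 g hg c hc))
  let K : Subgroup (F.autGroup P) := (twoStepStab C C le_rfl).subgroupOf (F.autGroup P)
  have hK : IsPGroup p K :=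
    (isPGroup_twoStepStab (isPGroup_of_le hS hPS) C C le_rfl).comap_subtype
  have hfixN : ∀ γ : F.autGroup P, (∀ c ∈ C, (γ : MulAut P) c = c) →
      γ ∈ Subgroup.normalizer (K : Set (F.autGroup P)) := by
    intro γ hγ
    have hγ' : ∀ c ∈ C, (γ : MulAut P)⁻¹ c = c := fun c hc => by
      conv_lhs => rw [← hγ c hc]
      simp
    refine Subgroup.mem_normalizer_iff.mpr fun k => ⟨fun hk => ?_, fun hk => ?_⟩
    · exact fix_conj_twoStep (fun c hc => by rw [hγ c hc]; exact hc)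
        (fun c hc => by rw [hγ' c hc]; exact hc) (Subgroup.mem_subgroupOf.mp hk)
    · have := fix_conj_twoStep (γ := (γ : MulAut P)⁻¹) (fun c hc => by rw [hγ' c hc]; exact hc)
        (fun c hc => by rw [inv_inv, hγ c hc]; exact hc) (Subgroup.mem_subgroupOf.mp hk)
      rw [Subgroup.mem_subgroupOf]
      simpa [mul_assoc] using this
  have hKR : K ≤ R := le_sylow_of_normalized R hK fun r hr =>
    hfixN r fun c hc => hRfix r hr c hc.1
  let a : F.autGroup P := ⟨α, hα⟩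
  have hKR' : K.comap (MulAut.conj a).toMonoidHom ≤ R := by
    refine le_sylow_of_normalized R (hK.comap_of_injective _ (MulAut.conj a).injective)
      fun r hr => ?_
    refine Subgroup.le_normalizer_comap _ (Subgroup.mem_comap.mpr (hfixN _ ?_))
    intro c hc
    show α ((r : MulAut P) (α⁻¹ c)) = c
    rw [hRfix r hr _ (mem_map_aut.mp hc.2)]
    simp
  let β : F.autGroup P :=
    ⟨conjAut P t ht, autInducedBy_le_autGroup F hPS (conjAut_mem htS ht)⟩
  have hβK : β ∈ K := Subgroup.mem_subgroupOf.mpr ⟨h1, fun w hw => by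
    rw [h2 w hw.1, inv_mul_cancel]
    exact C.one_mem, fun w hw => h2 w hw.1⟩
  have hβR : a⁻¹ * β * a ∈ (R : Subgroup (F.autGroup P)) := by
    refine hKR' (Subgroup.mem_comap.mpr ?_)
    show a * (a⁻¹ * β * a) * a⁻¹ ∈ K
    rwa [show a * (a⁻¹ * β * a) * a⁻¹ = β by group]
  have hfixy : conjAut P t ht (α y₀) = α y₀ := by
    have h3 : α⁻¹ (conjAut P t ht (α y₀)) = y₀ := hRfix _ hβR y₀ hy₀
    conv_rhs => rw [← h3]
    simp
  refine hP.1.2 P (isConj_refl F hPS) ⟨htS, fun y hy => ?_⟩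
  obtain ⟨i, hi⟩ := exists_zpow_mem_of_prime_index P0 hP0i hy₀' ⟨y, hy⟩
  have h3 : conjAut P t ht ⟨y, hy⟩ = ⟨y, hy⟩ := by
    rw [show (⟨y, hy⟩ : P) = ⟨y, hy⟩ * ((α y₀) ^ i)⁻¹ * (α y₀) ^ i by group, map_mul,
      map_zpow, hfixy, h2 _ hi]
  have h4 : t * y * t⁻¹ = y := congrArg Subtype.val h3
  calc y * t = t * y * t⁻¹ * t := by rw [h4]
    _ = t * y := by group

/-- A central element of a nonabelian `P ∋ x` is central in `S`. -/
theorem mem_centre_of_comm {A : Subgroup Ω} {x : Ω} (h : AbIndex p S A x) {P : Subgroup Ω}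
    (hPS : P ≤ S) (hxP : x ∈ P) (hP0i : (A.subgroupOf P).index = p)
    (hab : ¬ ∀ y z : P, y * z = z * y) {c : P} (hc : ∀ y : P, y * c = c * y) :
    (c : Ω) ∈ S ⊓ Subgroup.centralizer (S : Set Ω) := by
  haveI : (A.subgroupOf P).Normal := ⟨fun a ha y => h.conj y (hPS y.2) a ha⟩
  by_cases hcA : c ∈ A.subgroupOf P
  · exact (h.centre_iff hcA).mpr (congrArg Subtype.val (hc ⟨x, hxP⟩))
  · refine absurd (fun y z => ?_) hab
    obtain ⟨i, hi⟩ := exists_zpow_mem_of_prime_index _ hP0i hcA y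
    obtain ⟨j, hj⟩ := exists_zpow_mem_of_prime_index _ hP0i hcA z
    have c1 : Commute (y * (c ^ i)⁻¹) (z * (c ^ j)⁻¹) := Subtype.ext (h.comm _ hi _ hj)
    have c2 : ∀ (w : P) (k : ℤ), Commute w (c ^ k) := fun w k =>
      have c0 : Commute w c := hc w
      c0.zpow_right k
    have := (c1.mul_right (c2 _ j)).mul_left ((c2 (z * (c ^ j)⁻¹) i).symm.mul_right
      ((Commute.refl c).zpow_zpow i j))
    simpa only [inv_mul_cancel_right, commute_iff_eq] using this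

/-- In the nonabelian case two distinct abelian maximal subgroups of `P` meet in `Z(S)`. -/
theorem inter_eq_centre [Finite S] {A : Subgroup Ω} {x : Ω} (h : AbIndex p S A x) {P : Subgroup Ω}
    (hPS : P ≤ S) (hxP : x ∈ P) (hP0i : (A.subgroupOf P).index = p)
    (hZP : S ⊓ Subgroup.centralizer (S : Set Ω) ≤ P) {α : MulAut P} {y₀ : P}
    (hy₀ : y₀ ∈ A.subgroupOf P) (hy₀' : α y₀ ∉ A.subgroupOf P)
    (hab : ¬ ∀ y z : P, y * z = z * y) (c : P) :
    c ∈ A.subgroupOf P ⊓ (A.subgroupOf P).map α.toMonoidHom ↔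
      (c : Ω) ∈ S ⊓ Subgroup.centralizer (S : Set Ω) := by
  haveI : (A.subgroupOf P).Normal := ⟨fun a ha y => h.conj y (hPS y.2) a ha⟩
  haveI := finite_of_le hPS
  refine ⟨fun hc => mem_centre_of_comm h hPS hxP hP0i hab fun y => ?_, fun hc => ?_⟩
  · obtain ⟨i, hi⟩ := exists_zpow_mem_of_prime_index _ hP0i hy₀' y
    have c1 : Commute (y * ((α y₀) ^ i)⁻¹) c := Subtype.ext (h.comm _ hi _ hc.1)
    have c2 : Commute (α y₀) c := by
      have h1 : y₀ * α⁻¹ c = α⁻¹ c * y₀ := Subtype.ext (h.comm _ hy₀ _ (mem_map_aut.mp hc.2))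
      have h2 := congrArg α h1
      simp only [map_mul] at h2
      simpa [commute_iff_eq] using h2
    have := c1.mul_left (c2.zpow_left i)
    rwa [inv_mul_cancel_right] at this
  · refine ⟨h.centre_mem_A hc, mem_map_aut.mpr ?_⟩
    refine h.centre_mem_A (mem_centre_of_comm h hPS hxP hP0i hab fun y => ?_)
    have e : α y * c = c * α y := Subtype.ext (hc.2 _ (hPS (α y).2))
    simpa using congrArg (α.symm) e

set_option maxHeartbeats 1000000 in
theorem essential_shape [Finite S] (hS : IsPGroup p S) {F : FusionSystem S} (hF : F.IsSaturated p)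
    {A : Subgroup Ω} {x : Ω} (h : AbIndex p S A x) {P : Subgroup Ω} (hP : F.IsEssential p P)
    (hxP : x ∈ P) : EssShape S A P x p := by
  have hne : P < S := lt_of_le_of_ne hP.1.1 (ne_top_of_essential hS hF hP)
  have hcent := hP.1
  have hrad := isRadical_of_essential hS hP
  have hPS : P ≤ S := hcent.1
  haveI := finite_of_le hPS
  set Z := S ⊓ Subgroup.centralizer (S : Set Ω) with hZdef
  have hZA : Z ≤ A := fun z hz => h.centre_mem_A hz
  have hZP : Z ≤ P := fun z hz => hcent.2 P (isConj_refl F hPS)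
    ⟨hz.1, fun y hy => hz.2 y (hPS hy)⟩
  set P0 : Subgroup P := A.subgroupOf P with hP0
  haveI hP0n : P0.Normal := ⟨fun a ha y => h.conj y (hPS y.2) a ha⟩
  have hxP0 : (⟨x, hxP⟩ : P) ∉ P0 := h.x_not_mem
  have hP0i : P0.index = p := by
    haveI := h.normal
    have h1 : P0 = ((QuotientGroup.mk' (A.subgroupOf S)).comp (Subgroup.inclusion hPS)).ker := by
      ext y
      rw [MonoidHom.mem_ker, MonoidHom.comp_apply, QuotientGroup.mk'_apply,
        QuotientGroup.eq_one_iff]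
      exact Iff.rfl
    rw [h1, Subgroup.index_ker]
    haveI : Fact (Nat.card (↥S ⧸ A.subgroupOf S)).Prime := by
      rw [← Subgroup.index_eq_card, h.index]; infer_instance
    rcases Subgroup.eq_bot_or_eq_top_of_prime_card
      ((QuotientGroup.mk' (A.subgroupOf S)).comp (Subgroup.inclusion hPS)).range with hb | ht
    · exact absurd ((QuotientGroup.eq_one_iff _).mp
        (Subgroup.mem_bot.mp (hb.le ⟨⟨x, hxP⟩, rfl⟩))) h.x_not_mem
    · rw [ht, Subgroup.card_top, ← Subgroup.index_eq_card, h.index]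
  -- decomposition along `x`
  have hdecP : ∀ y : P, ∃ i : ℤ, y * (⟨x, hxP⟩ ^ i)⁻¹ ∈ P0 := fun y =>
    exists_zpow_mem_of_prime_index P0 hP0i hxP0 y
  -- `N_A(P)`
  have hnorm : ∀ a ∈ A, ⁅x, a⁆ ∈ P → a ∈ Subgroup.normalizer (P : Set Ω) := by
    intro a ha hc
    have key : ∀ b ∈ A, ⁅x, b⁆ ∈ P → ∀ y ∈ P, b * y * b⁻¹ ∈ P := by
      intro b hb hcb y hy
      obtain ⟨i, hi⟩ := hdecP ⟨y, hy⟩
      have hbx : b * x * b⁻¹ ∈ P := by
        have : b * x * b⁻¹ = ⁅x, b⁆⁻¹ * x := by simp only [commutatorElement_def]; group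
        rw [this]
        exact P.mul_mem (P.inv_mem hcb) hxP
      have hiA : y * (x ^ i)⁻¹ ∈ A := hi
      have e : b * y * b⁻¹ = y * (x ^ i)⁻¹ * (b * x * b⁻¹) ^ i := by
        rw [conj_zpow]
        calc b * y * b⁻¹ = b * (y * (x ^ i)⁻¹) * b⁻¹ * (b * x ^ i * b⁻¹) := by group
          _ = _ := by rw [h.comm b hb _ hiA, mul_inv_cancel_right]
      rw [e]
      exact P.mul_mem (P.mul_mem hy (P.inv_mem (P.zpow_mem hxP i))) (P.zpow_mem hbx i)
    refine Subgroup.mem_normalizer_iff.mpr fun y => ⟨fun hy => key a ha hc y hy, fun hy => ?_⟩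
    have hinv : ⁅x, a⁻¹⁆ ∈ P := by
      have := h.comm_zpow ha (-1)
      rw [zpow_neg_one, zpow_neg_one] at this
      rw [this]
      exact P.inv_mem hc
    have := key a⁻¹ (A.inv_mem ha) hinv _ hy
    simpa [mul_assoc] using this
  have hcA : ∀ a ∈ A, a ∈ Subgroup.normalizer (P : Set Ω) → ⁅x, a⁆ ∈ P := by
    intro a ha hn
    have h1 := P.mul_mem hxP ((Subgroup.mem_normalizer_iff.mp hn x⁻¹).mp (P.inv_mem hxP))
    rw [commutatorElement_def]
    simpa [mul_assoc] using h1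
  -- the action of an element of `N_A(P)`
  have hfix : ∀ a ∈ A, ∀ (ha : a ∈ Subgroup.normalizer (P : Set Ω)), ∀ c ∈ P0,
      conjAut P a ha c = c := fun a haA ha c hc => Subtype.ext (by
    show a * (c : Ω) * a⁻¹ = c
    rw [show a * (c : Ω) = c * a from h.comm a haA _ hc, mul_inv_cancel_right])
  have hdiff : ∀ a ∈ A, ∀ (ha : a ∈ Subgroup.normalizer (P : Set Ω)) (y : P), ∃ i : ℤ,
      y⁻¹ * conjAut P a ha y = (⟨x, hxP⟩ ^ i : P)⁻¹ * conjAut P a ha (⟨x, hxP⟩ ^ i) := by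
    intro a haA ha y
    obtain ⟨i, hi⟩ := hdecP y
    refine ⟨i, ?_⟩
    have e : conjAut P a ha y = y * (⟨x, hxP⟩ ^ i)⁻¹ * conjAut P a ha (⟨x, hxP⟩ ^ i) := by
      conv_lhs => rw [show y = y * (⟨x, hxP⟩ ^ i)⁻¹ * ⟨x, hxP⟩ ^ i by group, map_mul,
        hfix a haA ha _ hi]
    rw [e]
    group
  -- the stabilizer of the series below `C`
  have hser : ∀ (C : Subgroup P), C ≤ P0 → ∀ a ∈ A, ∀ (ha : a ∈ Subgroup.normalizer (P : Set Ω)),
      (∃ hc : ⁅x, a⁆ ∈ P, (⟨_, hc⟩ : P) ∈ C) → C.Normal → ∀ y : P, y⁻¹ * conjAut P a ha y ∈ C := by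
    rintro C - a haA ha ⟨hc, hcC⟩ hCn y
    obtain ⟨i, hi⟩ := hdiff a haA ha y
    rw [hi]
    have h1 : conjAut P a ha ⟨x, hxP⟩ = (⟨_, hc⟩ : P)⁻¹ * ⟨x, hxP⟩ := Subtype.ext (by
      show a * x * a⁻¹ = ⁅x, a⁆⁻¹ * x
      simp only [commutatorElement_def]; group)
    have h2 : QuotientGroup.mk' C (conjAut P a ha ⟨x, hxP⟩) = QuotientGroup.mk' C ⟨x, hxP⟩ := by
      rw [h1, map_mul, map_inv, show QuotientGroup.mk' C (⟨_, hc⟩ : P) = 1 from
        (QuotientGroup.eq_one_iff _).mpr hcC, inv_one, one_mul]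
    refine (QuotientGroup.eq_one_iff _).mp ?_
    show QuotientGroup.mk' C _ = 1
    rw [map_zpow, map_mul, map_inv, map_zpow, map_zpow, h2, inv_mul_cancel]
  -- `P0` is moved by some member of `Aut_F(P)`
  obtain ⟨α, hα, y₀, hy₀, hy₀'⟩ : ∃ α ∈ F.autGroup P, ∃ y ∈ P0, α y ∉ P0 := by
    by_contra hno
    push Not at hno
    obtain ⟨g, hg, hgP⟩ := SetLike.exists_of_lt (lt_normalizerIn hS hne)
    obtain ⟨i, hi⟩ := h.decomp hg.1
    refine hgP ?_
    have hn : g * (x ^ i)⁻¹ ∈ Subgroup.normalizer (P : Set Ω) :=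
      Subgroup.mul_mem _ hg.2 (Subgroup.le_normalizer (P.inv_mem (P.zpow_mem hxP i)))
    have hmem := mem_of_invariant_series hS hcent hrad P0 hno (h.le hi) hn
      (hser P0 le_rfl _ hi hn ⟨hcA _ hi hn, h.comm_mem hi⟩ inferInstance) (hfix _ hi hn)
    have := P.mul_mem hmem (P.zpow_mem hxP i)
    simpa using this
  set Q : Subgroup P := P0.map α.toMonoidHom with hQ
  haveI hQn : Q.Normal := hP0n.map _ α.surjective
  have hQi : Q.index = p := by
    rw [hQ]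
    exact (P0.index_map_equiv α).trans hP0i
  have hQα : ∀ c : P, c ∈ Q ↔ α⁻¹ c ∈ P0 := fun c => mem_map_aut
  set C : Subgroup P := P0 ⊓ Q with hC
  haveI hCn : C.Normal := Subgroup.normal_inf_normal P0 Q
  have hP0Q : ∀ w ∈ P0, w ∉ C → ∀ a ∈ P0, ∃ i : ℤ, a * (w ^ i)⁻¹ ∈ C := by
    intro w hw hwC a ha
    obtain ⟨i, hi⟩ := exists_zpow_mem_of_prime_index Q hQi (fun hh => hwC ⟨hw, hh⟩) a
    exact ⟨i, P0.mul_mem ha (P0.inv_mem (P0.zpow_mem hw i)), hi⟩
  have hZ0 : ∀ z, (hz : z ∈ Z) → (⟨z, hZP hz⟩ : P) ∈ P0 := fun z hz => hZA hz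
  have hZc : ∀ z, (hz : z ∈ Z) → ∀ y : P, y * ⟨z, hZP hz⟩ = ⟨z, hZP hz⟩ * y := fun z hz y =>
    Subtype.ext (hz.2 y (hPS y.2))
  -- `[x, a] ∈ C` forces `a ∈ P`
  have hP0cen : (∀ y z : P, y * z = z * y) → ∀ c ∈ P0, (c : Ω) ∈ Z := fun hab c hc =>
    (h.centre_iff hc).mpr (congrArg Subtype.val (hab ⟨x, hxP⟩ c))
  have hcase : (∀ y z : P, y * z = z * y) ∨ ∀ c : P, c ∈ C ↔ (c : Ω) ∈ Z :=
    or_iff_not_imp_left.mpr fun hab => inter_eq_centre h hPS hxP hP0i hZP hy₀ hy₀' hab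
  have hkey : ∀ a ∈ A, a ∈ Subgroup.normalizer (P : Set Ω) → ∀ hc : ⁅x, a⁆ ∈ P,
      (⟨_, hc⟩ : P) ∈ C → a ∈ P := by
    intro a haA ha hc hcC
    have h1 := hser C inf_le_left a haA ha ⟨hc, hcC⟩ hCn
    by_cases hab : ∀ y z : P, y * z = z * y
    · exact mem_of_fixed_hyperplane hS hF hP P0 hP0i
        (fun g hg c hc' => by rw [(hP0cen hab c hc').2 g hg, mul_inv_cancel_right]) hα hy₀ hy₀'
        (h.le haA) ha h1 (hfix a haA ha)
    · have hCZ := hcase.resolve_left hab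
      refine mem_of_invariant_series hS hcent hrad C (fun γ _ c hcC => ?_)
        (h.le haA) ha h1 fun w hw => hfix a haA ha w hw.1
      refine (hCZ _).mpr (mem_centre_of_comm h hPS hxP hP0i hab fun y => ?_)
      have hc' : (c : Ω) ∈ Z := (hCZ c).mp hcC
      have e : γ⁻¹ y * c = c * γ⁻¹ y := Subtype.ext (hc'.2 _ (hPS (γ⁻¹ y).2))
      simpa using congrArg γ e
  -- a generator of `N_S(P)` over `P`
  obtain ⟨g, hg, hgP⟩ := SetLike.exists_of_lt (lt_normalizerIn hS hne)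
  obtain ⟨i₀, hi₀⟩ := h.decomp hg.1
  set t := g * (x ^ i₀)⁻¹ with htdef
  have htN : t ∈ Subgroup.normalizer (P : Set Ω) :=
    Subgroup.mul_mem _ hg.2 (Subgroup.le_normalizer (P.inv_mem (P.zpow_mem hxP i₀)))
  have htP : t ∉ P := fun ht => hgP (by
    have := P.mul_mem ht (P.zpow_mem hxP i₀)
    simpa [htdef] using this)
  have htc := hcA t hi₀ htN
  set w : P := ⟨_, htc⟩ with hw
  have hwP0 : w ∈ P0 := h.comm_mem hi₀
  have hwC : w ∉ C := fun hh => htP (hkey t hi₀ htN htc hh)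
  have hgenA : ∀ a ∈ A, a ∈ Subgroup.normalizer (P : Set Ω) → ∃ i : ℤ, a * (t ^ i)⁻¹ ∈ P := by
    intro a haA ha
    obtain ⟨i, hi⟩ := hP0Q w hwP0 hwC ⟨_, hcA a haA ha⟩ (h.comm_mem haA)
    refine ⟨i, hkey _ (A.mul_mem haA (A.inv_mem (A.zpow_mem hi₀ i))) (Subgroup.mul_mem _ ha
      (Subgroup.inv_mem _ (Subgroup.zpow_mem _ htN i))) ?_ ?_⟩
    · rw [h.comm_mul haA (A.inv_mem (A.zpow_mem hi₀ i)), ← zpow_neg, h.comm_zpow hi₀]
      exact P.mul_mem (hcA a haA ha) (P.zpow_mem htc _)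
    · convert hi using 1
      refine Subtype.ext ?_
      show ⁅x, a * (t ^ i)⁻¹⁆ = ⁅x, a⁆ * ((⁅x, t⁆) ^ i)⁻¹
      rw [h.comm_mul haA (A.inv_mem (A.zpow_mem hi₀ i)), ← zpow_neg, h.comm_zpow hi₀, zpow_neg]
  have htp : t ^ p ∈ P := by
    have hwp : w ^ p ∈ C := ⟨P0.pow_mem hwP0 p, pow_mem_of_prime_index Q hQi w⟩
    have e : ⁅x, t ^ p⁆ = ⁅x, t⁆ ^ p := by
      rw [← zpow_natCast, h.comm_zpow hi₀, zpow_natCast]
    refine hkey _ (A.pow_mem hi₀ p) (Subgroup.pow_mem _ htN p) (e ▸ P.pow_mem htc p) ?_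
    convert hwp using 1
    exact Subtype.ext e
  have hindex : (P.subgroupOf (S ⊓ Subgroup.normalizer (P : Set Ω))).index = p := by
    refine index_eq_of_generated (fun n hn y hy => (Subgroup.mem_normalizer_iff.mp hn.2 y).mp hy)
      (le_inf hPS Subgroup.le_normalizer) ⟨h.le hi₀, htN⟩ htP htp fun n hn => ?_
    obtain ⟨j, hj⟩ := h.decomp hn.1
    have hjN : n * (x ^ j)⁻¹ ∈ Subgroup.normalizer (P : Set Ω) :=
      Subgroup.mul_mem _ hn.2 (Subgroup.le_normalizer (P.inv_mem (P.zpow_mem hxP j)))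
    obtain ⟨i, hi⟩ := hgenA _ hj hjN
    refine ⟨i, ?_⟩
    have h1 := P.mul_mem hi ((Subgroup.mem_normalizer_iff.mp (Subgroup.zpow_mem _ htN i) _).mp
      (P.zpow_mem hxP j))
    simpa [mul_assoc] using h1
  have hsplit : ∀ U : Subgroup Ω, U ≤ P → (∀ c ∈ P0, (c : Ω) ∈ U) →
      P = U ⊔ Subgroup.zpowers x := by
    intro U hU hP0U
    refine le_antisymm (fun y hy => ?_) (sup_le hU (Subgroup.zpowers_le.mpr hxP))
    obtain ⟨i, hi⟩ := hdecP ⟨y, hy⟩
    have := Subgroup.mul_mem (U ⊔ Subgroup.zpowers x) (Subgroup.mem_sup_left (hP0U _ hi))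
      (Subgroup.mem_sup_right (Subgroup.zpow_mem _ (Subgroup.mem_zpowers x) i))
    simpa using this
  refine ⟨?_, hindex⟩
  by_cases hab : ∀ y z : P, y * z = z * y
  · exact Or.inl (hsplit Z hZP fun c hc =>
      (h.centre_iff hc).mpr (congrArg Subtype.val (hab ⟨x, hxP⟩ c)))
  right
  have hCZ := hcase.resolve_left hab
  have hZiff : ∀ s : S, s ∈ Subgroup.center S ↔ (s : Ω) ∈ Z := fun s => by
    rw [Subgroup.mem_center_iff]
    exact ⟨fun hs => ⟨s.2, fun y hy => congrArg Subtype.val (hs ⟨y, hy⟩)⟩,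
      fun hs y => Subtype.ext (hs.2 y y.2)⟩
  have hmemZ₂ : ∀ s : S, s ∈ Subgroup.upperCentralSeries S 2 ↔ ∀ y : S, ⁅(s : Ω), (y : Ω)⁆ ∈ Z := by
    intro s
    rw [Subgroup.mem_upperCentralSeries_succ_iff]
    refine forall_congr' fun y => ?_
    rw [Subgroup.upperCentralSeries_one, hZiff]
    rfl
  have hwZ : (w : Ω) ∉ Z := fun hh => hwC ((hCZ w).mpr hh)
  have hle₂ : (Subgroup.upperCentralSeries ↥S 2).map S.subtype ≤ A := by
    rintro _ ⟨s, hs, rfl⟩
    by_contra hsA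
    have key : AbIndex p S A s := ⟨h.le, h.comm, h.index, h.conj, s.2, hsA, h.nonabelian⟩
    obtain ⟨i, hi⟩ := key.decomp h.x_mem
    apply hwZ
    show ⁅x, t⁆ ∈ Z
    have h1 := (hmemZ₂ _).mp ((Subgroup.upperCentralSeries S 2).zpow_mem hs i) ⟨t, h.le hi₀⟩
    have h2 : ⁅(s : Ω) ^ i, t⁆ ∈ A := by
      rw [commutatorElement_def]
      exact A.mul_mem (h.conj _ (S.zpow_mem s.2 i) t hi₀) (A.inv_mem hi₀)
    have e : ⁅x, t⁆ = ⁅(s : Ω) ^ i, t⁆ := by
      calc ⁅x, t⁆ = x * ((s : Ω) ^ i)⁻¹ * (⁅(s : Ω) ^ i, t⁆ * t) * (x * ((s : Ω) ^ i)⁻¹)⁻¹ * t⁻¹ := by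
            simp only [commutatorElement_def]; group
        _ = _ := by rw [h.comm _ hi _ (A.mul_mem h2 hi₀), mul_inv_cancel_right, mul_inv_cancel_right]
    rw [e]
    simpa using h1
  have hP0_le : ∀ c ∈ P0, (c : Ω) ∈ (Subgroup.upperCentralSeries ↥S 2).map S.subtype := by
    intro c hc
    refine ⟨⟨c, hPS c.2⟩, (hmemZ₂ _).mpr fun y => ?_, rfl⟩
    -- `[x, c] ∈ Z`
    have hxc : ⁅x, (c : Ω)⁆ ∈ Z := by
      refine (hCZ (⁅(⟨x, hxP⟩ : P), c⁆)).mp ⟨h.comm_mem hc, ?_⟩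
      refine (QuotientGroup.eq_one_iff _).mp ?_
      haveI : Fact (Nat.card (P ⧸ Q)).Prime := by
        rw [← Subgroup.index_eq_card, hQi]; infer_instance
      haveI : IsCyclic (P ⧸ Q) := isCyclic_of_prime_card rfl
      show QuotientGroup.mk' Q _ = 1
      rw [map_commutatorElement, commutatorElement_eq_one_iff_mul_comm]
      exact IsMulCommutative.is_comm.comm _ _
    obtain ⟨i, hi⟩ := h.decomp y.2
    let π := QuotientGroup.mk' (Subgroup.center S)
    have hc1 : Commute (π ⟨c, hPS c.2⟩) (π ⟨x, h.x_mem⟩) := by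
      refine (commutatorElement_eq_one_iff_mul_comm.mp ?_ :
        π ⟨x, h.x_mem⟩ * π ⟨c, hPS c.2⟩ = π ⟨c, hPS c.2⟩ * π ⟨x, h.x_mem⟩).symm
      rw [← map_commutatorElement]
      exact (QuotientGroup.eq_one_iff _).mpr ((hZiff _).mpr hxc)
    have hc2 : Commute (π ⟨c, hPS c.2⟩) (π (y * (⟨x, h.x_mem⟩ ^ i)⁻¹)) :=
      (map_mul π _ _).symm.trans ((congrArg π (Subtype.ext (h.comm (c : Ω) hc _ hi) :
        (⟨c, hPS c.2⟩ : S) * (y * (⟨x, h.x_mem⟩ ^ i)⁻¹) =
          y * (⟨x, h.x_mem⟩ ^ i)⁻¹ * (⟨c, hPS c.2⟩ : S))).trans (map_mul π _ _))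
    have hc3 := hc2.mul_right (hc1.zpow_right i)
    rw [← map_zpow, ← map_mul, inv_mul_cancel_right] at hc3
    refine (hZiff ⁅(⟨c, hPS c.2⟩ : S), y⁆).mp ((QuotientGroup.eq_one_iff _).mp ?_)
    show π _ = 1
    rw [map_commutatorElement, commutatorElement_eq_one_iff_mul_comm]
    exact hc3
  have hle₂P : (Subgroup.upperCentralSeries ↥S 2).map S.subtype ≤ P := by
    intro s hs
    have hsA := hle₂ hs
    obtain ⟨s, hs', rfl⟩ := hs
    have h1 := (hmemZ₂ s).mp hs' ⟨x, h.x_mem⟩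
    have h2 : ⁅x, (s : Ω)⁆ ∈ Z := by
      rw [← commutatorElement_inv]
      exact Z.inv_mem h1
    exact hkey _ hsA (hnorm _ hsA (hZP h2)) (hZP h2) ((hCZ _).mpr h2)
  exact ⟨hle₂, hsplit _ hle₂P hP0_le⟩

/-- An essential subgroup inside `A` is `A`. -/
theorem essential_eq_of_le [Finite S] {F : FusionSystem S} {A : Subgroup Ω} {x : Ω}
    (h : AbIndex p S A x) {P : Subgroup Ω} (hP : F.IsEssential p P) (hle : P ≤ A) :
    P = A ∧ (P.subgroupOf (S ⊓ Subgroup.normalizer (P : Set Ω))).index = p := by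
  have hPA : P = A := le_antisymm hle fun a ha =>
    hP.1.2 P (isConj_refl F hP.1.1) ⟨h.le ha, fun y hy => h.comm y (hle hy) a ha⟩
  refine ⟨hPA, ?_⟩
  subst hPA
  have : S ⊓ Subgroup.normalizer (P : Set Ω) = S := by
    refine le_antisymm inf_le_left (le_inf le_rfl fun s hs => Subgroup.mem_normalizer_iff.mpr
      fun y => ⟨fun hy => h.conj s hs y hy, fun hy => ?_⟩)
    have := h.conj s⁻¹ (S.inv_mem hs) _ hy
    simpa [mul_assoc] using this
  rw [this]
  exact h.index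

end CfsgLib.FusionModels
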