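import Cfsg.Agent.Lib.FusionModels.AbelianIndexP
import Cfsg.Agent.Lib.FusionModels.MaxClassEssential

/-!
Core-free saturated systems over a `p`-group with abelian subgroup `A` of index `p` which is not
essential: an abelian essential subgroup exists, the centre lies in the derived group, maximal class.
-/

set_option autoImplicit false
set_option linter.style.haveILetI false
set_option linter.unusedSectionVars false

namespace CfsgLib.FusionModels

open Cfsg Cfsg.FusionSystem CfsgLib.Alperin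
open scoped commutatorElement

variable {Ω : Type*} [Group Ω] {S : Subgroup Ω} [Finite S] {p : ℕ} [Fact p.Prime]

theorem index_subgroupOf {A : Subgroup Ω} {x : Ω} (h : AbIndex p S A x) {P : Subgroup Ω}
    (hPS : P ≤ S) (hxP : x ∈ P) : (A.subgroupOf P).index = p := by
  haveI := h.normal
  have h1 : A.subgroupOf P =
      ((QuotientGroup.mk' (A.subgroupOf S)).comp (Subgroup.inclusion hPS)).ker := by
    ext y
    rw [MonoidHom.mem_ker, MonoidHom.comp_apply, QuotientGroup.mk'_apply,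
      QuotientGroup.eq_one_iff]
    exact Iff.rfl
  rw [h1, Subgroup.index_ker]
  haveI : Fact (Nat.card (↥S ⧸ A.subgroupOf S)).Prime := by
    rw [← Subgroup.index_eq_card, h.index]; infer_instance
  rcases Subgroup.eq_bot_or_eq_top_of_prime_card
    ((QuotientGroup.mk' (A.subgroupOf S)).comp (Subgroup.inclusion hPS)).range with hb | ht
  · exact absurd ((QuotientGroup.eq_one_iff _).mp
      (Subgroup.mem_bot.mp (hb.le ⟨⟨x, hxP⟩, rfl⟩))) h.x_not_mem
  · rw [ht, Subgroup.card_top, ← Subgroup.index_eq_card, h.index]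

/-- `[S, S] = [x, A]`. -/
theorem exists_comm_eq {A : Subgroup Ω} {x : Ω} (h : AbIndex p S A x) {z : Ω}
    (hz : z ∈ ⁅S, S⁆) : ∃ a ∈ A, ⁅x, a⁆ = z := by
  let f : A →* Ω := MonoidHom.mk' (fun b => ⁅x, (b : Ω)⁆) fun b c => h.comm_mul b.2 c.2
  have hfA : f.range ≤ A := by rintro _ ⟨b, rfl⟩; exact h.comm_mem b.2
  haveI : (f.range.subgroupOf S).Normal := by
    refine ⟨?_⟩
    rintro ⟨y, hyS⟩ ⟨b, hb⟩ ⟨s, hs⟩
    obtain ⟨i, hi⟩ := h.decomp hs
    refine ⟨⟨_, h.conj (x ^ i) (S.zpow_mem h.x_mem i) b b.2⟩, ?_⟩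
    show ⁅x, x ^ i * (b : Ω) * (x ^ i)⁻¹⁆ = s * y * s⁻¹
    have hb' : y = ⁅x, (b : Ω)⁆ := hb.symm
    have hcm : x ^ i * ⁅x, (b : Ω)⁆ * (x ^ i)⁻¹ ∈ A :=
      h.conj _ (S.zpow_mem h.x_mem i) _ (h.comm_mem b.2)
    have e1 : ⁅x, x ^ i * (b : Ω) * (x ^ i)⁻¹⁆ = x ^ i * ⁅x, (b : Ω)⁆ * (x ^ i)⁻¹ := by
      simp only [commutatorElement_def]
      group
    rw [e1, hb']
    calc x ^ i * ⁅x, (b : Ω)⁆ * (x ^ i)⁻¹
        = s * (x ^ i)⁻¹ * (x ^ i * ⁅x, (b : Ω)⁆ * (x ^ i)⁻¹) * (s * (x ^ i)⁻¹)⁻¹ := by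
          rw [h.comm _ hi _ hcm, mul_inv_cancel_right]
      _ = s * ⁅x, (b : Ω)⁆ * s⁻¹ := by group
  let π := QuotientGroup.mk' (f.range.subgroupOf S)
  let xS : S := ⟨x, h.x_mem⟩
  have hxa : ∀ a : S, (a : Ω) ∈ A → Commute (π xS) (π a) := fun a ha => by
    rw [commute_iff_eq, ← commutatorElement_eq_one_iff_mul_comm, ← map_commutatorElement]
    exact (QuotientGroup.eq_one_iff _).mpr ⟨⟨a, ha⟩, rfl⟩
  have haa : ∀ a b : S, (a : Ω) ∈ A → (b : Ω) ∈ A → Commute (π a) (π b) := fun a b ha hb =>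
    (show Commute a b from Subtype.ext (h.comm _ ha _ hb)).map π
  have hall : ∀ s t : S, Commute (π s) (π t) := by
    intro s t
    obtain ⟨i, hi⟩ := h.decomp s.2
    obtain ⟨j, hj⟩ := h.decomp t.2
    have es : π s = π (s * (xS ^ i)⁻¹) * π xS ^ i := by
      rw [← map_zpow, ← map_mul, inv_mul_cancel_right]
    have et : π t = π (t * (xS ^ j)⁻¹) * π xS ^ j := by
      rw [← map_zpow, ← map_mul, inv_mul_cancel_right]
    rw [es, et]
    exact ((haa _ _ hi hj).mul_right ((hxa _ hi).symm.zpow_right j)).mul_left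
      (((hxa _ hj).zpow_left i).mul_right ((Commute.refl _).zpow_zpow i j))
  have hle : ⁅S, S⁆ ≤ f.range := Subgroup.commutator_le.mpr fun s hs t ht => by
    have h1 := commutatorElement_eq_one_iff_mul_comm.mpr (hall ⟨s, hs⟩ ⟨t, ht⟩).eq
    rw [← map_commutatorElement] at h1
    exact Subgroup.mem_subgroupOf.mp
      ((QuotientGroup.eq_one_iff (N := f.range.subgroupOf S)
        ⁅(⟨s, hs⟩ : S), (⟨t, ht⟩ : S)⁆).mp h1)
  obtain ⟨b, hb⟩ := hle hz
  exact ⟨b, b.2, hb⟩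

/-- `Aut_F` of a central subgroup has order prime to `p`, and its members extend to `S`. -/
theorem autGroup_central (hS : IsPGroup p S) {F : FusionSystem S} (hF : F.IsSaturated p)
    {Z : Subgroup Ω} (hZS : Z ≤ S) (hZ : ∀ z ∈ Z, ∀ s ∈ S, s * z = z * s) :
    (∀ K : Subgroup (F.autGroup Z), IsPGroup p K → K = ⊥) ∧
      ∀ γ ∈ F.autGroup Z, ∃ e : MulAut S, ∀ z : Z,
        ((e (Subgroup.inclusion hZS z) : S) : Ω) = ((γ z : Z) : Ω) := by
  have hfn : F.IsFullyNormalized Z := isFullyNormalized_of_le_normalizer F hZS fun s hs =>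
    Subgroup.centralizer_le_normalizer _ fun z hz => (hZ z hz s hs).symm
  haveI := finite_autGroup F hZS
  refine ⟨fun K hK => ?_, fun γ hγ => ?_⟩
  · obtain ⟨-, -, R, hR⟩ := centralized_automized_of_fullyNormalized hS hF hfn
    have hbot : (R : Subgroup (F.autGroup Z)) = ⊥ := by
      rw [hR, eq_bot_iff]
      intro r hr
      obtain ⟨g, hg, hgx⟩ := mem_autInducedBy_iff.mp (Subgroup.mem_subgroupOf.mp hr)
      refine Subgroup.mem_bot.mpr (Subtype.ext (MulEquiv.ext fun z => Subtype.ext ((hgx z).trans ?_)))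
      rw [hZ z z.2 g hg, mul_inv_cancel_right]
      rfl
    obtain ⟨T, hT⟩ := hK.exists_le_sylow
    refine le_bot_iff.mp (hT.trans (le_of_eq (Subgroup.card_eq_one.mp ?_)))
    rw [T.card_eq_multiplicity, ← R.card_eq_multiplicity, hbot, Subgroup.card_bot]
  · haveI := finite_of_le hZS
    have hγ' := (mem_autGroup_iff F hZS).mp hγ
    have hrange : (Z.subtype.comp γ.toMonoidHom).range = Z := by
      refine le_antisymm ?_ fun z hz => ⟨γ⁻¹ ⟨z, hz⟩, ?_⟩
      · rintro _ ⟨z, rfl⟩; exact (γ z).2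
      · show ((γ (γ⁻¹ ⟨z, hz⟩) : Z) : Ω) = z
        simp
    obtain ⟨ψ, hψ, hψx⟩ := (receptive_of_fullyNormalized hS hF hfn).2 Z _ hγ' hrange
    have hSe : S ≤ extender S Z (Z.subtype.comp γ.toMonoidHom) := fun s hs =>
      centralizerIn_le_extender Z _ ⟨hs, fun z hz => (hZ z hz s hs).symm⟩
    obtain ⟨e, -, he⟩ := exists_aut_of_hom' F (restrict_mem hψ hSe)
      fun s => apply_mem (restrict_mem hψ hSe) s
    exact ⟨e, fun z => (he _).trans (hψx z z.2 _)⟩

/-- Conditions on a member of `Aut_F(Z)` singled out by an abelian essential subgroup. -/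
def IsSplitting (F : FusionSystem S) (Z : Subgroup Ω) (γ : MulAut Z) : Prop :=
  γ ∈ F.autGroup Z ∧ (∀ d : Z, (d : Ω) ∈ ⁅S, S⁆ → γ d = d⁻¹) ∧
    ∀ z : Z, ((z⁻¹ * γ z : Z) : Ω) ∈ ⁅S, S⁆

theorem autGroup_preserves_derived (hS : IsPGroup p S) {F : FusionSystem S}
    (hF : F.IsSaturated p) {Z : Subgroup Ω} (hZS : Z ≤ S) (hZ : ∀ z ∈ Z, ∀ s ∈ S, s * z = z * s)
    {γ : MulAut Z} (hγ : γ ∈ F.autGroup Z) {z : Z} (hz : (z : Ω) ∈ ⁅S, S⁆) :
    ((γ z : Z) : Ω) ∈ ⁅S, S⁆ := by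
  obtain ⟨e, he⟩ := (autGroup_central hS hF hZS hZ).2 γ hγ
  rw [← he]
  have hSS : (commutator S).map S.subtype = ⁅S, S⁆ := by
    rw [commutator_def, Subgroup.map_commutator, ← MonoidHom.range_eq_map, Subgroup.range_subtype]
  rw [← hSS] at hz ⊢
  obtain ⟨w, hw, hwz⟩ := hz
  refine ⟨e w, ?_, ?_⟩
  · exact (Subgroup.characteristic_iff_map_eq.mp inferInstance e).le ⟨w, hw, rfl⟩
  · rw [show w = Subgroup.inclusion hZS z from Subtype.ext hwz]
    rfl

theorem IsSplitting.unique (hS : IsPGroup p S) {F : FusionSystem S} (hF : F.IsSaturated p)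
    {Z : Subgroup Ω} (hZS : Z ≤ S) (hZ : ∀ z ∈ Z, ∀ s ∈ S, s * z = z * s) {γ δ : MulAut Z}
    (hγ : IsSplitting F Z γ) (hδ : IsSplitting F Z δ) : γ = δ := by
  haveI := finite_of_le hZS
  haveI := finite_autGroup F hZS
  let D : Subgroup Z := (⁅S, S⁆ : Subgroup Ω).subgroupOf Z
  let K : Subgroup (F.autGroup Z) := (twoStepStab D D le_rfl).subgroupOf (F.autGroup Z)
  have hK : IsPGroup p K :=
    (isPGroup_twoStepStab (isPGroup_of_le hS hZS) D D le_rfl).comap_subtype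
  have hmem : γ * δ⁻¹ ∈ twoStepStab D D le_rfl := by
    have hdiv : ∀ d ∈ D, δ⁻¹ d = d⁻¹ := fun d hd => by
      have h1 := hδ.2.1 d⁻¹ (by simpa using (⁅S, S⁆ : Subgroup Ω).inv_mem hd)
      rw [inv_inv] at h1
      conv_lhs => rw [← h1]
      simp
    have hfix : ∀ d ∈ D, (γ * δ⁻¹) d = d := fun d hd => by
      show γ (δ⁻¹ d) = d
      rw [hdiv d hd, map_inv, hγ.2.1 d hd, inv_inv]
    refine ⟨fun a => ?_, fun w hw => ?_, hfix⟩
    · have h1 : (a⁻¹ * δ⁻¹ a)⁻¹ ∈ D := by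
        have := hδ.2.2 (δ⁻¹ a)
        rw [MulAut.apply_inv_self] at this
        rw [mul_inv_rev, inv_inv]
        exact this
      have h2 : (δ⁻¹ a)⁻¹ * γ (δ⁻¹ a) ∈ D := hγ.2.2 _
      have h3 := D.mul_mem (D.inv_mem h1) h2
      rw [inv_inv] at h3
      simpa [mul_assoc] using h3
    · rw [hfix w hw, inv_mul_cancel]
      exact D.one_mem
  have hb := (autGroup_central hS hF hZS hZ).1 K hK
  have h1 : (⟨γ * δ⁻¹, (F.autGroup Z).mul_mem hγ.1 ((F.autGroup Z).inv_mem hδ.1)⟩ :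
      F.autGroup Z) ∈ K := Subgroup.mem_subgroupOf.mpr hmem
  rw [hb, Subgroup.mem_bot] at h1
  exact mul_inv_eq_one.mp (congrArg Subtype.val h1)

set_option maxHeartbeats 1000000 in
/-- An abelian essential subgroup `P ∋ x` gives: `|Z ∩ S'| = p`, and a splitting of `Z` whose fixed
points `Aut_F(P)` preserves. -/
theorem splitting_of_abelian_essential (hS : IsPGroup p S) (hp : p ≠ 2) {F : FusionSystem S}
    (hF : F.IsSaturated p) {A : Subgroup Ω} {x : Ω} (h : AbIndex p S A x) {P : Subgroup Ω}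
    (hP : F.IsEssential p P) (hxP : x ∈ P) (hab : ∀ y z : P, y * z = z * y) :
    Nat.card ↥(S ⊓ Subgroup.centralizer (S : Set Ω) ⊓ ⁅S, S⁆ : Subgroup Ω) = p ∧
    P = (S ⊓ Subgroup.centralizer (S : Set Ω)) ⊔ Subgroup.zpowers x ∧
    ∃ γ, IsSplitting F (S ⊓ Subgroup.centralizer (S : Set Ω)) γ ∧
      ∀ δ ∈ F.autGroup P, ∀ (z : ↥(S ⊓ Subgroup.centralizer (S : Set Ω))), γ z = z →
        ∀ hz : (z : Ω) ∈ P, ∃ h' : ((δ ⟨z, hz⟩ : P) : Ω) ∈ S ⊓ Subgroup.centralizer (S : Set Ω),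
          γ ⟨_, h'⟩ = ⟨_, h'⟩ := by
  have hPS : P ≤ S := hP.1.1
  have hne : P < S := lt_of_le_of_ne hPS (ne_top_of_essential hS hF hP)
  haveI := finite_of_le hPS
  haveI := finite_autGroup F hPS
  set Z := S ⊓ Subgroup.centralizer (S : Set Ω) with hZdef
  have hZS : Z ≤ S := inf_le_left
  haveI := finite_of_le hZS
  have hZc : ∀ z ∈ Z, ∀ s ∈ S, s * z = z * s := fun z hz s hs => hz.2 s hs
  have hZP : Z ≤ P := fun z hz => hP.1.2 P (isConj_refl F hPS)
    ⟨hz.1, fun y hy => hz.2 y (hPS hy)⟩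
  have hPA : ∀ c ∈ P, c ∈ A → c ∈ Z := fun c hc hcA =>
    (h.centre_iff hcA).mpr (congrArg Subtype.val (hab ⟨x, hxP⟩ ⟨c, hc⟩))
  have hP0i := index_subgroupOf h hPS hxP
  -- `P = Z⟨x⟩`
  have hshape : P = Z ⊔ Subgroup.zpowers x := by
    haveI : (A.subgroupOf P).Normal := ⟨fun a ha y => h.conj y (hPS y.2) a ha⟩
    refine le_antisymm (fun y hy => ?_) (sup_le hZP (Subgroup.zpowers_le.mpr hxP))
    obtain ⟨i, hi⟩ := exists_zpow_mem_of_prime_index (A.subgroupOf P) hP0i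
      (w := ⟨x, hxP⟩) h.x_not_mem ⟨y, hy⟩
    have := Subgroup.mul_mem (Z ⊔ Subgroup.zpowers x)
      (Subgroup.mem_sup_left (hPA (y * (x ^ i)⁻¹)
        (P.mul_mem hy (P.inv_mem (P.zpow_mem hxP i))) hi))
      (Subgroup.mem_sup_right (Subgroup.zpow_mem _ (Subgroup.mem_zpowers x) i))
    simpa using this
  -- a generator of `N_S(P)` modulo `P`
  have hidx := (essential_shape hS hF h hP hxP).index
  set N := S ⊓ Subgroup.normalizer (P : Set Ω) with hN
  obtain ⟨g, hg, hgP⟩ := SetLike.exists_of_lt (lt_normalizerIn hS hne)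
  obtain ⟨i₀, hi₀⟩ := h.decomp hg.1
  set t := g * (x ^ i₀)⁻¹ with htdef
  have htN : t ∈ N := ⟨h.le hi₀,
    Subgroup.mul_mem _ hg.2 (Subgroup.le_normalizer (P.inv_mem (P.zpow_mem hxP i₀)))⟩
  have htP : t ∉ P := fun ht => hgP (by
    have := P.mul_mem ht (P.zpow_mem hxP i₀)
    simpa [htdef] using this)
  haveI hPN : (P.subgroupOf N).Normal :=
    ⟨fun y hy n => (Subgroup.mem_normalizer_iff.mp n.2.2 y).mp hy⟩
  have hgen : ∀ n ∈ N, ∃ i : ℤ, n * (t ^ i)⁻¹ ∈ P := fun n hn =>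
    (exists_zpow_mem_of_prime_index (P.subgroupOf N) hidx (w := ⟨t, htN⟩) htP ⟨n, hn⟩).imp
      fun _ hi => hi
  have htp : t ^ p ∈ P := pow_mem_of_prime_index (P.subgroupOf N) hidx ⟨t, htN⟩
  set w := ⁅x, t⁆ with hw
  have hwP : w ∈ P := by
    have h1 := P.mul_mem hxP ((Subgroup.mem_normalizer_iff.mp htN.2 x⁻¹).mp (P.inv_mem hxP))
    rw [hw, commutatorElement_def]
    simpa [mul_assoc] using h1
  have hwZ : w ∈ Z := hPA w hwP (h.comm_mem hi₀)
  have hwS : w ∈ ⁅S, S⁆ := Subgroup.commutator_mem_commutator h.x_mem (h.le hi₀)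
  have hw1 : w ≠ 1 := fun h1 => htP
    (hP.1.2 P (isConj_refl F hPS) ⟨h.le hi₀, fun y hy => by
      have hxt : x * t = t * x := commutatorElement_eq_one_iff_mul_comm.mp h1
      have htZ : t ∈ Z := (h.centre_iff hi₀).mpr hxt
      exact htZ.2 y (hPS hy)⟩)
  have hwp : w ^ p = 1 := by
    rw [hw, ← zpow_natCast, ← h.comm_zpow hi₀, zpow_natCast, commutatorElement_eq_one_iff_mul_comm]
    exact (hPA _ htp (A.pow_mem hi₀ p)).2 x h.x_mem
  have hord : orderOf w = p := orderOf_eq_prime hwp hw1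
  have hZD : Z ⊓ ⁅S, S⁆ = Subgroup.zpowers w := by
    refine le_antisymm ?_ (Subgroup.zpowers_le.mpr ⟨hwZ, hwS⟩)
    rintro z ⟨hzZ, hzS⟩
    obtain ⟨a, ha, rfl⟩ := exists_comm_eq h hzS
    have hconj : a * x * a⁻¹ ∈ P := by
      have : a * x * a⁻¹ = ⁅x, a⁆⁻¹ * x := by simp only [commutatorElement_def]; group
      rw [this]
      exact P.mul_mem (P.inv_mem (hZP hzZ)) hxP
    have hle : P ≤ P.comap (MulAut.conj a).toMonoidHom := by
      rw [hshape]
      refine sup_le (fun y hy => Subgroup.mem_comap.mpr ?_)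
        (Subgroup.zpowers_le.mpr (Subgroup.mem_comap.mpr ?_))
      · show a * y * a⁻¹ ∈ _
        rw [hy.2 a (h.le ha), mul_inv_cancel_right]
        exact Subgroup.mem_sup_left hy
      · show a * x * a⁻¹ ∈ _
        rw [← hshape]
        exact hconj
    have hmap : P.map (MulAut.conj a).toMonoidHom = P := Subgroup.eq_of_le_of_card_ge
      (Subgroup.map_le_iff_le_comap.mpr hle)
      (by rw [Subgroup.card_map_of_injective (MulAut.conj a).injective])
    have han : a ∈ Subgroup.normalizer (P : Set Ω) := Subgroup.mem_normalizer_iff.mpr fun y => by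
      constructor
      · exact fun hy => hle hy
      · intro hy
        obtain ⟨u, hu, he⟩ := hmap.ge hy
        rwa [← (MulAut.conj a).injective he]
    obtain ⟨i, hi⟩ := hgen a ⟨h.le ha, han⟩
    have hiA := A.mul_mem ha (A.inv_mem (A.zpow_mem hi₀ i))
    have hk : ⁅x, a * (t ^ i)⁻¹⁆ = 1 :=
      commutatorElement_eq_one_iff_mul_comm.mpr ((hPA _ hi hiA).2 x h.x_mem)
    rw [h.comm_mul ha (A.inv_mem (A.zpow_mem hi₀ i)), ← zpow_neg, h.comm_zpow hi₀, zpow_neg,
      mul_inv_eq_one] at hk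
    rw [hk]
    exact ⟨i, rfl⟩
  have hcardD : Nat.card ↥(Z ⊓ ⁅S, S⁆ : Subgroup Ω) = p := by
    rw [hZD, Nat.card_zpowers, hord]
  refine ⟨hcardD, hshape, ?_⟩
  -- the transvection setting
  let Zc : Subgroup P := A.subgroupOf P
  let Dc : Subgroup P := (Z ⊓ ⁅S, S⁆ : Subgroup Ω).subgroupOf P
  let T : Subgroup (MulAut P) := autInducedBy S P
  have hZcmem : ∀ c : P, c ∈ Zc ↔ (c : Ω) ∈ Z := fun c =>
    ⟨fun hc => hPA c c.2 hc, fun hc => h.centre_mem_A hc⟩
  have hdec : ∀ u ∈ T, ∃ i : ℤ, ∀ y : P, ((u y : P) : Ω) = t ^ i * (y : Ω) * (t ^ i)⁻¹ := by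
    intro u hu
    obtain ⟨s, hs, hsx⟩ := mem_autInducedBy_iff.mp hu
    obtain ⟨i, hi⟩ := hgen s ⟨hs, normalizer_of_induced hsx⟩
    refine ⟨i, fun y => ?_⟩
    rw [hsx y]
    have e : s = s * (t ^ i)⁻¹ * t ^ i := by group
    have hyn : t ^ i * (y : Ω) * (t ^ i)⁻¹ ∈ P :=
      (Subgroup.mem_normalizer_iff.mp (Subgroup.zpow_mem _ htN.2 i) y).mp y.2
    have c : s * (t ^ i)⁻¹ * (t ^ i * (y : Ω) * (t ^ i)⁻¹) =
        t ^ i * (y : Ω) * (t ^ i)⁻¹ * (s * (t ^ i)⁻¹) :=
      congrArg Subtype.val (hab ⟨_, hi⟩ ⟨_, hyn⟩)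
    calc s * (y : Ω) * s⁻¹
        = s * (t ^ i)⁻¹ * (t ^ i * (y : Ω) * (t ^ i)⁻¹) * (s * (t ^ i)⁻¹)⁻¹ := by group
      _ = _ := by rw [c, mul_inv_cancel_right]
  let u₀ : MulAut P := conjAut P t htN.2
  have hu₀ : u₀ ∈ T := conjAut_mem (h.le hi₀) htN.2
  have hconjw : ∀ i : ℤ, t ^ i * x * (t ^ i)⁻¹ = (w ^ i)⁻¹ * x := fun i => by
    rw [hw, ← h.comm_zpow hi₀]
    simp only [commutatorElement_def]
    group
  have hTcard : Nat.card T = p := by
    have htop : T = Subgroup.zpowers u₀ := by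
      refine le_antisymm (fun u hu => ?_) (Subgroup.zpowers_le.mpr hu₀)
      obtain ⟨i, hi⟩ := hdec u hu
      refine ⟨i, MulEquiv.ext fun y => Subtype.ext ?_⟩
      show ((u₀ ^ i) y : Ω) = _
      rw [hi y, show u₀ ^ i = conjAut P (t ^ i) (Subgroup.zpow_mem _ htN.2 i) from
        (map_zpow P.normalizerMonoidHom ⟨t, htN.2⟩ i).symm]
      rfl
    rw [htop, Nat.card_zpowers]
    refine orderOf_eq_prime ?_ fun h1 => hw1 ?_
    · rw [show u₀ ^ p = conjAut P (t ^ p) (Subgroup.pow_mem _ htN.2 p) from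
        (map_pow P.normalizerMonoidHom ⟨t, htN.2⟩ p).symm]
      refine MulEquiv.ext fun y => Subtype.ext ?_
      show t ^ p * (y : Ω) * (t ^ p)⁻¹ = y
      rw [show t ^ p * (y : Ω) = y * t ^ p from congrArg Subtype.val (hab ⟨_, htp⟩ y),
        mul_inv_cancel_right]
    · have h2 : t * x * t⁻¹ = x := congrArg (fun u : MulAut P => ((u ⟨x, hxP⟩ : P) : Ω)) h1
      have h3 := hconjw 1
      rw [zpow_one, zpow_one, h2] at h3
      exact inv_eq_one.mp (mul_eq_right.mp h3.symm)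
  haveI : Zc.Normal := ⟨fun a ha y => h.conj y (hPS y.2) a ha⟩
  have hinn : Inn P = ⊥ := by
    refine (Subgroup.eq_bot_iff_forall _).mpr ?_
    rintro _ ⟨y, rfl⟩
    refine MulEquiv.ext fun z => ?_
    show y * z * y⁻¹ = z
    rw [hab y z, mul_inv_cancel_right]
  have hsylow := (centralized_automized_of_fullyNormalized hS hF hP.2.1).2.2
  obtain ⟨R, hR⟩ := hsylow
  have hs : IsTransvectionSetting p (F.autGroup P) T Zc Dc :=
    { comm := hab
      small := fun H hH hHp => by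
        obtain ⟨Q, hQ⟩ := (hHp.comap_subtype : IsPGroup p (H.subgroupOf (F.autGroup P))).exists_le_sylow
        rw [← Nat.card_congr (Subgroup.subgroupOfEquivOfLe hH).toEquiv]
        refine (Subgroup.card_le_of_le hQ).trans ?_
        rw [Sylow.card_eq_multiplicity Q, ← Sylow.card_eq_multiplicity R, hR,
          Nat.card_congr (Subgroup.subgroupOfEquivOfLe (autInducedBy_le_autGroup F hPS)).toEquiv]
        exact hTcard.le
      le := autInducedBy_le_autGroup F hPS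
      card_T := hTcard
      not_normal := by
        by_contra hno
        push Not at hno
        haveI hn : (T.subgroupOf (F.autGroup P)).Normal :=
          ⟨fun u hu g => hno g g.2 u hu⟩
        have hmem : (⟨u₀, autInducedBy_le_autGroup F hPS hu₀⟩ : F.autGroup P) ∈ pCore p _ :=
          le_sSup (show T.subgroupOf (F.autGroup P) ∈
            {N : Subgroup (F.autGroup P) | N.Normal ∧ IsPGroup p N} from
              ⟨hn, (isPGroup_autInducedBy hS P).comap_subtype⟩) hu₀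
        have h1 : u₀ ∈ Inn P := by
          rw [← (isRadical_of_essential hS hP).2]
          exact ⟨_, hmem, rfl⟩
        exact htP (mem_of_conjAut_mem_inn hPS (hP.1.2 P (isConj_refl F hPS)) (h.le hi₀)
          (α := u₀) (fun _ => rfl) h1)
      D_le := fun d hd => (hZcmem d).mpr hd.1
      card_D := by
        rw [Nat.card_congr (Subgroup.subgroupOfEquivOfLe (inf_le_left.trans hZP)).toEquiv]
        exact hcardD
      index_Z := hP0i
      fix := fun u hu z hz => by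
        obtain ⟨i, hi⟩ := hdec u hu
        refine Subtype.ext ((hi z).trans ?_)
        rw [((hZcmem z).mp hz).2 _ (S.zpow_mem (h.le hi₀) i), mul_inv_cancel_right]
      diff := fun u hu a => by
        obtain ⟨i, hi⟩ := hdec u hu
        obtain ⟨j, hj⟩ := exists_zpow_mem_of_prime_index Zc hP0i (w := ⟨x, hxP⟩) h.x_not_mem a
        have hc := (hZcmem _).mp hj
        show ((a⁻¹ * u a : P) : Ω) ∈ Z ⊓ ⁅S, S⁆
        have e : ((u a : P) : Ω) = (a : Ω) * (x ^ j)⁻¹ * ((w ^ i)⁻¹ * x) ^ j := by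
          rw [hi a, ← hconjw i, conj_zpow]
          have c : t ^ i * ((a : Ω) * (x ^ j)⁻¹) = (a : Ω) * (x ^ j)⁻¹ * t ^ i :=
            hc.2 _ (S.zpow_mem (h.le hi₀) i)
          calc t ^ i * (a : Ω) * (t ^ i)⁻¹
              = t ^ i * ((a : Ω) * (x ^ j)⁻¹) * x ^ j * (t ^ i)⁻¹ := by group
            _ = _ := by rw [c]; group
        have hwx : Commute ((w ^ i)⁻¹) x := by
          have : Commute x w := hwZ.2 x h.x_mem
          exact (this.zpow_right i).inv_right.symm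
        have e2 : ((a⁻¹ * u a : P) : Ω) = ((w ^ i)⁻¹) ^ j := by
          show (a : Ω)⁻¹ * ((u a : P) : Ω) = _
          rw [e, hwx.mul_zpow, (hwx.zpow_zpow j j).eq]
          group
        rw [e2, hZD]
        exact Subgroup.zpow_mem _ (Subgroup.inv_mem _
          (Subgroup.zpow_mem _ (Subgroup.mem_zpowers w) i)) j
      exact := fun u hu hu1 a ha => by
        by_contra haZ
        refine hu1 (MulEquiv.ext fun y => ?_)
        obtain ⟨k, hk⟩ := exists_zpow_mem_of_prime_index Zc hP0i haZ y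
        obtain ⟨i, hi⟩ := hdec u hu
        have hfix : ∀ z ∈ Zc, u z = z := fun z hz => Subtype.ext ((hi z).trans (by
          rw [((hZcmem z).mp hz).2 _ (S.zpow_mem (h.le hi₀) i), mul_inv_cancel_right]))
        show u y = y
        rw [show y = y * (a ^ k)⁻¹ * a ^ k by group, map_mul, map_zpow, ha, hfix _ hk] }
  obtain ⟨K, M, hKZ, hDM, -, -, -, hDK, hMZ, hKinv, -, -, -, hν⟩ :=
    hs.exists_decomposition (isPGroup_of_le hS hPS)
  obtain ⟨ν, hν, hνM, hνK, -⟩ := hν hp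
  -- `ν` on `Z`
  have hsplit : ∀ c : P, c ∈ Zc → ∃ d ∈ Dc, ∃ k ∈ K, d * k = c := by
    intro c hc
    have hc' : c ∈ ((Dc ⊔ K : Subgroup P) : Set P) := hDK.ge hc
    rw [Subgroup.coe_mul_of_left_le_normalizer_right Dc K (fun a _ =>
      Subgroup.mem_normalizer_iff.mpr fun y => by rw [hab a y, mul_inv_cancel_right])] at hc'
    exact Set.mem_mul.mp hc'
  have hνZ : ∀ c : P, c ∈ Zc → ν c ∈ Zc ∧ c⁻¹ * ν c ∈ Dc := by
    intro c hc
    obtain ⟨d, hd, k, hk, rfl⟩ := hsplit c hc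
    have e : ν (d * k) = d⁻¹ * k := by rw [map_mul, hνM d (hDM hd), hνK k hk]
    rw [e]
    refine ⟨Zc.mul_mem (Zc.inv_mem (hs.D_le hd)) (hKZ hk), ?_⟩
    rw [show (d * k)⁻¹ * (d⁻¹ * k) = d⁻¹ * d⁻¹ by
      rw [mul_inv_rev, ← mul_assoc (k⁻¹ * d⁻¹), mul_assoc k⁻¹, hab (k⁻¹) (d⁻¹ * d⁻¹),
        inv_mul_cancel_right]]
    exact Dc.mul_mem (Dc.inv_mem hd) (Dc.inv_mem hd)
  have hνhom := restrict_mem ((mem_autGroup_iff F hPS).mp hν) hZP
  obtain ⟨γ, hγ, hγx⟩ := exists_aut_of_hom' F hνhom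
    fun z => (hZcmem _).mp (hνZ _ ((hZcmem _).mpr z.2)).1
  have hγν : ∀ z : Z, ((γ z : Z) : Ω) = ((ν ⟨z, hZP z.2⟩ : P) : Ω) := fun z => hγx z
  refine ⟨γ, ⟨hγ, fun d hd => ?_, fun z => ?_⟩, fun δ hδ z hz hzP => ?_⟩
  · refine Subtype.ext ((hγν d).trans ?_)
    rw [hνM _ (hDM (show (⟨d, hZP d.2⟩ : P) ∈ Dc from ⟨d.2, hd⟩))]
    rfl
  · have h1 := ((hνZ ⟨z, hZP z.2⟩ ((hZcmem _).mpr z.2)).2).2
    show (z : Ω)⁻¹ * ((γ z : Z) : Ω) ∈ ⁅S, S⁆
    rw [hγν z]
    exact h1
  · have hzK : (⟨z, hzP⟩ : P) ∈ K := by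
      obtain ⟨d, hd, k, hk, e⟩ := hsplit ⟨z, hzP⟩ ((hZcmem _).mpr z.2)
      have h1 : ν (d * k) = d * k := by
        rw [e]
        exact Subtype.ext ((hγν z).symm.trans (congrArg Subtype.val hz))
      rw [map_mul, hνM d (hDM hd), hνK k hk, mul_left_inj] at h1
      have h2 : d ^ 2 = 1 := by
        rw [pow_two]
        nth_rewrite 1 [← h1]
        exact inv_mul_cancel d
      have h3 : d = 1 := by
        have hd2 : orderOf d ∣ 2 := orderOf_dvd_of_pow_eq_one h2
        have hdp : orderOf d ∣ p := by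
          have := orderOf_dvd_natCard (⟨d, hd⟩ : Dc)
          rwa [Subgroup.orderOf_mk, hs.card_D] at this
        rw [← orderOf_eq_one_iff]
        rcases (Nat.dvd_prime (Fact.out : p.Prime)).mp hdp with h4 | h4
        · exact h4
        · rw [h4] at hd2
          exact absurd ((Nat.prime_dvd_prime_iff_eq Fact.out Nat.prime_two).mp hd2) hp
      rw [← e, h3, one_mul]
      exact hk
    have hδK := hKinv δ hδ _ hzK
    have hmem := (hZcmem _).mp (hKZ hδK)
    exact ⟨hmem, Subtype.ext ((hγν _).trans (congrArg Subtype.val (hνK _ hδK)))⟩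

set_option maxHeartbeats 1000000 in
/-- The structure theorem. -/
theorem coreFree_not_essential_structure (hS : IsPGroup p S) (hp : p ≠ 2) {F : FusionSystem S}
    (hF : F.IsSaturated p) {A : Subgroup Ω} {x₀ : Ω} (h₀ : AbIndex p S A x₀)
    (hcore : F.core = ⊥) (hAe : ¬ F.IsEssential p A) :
    (∃ x ∈ S, x ∉ A ∧ F.IsEssential p
      ((S ⊓ Subgroup.centralizer (S : Set Ω)) ⊔ Subgroup.zpowers x)) ∧
    (S ⊓ Subgroup.centralizer (S : Set Ω)) ≤ ⁅S, S⁆ ∧
    ∀ n : ℕ, Nat.card S = p ^ n → Subgroup.lowerCentralSeries S (n - 2) ≠ ⊥ := by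
  set Z := S ⊓ Subgroup.centralizer (S : Set Ω) with hZdef
  have hZS : Z ≤ S := inf_le_left
  haveI := finite_of_le hZS
  have hZc : ∀ z ∈ Z, ∀ s ∈ S, s * z = z * s := fun z hz s hs => hz.2 s hs
  have hess : ∀ P, F.IsEssential p P → ∃ x ∈ P, AbIndex p S A x := by
    intro P hP
    by_cases hle : P ≤ A
    · exact absurd ((essential_eq_of_le h₀ hP hle).1 ▸ hP) hAe
    · obtain ⟨x, hx, hxA⟩ := SetLike.not_le_iff_exists.mp hle
      exact ⟨x, hx, h₀.le, h₀.comm, h₀.index, h₀.conj, hP.1.1 hx, hxA, h₀.nonabelian⟩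
  have hZP : ∀ P, F.IsEssential p P → Z ≤ P := fun P hP z hz =>
    hP.1.2 P (isConj_refl F hP.1.1) ⟨hz.1, fun y hy => hz.2 y (hP.1.1 hy)⟩
  have hZinv : ∀ P, (P = S ∨ (F.IsEssential p P ∧ ¬ ∀ y z : P, y * z = z * y)) →
      ∀ α ∈ F.autGroup P, ∀ c : P, (c : Ω) ∈ Z → ((α c : P) : Ω) ∈ Z := by
    intro P hP α _ c hc
    have hcen : ∀ y : P, y * α c = α c * y := by
      intro y
      have hPS : P ≤ S := by
        rcases hP with rfl | hP
        exacts [le_rfl, hP.1.1.1]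
      have e : α⁻¹ y * c = c * α⁻¹ y := Subtype.ext (hc.2 _ (hPS (α⁻¹ y).2))
      simpa using congrArg α e
    rcases hP with rfl | ⟨hP, hab⟩
    · exact ⟨(α c).2, fun y hy => congrArg Subtype.val (hcen ⟨y, hy⟩)⟩
    · obtain ⟨x, hx, h⟩ := hess P hP
      exact mem_centre_of_comm h hP.1.1 hx (index_subgroupOf h hP.1.1 hx) hab hcen
  have hZne : Z ≠ ⊥ := by
    haveI : Nontrivial S := ⟨⟨⟨x₀, h₀.x_mem⟩, 1, fun h1 => h₀.x_not_mem
      (by rw [show x₀ = 1 from congrArg Subtype.val h1]; exact A.one_mem)⟩⟩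
    haveI := hS.center_nontrivial
    obtain ⟨z, hz⟩ := exists_ne (1 : Subgroup.center S)
    intro hb
    refine hz (Subtype.ext (Subtype.ext ?_))
    have hmem : ((z : S) : Ω) ∈ Z :=
      ⟨(z : S).2, fun y hy => congrArg Subtype.val (Subgroup.mem_center_iff.mp z.2 ⟨y, hy⟩)⟩
    rw [hb] at hmem
    exact Subgroup.mem_bot.mp hmem
  have hnot : ∀ Q : Subgroup Ω, F.IsNormal Q → Q = ⊥ := fun Q hQ =>
    le_bot_iff.mp ((CfsgLib.FusionBasics.le_core hQ).trans hcore.le)
  obtain ⟨P₁, hP₁, hab₁⟩ : ∃ P, F.IsEssential p P ∧ ∀ y z : P, y * z = z * y := by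
    by_contra hno
    refine hZne (hnot Z (CfsgLib.FusionBasics.isNormal_of_generators hS hF ?_))
    rintro P (rfl | hP)
    · exact ⟨hZS, hZinv P (Or.inl rfl)⟩
    · exact ⟨hZP P hP, hZinv P (Or.inr ⟨hP, fun hab => hno ⟨P, hP, hab⟩⟩)⟩
  obtain ⟨x, hxP, h⟩ := hess P₁ hP₁
  obtain ⟨hcard, hshape, γ, hγ, -⟩ := splitting_of_abelian_essential hS hp hF h hP₁ hxP hab₁
  -- the fixed points of the splitting are normal in `F`, hence trivial
  let K : Subgroup Ω := ((γ.toMonoidHom).eqLocus (MonoidHom.id Z)).map Z.subtype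
  have hK : F.IsNormal K := by
    refine CfsgLib.FusionBasics.isNormal_of_generators hS hF fun P hP => ?_
    have hKZ : K ≤ Z := Subgroup.map_subtype_le _
    have hPS : P ≤ S := by
      rcases hP with rfl | hP
      exacts [le_rfl, hP.1.1]
    refine ⟨?_, fun α hα c hc => ?_⟩
    · rcases hP with rfl | hP
      exacts [hKZ.trans hZS, hKZ.trans (hZP P hP)]
    obtain ⟨k, hk, hkc⟩ := hc
    change ((k : Ω)) = (c : Ω) at hkc
    have hcases : (∀ c' : P, (c' : Ω) ∈ Z → ((α c' : P) : Ω) ∈ Z) ∨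
        (F.IsEssential p P ∧ ∀ y z : P, y * z = z * y) := by
      rcases hP with rfl | hP
      · exact Or.inl (hZinv P (Or.inl rfl) α hα)
      · by_cases hab : ∀ y z : P, y * z = z * y
        · exact Or.inr ⟨hP, hab⟩
        · exact Or.inl (hZinv P (Or.inr ⟨hP, hab⟩) α hα)
    rcases hcases with hinv | ⟨hPe, hab⟩
    · have hZP' : Z ≤ P := by
        rcases hP with rfl | hP
        exacts [hZS, hZP P hP]
      obtain ⟨ε, hε, hεx⟩ := exists_aut_of_hom' F
        (restrict_mem ((mem_autGroup_iff F hPS).mp hα) hZP') fun z => hinv _ z.2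
      have hsp : IsSplitting F Z (ε * γ * ε⁻¹) := by
        refine ⟨(F.autGroup Z).mul_mem ((F.autGroup Z).mul_mem hε hγ.1)
          ((F.autGroup Z).inv_mem hε), fun d hd => ?_, fun z => ?_⟩
        · have h1 := autGroup_preserves_derived hS hF hZS hZc ((F.autGroup Z).inv_mem hε) hd
          show ε (γ (ε⁻¹ d)) = d⁻¹
          rw [hγ.2.1 _ h1, map_inv]
          simp
        · have h1 := autGroup_preserves_derived hS hF hZS hZc hε (hγ.2.2 (ε⁻¹ z))
          rw [map_mul, map_inv, MulAut.apply_inv_self] at h1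
          exact h1
      have he := IsSplitting.unique hS hF hZS hZc hsp hγ
      refine ⟨ε k, ?_, ?_⟩
      · show γ (ε k) = ε k
        conv_lhs => rw [← he]
        show ε (γ (ε⁻¹ (ε k))) = ε k
        rw [MulAut.inv_apply_self, show γ k = k from hk]
      · show ((ε k : Z) : Ω) = _
        rw [hεx k]
        exact congrArg (fun v : P => ((α v : P) : Ω)) (Subtype.ext hkc)
    · obtain ⟨y, hyP, hy⟩ := hess P hPe
      obtain ⟨-, -, γ', hγ', hfix⟩ := splitting_of_abelian_essential hS hp hF hy hPe hyP hab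
      obtain rfl := IsSplitting.unique hS hF hZS hZc hγ' hγ
      obtain ⟨h', he⟩ := hfix α hα k hk (hkc ▸ c.2)
      exact ⟨⟨_, h'⟩, he, congrArg (fun v : P => ((α v : P) : Ω)) (Subtype.ext hkc)⟩
  have hKbot := hnot K hK
  have hZle : Z ≤ ⁅S, S⁆ := by
    haveI : Finite (Z : Type _) := finite_of_le hZS
    let D : Subgroup Z := (⁅S, S⁆ : Subgroup Ω).subgroupOf Z
    let L : Subgroup Z := (γ.toMonoidHom).eqLocus (MonoidHom.id Z)
    have hL : L = ⊥ := (Subgroup.map_eq_bot_iff_of_injective _ Z.subtype_injective).mp hKbot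
    have hcommZ : ∀ a b : Z, a * b = b * a := fun a b =>
      Subtype.ext (b.2.2 a (hZS a.2))
    -- the difference map has kernel `L` and values in `D`
    let f : Z →* Z := MonoidHom.mk' (fun z => z⁻¹ * γ z) fun a b => by
      show (a * b)⁻¹ * γ (a * b) = a⁻¹ * γ a * (b⁻¹ * γ b)
      rw [map_mul, mul_inv_rev]
      simp only [mul_assoc]
      rw [hcommZ b⁻¹, mul_assoc, mul_assoc, hcommZ (γ b) b⁻¹]
    have hinj : Function.Injective f := (injective_iff_map_eq_one f).mpr fun z hz =>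
      Subgroup.mem_bot.mp (hL.le (show γ z = z from (inv_mul_eq_one.mp hz).symm))
    intro z hz
    obtain ⟨w, hw⟩ := (Finite.injective_iff_surjective.mp hinj) ⟨z, hz⟩
    have := hγ.2.2 w
    rw [show w⁻¹ * γ w = ⟨z, hz⟩ from hw] at this
    exact this
  refine ⟨⟨x, h.x_mem, h.x_not_mem, hshape ▸ hP₁⟩, hZle, fun n hn => ?_⟩
  -- maximal class
  have hcardZ : Nat.card Z = p := by
    rwa [inf_eq_left.mpr hZle] at hcard
  haveI := finite_of_le h.le
  let f : A →* A := MonoidHom.mk' (fun b => ⟨⁅x, (b : Ω)⁆, h.comm_mem b.2⟩)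
    fun b c => Subtype.ext (h.comm_mul b.2 c.2)
  have hker : Nat.card f.ker ≤ p := by
    rw [← hcardZ]
    refine Nat.card_le_card_of_injective
      (fun a : f.ker => (⟨((a : A) : Ω), (h.centre_iff (a : A).2).mpr
        (commutatorElement_eq_one_iff_mul_comm.mp (congrArg Subtype.val a.2))⟩ : Z)) ?_
    intro a b hab
    exact Subtype.ext (Subtype.ext (congrArg (fun v : Z => (v : Ω)) hab))
  have key : ∀ k, ∃ W : Subgroup A, W.map A.subtype ≤ Subgroup.lowerCentralSeries S k ∧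
      Nat.card A ≤ p ^ k * Nat.card W := by
    intro k
    induction k with
    | zero => exact ⟨⊤, by rw [← MonoidHom.range_eq_map, Subgroup.range_subtype]; exact h.le,
        by rw [pow_zero, one_mul, Subgroup.card_top]⟩
    | succ k ih =>
      obtain ⟨W, hW, hWc⟩ := ih
      refine ⟨W.map f, ?_, ?_⟩
      · rintro _ ⟨_, ⟨b, hb, rfl⟩, rfl⟩
        rw [Subgroup.lowerCentralSeries_succ, Subgroup.commutator_comm]
        exact Subgroup.commutator_mem_commutator h.x_mem (hW ⟨b, hb, rfl⟩)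
      · refine hWc.trans ?_
        rw [pow_succ, mul_assoc]
        refine Nat.mul_le_mul_left _ ?_
        have h1 : Nat.card (f.comp W.subtype).range * Nat.card (f.comp W.subtype).ker = Nat.card W := by
          rw [← Subgroup.index_ker]
          exact Subgroup.index_mul_card _
        have h2 : (f.comp W.subtype).range = W.map f := by
          rw [MonoidHom.range_comp, Subgroup.range_subtype]
        have h3 : Nat.card (f.comp W.subtype).ker ≤ p := by
          refine le_trans ?_ hker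
          exact Nat.card_le_card_of_injective
            (fun a : (f.comp W.subtype).ker => (⟨((a : W) : A), a.2⟩ : f.ker))
            fun a b hab => Subtype.ext (Subtype.ext (congrArg (fun v : f.ker => (v : A)) hab))
        rw [← h1, h2, mul_comm p]
        exact Nat.mul_le_mul_left _ h3
  intro hbot
  obtain ⟨W, hW, hWc⟩ := key (n - 2)
  rw [hbot, le_bot_iff, Subgroup.map_eq_bot_iff_of_injective _ A.subtype_injective] at hW
  rw [hW, Subgroup.card_bot, mul_one] at hWc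
  have hp1 := (Fact.out : p.Prime).one_lt
  have hAcard : p * Nat.card A = p ^ n := by
    rw [← hn, ← (A.subgroupOf S).index_mul_card, h.index,
      Nat.card_congr (Subgroup.subgroupOfEquivOfLe h.le).toEquiv]
  have hn2 : 2 ≤ n := by
    have h2 : p ≤ Nat.card A := by
      rw [← hcardZ]
      exact Subgroup.card_le_of_le fun z hz => h.centre_mem_A hz
    by_contra hn2
    have h3 : p * p ≤ p ^ n := hAcard ▸ Nat.mul_le_mul_left p h2
    have h4 : p ^ n ≤ p ^ 1 := Nat.pow_le_pow_right (by omega) (by omega)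
    nlinarith
  have h5 : p ^ n ≤ p * p ^ (n - 2) := hAcard ▸ Nat.mul_le_mul_left p hWc
  rw [← pow_succ', Nat.pow_le_pow_iff_right hp1] at h5
  omega

end CfsgLib.FusionModels
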