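import Cfsg.Agent.Lib.FusionModels.AbelianIndexPCore
import Cfsg.Agent.Lib.NormalPComplement.Replacement

/-!
Structure of `S` when some essential subgroup differs from the abelian subgroup `A` of index `p`.
-/

set_option autoImplicit false
set_option linter.style.haveILetI false
set_option linter.unusedSectionVars false

namespace CfsgLib.FusionModels

open Cfsg Cfsg.FusionSystem CfsgLib.Alperin
open scoped commutatorElement

variable {Ω : Type*} [Group Ω] {S : Subgroup Ω} [Finite S] {p : ℕ} [Fact p.Prime]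

theorem map_upperTwo_iff {s : S} :
    (s : Ω) ∈ (Subgroup.upperCentralSeries ↥S 2).map S.subtype ↔
      ∀ y : S, ⁅(s : Ω), (y : Ω)⁆ ∈ S ⊓ Subgroup.centralizer (S : Set Ω) := by
  have hZ : ∀ u : S, u ∈ Subgroup.center S ↔ (u : Ω) ∈ S ⊓ Subgroup.centralizer (S : Set Ω) := fun u => by
    rw [Subgroup.mem_center_iff]
    exact ⟨fun hs => ⟨u.2, fun y hy => congrArg Subtype.val (hs ⟨y, hy⟩)⟩,
      fun hs y => Subtype.ext (hs.2 y y.2)⟩
  refine (Subgroup.mem_map_iff_mem S.subtype_injective).trans ?_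
  rw [Subgroup.mem_upperCentralSeries_succ_iff]
  refine forall_congr' fun y => ?_
  rw [Subgroup.upperCentralSeries_one, hZ]
  rfl

theorem card_centre_inf_derived (hS : IsPGroup p S) (hp : p ≠ 2) {F : FusionSystem S}
    (hF : F.IsSaturated p) {A : Subgroup Ω} {x : Ω} (h : AbIndex p S A x) {P : Subgroup Ω}
    (hP : F.IsEssential p P) (hxP : x ∈ P) :
    Nat.card ↥(S ⊓ Subgroup.centralizer (S : Set Ω) ⊓ ⁅S, S⁆ : Subgroup Ω) = p := by
  by_cases hab : ∀ y z : P, y * z = z * y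
  · exact (splitting_of_abelian_essential hS hp hF h hP hxP hab).1
  have hPS : P ≤ S := hP.1.1
  have hne : P < S := lt_of_le_of_ne hPS (ne_top_of_essential hS hF hP)
  haveI := finite_of_le hPS
  set Z := S ⊓ Subgroup.centralizer (S : Set Ω) with hZdef
  have hZP : Z ≤ P := fun z hz => hP.1.2 P (isConj_refl F hPS)
    ⟨hz.1, fun y hy => hz.2 y (hPS hy)⟩
  haveI hP0n : (A.subgroupOf P).Normal := ⟨fun a ha y => h.conj y (hPS y.2) a ha⟩
  have hP0i := index_subgroupOf h hPS hxP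
  -- some automorphism moves `A ∩ P`
  obtain ⟨α, hα, y₀, hy₀, hy₀'⟩ :
      ∃ α ∈ F.autGroup P, ∃ y ∈ A.subgroupOf P, α y ∉ A.subgroupOf P := by
    by_contra hno
    push Not at hno
    obtain ⟨g, hg, hgP⟩ := SetLike.exists_of_lt (lt_normalizerIn hS hne)
    obtain ⟨i, hi⟩ := h.decomp hg.1
    set t := g * (x ^ i)⁻¹ with htdef
    have hn : t ∈ Subgroup.normalizer (P : Set Ω) :=
      Subgroup.mul_mem _ hg.2 (Subgroup.le_normalizer (P.inv_mem (P.zpow_mem hxP i)))
    refine hgP ?_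
    have hfix : ∀ c ∈ A.subgroupOf P, conjAut P t hn c = c := fun c hc => Subtype.ext (by
      show t * (c : Ω) * t⁻¹ = c
      rw [show t * (c : Ω) = c * t from h.comm t hi _ hc, mul_inv_cancel_right])
    have hmem := mem_of_invariant_series hS hP.1 (isRadical_of_essential hS hP) (A.subgroupOf P) hno
      (h.le hi) hn (fun y => ?_) hfix
    · have := P.mul_mem hmem (P.zpow_mem hxP i)
      simpa [htdef] using this
    · obtain ⟨j, hj⟩ := h.decomp (hPS y.2)
      show (y : Ω)⁻¹ * (t * (y : Ω) * t⁻¹) ∈ A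
      have hj' : (x ^ j)⁻¹ * ((y : Ω) * (x ^ j)⁻¹)⁻¹ * (x ^ j) ∈ A := by
        simpa using h.conj _ (S.inv_mem (S.zpow_mem h.x_mem j)) _ (A.inv_mem hj)
      have e : (y : Ω)⁻¹ * (t * (y : Ω) * t⁻¹) =
          ((x ^ j)⁻¹ * ((y : Ω) * (x ^ j)⁻¹)⁻¹ * x ^ j) * ((x ^ j)⁻¹ * (t * ((y : Ω) * (x ^ j)⁻¹)) * (x ^ j)⁻¹⁻¹) * t⁻¹ := by
        group
      rw [e]
      exact A.mul_mem (A.mul_mem hj' (h.conj _ (S.inv_mem (S.zpow_mem h.x_mem j)) _ (A.mul_mem hi hj)))
        (A.inv_mem hi)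
  have hiff := inter_eq_centre h hPS hxP hP0i hZP hy₀ hy₀' hab
  -- `w ∈ (A ∩ P) ∖ Z`
  obtain ⟨w, hwA, hwZ⟩ : ∃ w : P, w ∈ A.subgroupOf P ∧ (w : Ω) ∉ Z := by
    by_contra hno
    push Not at hno
    refine hab fun y z => ?_
    obtain ⟨i, hi⟩ := exists_zpow_mem_of_prime_index _ hP0i (w := (⟨x, hxP⟩ : P)) h.x_not_mem y
    obtain ⟨j, hj⟩ := exists_zpow_mem_of_prime_index _ hP0i (w := (⟨x, hxP⟩ : P)) h.x_not_mem z
    have hc : ∀ c : P, (c : Ω) ∈ Z → ∀ u : P, Commute c u := fun c hc u =>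
      Subtype.ext (hc.2 _ (hPS u.2)).symm
    have := ((hc _ (hno _ hi) (z * ((⟨x, hxP⟩ : P) ^ j)⁻¹)).mul_right (hc _ (hno _ hi) _)).mul_left
      (((hc _ (hno _ hj) ((⟨x, hxP⟩ : P) ^ i)).symm).mul_right
        ((Commute.refl (⟨x, hxP⟩ : P)).zpow_zpow i j))
    simpa only [inv_mul_cancel_right, commute_iff_eq] using this
  set Q := (A.subgroupOf P).map α.toMonoidHom
  haveI : Q.Normal := hP0n.map _ α.surjective
  have hQi : Q.index = p := ((A.subgroupOf P).index_map_equiv α).trans hP0i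
  have hwQ : w ∉ Q := fun hq => hwZ ((hiff w).mp ⟨hwA, hq⟩)
  have hwp : (w : Ω) ^ p ∈ Z :=
    (hiff (w ^ p)).mp ⟨Subgroup.pow_mem _ hwA p, pow_mem_of_prime_index Q hQi w⟩
  have hshape : (Subgroup.upperCentralSeries ↥S 2).map S.subtype ≤ P := by
    rcases (essential_shape hS hF h hP hxP).shape with hs | ⟨-, hs⟩
    · refine absurd (fun y z => ?_) hab
      have hle : P ≤ Subgroup.centralizer ((P : Subgroup Ω) : Set Ω) := by
        conv_lhs => rw [hs]
        refine sup_le (fun c hc y hy => hc.2 y (hPS hy)) (Subgroup.zpowers_le.mpr fun y hy => ?_)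
        have hle' : P ≤ Subgroup.centralizer ({x} : Set Ω) := by
          rw [hs]
          refine sup_le (fun c hc => Subgroup.mem_centralizer_singleton_iff.mpr (hc.2 x h.x_mem).symm)
            (Subgroup.zpowers_le.mpr (Subgroup.mem_centralizer_singleton_iff.mpr rfl))
        exact Subgroup.mem_centralizer_singleton_iff.mp (hle' hy)
      exact Subtype.ext (hle z.2 y y.2)
    · exact hs.ge.trans' le_sup_left
  have hf : ∀ a ∈ A, ⁅x, a⁆ ∈ Z → ∃ i : ℤ, ⁅x, a⁆ = ⁅x, (w : Ω)⁆ ^ i := by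
    intro a ha hc
    have haP : a ∈ P := hshape (by
      refine (map_upperTwo_iff (s := ⟨a, h.le ha⟩)).mpr fun y => ?_
      obtain ⟨j, hj⟩ := h.decomp y.2
      have hxj : ⁅x ^ j, a⁆ ∈ Z := by
        let π := QuotientGroup.mk' (Subgroup.center S)
        have h1 : Commute (π ⟨x, h.x_mem⟩) (π ⟨a, h.le ha⟩) := by
          rw [commute_iff_eq, ← commutatorElement_eq_one_iff_mul_comm, ← map_commutatorElement]
          refine (QuotientGroup.eq_one_iff _).mpr (Subgroup.mem_center_iff.mpr fun u => Subtype.ext ?_)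
          exact hc.2 u u.2
        have h2 := (h1.zpow_left j).eq
        rw [← map_zpow, ← commutatorElement_eq_one_iff_mul_comm, ← map_commutatorElement] at h2
        have h3 := Subgroup.mem_center_iff.mp
          ((QuotientGroup.eq_one_iff ⁅(⟨x, h.x_mem⟩ : S) ^ j, (⟨a, h.le ha⟩ : S)⁆).mp h2)
        exact ⟨(⁅(⟨x, h.x_mem⟩ : S) ^ j, (⟨a, h.le ha⟩ : S)⁆).2,
          fun u hu => congrArg Subtype.val (h3 ⟨u, hu⟩)⟩
      have e : ⁅a, (y : Ω)⁆ = ((y : Ω) * (x ^ j)⁻¹) * ⁅x ^ j, a⁆⁻¹ * ((y : Ω) * (x ^ j)⁻¹)⁻¹ := by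
        have hc' := h.comm _ ha _ hj
        calc ⁅a, (y : Ω)⁆ = (a * ((y : Ω) * (x ^ j)⁻¹)) * x ^ j * a⁻¹ * (x ^ j)⁻¹ *
              ((y : Ω) * (x ^ j)⁻¹)⁻¹ := by simp only [commutatorElement_def]; group
          _ = _ := by rw [hc']; simp only [commutatorElement_def]; group
      have hxj' : ⁅x ^ j, a⁆⁻¹ ∈ Z := Z.inv_mem hxj
      rw [e, hxj'.2 _ (h.le hj), mul_inv_cancel_right]
      exact hxj')
    obtain ⟨i, hi⟩ := exists_zpow_mem_of_prime_index Q hQi hwQ ⟨a, haP⟩
    have hiA : (⟨a, haP⟩ : P) * (w ^ i)⁻¹ ∈ A.subgroupOf P :=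
      Subgroup.mul_mem _ ha (Subgroup.inv_mem _ (Subgroup.zpow_mem _ hwA i))
    have hz : a * ((w : Ω) ^ i)⁻¹ ∈ Z := (hiff _).mp ⟨hiA, hi⟩
    refine ⟨i, ?_⟩
    have h1 : ⁅x, a * ((w : Ω) ^ i)⁻¹⁆ = 1 :=
      commutatorElement_eq_one_iff_mul_comm.mpr (hz.2 x h.x_mem)
    have hwA' : (w : Ω) ∈ A := hwA
    rw [h.comm_mul ha (A.inv_mem (A.zpow_mem hwA' i)), ← zpow_neg, h.comm_zpow hwA', zpow_neg,
      mul_inv_eq_one] at h1
    exact h1
  have hwcomm : ⁅x, (w : Ω)⁆ ∈ Z := by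
    refine (hiff ⁅(⟨x, hxP⟩ : P), w⁆).mp ⟨h.comm_mem hwA, (QuotientGroup.eq_one_iff _).mp ?_⟩
    haveI : Fact (Nat.card (P ⧸ Q)).Prime := by
      rw [← Subgroup.index_eq_card, hQi]; infer_instance
    haveI : IsCyclic (P ⧸ Q) := isCyclic_of_prime_card rfl
    show QuotientGroup.mk' Q _ = 1
    rw [map_commutatorElement, commutatorElement_eq_one_iff_mul_comm]
    exact IsMulCommutative.is_comm.comm _ _
  have hord : orderOf ⁅x, (w : Ω)⁆ = p := by
    refine orderOf_eq_prime ?_ fun h1 => hwZ ((h.centre_iff hwA).mpr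
      (commutatorElement_eq_one_iff_mul_comm.mp h1))
    rw [← zpow_natCast, ← h.comm_zpow (show (w : Ω) ∈ A from hwA), zpow_natCast,
      commutatorElement_eq_one_iff_mul_comm]
    exact hwp.2 x h.x_mem
  have heq : Z ⊓ ⁅S, S⁆ = Subgroup.zpowers ⁅x, (w : Ω)⁆ := by
    refine le_antisymm ?_ (Subgroup.zpowers_le.mpr ⟨hwcomm,
      Subgroup.commutator_mem_commutator h.x_mem (h.le hwA)⟩)
    rintro z ⟨hzZ, hzS⟩
    obtain ⟨a, ha, rfl⟩ := exists_comm_eq h hzS
    obtain ⟨i, hi⟩ := hf a ha hzZ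
    exact ⟨i, hi.symm⟩
  rw [heq, Nat.card_zpowers, hord]

theorem structure_of_essential_ne (hS : IsPGroup p S) (hp : p ≠ 2) {F : FusionSystem S}
    (hF : F.IsSaturated p) {A : Subgroup Ω} {x : Ω} (h : AbIndex p S A x)
    (huniq : ∀ B : Subgroup Ω, B ≤ S → IsMulCommutative ↥B → (B.subgroupOf S).index = p → B = A)
    {P : Subgroup Ω} (hP : F.IsEssential p P) (hxP : x ∈ P) :
    (Subgroup.upperCentralSeries ↥S 2).map S.subtype ≤ A ∧
    Nat.card ↥(S ⊓ Subgroup.centralizer (S : Set Ω) ⊓ ⁅S, S⁆ : Subgroup Ω) = p ∧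
    (((S ⊓ Subgroup.centralizer (S : Set Ω)) ⊔ ⁅S, S⁆).subgroupOf A).index = p ∧
    ((S ⊓ Subgroup.centralizer (S : Set Ω)).subgroupOf
      ((Subgroup.upperCentralSeries ↥S 2).map S.subtype)).index = p ∧
    ∀ m : ℕ, ((S ⊓ Subgroup.centralizer (S : Set Ω)).subgroupOf S).index = p ^ m → 3 ≤ m →
      ¬ Subgroup.lowerCentralSeries S (m - 2) ≤ S ⊓ Subgroup.centralizer (S : Set Ω) := by
  have hcardD := card_centre_inf_derived hS hp hF h hP hxP
  haveI := finite_of_le h.le
  set Z := S ⊓ Subgroup.centralizer (S : Set Ω) with hZdef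
  haveI := finite_of_le (inf_le_left : Z ≤ S)
  have hZA : Z ≤ A := fun z hz => h.centre_mem_A hz
  let f : A →* A := MonoidHom.mk' (fun b => ⟨⁅x, (b : Ω)⁆, h.comm_mem b.2⟩)
    fun b c => Subtype.ext (h.comm_mul b.2 c.2)
  have hfker : f.ker = Z.subgroupOf A := by
    ext a
    rw [MonoidHom.mem_ker, Subgroup.mem_subgroupOf, hZdef, h.centre_iff a.2,
      ← commutatorElement_eq_one_iff_mul_comm]
    exact ⟨fun e => congrArg Subtype.val e, fun e => Subtype.ext e⟩
  have hD : (f.range).map A.subtype = ⁅S, S⁆ := by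
    refine le_antisymm ?_ fun z hz => ?_
    · rintro _ ⟨_, ⟨a, rfl⟩, rfl⟩
      exact Subgroup.commutator_mem_commutator h.x_mem (h.le a.2)
    · obtain ⟨a, ha, rfl⟩ := exists_comm_eq h hz
      exact ⟨_, ⟨⟨a, ha⟩, rfl⟩, rfl⟩
  have hDA : ⁅S, S⁆ ≤ A := hD ▸ Subgroup.map_subtype_le _
  have hAcard : Nat.card Z * Nat.card (⁅S, S⁆ : Subgroup Ω) = Nat.card A := by
    rw [← hD, Subgroup.card_map_of_injective A.subtype_injective, ← Subgroup.index_ker, hfker,
      ← Nat.card_congr (Subgroup.subgroupOfEquivOfLe hZA).toEquiv]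
    exact Subgroup.card_mul_index _
  have hZS : S ≤ Subgroup.normalizer (Z : Set Ω) := fun s hs =>
    Subgroup.centralizer_le_normalizer _ fun z hz => (hz.2 s hs).symm
  -- no element of `Z₂` outside `A`
  have hZ2A : (Subgroup.upperCentralSeries ↥S 2).map S.subtype ≤ A := by
    rintro _ ⟨s, hs, rfl⟩
    by_contra hsA
    have key : AbIndex p S A s := ⟨h.le, h.comm, h.index, h.conj, s.2, hsA, h.nonabelian⟩
    have hsub : ⁅S, S⁆ ≤ Z := fun z hz => by
      obtain ⟨a, ha, rfl⟩ := exists_comm_eq key hz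
      exact (map_upperTwo_iff (s := s)).mp ⟨s, hs, rfl⟩ ⟨a, h.le ha⟩
    have hcS : Nat.card (⁅S, S⁆ : Subgroup Ω) = p := by rwa [inf_eq_right.mpr hsub] at hcardD
    set B := Z ⊔ Subgroup.zpowers x with hB
    have hBS : B ≤ S := sup_le inf_le_left (Subgroup.zpowers_le.mpr h.x_mem)
    have hBc : ∀ u ∈ B, ∀ v ∈ B, u * v = v * u := by
      have hle : B ≤ Subgroup.centralizer ({x} : Set Ω) :=
        sup_le (fun c hc => Subgroup.mem_centralizer_singleton_iff.mpr (hc.2 x h.x_mem).symm)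
          (Subgroup.zpowers_le.mpr (Subgroup.mem_centralizer_singleton_iff.mpr rfl))
      have hle2 : B ≤ Subgroup.centralizer (B : Set Ω) :=
        sup_le (fun c hc u hu => hc.2 u (hBS hu)) (Subgroup.zpowers_le.mpr fun u hu =>
          Subgroup.mem_centralizer_singleton_iff.mp (hle hu))
      exact fun u hu v hv => hle2 hv u hu
    have hBA : (A.subgroupOf B).index = p :=
      index_subgroupOf h hBS (Subgroup.mem_sup_right (Subgroup.mem_zpowers x))
    have hAB : A.subgroupOf B = Z.subgroupOf B := by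
      ext u
      refine ⟨fun hu => (h.centre_iff hu).mpr ?_, fun hu => hZA hu⟩
      exact hBc x (Subgroup.mem_sup_right (Subgroup.mem_zpowers x)) u u.2
    have hBi : (B.subgroupOf S).index = p := by
      have e1 := (B.subgroupOf S).card_mul_index
      have e2 := (A.subgroupOf S).card_mul_index
      rw [Nat.card_congr (Subgroup.subgroupOfEquivOfLe hBS).toEquiv] at e1
      rw [Nat.card_congr (Subgroup.subgroupOfEquivOfLe h.le).toEquiv, h.index, ← hAcard, hcS] at e2
      have e3 : Nat.card Z * p = Nat.card B := by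
        rw [← (Z.subgroupOf B).card_mul_index, ← hAB, hBA, hAB,
          Nat.card_congr (Subgroup.subgroupOfEquivOfLe (le_sup_left : Z ≤ B)).toEquiv]
      rw [← e3, ← e2] at e1
      exact Nat.eq_of_mul_eq_mul_left (Nat.mul_pos Nat.card_pos (Fact.out : p.Prime).pos) e1
    exact h.x_not_mem ((huniq B hBS ⟨⟨fun u v => Subtype.ext (hBc u u.2 v v.2)⟩⟩ hBi).le
      (Subgroup.mem_sup_right (Subgroup.mem_zpowers x)))
  refine ⟨hZ2A, hcardD, ?_, ?_, fun m hm hm3 hle => ?_⟩
  · have hDf : (⁅S, S⁆ : Subgroup Ω).subgroupOf A = f.range := by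
      rw [← hD]
      exact Subgroup.comap_map_eq_self_of_injective A.subtype_injective _
    have hinf : Nat.card ↥(f.range ⊓ f.ker : Subgroup A) = p := by
      rw [← Subgroup.card_map_of_injective (f := A.subtype) A.subtype_injective,
        Subgroup.map_inf _ _ _ A.subtype_injective, hD, hfker,
        Subgroup.map_subgroupOf_eq_of_le hZA, inf_comm]
      exact hcardD
    have h2 : Nat.card ↥(f.range ⊔ f.ker : Subgroup A) * Nat.card ↥(f.range ⊓ f.ker : Subgroup A) =
        Nat.card f.range * Nat.card f.ker :=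
      CfsgLib.NormalPComplement.card_sup_mul_card_inf (by rw [Subgroup.normalizer_eq_top]; exact le_top)
    rw [hinf, ← Subgroup.index_ker, Subgroup.index_mul_card, ← (f.range ⊔ f.ker).card_mul_index] at h2
    rw [Subgroup.subgroupOf_sup hZA hDA, ← hfker, hDf, sup_comm]
    exact (Nat.eq_of_mul_eq_mul_left Nat.card_pos h2).symm
  · set Y := (Subgroup.upperCentralSeries ↥S 2).map S.subtype with hY
    let g : Y →* A := f.comp (Subgroup.inclusion hZ2A)
    have hgker : g.ker = Z.subgroupOf Y := by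
      rw [← MonoidHom.comap_ker, hfker]
      rfl
    have hgr : g.range.map A.subtype = Z ⊓ ⁅S, S⁆ := by
      refine le_antisymm ?_ fun z hz => ?_
      · rintro _ ⟨_, ⟨⟨_, ⟨s, hs, rfl⟩⟩, rfl⟩, rfl⟩
        refine ⟨?_, Subgroup.commutator_mem_commutator h.x_mem s.2⟩
        show ⁅x, (s : Ω)⁆ ∈ Z
        rw [← commutatorElement_inv]
        exact Z.inv_mem ((map_upperTwo_iff (s := s)).mp ⟨s, hs, rfl⟩ ⟨x, h.x_mem⟩)
      · obtain ⟨a, ha, rfl⟩ := exists_comm_eq h hz.2
        refine ⟨_, ⟨⟨a, ?_⟩, rfl⟩, rfl⟩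
        refine (map_upperTwo_iff (s := ⟨a, h.le ha⟩)).mpr fun y => ?_
        obtain ⟨j, hj⟩ := h.decomp y.2
        let π := QuotientGroup.mk' (Subgroup.center S)
        have h1 : Commute (π ⟨x, h.x_mem⟩) (π ⟨a, h.le ha⟩) := by
          rw [commute_iff_eq, ← commutatorElement_eq_one_iff_mul_comm, ← map_commutatorElement]
          exact (QuotientGroup.eq_one_iff _).mpr
            (Subgroup.mem_center_iff.mpr fun u => Subtype.ext (hz.1.2 u u.2))
        have h2 : Commute (π ⟨a, h.le ha⟩) (π (y * ((⟨x, h.x_mem⟩ : S) ^ j)⁻¹)) :=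
          (show Commute (⟨a, h.le ha⟩ : S) (y * ((⟨x, h.x_mem⟩ : S) ^ j)⁻¹) from
            Subtype.ext (h.comm _ ha _ hj)).map π
        have h3 := h2.mul_right (h1.symm.zpow_right j)
        rw [← map_zpow, ← map_mul, inv_mul_cancel_right, commute_iff_eq,
          ← commutatorElement_eq_one_iff_mul_comm, ← map_commutatorElement] at h3
        have h4 := Subgroup.mem_center_iff.mp
          ((QuotientGroup.eq_one_iff ⁅(⟨a, h.le ha⟩ : S), y⁆).mp h3)
        exact ⟨(⁅(⟨a, h.le ha⟩ : S), y⁆).2, fun u hu => congrArg Subtype.val (h4 ⟨u, hu⟩)⟩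
    rw [← hgker, Subgroup.index_ker, ← Subgroup.card_map_of_injective A.subtype_injective, hgr]
    exact hcardD
  · haveI : Finite ↥(Z ⊓ ⁅S, S⁆ : Subgroup Ω) := finite_of_le (inf_le_left.trans inf_le_left)
    have key : ∀ k, 1 ≤ k → ∃ W : Subgroup A, W.map A.subtype ≤ Subgroup.lowerCentralSeries S k ∧
        W.map A.subtype ≤ ⁅S, S⁆ ∧ Nat.card (⁅S, S⁆ : Subgroup Ω) ≤ p ^ (k - 1) * Nat.card W := by
      intro k hk
      induction k, hk using Nat.le_induction with
      | base =>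
        refine ⟨f.range, ?_, hD.le, ?_⟩
        · rw [hD, Subgroup.lowerCentralSeries_succ, Subgroup.lowerCentralSeries_zero]
        · rw [← hD, Subgroup.card_map_of_injective A.subtype_injective, Nat.sub_self, pow_zero, one_mul]
      | succ k hk ih =>
        obtain ⟨W, hW, hWD, hWc⟩ := ih
        refine ⟨W.map f, ?_, ?_, ?_⟩
        · rintro _ ⟨_, ⟨b, hb, rfl⟩, rfl⟩
          rw [Subgroup.lowerCentralSeries_succ, Subgroup.commutator_comm]
          exact Subgroup.commutator_mem_commutator h.x_mem (hW ⟨b, hb, rfl⟩)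
        · rintro _ ⟨_, ⟨b, -, rfl⟩, rfl⟩
          exact hD.le ⟨_, ⟨b, rfl⟩, rfl⟩
        · refine hWc.trans ?_
          rw [show k + 1 - 1 = (k - 1) + 1 by omega, pow_succ, mul_assoc]
          refine Nat.mul_le_mul_left _ ?_
          have h1 : Nat.card (f.comp W.subtype).range * Nat.card (f.comp W.subtype).ker = Nat.card W := by
            rw [← Subgroup.index_ker]
            exact Subgroup.index_mul_card _
          have h2 : (f.comp W.subtype).range = W.map f := by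
            rw [MonoidHom.range_comp, Subgroup.range_subtype]
          have h3 : Nat.card (f.comp W.subtype).ker ≤ p := by
            rw [← hcardD]
            refine Nat.card_le_card_of_injective (fun a : (f.comp W.subtype).ker =>
              (⟨(((a : W) : A) : Ω), ⟨hfker.le a.2, hWD ⟨_, (a : W).2, rfl⟩⟩⟩ :
                ↥(Z ⊓ ⁅S, S⁆ : Subgroup Ω)))
              fun a b hab => Subtype.ext (Subtype.ext (Subtype.ext (congrArg Subtype.val hab :)))
          rw [← h1, h2, mul_comm p]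
          exact Nat.mul_le_mul_left _ h3
    haveI : Finite ↥(Z ⊓ ⁅S, S⁆ : Subgroup Ω) := finite_of_le (inf_le_left.trans inf_le_left)
    obtain ⟨W, hW, -, hWc⟩ := key (m - 2) (by omega)
    -- one more step dies
    have hbot : W.map f = ⊥ := by
      refine (Subgroup.map_eq_bot_iff W).mpr fun b hb => ?_
      rw [hfker]
      exact hle (hW ⟨b, hb, rfl⟩)
    have hker : W ≤ Z.subgroupOf A := by
      rw [← hfker]
      exact (Subgroup.map_eq_bot_iff W).mp hbot
    have hp1 := (Fact.out : p.Prime).one_lt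
    have hAZ : Nat.card A * p = Nat.card Z * p ^ m := by
      have e1 := (A.subgroupOf S).card_mul_index
      rw [Nat.card_congr (Subgroup.subgroupOfEquivOfLe h.le).toEquiv, h.index] at e1
      have e2 := (Z.subgroupOf S).card_mul_index
      rw [Nat.card_congr (Subgroup.subgroupOfEquivOfLe (inf_le_left : Z ≤ S)).toEquiv, hm] at e2
      rw [e1, e2]
    have hDm : Nat.card (⁅S, S⁆ : Subgroup Ω) * p = p ^ m := by
      rw [← hAcard, mul_assoc] at hAZ
      exact Nat.eq_of_mul_eq_mul_left Nat.card_pos hAZ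
    obtain ⟨W', hW', hW'D, hWc'⟩ : ∃ W' : Subgroup A, W'.map A.subtype ≤ Z ∧ W'.map A.subtype ≤ ⁅S, S⁆ ∧
        Nat.card (⁅S, S⁆ : Subgroup Ω) ≤ p ^ (m - 3) * Nat.card W' := by
      obtain ⟨W', h1, h2, h3⟩ := key (m - 2) (by omega)
      exact ⟨W', h1.trans hle, h2, by rwa [show m - 2 - 1 = m - 3 by omega] at h3⟩
    have hW'p : Nat.card W' ≤ p := by
      rw [← hcardD, ← Subgroup.card_map_of_injective (f := A.subtype) A.subtype_injective]
      exact Subgroup.card_le_of_le (le_inf hW' hW'D)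
    have h5 : p ^ m ≤ p ^ (m - 1) := by
      calc p ^ m = Nat.card (⁅S, S⁆ : Subgroup Ω) * p := hDm.symm
        _ ≤ p ^ (m - 3) * p * p := Nat.mul_le_mul_right p (hWc'.trans (Nat.mul_le_mul_left _ hW'p))
        _ = p ^ (m - 1) := by rw [← pow_succ, ← pow_succ]; congr 1; omega
    exact absurd h5 (not_le.mpr (Nat.pow_lt_pow_right hp1 (by omega)))

end CfsgLib.FusionModels
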