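import Cfsg.Agent.Lib.FusionModels.TorusAutomizer
import Cfsg.Agent.Lib.FFModules.MinimalParabolic.Moved
import Cfsg.Agent.Lib.NormalPComplement.Thompson
import Cfsg.Agent.Lib.ThompsonJ.Replacement

/-!
A finite group `G` with a normal `p`-subgroup `Q` (`p` odd), a subgroup `T ≤ Q` central in a Sylow
`p`-subgroup `R`, such that `N(J(R))` normalizes `T` but `G` does not: some cyclic group of order
prime to `p` of automorphisms of `T` induced by conjugation is transitive on the nontrivial
elements of its commutator with `T`.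
-/

set_option autoImplicit false
set_option linter.style.haveILetI false
set_option linter.unusedSectionVars false

namespace CfsgLib.FusionModels.CentralAutomizer

open Cfsg CfsgLib.FFModules CfsgLib.FFModules.MinimalParabolic CfsgLib.NormalPComplement
open CfsgLib.FusionModels.TorusAutomizer CfsgLib.FFModules.SL2Pair
open scoped Pointwise commutatorElement

variable {G G₂ : Type*} [Group G] [Group G₂]

/-- A nontrivial cyclic group of order prime to `p` of automorphisms of `T` induced by conjugation,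
transitive on the nontrivial elements of its commutator with `T`. -/
def HasCyclicAutomizer (p : ℕ) (T : Subgroup G) : Prop :=
  ∃ X : Subgroup (MulAut T), (∀ ψ ∈ X, ∃ g : G, ∀ t : T, ((ψ t : T) : G) = g * t * g⁻¹) ∧ X ≠ ⊥ ∧
    IsCyclic X ∧ (Nat.card X).Coprime p ∧
    ∀ a b : T, a ∈ Subgroup.closure {y : T | ∃ ψ ∈ X, ∃ t : T, y = ψ t * t⁻¹} →
      b ∈ Subgroup.closure {y : T | ∃ ψ ∈ X, ∃ t : T, y = ψ t * t⁻¹} → a ≠ 1 → b ≠ 1 →
      ∃ ψ ∈ X, ψ a = b

/-- Transport of the automorphisms along an isomorphism. -/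
theorem transitive_congr {T : Subgroup G} {T₂ : Subgroup G₂} (e : T ≃* T₂) {X : Subgroup (MulAut T)}
    (hX : ∀ a b : T, a ∈ Subgroup.closure {y : T | ∃ ψ ∈ X, ∃ t : T, y = ψ t * t⁻¹} →
      b ∈ Subgroup.closure {y : T | ∃ ψ ∈ X, ∃ t : T, y = ψ t * t⁻¹} → a ≠ 1 → b ≠ 1 →
      ∃ ψ ∈ X, ψ a = b) :
    ∀ a b : T₂,
      a ∈ Subgroup.closure {y : T₂ | ∃ ψ ∈ X.map (MulAut.congr e).toMonoidHom, ∃ t : T₂, y = ψ t * t⁻¹} →
      b ∈ Subgroup.closure {y : T₂ | ∃ ψ ∈ X.map (MulAut.congr e).toMonoidHom, ∃ t : T₂, y = ψ t * t⁻¹} →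
      a ≠ 1 → b ≠ 1 → ∃ ψ ∈ X.map (MulAut.congr e).toMonoidHom, ψ a = b := by
  intro a b ha hb ha1 hb1
  have key : ∀ a : T₂, a ∈ Subgroup.closure
      {y : T₂ | ∃ ψ ∈ X.map (MulAut.congr e).toMonoidHom, ∃ t : T₂, y = ψ t * t⁻¹} →
      e.symm a ∈ Subgroup.closure {y : T | ∃ ψ ∈ X, ∃ t : T, y = ψ t * t⁻¹} := by
    intro a ha
    refine Subgroup.mem_comap.1 ((Subgroup.closure_le ((Subgroup.closure
      {y : T | ∃ ψ ∈ X, ∃ t : T, y = ψ t * t⁻¹}).comap e.symm.toMonoidHom)).2 ?_ ha)
    rintro y ⟨_, ⟨ψ, hψ, rfl⟩, t, rfl⟩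
    exact Subgroup.subset_closure ⟨ψ, hψ, e.symm t, by simp [MulAut.congr]⟩
  obtain ⟨ψ, hψ, h⟩ := hX _ _ (key a ha) (key b hb) (by simpa using ha1) (by simpa using hb1)
  exact ⟨_, ⟨ψ, hψ, rfl⟩, by simp [MulAut.congr, h]⟩

theorem card_congr_map {T : Subgroup G} {T₂ : Subgroup G₂} (e : T ≃* T₂) (X : Subgroup (MulAut T)) :
    Nat.card ↥(X.map (MulAut.congr e).toMonoidHom) = Nat.card X :=
  Subgroup.card_map_of_injective (MulAut.congr e).injective

theorem HasCyclicAutomizer.map {p : ℕ} {f : G →* G₂} (hf : Function.Injective f) {T : Subgroup G}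
    (h : HasCyclicAutomizer p T) : HasCyclicAutomizer p (T.map f) := by
  obtain ⟨X, hconj, hne, hcyc, hcop, htr⟩ := h
  set e := T.equivMapOfInjective f hf with he
  refine ⟨X.map (MulAut.congr e).toMonoidHom, ?_, ?_, ?_, ?_, transitive_congr e htr⟩
  · rintro _ ⟨ψ, hψ, rfl⟩
    obtain ⟨g, hg⟩ := hconj ψ hψ
    refine ⟨f g, fun t => ?_⟩
    obtain ⟨s, rfl⟩ := e.surjective t
    simp [MulAut.congr, he, hg s]
  · exact fun h0 => hne ((Subgroup.map_eq_bot_iff_of_injective _ (MulAut.congr e).injective).1 h0)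
  · exact isCyclic_of_surjective _ ((MulAut.congr e).toMonoidHom.subgroupMap_surjective X)
  · rwa [card_congr_map]

theorem mem_normalizer_map_iff {f : G →* G₂} (hf : Function.Injective f) (K : Subgroup G) (g : G) :
    f g ∈ Subgroup.normalizer ((K.map f : Subgroup G₂) : Set G₂) ↔
      g ∈ Subgroup.normalizer (K : Set G) := by
  rw [Subgroup.mem_normalizer_iff, Subgroup.mem_normalizer_iff]
  refine ⟨fun h x => ?_, fun h y => ?_⟩
  · have h1 := h (f x)
    rwa [← map_inv, ← map_mul, ← map_mul, Subgroup.mem_map_iff_mem hf,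
      Subgroup.mem_map_iff_mem hf] at h1
  · constructor
    · rintro ⟨x, hx, rfl⟩
      exact ⟨g * x * g⁻¹, (h x).1 hx, by simp⟩
    · rintro ⟨x, hx, e⟩
      exact ⟨g⁻¹ * x * g, (h _).2 (by simpa [mul_assoc] using hx), by simp [e, mul_assoc]⟩

variable [Finite G] {p : ℕ} [Fact p.Prime]

/-- A normal subgroup: its elements of order prime to `p` and its intersection with a Sylow
subgroup generate it. -/
theorem normal_le_of_le {C X : Subgroup G} [C.Normal] (R : Sylow p G)
    (hR : (R : Subgroup G) ⊓ C ≤ X) (hp' : ∀ g ∈ C, Nat.Coprime (orderOf g) p → g ∈ X) : C ≤ X := by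
  suffices h : (X.subgroupOf C).index = 1 by
    exact Subgroup.subgroupOf_eq_top.1 (Subgroup.index_eq_one.1 h)
  by_contra hne
  obtain ⟨r, hr, hdvd⟩ := Nat.exists_prime_and_dvd hne
  by_cases hrp : r = p
  · subst hrp
    have h1 : ((R : Subgroup G).relIndex C).Coprime r := by
      refine coprime_relIndex_of_le_normalizer (L := ⊤) ?_ le_top le_top
        (by rw [Subgroup.normalizer_eq_top_iff.2 (inferInstance : C.Normal)]; exact le_top)
      rw [Subgroup.relIndex_top_right]
      exact ((Nat.Prime.coprime_iff_not_dvd Fact.out).2 R.not_dvd_index).symm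
    refine (Nat.Prime.coprime_iff_not_dvd Fact.out).1 h1.symm ?_
    rw [← Subgroup.inf_relIndex_right]
    exact hdvd.trans (Subgroup.relIndex_dvd_of_le_left C hR)
  · haveI : Fact r.Prime := ⟨hr⟩
    obtain ⟨P⟩ := (inferInstance : Nonempty (Sylow r C))
    refine P.not_dvd_index (hdvd.trans (Subgroup.index_dvd_of_le fun c hc => ?_))
    obtain ⟨k, hk⟩ := P.2 ⟨c, hc⟩
    refine Subgroup.mem_subgroupOf.2 (hp' _ c.2 ?_)
    refine Nat.Coprime.coprime_dvd_left (orderOf_dvd_of_pow_eq_one
      (show (c : G) ^ r ^ k = 1 by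
        have := congrArg Subtype.val hk
        rw [SubmonoidClass.coe_pow, OneMemClass.coe_one] at this
        exact congrArg Subtype.val this)) ?_
    exact ((Nat.coprime_primes hr Fact.out).2 hrp).pow_left k

/-- The product bound for subgroups of a maximal abelian subgroup. -/
theorem card_mul_le {R A V X Y : Subgroup G} (hA : IsMaxAbelian R A) (hVR : V ≤ R)
    [IsMulCommutative V] (hXA : X ≤ A) (hYV : Y ≤ V)
    (hXY : X ≤ Subgroup.centralizer (Y : Set G)) :
    Nat.card X * Nat.card Y ≤ Nat.card A * Nat.card ↥(V ⊓ Subgroup.centralizer (A : Set G)) := by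
  haveI := hA.comm
  rw [← ThompsonJ.card_sup_mul_card_inf X Y (hXY.trans (Subgroup.centralizer_le_normalizer _))]
  refine Nat.mul_le_mul (hA.card_le _ (sup_le (hXA.trans hA.le) (hYV.trans hVR)) ?_)
    (Subgroup.card_le_of_le fun g hg => ⟨hYV hg.2, fun a ha => ?_⟩)
  · refine Subgroup.le_centralizer_iff_isMulCommutative.1 ?_
    rw [ThompsonJ.centralizer_sup']
    exact le_inf (sup_le (hXA.trans (A.le_centralizer.trans (Subgroup.centralizer_le hXA)))
      (Subgroup.le_centralizer_iff.1 hXY))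
      (sup_le hXY (hYV.trans (V.le_centralizer.trans (Subgroup.centralizer_le hYV))))
  · exact (A.le_centralizer (hXA hg.1) a ha)

set_option maxHeartbeats 1000000 in
/-- The case where all proper overgroups of `R` normalize `T`. -/
theorem hasCyclicAutomizer_of_minimal (hp : p ≠ 2) (R : Sylow p G) {Q T : Subgroup G} [Q.Normal]
    (hQ : IsPGroup p Q) (hTQ : T ≤ Q) (hTR : T ≤ Subgroup.centralizer ((R : Subgroup G) : Set G))
    (hJ : Subgroup.normalizer (thompsonSubgroupAOf (R : Subgroup G) : Set G) ≤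
      Subgroup.normalizer (T : Set G))
    (hne : Subgroup.normalizer (T : Set G) ≠ ⊤)
    (hmin : ∀ K : Subgroup G, (R : Subgroup G) ≤ K → K ≠ ⊤ → K ≤ Subgroup.normalizer (T : Set G)) :
    HasCyclicAutomizer p T := by
  classical
  set M := Subgroup.normalizer (T : Set G) with hM
  have hTC : Subgroup.centralizer (T : Set G) ≤ M := Subgroup.centralizer_le_normalizer _
  have hRT : (R : Subgroup G) ≤ Subgroup.centralizer (T : Set G) := Subgroup.le_centralizer_iff.1 hTR
  have hRM : (R : Subgroup G) ≤ M := hRT.trans hTC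
  have hQR : Q ≤ (R : Subgroup G) := (le_pCore inferInstance hQ).trans (pCore_le_sylow R)
  set W : Subgroup G := Subgroup.normalClosure (T : Set G) with hWdef
  have hTW : T ≤ W := Subgroup.le_normalClosure
  have hWQ : W ≤ Q := Subgroup.normalClosure_le_normal hTQ
  have hWCQ : W ≤ Subgroup.centralizer (Q : Set G) :=
    Subgroup.normalClosure_le_normal (hTR.trans (Subgroup.centralizer_le hQR))
  haveI hWc : IsMulCommutative W :=
    Subgroup.le_centralizer_iff_isMulCommutative.1 (hWCQ.trans (Subgroup.centralizer_le hWQ))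
  letI : CommGroup W :=
    { (inferInstance : Group W) with mul_comm := fun a b => hWc.is_comm.comm a b }
  have hWR : W ≤ (R : Subgroup G) := hWQ.trans hQR
  have hWp : ∀ w : Additive W, ∃ k : ℕ, p ^ k • w = 0 := fun w => by
    obtain ⟨k, hk⟩ := R.2 ⟨_, hWR (Additive.toMul w).2⟩
    refine ⟨k, congrArg Additive.ofMul (Subtype.ext ?_ : (Additive.toMul w) ^ p ^ k = 1)⟩
    simpa using congrArg Subtype.val hk
  -- the elements of order dividing `p` of `W`
  let Vs : Subgroup G :=
    { carrier := {x | x ∈ W ∧ x ^ p = 1}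
      one_mem' := ⟨W.one_mem, one_pow p⟩
      mul_mem' := fun {a b} ha hb => ⟨W.mul_mem ha.1 hb.1, by
        rw [Commute.mul_pow (show Commute a b from
          congrArg Subtype.val (hWc.is_comm.comm ⟨a, ha.1⟩ ⟨b, hb.1⟩)), ha.2, hb.2, one_mul]⟩
      inv_mem' := fun {a} ha => ⟨W.inv_mem ha.1, by rw [inv_pow, ha.2, inv_one]⟩ }
  haveI hVn : Vs.Normal := ⟨fun x hx g => ⟨(inferInstance : W.Normal).conj_mem x hx.1 g, by
    rw [conj_pow, hx.2, mul_one, mul_inv_cancel]⟩⟩
  have hVW : Vs ≤ W := fun x hx => hx.1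
  haveI hVc : IsMulCommutative Vs := Subgroup.le_centralizer_iff_isMulCommutative.1
    (hVW.trans (W.le_centralizer.trans (Subgroup.centralizer_le hVW)))
  -- the action on `W`
  let θ : G →* MulAut W := MulAut.conjNormal
  let π : G →* θ.range := θ.rangeRestrict
  have hπs : Function.Surjective π := θ.rangeRestrict_surjective
  letI : DistribMulAction θ.range (Additive W) :=
    { smul := fun h w => Additive.ofMul ((h : MulAut W) (Additive.toMul w))
      one_smul := fun _ => rfl
      mul_smul := fun _ _ _ => rfl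
      smul_zero := fun h => congrArg Additive.ofMul (map_one (h : MulAut W))
      smul_add := fun h _ _ => congrArg Additive.ofMul (map_mul (h : MulAut W) _ _) }
  have hact : ∀ (g : G) (w : Additive W),
      ((Additive.toMul (π g • w) : W) : G) = g * (Additive.toMul w : W) * g⁻¹ := fun g w =>
    MulAut.conjNormal_apply g _
  have hker : ∀ g : G, π g = 1 ↔ g ∈ Subgroup.centralizer (W : Set G) := by
    intro g
    rw [Subgroup.mem_centralizer_iff]
    constructor
    · intro e w hw
      have h1 := hact g (Additive.ofMul ⟨w, hw⟩)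
      rw [e, one_smul] at h1
      simp only [toMul_ofMul] at h1
      conv_lhs => rw [h1]
      rw [inv_mul_cancel_right]
    · intro h
      refine Subtype.ext (MulEquiv.ext fun w => Subtype.ext ?_)
      show ((θ g w : W) : G) = w
      rw [MulAut.conjNormal_apply, ← h w w.2, mul_inv_cancel_right]
  set C : Subgroup G := Subgroup.centralizer (Vs : Set G) with hC
  haveI hCn : C.Normal := inferInstance
  have hCT : C ≤ Subgroup.centralizer (T : Set G) := by
    refine normal_le_of_le R (inf_le_left.trans hRT) fun g hg hg' => ?_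
    refine Subgroup.centralizer_le hTW ((hker g).1 (Subtype.ext (MulEquiv.ext fun w => ?_)))
    have hfix : ∀ y ∈ (⊤ : AddSubgroup (Additive W)), p • y = 0 → π g • y = y := by
      intro y _ hy
      refine Additive.toMul.injective (Subtype.ext ?_)
      rw [hact]
      have hyV : ((Additive.toMul y : W) : G) ∈ Vs := ⟨(Additive.toMul y).2, by
        have := congrArg (fun z : Additive W => ((Additive.toMul z : W) : G)) hy
        simpa using this⟩
      rw [← hg _ hyV, mul_inv_cancel_right]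
    exact congrArg Additive.toMul (smul_eq_of_coprime hWp (g := π g) (m := orderOf g)
      (by rw [← map_pow, pow_orderOf_eq_one, map_one]) hg' (fun _ _ => AddSubgroup.mem_top _) hfix
      (Additive.ofMul w) (AddSubgroup.mem_top _))
  have hCW : C ≤ Subgroup.centralizer (W : Set G) :=
    Subgroup.le_centralizer_iff.1 (Subgroup.normalClosure_le_normal (Subgroup.le_centralizer_iff.1 hCT))
  have hkerC : ∀ g : G, π g = 1 ↔ g ∈ C := fun g =>
    (hker g).trans ⟨fun h => Subgroup.centralizer_le hVW h, fun h => hCW h⟩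
  have hCM : C ≤ M := hCT.trans hTC
  have hkerM : π.ker ≤ M := fun g hg => hCM ((hkerC g).1 hg)
  -- `J(R)` is not in `C`
  have hJC : ¬ thompsonSubgroupAOf (R : Subgroup G) ≤ C := by
    intro hle
    set D := (R : Subgroup G) ⊓ C with hD
    have hDp : IsPGroup p ↥(D.subgroupOf C) := (R.2.to_le inf_le_left).comap_subtype
    have hidx : ¬ p ∣ (D.subgroupOf C).index := by
      have e : (D.subgroupOf C).index = (R : Subgroup G).relIndex C := Subgroup.inf_relIndex_right _ _
      rw [e]
      refine (Nat.Prime.coprime_iff_not_dvd Fact.out).1 (Nat.Coprime.symm ?_)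
      refine coprime_relIndex_of_le_normalizer (L := ⊤) ?_ le_top le_top
        (by rw [Subgroup.normalizer_eq_top_iff.2 hCn]; exact le_top)
      rw [Subgroup.relIndex_top_right]
      exact ((Nat.Prime.coprime_iff_not_dvd Fact.out).2 R.not_dvd_index).symm
    have hfr := Sylow.normalizer_sup_eq_top (hDp.toSylow hidx)
    rw [show ((hDp.toSylow hidx : Sylow p C) : Subgroup C).map C.subtype = D from
      Subgroup.map_subgroupOf_eq_of_le inf_le_right] at hfr
    refine hne (top_le_iff.1 (hfr ▸ sup_le ?_ hCM))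
    refine le_trans ?_ hJ
    rw [← thompsonSubgroupAOf_eq_of_le (inf_le_left : D ≤ (R : Subgroup G))
      (le_inf (thompsonSubgroupAOf_le _) hle)]
    exact normalizer_le_normalizer_thompsonSubgroupAOf D
  obtain ⟨A, hA, hAC⟩ : ∃ A, IsMaxAbelian (R : Subgroup G) A ∧ ¬ A ≤ C := by
    by_contra hc
    push Not at hc
    exact hJC (thompsonSubgroupAOf_le_iff.2 hc)
  haveI := hA.comm
  have hVR : Vs ≤ (R : Subgroup G) := hVW.trans hWR
  have hnV : ∀ X : Subgroup G, X ≤ Subgroup.normalizer (Vs : Set G) := fun X => by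
    rw [Subgroup.normalizer_eq_top_iff.2 hVn]; exact le_top
  set CA := Vs ⊓ Subgroup.centralizer (A : Set G) with hCA
  -- replacement
  set W1 : Subgroup G := ⁅Vs, A⁆ with hW1
  set A1 : Subgroup G := A ⊓ Subgroup.centralizer (W1 : Set G) with hA1
  obtain ⟨hfix1, hcard1⟩ := ThompsonJ.replacement_of_max (p := p) (V := Vs) (A := A)
    ⟨hVc, fun a ha => ha.2⟩ (hnV A)
    (by rw [Subgroup.commutator_eq_bot_iff_le_centralizer.2 A.le_centralizer]; exact bot_le)
    (fun B hB => card_mul_le hA hVR hB inf_le_left (Subgroup.le_centralizer_iff.1 inf_le_right))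
    (U := Vs) le_rfl
  rw [← hW1, ← hA1, ← hCA] at hfix1 hcard1
  have hW1V : W1 ≤ Vs := Subgroup.commutator_le_left Vs A
  have hA1C : ¬ A1 ≤ C := by
    intro hle
    rw [inf_eq_left.2 (Subgroup.le_centralizer_iff.1 (hle : A1 ≤ _))] at hfix1
    have hsub : W1 ≤ ⁅W1, A⁆ := by
      refine Subgroup.commutator_le.2 fun v hv a ha => ?_
      have hn : W1 ≤ Subgroup.normalizer (CA : Set G) := hW1V.trans ((Vs.le_centralizer.trans
        (Subgroup.centralizer_le inf_le_left)).trans (Subgroup.centralizer_le_normalizer _))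
      have hv' : v ∈ W1 ⊔ CA := hfix1 ▸ hv
      rw [← SetLike.mem_coe, Subgroup.coe_mul_of_left_le_normalizer_right _ _ hn] at hv'
      obtain ⟨w, hw, c, hc, rfl⟩ := hv'
      have e : ⁅w * c, a⁆ = ⁅w, a⁆ := by
        rw [commutatorElement_def, commutatorElement_def, mul_assoc w c a, ← hc.2 a ha]
        group
      rw [e]
      exact Subgroup.commutator_mem_commutator hw ha
    have hbot : W1 = ⊥ := by
      refine ThompsonJ.eq_bot_of_le_commutator (p := p) (A := A) (R.2.to_le (hW1V.trans hVR))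
        (fun a ha => LLemma.mem_normalizer_of_conj_le ?_) (fun a ha => ?_) hsub
      · rw [hW1]
        show Subgroup.map (MulAut.conj a).toMonoidHom ⁅Vs, A⁆ ≤ _
        rw [Subgroup.map_commutator]
        exact Subgroup.commutator_mono (LLemma.conj_eq_of_mem_normalizer (hnV A ha)).le
          (LLemma.conj_eq_of_mem_normalizer (Subgroup.le_normalizer ha)).le
      · obtain ⟨k, hk⟩ := R.2 ⟨a, hA.le ha⟩
        exact ⟨k, by rw [show a ^ p ^ k = 1 by simpa using congrArg Subtype.val hk]; exact one_mem _⟩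
    exact hAC (Subgroup.le_centralizer_iff.1
      (Subgroup.commutator_eq_bot_iff_le_centralizer.1 hbot))
  have hoff : Nat.card Vs * Nat.card ↥(A1 ⊓ C) ≤
      Nat.card A1 * Nat.card ↥(Vs ⊓ Subgroup.centralizer (A1 : Set G)) := by
    rw [← hcard1, mul_comm]
    exact card_mul_le hA hVR (inf_le_left.trans inf_le_left) le_rfl inf_le_right
  -- the module
  set V := omega (Additive W) p with hV
  have hmemV : ∀ w : Additive W, w ∈ V ↔ ((Additive.toMul w : W) : G) ∈ Vs := by
    intro w
    constructor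
    · intro h
      refine ⟨(Additive.toMul w).2, ?_⟩
      simpa using congrArg (fun z : Additive W => ((Additive.toMul z : W) : G)) (mem_omega.1 h)
    · intro h
      refine mem_omega.2 (Additive.toMul.injective (Subtype.ext ?_))
      simpa using h.2
  set P : Sylow p θ.range := R.mapSurjective hπs with hP
  have hPmem : ∀ x ∈ (P : Subgroup θ.range), ∃ r ∈ (R : Subgroup G), π r = x := fun x hx => hx
  set Mb : Subgroup θ.range := M.map π with hMb
  have hcomap : Mb.comap π = M := Subgroup.comap_map_eq_self hkerM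
  have hMbtop : Mb ≠ ⊤ := fun e => hne (by rw [← hcomap, e, Subgroup.comap_top])
  have hover : ∀ N : Subgroup θ.range, (P : Subgroup θ.range) ≤ N → N ≠ ⊤ → N ≤ Mb := by
    intro N hN hN'
    rw [← Subgroup.map_comap_eq_self_of_surjective hπs N]
    refine Subgroup.map_mono (hmin _ (fun r hr => hN ⟨r, hr, rfl⟩) fun e => hN' ?_)
    rw [← Subgroup.map_comap_eq_self_of_surjective hπs N, e, Subgroup.map_top_of_surjective π hπs]
  have hPMb : (P : Subgroup θ.range) ≤ Mb := fun x hx => by
    obtain ⟨r, hr, rfl⟩ := hPmem x hx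
    exact ⟨r, hRM hr, rfl⟩
  have hcore : Cfsg.pCore p θ.range = ⊥ := by
    set N := (Cfsg.pCore p θ.range).comap π with hN
    haveI hNn : N.Normal := (pCore_spec (G := θ.range) (p := p)).1.comap π
    have hNT : N ≤ Subgroup.centralizer (T : Set G) := by
      intro g hg
      obtain ⟨r, hr, e⟩ := hPmem _ (pCore_le_sylow P hg)
      have h1 : r⁻¹ * g ∈ C := (hkerC _).1 (by rw [map_mul, map_inv, e, inv_mul_cancel])
      simpa using Subgroup.mul_mem _ (hRT hr) (hCT h1)
    have hNW : N ≤ Subgroup.centralizer (W : Set G) := Subgroup.le_centralizer_iff.1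
      (Subgroup.normalClosure_le_normal (Subgroup.le_centralizer_iff.1 hNT))
    refine (Subgroup.eq_bot_iff_forall _).2 fun x hx => ?_
    obtain ⟨g, rfl⟩ := hπs x
    exact (hker g).2 (hNW hx)
  have hbase : Base p P Mb V := by
    refine ⟨fun x hx => ?_, fun v => Subtype.ext (mem_omega.1 v.2), ⟨hMbtop, fun N hN => ?_⟩, hPMb,
      fun N hN hPN => ?_, fun hn => ?_, hcore⟩
    · obtain ⟨g, rfl⟩ := hπs x
      refine (hkerC g).2 (Subgroup.mem_centralizer_iff.2 fun v hv => ?_)
      have h1 := hx ⟨Additive.ofMul ⟨v, hVW hv⟩, (hmemV _).2 hv⟩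
      have h2 : ((Additive.toMul (π g • Additive.ofMul (⟨v, hVW hv⟩ : W)) : W) : G) = v := by
        rw [show π g • Additive.ofMul (⟨v, hVW hv⟩ : W) = Additive.ofMul (⟨v, hVW hv⟩ : W) from
          congrArg Subtype.val h1]
        rfl
      rw [hact] at h2
      simp only [toMul_ofMul] at h2
      conv_lhs => rw [← h2]
      rw [inv_mul_cancel_right]
    · by_contra hN'
      exact hN.not_ge (hover N (hPMb.trans hN.le) hN')
    · exact (lt_or_eq_of_le (hover N hPN hN.1)).resolve_left fun hlt => hMbtop (hN.2 _ hlt)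
    · have h1 := le_pCore hn P.2
      rw [hcore] at h1
      refine hJC ((thompsonSubgroupAOf_le _).trans fun r hr => (hkerC r).1 ?_)
      exact Subgroup.mem_bot.1 (h1 ⟨r, hr, rfl⟩)
  -- the offender
  set Ab : Subgroup θ.range := A1.map π with hAb
  have hAb0 : Ab ≠ ⊥ := fun e => hA1C fun a ha => (hkerC a).1
    (Subgroup.mem_bot.1 (e ▸ Subgroup.mem_map_of_mem π ha))
  have hfixAb : ∀ v : V, v ∈ fixedSub Ab ↔
      ((Additive.toMul (v : Additive W) : W) : G) ∈ Subgroup.centralizer (A1 : Set G) := by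
    intro v
    rw [Subgroup.mem_centralizer_iff]
    constructor
    · intro hv a ha
      have h1 := hact a (v : Additive W)
      rw [show π a • (v : Additive W) = (v : Additive W) from
        congrArg Subtype.val (hv (π a) (Subgroup.mem_map_of_mem π ha))] at h1
      conv_rhs => rw [h1]
      rw [inv_mul_cancel_right]
    · rintro hv _ ⟨a, ha, rfl⟩
      refine Subtype.ext (Additive.toMul.injective (Subtype.ext ?_))
      rw [coe_smul_omega, hact, hv a ha, mul_inv_cancel_right]
  have hAbq : IsQuad p Ab V := by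
    refine ⟨(R.2.to_le (inf_le_left.trans hA.le)).map π, ?_⟩
    rintro _ ⟨a, ha, rfl⟩ v
    rw [hfixAb]
    refine Subgroup.le_centralizer_iff.1 (inf_le_right : A1 ≤ _) ?_
    have hval : ((Additive.toMul ((π a • v - v : V) : Additive W) : W) : G) =
        ⁅a, ((Additive.toMul (v : Additive W) : W) : G)⁆ := by
      rw [AddSubgroup.coe_sub, toMul_sub, Subgroup.coe_div, coe_smul_omega, hact,
        commutatorElement_def, div_eq_mul_inv]
    rw [hval, ← commutatorElement_inv]
    exact inv_mem (Subgroup.commutator_mem_commutator ((hmemV _).1 v.2) ha.1)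
  have hmu : Nat.card V ≤ mu Ab V := by
    have e1 : Nat.card V = Nat.card Vs := Nat.card_congr
      { toFun := fun v => ⟨_, (hmemV _).1 v.2⟩
        invFun := fun x => ⟨Additive.ofMul ⟨(x : G), hVW x.2⟩, (hmemV _).2 x.2⟩
        left_inv := fun v => rfl
        right_inv := fun x => rfl }
    have e2 : Nat.card (fixedSub Ab : AddSubgroup V) =
        Nat.card ↥(Vs ⊓ Subgroup.centralizer (A1 : Set G)) := Nat.card_congr
      { toFun := fun v => ⟨_, (hmemV _).1 v.1.2, (hfixAb _).1 v.2⟩
        invFun := fun x => ⟨⟨Additive.ofMul ⟨(x : G), hVW x.2.1⟩, (hmemV _).2 x.2.1⟩,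
          (hfixAb _).2 x.2.2⟩
        left_inv := fun v => rfl
        right_inv := fun x => rfl }
    have e3 : Nat.card Ab * Nat.card ↥(A1 ⊓ C) = Nat.card A1 := by
      have hk : π.ker = C := by ext g; exact hkerC g
      rw [hAb, ← Subgroup.relIndex_ker π (K := A1), hk, ← Subgroup.inf_relIndex_left,
        ← Subgroup.relIndex_bot_left, mul_comm,
        Subgroup.relIndex_mul_relIndex _ _ _ bot_le inf_le_left, Subgroup.relIndex_bot_left]
    rw [mu, e1, e2]
    refine Nat.le_of_mul_le_mul_right (hoff.trans (le_of_eq ?_)) (Nat.card_pos (α := ↥(A1 ⊓ C)))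
    rw [← e3]
    ring
  -- the setting
  have hset : Setting p P Mb V := by
    refine ⟨hbase, fun x hx => ?_⟩
    by_contra hcon
    push Not at hcon
    let St : Subgroup θ.range := ⨅ v ∈ (fixedSub (P : Subgroup θ.range) : AddSubgroup V),
      MulAction.stabilizer θ.range v
    have hmemSt : ∀ g, g ∈ St ↔ ∀ v ∈ (fixedSub (P : Subgroup θ.range) : AddSubgroup V), g • v = v := by
      intro g
      simp [St, Subgroup.mem_iInf, MulAction.mem_stabilizer_iff]
    refine hx (hover St (fun g hg => (hmemSt g).2 fun v hv => hv g hg) (fun e => ?_) ((hmemSt x).2 hcon))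
    obtain ⟨v, hv, g, hg⟩ := exists_moved hbase hAbq hAb0 hmu
    exact hg ((hmemSt g).1 (e ▸ Subgroup.mem_top g) v hv)
  have hμ := le_antisymm (noOver hset Ab hAbq) hmu
  obtain ⟨B, -, hB⟩ := exists_min hAbq hAb0 hμ
  obtain ⟨F, hF, hF', Rp, g, hBg, hEg⟩ := exists_rootPair_not_le hset hB
  -- `T` inside the module
  set TA : AddSubgroup (Additive W) := Subgroup.toAddSubgroup (T.subgroupOf W) with hTA
  have hTA' : ∀ w : Additive W, w ∈ TA ↔ ((Additive.toMul w : W) : G) ∈ T := fun w => Iff.rfl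
  let Tg : AddSubgroup (Additive W) := TA.comap (DistribSMul.toAddMonoidHom _ g⁻¹)
  have hTg : ∀ w, w ∈ Tg ↔ g⁻¹ • w ∈ TA := fun w => Iff.rfl
  have hPT : ∀ x ∈ (P : Subgroup θ.range), ∀ t ∈ TA, x • t = t := by
    intro x hx t ht
    obtain ⟨r, hr, rfl⟩ := hPmem x hx
    refine Additive.toMul.injective (Subtype.ext ?_)
    rw [hact, ← Subgroup.mem_centralizer_iff.1 (hRT hr) _ ((hTA' t).1 ht), mul_inv_cancel_right]
  have hMT : ∀ x ∈ Mb, ∀ t ∈ TA, x • t ∈ TA := by
    rintro _ ⟨m, hm, rfl⟩ t ht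
    rw [hTA', hact]
    exact (Subgroup.mem_normalizer_iff.1 hm _).1 ((hTA' t).1 ht)
  have hTM : ∀ x : θ.range, (∀ t ∈ TA, x • t = t) → x ∈ Mb := by
    intro x hx
    obtain ⟨m, rfl⟩ := hπs x
    refine Subgroup.mem_map_of_mem π (hTC (Subgroup.mem_centralizer_iff.2 fun t ht => ?_))
    have h1 := hact m (Additive.ofMul ⟨t, hTW ht⟩)
    rw [hx (Additive.ofMul ⟨t, hTW ht⟩) ((hTA' (Additive.ofMul ⟨t, hTW ht⟩)).2 ht)] at h1
    simp only [toMul_ofMul] at h1
    conv_lhs => rw [h1]
    rw [inv_mul_cancel_right]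
  have hgfix : ∀ (x : θ.range) (t : Additive W), g⁻¹ • x • t = (g⁻¹ * x * g) • g⁻¹ • t := by
    intro x t
    rw [← mul_smul, ← mul_smul, mul_inv_cancel_right]
  obtain ⟨hcop, hcyc, f, hfT, ⟨l₀, t₀, ht₀, hl₀⟩, K, hfK, htr⟩ :=
    exists_torus_automizer (W := Additive W) hp hWp (hset.conj g) Tg
      (fun x hx t ht => by
        rw [Sylow.coe_subgroup_smul] at hx
        obtain ⟨y, hy, rfl⟩ := (Subgroup.mem_smul_pointwise_iff_exists _ _ _).1 hx
        refine smul_left_cancel g⁻¹ ?_
        rw [show (MulAut.conj g • y : θ.range) = g * y * g⁻¹ from rfl, hgfix,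
          show g⁻¹ * (g * y * g⁻¹) * g = y by group]
        exact hPT y hy _ ((hTg t).1 ht))
      (fun x hx t ht => by
        obtain ⟨y, hy, rfl⟩ := (Subgroup.mem_smul_pointwise_iff_exists _ _ _).1 hx
        rw [hTg, show (MulAut.conj g • y : θ.range) = g * y * g⁻¹ from rfl, hgfix,
          show g⁻¹ * (g * y * g⁻¹) * g = y by group]
        exact hMT y hy _ ((hTg t).1 ht))
      (fun x hx => by
        refine (Subgroup.mem_smul_pointwise_iff_exists _ _ _).2 ⟨g⁻¹ * x * g, hTM _ fun t ht => ?_,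
          show g * (g⁻¹ * x * g) * g⁻¹ = x by group⟩
        rw [mul_smul, mul_smul, hx (g • t) ((hTg _).2 (by rwa [inv_smul_smul])), inv_smul_smul])
      hB (by rw [Sylow.coe_subgroup_smul]; exact hBg) Rp hEg
  -- back to `T`
  let h : Fˣ →* θ.range := (MulAut.conj g⁻¹).toMonoidHom.comp f
  have hh : ∀ (l : Fˣ) (t : Additive W), h l • t = g⁻¹ • f l • g • t := fun l t => by
    show (g⁻¹ * f l * (g⁻¹)⁻¹) • t = _
    rw [inv_inv, mul_smul, mul_smul]
  have hhT : ∀ l, ∀ t ∈ TA, h l • t ∈ TA := fun l t ht => by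
    rw [hh]
    exact (hTg _).1 (hfT l _ ((hTg _).2 (by rwa [inv_smul_smul])))
  let ι : T →* W := Subgroup.inclusion hTW
  let toA : T → Additive W := fun t => Additive.ofMul (ι t)
  have htoA : ∀ t, toA t ∈ TA := fun t => (hTA' _).2 t.2
  let sub : Fˣ → T → T := fun l t =>
    ⟨((Additive.toMul (h l • toA t) : W) : G), (hTA' _).1 (hhT l _ (htoA t))⟩
  have hsub : ∀ l t, toA (sub l t) = h l • toA t := fun l t => rfl
  have htoAinj : Function.Injective toA := fun a b e =>
    Subgroup.inclusion_injective hTW (Additive.ofMul.injective e)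
  have hsubmul : ∀ l m t, sub (l * m) t = sub l (sub m t) := fun l m t => htoAinj (by
    rw [hsub, hsub, hsub, map_mul, mul_smul])
  have hsubone : ∀ t, sub 1 t = t := fun t => htoAinj (by rw [hsub, map_one, one_smul])
  let φ : Fˣ →* MulAut T :=
    { toFun := fun l =>
        { toFun := sub l
          invFun := sub l⁻¹
          left_inv := fun t => by rw [← hsubmul, inv_mul_cancel, hsubone]
          right_inv := fun t => by rw [← hsubmul, mul_inv_cancel, hsubone]
          map_mul' := fun a b => htoAinj (by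
            rw [hsub]
            show h l • (toA a + toA b) = toA (sub l a) + toA (sub l b)
            rw [smul_add, hsub, hsub]) }
      map_one' := MulEquiv.ext fun t => hsubone t
      map_mul' := fun l m => MulEquiv.ext fun t => hsubmul l m t }
  have hφ : ∀ l t, toA (φ l t) = h l • toA t := hsub
  refine ⟨φ.range, ?_, ?_, ?_, ?_, ?_⟩
  · rintro _ ⟨l, rfl⟩
    obtain ⟨m, hm⟩ := hπs (h l)
    refine ⟨m, fun t => ?_⟩
    show ((Additive.toMul (h l • toA t) : W) : G) = _
    rw [← hm, hact]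
    rfl
  · intro e
    refine hl₀ (smul_left_cancel g⁻¹ ?_)
    have h0 : (g⁻¹ • t₀ : Additive W) = toA ⟨_, (hTA' _).1 ((hTg t₀).1 ht₀)⟩ := rfl
    have h1 : φ l₀ = 1 := Subgroup.mem_bot.1 (e ▸ ⟨l₀, rfl⟩)
    have h2 := hφ l₀ ⟨_, (hTA' _).1 ((hTg t₀).1 ht₀)⟩
    rw [h1, MulAut.one_apply, ← h0, hh, smul_inv_smul] at h2
    exact h2.symm
  · exact isCyclic_of_surjective φ.rangeRestrict φ.rangeRestrict_surjective
  · exact hcop.coprime_dvd_left (Subgroup.card_range_dvd φ)
  · let K' : Subgroup T :=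
      { carrier := {t | g • toA t ∈ K}
        one_mem' := by
          show g • toA 1 ∈ K
          rw [show toA 1 = 0 from rfl, smul_zero]; exact zero_mem _
        mul_mem' := fun {a b} ha hb => by
          show g • toA (a * b) ∈ K
          rw [show toA (a * b) = toA a + toA b from rfl, smul_add]; exact add_mem ha hb
        inv_mem' := fun {a} ha => by
          show g • toA a⁻¹ ∈ K
          rw [show toA a⁻¹ = -toA a from rfl, smul_neg]; exact neg_mem ha }
    have hle : Subgroup.closure {y : T | ∃ ψ ∈ φ.range, ∃ t : T, y = ψ t * t⁻¹} ≤ K' := by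
      rw [Subgroup.closure_le]
      rintro _ ⟨_, ⟨l, rfl⟩, t, rfl⟩
      show g • toA (φ l t * t⁻¹) ∈ K
      rw [show toA (φ l t * t⁻¹) = toA (φ l t) - toA t from (sub_eq_add_neg (toA (φ l t)) (toA t)).symm, hφ, hh,
        smul_sub, smul_inv_smul]
      exact hfK l _ ((hTg _).2 (by rw [inv_smul_smul]; exact htoA t))
    intro a b ha hb ha1 hb1
    have hne' : ∀ t : T, t ≠ 1 → g • toA t ≠ 0 := fun t ht e =>
      ht (htoAinj ((smul_eq_zero_iff_eq g).1 e))
    obtain ⟨l, hl⟩ := htr _ (hle ha) _ (hle hb) (hne' a ha1) (hne' b hb1)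
    refine ⟨φ l, ⟨l, rfl⟩, htoAinj ?_⟩
    rw [hφ, hh, hl, inv_smul_smul]

/-- **The group theorem.** -/
theorem hasCyclicAutomizer (hp : p ≠ 2) (R : Sylow p G) {Q T : Subgroup G} [Q.Normal]
    (hQ : IsPGroup p Q) (hTQ : T ≤ Q) (hTR : T ≤ Subgroup.centralizer ((R : Subgroup G) : Set G))
    (hJ : Subgroup.normalizer (thompsonSubgroupAOf (R : Subgroup G) : Set G) ≤
      Subgroup.normalizer (T : Set G))
    (hne : Subgroup.normalizer (T : Set G) ≠ ⊤) : HasCyclicAutomizer p T := by
  obtain ⟨L, ⟨hRL, hLT⟩, hLmin⟩ := Set.Finite.exists_minimal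
    (s := {L : Subgroup G | (R : Subgroup G) ≤ L ∧ ¬ L ≤ Subgroup.normalizer (T : Set G)})
    (Set.toFinite _) ⟨⊤, le_top, fun e => hne (top_le_iff.1 e)⟩
  have hQR : Q ≤ (R : Subgroup G) := (le_pCore inferInstance hQ).trans (pCore_le_sylow R)
  have hTL : T ≤ L := (hTQ.trans hQR).trans hRL
  have hmT : (T.subgroupOf L).map L.subtype = T := Subgroup.map_subgroupOf_eq_of_le hTL
  have hnT : ∀ x : L, x ∈ Subgroup.normalizer ((T.subgroupOf L : Subgroup L) : Set L) ↔
      (x : G) ∈ Subgroup.normalizer (T : Set G) := fun x => by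
    rw [← mem_normalizer_map_iff L.subtype_injective, hmT]
    rfl
  rw [← hmT]
  refine HasCyclicAutomizer.map L.subtype_injective
    (hasCyclicAutomizer_of_minimal hp (R.subtype hRL) (Q := Q.subgroupOf L) ?_ ?_ ?_ ?_ ?_ ?_)
  · exact hQ.comap_subtype
  · exact Subgroup.comap_mono hTQ
  · intro t ht x hx
    exact Subtype.ext (hTR ht x hx)
  · intro x hx
    rw [hnT]
    refine hJ ?_
    have e := map_thompsonSubgroupAOf L.subtype_injective ((R.subtype hRL : Sylow p L) : Subgroup L)
    rw [Sylow.coe_subtype, Subgroup.map_subgroupOf_eq_of_le hRL] at e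
    rw [Sylow.coe_subtype, ← mem_normalizer_map_iff L.subtype_injective, e] at hx
    exact hx
  · intro e
    exact hLT fun x hx => (hnT ⟨x, hx⟩).1 (e ▸ Subgroup.mem_top _)
  · intro K hK hK' x hx
    rw [hnT]
    by_contra hxT
    have hRK : (R : Subgroup G) ≤ K.map L.subtype := by
      rw [← Subgroup.map_subgroupOf_eq_of_le hRL]
      exact Subgroup.map_mono hK
    have h1 := hLmin ⟨hRK, fun hle => hxT (hle ⟨x, hx, rfl⟩)⟩ (Subgroup.map_subtype_le K)
    refine hK' (top_le_iff.1 fun y _ => ?_)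
    obtain ⟨k, hk, e⟩ := h1 y.2
    exact (Subtype.ext e : k = y) ▸ hk

end CfsgLib.FusionModels.CentralAutomizer
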