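/-
A saturated fusion system on a 2-group in which every element is conjugate to a central one lives on
an abelian group.
-/
import Cfsg.Agent.Lib.Alperin.Theorem
import Cfsg.Agent.Lib.FusionModels.NormalTests

set_option autoImplicit false
set_option linter.style.haveILetI false

namespace CfsgLib.FusionModels.CentralConj2

open Cfsg Cfsg.FusionSystem CfsgLib.Alperin

variable {Ω : Type*} [Group Ω] {S : Subgroup Ω} [Finite S] [Fact (Nat.Prime 2)]

/-- A map between central subgroups extends to `S`. -/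
theorem exists_aut_extending (hS : IsPGroup 2 S) {F : FusionSystem S} (hF : F.IsSaturated 2)
    {P : Subgroup Ω} {χ : P →* Ω} (hχ : χ ∈ F.Hom P)
    (hP : ∀ x : P, ∀ g ∈ S, g * (x : Ω) = x * g) (hQ : ∀ x : P, ∀ g ∈ S, g * χ x = χ x * g) :
    ∃ θ ∈ F.autGroup S, ∀ (x : Ω) (hx : x ∈ P) (hxS : x ∈ S),
      ((θ ⟨x, hxS⟩ : S) : Ω) = χ ⟨x, hx⟩ := by
  have hnormal : ∀ R : Subgroup Ω, (∀ x ∈ R, ∀ g ∈ S, g * x = x * g) →
      ∀ g ∈ S, g ∈ Subgroup.normalizer (R : Set Ω) := fun R hR g hg =>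
    Subgroup.centralizer_le_normalizer _
      (Subgroup.mem_centralizer_iff.2 fun x hx => (hR x hx g hg).symm)
  have hQn : F.IsFullyNormalized χ.range := by
    refine ⟨range_le hχ, fun R _ => ?_⟩
    rw [show normalizerIn S χ.range = S from le_antisymm (normalizerIn_le S _) fun g hg =>
      ⟨hg, hnormal _ (by rintro _ ⟨x, rfl⟩; exact hQ x) g hg⟩]
    exact Subgroup.card_le_of_le (normalizerIn_le S R)
  have hext : extender S P χ = S := le_antisymm (extender_le P χ) fun g hg => mem_extender_iff.2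
    ⟨hg, hnormal P (fun x hx => hP ⟨x, hx⟩) g hg, g, hg, fun x hx => by
      rw [hQ x g hg, mul_inv_cancel_right]
      exact congrArg χ (Subtype.ext (show g * (x : Ω) * g⁻¹ = x by
        rw [hP x g hg, mul_inv_cancel_right]))⟩
  obtain ⟨ψ, hψ, hψx⟩ := (receptive_of_fullyNormalized hS hF hQn).2 P χ hχ rfl
  obtain ⟨θ, hθ, hθx⟩ := exists_aut_of_hom' F (restrict_mem hψ hext.ge) fun x => apply_mem hψ _
  exact ⟨θ, hθ, fun x hx hxS => (hθx _).trans (hψx x hx (hext.ge hxS))⟩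

/-- In such a system a real element is an involution. -/
theorem sq_eq_one_of_real (hS : IsPGroup 2 S) {F : FusionSystem S} (hF : F.IsSaturated 2)
    (h : ∀ x ∈ S, ∃ z ∈ S ⊓ Subgroup.centralizer (S : Set Ω), F.IsConjElt x z)
    {x y : Ω} (hx : x ∈ S) (hy : y ∈ S) (hxy : y * x * y⁻¹ = x⁻¹) : x ^ 2 = 1 := by
  obtain ⟨z, ⟨hzS, hzC⟩, φ, hφ, hφx⟩ := h x hx
  have hzc : ∀ g ∈ S, g * z = z * g := fun g hg => Subgroup.mem_centralizer_iff.1 hzC g hg
  have hzpc : ∀ t ∈ Subgroup.zpowers z, ∀ g ∈ S, g * t = t * g := by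
    rintro _ ⟨k, rfl⟩ g hg
    exact ((show Commute g z from hzc g hg).zpow_right k).eq
  have hzr : φ.range = Subgroup.zpowers z := by
    rw [← hφx]
    refine le_antisymm ?_ (Subgroup.zpowers_le.2 ⟨_, rfl⟩)
    rintro _ ⟨⟨_, k, rfl⟩, rfl⟩
    exact ⟨k, (map_zpow φ _ k).symm.trans (congrArg φ (Subtype.ext (by simp)))⟩
  obtain ⟨φ', hφ', -, hφ'1, -⟩ := exists_inverse hφ hzr
  have hφ'z : φ' ⟨z, Subgroup.mem_zpowers z⟩ = x := by
    have := hφ'1 ⟨x, Subgroup.mem_zpowers x⟩ (hφx ▸ Subgroup.mem_zpowers z)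
    simpa [hφx] using this
  have hφ'm : ∀ t : Subgroup.zpowers z, φ' t ∈ Subgroup.zpowers x := by
    rintro ⟨_, k, rfl⟩
    refine ⟨k, Eq.trans ?_ ((map_zpow φ' ⟨z, Subgroup.mem_zpowers z⟩ k).symm.trans
      (congrArg φ' (Subtype.ext (by simp))))⟩
    show x ^ k = _
    rw [hφ'z]
  let γ : Subgroup.zpowers x →* Ω :=
    (MulAut.conj y).toMonoidHom.comp (Subgroup.zpowers x).subtype
  have hγ : γ ∈ F.Hom (Subgroup.zpowers x) :=
    mem_of_conj (Subgroup.zpowers_le.2 hx) hy fun t => rfl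
  have hγm : ∀ t : Subgroup.zpowers x, γ t ∈ Subgroup.zpowers x := by
    rintro ⟨_, k, rfl⟩
    refine ⟨-k, ?_⟩
    show x ^ (-k) = y * x ^ k * y⁻¹
    rw [← conj_zpow, hxy, inv_zpow']
  let χ : Subgroup.zpowers z →* Ω :=
    φ.comp ((γ.codRestrict (Subgroup.zpowers x) hγm).comp (φ'.codRestrict (Subgroup.zpowers x) hφ'm))
  have hχ : χ ∈ F.Hom (Subgroup.zpowers z) := by
    refine comp_mem_apply (φ := γ.comp (φ'.codRestrict (Subgroup.zpowers x) hφ'm))
      (comp_mem_apply hφ' hγ hφ'm fun t => rfl) hφ (fun t => hγm _) fun t => rfl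
  have hχz : χ ⟨z, Subgroup.mem_zpowers z⟩ = z⁻¹ := by
    rw [show z⁻¹ = (φ ⟨x, Subgroup.mem_zpowers x⟩)⁻¹ by rw [hφx], ← map_inv]
    refine congrArg φ (Subtype.ext ?_)
    show y * φ' _ * y⁻¹ = x⁻¹
    rw [hφ'z, hxy]
  obtain ⟨θ, hθ, hθx⟩ := exists_aut_extending hS hF hχ (fun t => hzpc t t.2) (fun t => by
    have ht : χ t ∈ φ.range := ⟨_, rfl⟩
    rw [hzr] at ht
    exact hzpc _ ht)
  set zS : S := ⟨z, hzS⟩
  have hθz : θ zS = zS⁻¹ := Subtype.ext ((hθx z (Subgroup.mem_zpowers z) hzS).trans hχz)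
  have hθn : ∀ m : ℕ, Odd m → (θ ^ m) zS = zS⁻¹ := by
    rintro m ⟨k, rfl⟩
    have h2 : (θ ^ 2) zS = zS := by
      rw [pow_two, MulAut.mul_apply, hθz, map_inv, hθz, inv_inv]
    have h2k : (θ ^ (2 * k)) zS = zS := by
      rw [pow_mul]
      induction k with
      | zero => simp
      | succ k ih => rw [pow_succ, MulAut.mul_apply, h2, ih]
    rw [pow_succ, MulAut.mul_apply, hθz, map_inv, h2k]
  -- the outer automorphism group of `S` has odd order
  haveI := finite_autGroup F (le_refl S)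
  have hfn := isFullyNormalized_top F
  obtain ⟨-, R, hR⟩ := (centralized_automized_of_fullyNormalized hS hF hfn).2
  obtain ⟨a, m, hm, ham⟩ := Nat.exists_eq_two_pow_mul_odd (n := orderOf (⟨θ, hθ⟩ : F.autGroup S))
    (orderOf_pos _).ne'
  set α : F.autGroup S := ⟨θ, hθ⟩ ^ m with hα
  have hαI : ∀ w : S, (∀ g : S, g * w = w * g) → (α : MulAut S) w = w := by
    intro w hw
    have hmem : α ∈ (R : Subgroup (F.autGroup S)) := by
      have hαp : IsPGroup 2 (Subgroup.zpowers α) := by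
        refine IsPGroup.of_card (n := a) ?_
        rw [Nat.card_zpowers, hα, orderOf_pow_of_dvd hm.pos.ne' (ham ▸ dvd_mul_left _ _), ham,
          Nat.mul_div_cancel _ hm.pos]
      obtain ⟨T, hT⟩ := hαp.exists_le_sylow
      haveI : (R : Subgroup (F.autGroup S)).Normal := by
        rw [hR]
        refine ⟨fun β hβ γ => ?_⟩
        rw [Subgroup.mem_subgroupOf] at hβ ⊢
        obtain ⟨g, hg, hgx⟩ := mem_autInducedBy_iff.1 hβ
        refine mem_autInducedBy_iff.2 ⟨((γ : MulAut S) ⟨g, hg⟩ : S), SetLike.coe_mem _, fun t => ?_⟩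
        have hb : (β : MulAut S) ((γ : MulAut S)⁻¹ t) = ⟨g, hg⟩ * (γ : MulAut S)⁻¹ t * ⟨g, hg⟩⁻¹ :=
          Subtype.ext (hgx _)
        rw [Subgroup.coe_mul, Subgroup.coe_mul, MulAut.mul_apply, MulAut.mul_apply,
          Subgroup.coe_inv, hb, map_mul, map_mul, map_inv, MulAut.apply_inv_self]
        rfl
      haveI := R.unique_of_normal inferInstance
      rw [Subsingleton.elim R T]
      exact hT (Subgroup.mem_zpowers α)
    rw [hR, Subgroup.mem_subgroupOf] at hmem
    obtain ⟨g, hg, hgx⟩ := mem_autInducedBy_iff.1 hmem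
    refine Subtype.ext ?_
    rw [hgx]
    have h1 : g * (w : Ω) = w * g := congrArg Subtype.val (hw ⟨g, hg⟩)
    rw [h1, mul_inv_cancel_right]
  have h3 : zS = zS⁻¹ := by
    have h4 := hαI zS (fun g => Subtype.ext (hzc g g.2))
    rw [hα, SubgroupClass.coe_pow, hθn m hm] at h4
    exact h4.symm
  have h5 : z * z = 1 := by
    have h6 : z = z⁻¹ := congrArg Subtype.val h3
    nth_rewrite 2 [h6]
    rw [mul_inv_cancel]
  have h7 : φ (⟨x, Subgroup.mem_zpowers x⟩ ^ 2) = φ 1 := by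
    rw [map_pow, hφx, map_one, pow_two, h5]
  simpa using congrArg Subtype.val (F.injective_of_mem hφ h7)

/-- The abelian conclusion. -/
theorem isMulCommutative_of_conj_central (hS : IsPGroup 2 S) {F : FusionSystem S}
    (hF : F.IsSaturated 2)
    (h : ∀ x ∈ S, ∃ z ∈ S ⊓ Subgroup.centralizer (S : Set Ω), F.IsConjElt x z) :
    IsMulCommutative ↥S := by
  have hcomm : ∀ x ∈ S, ∀ y ∈ S, x ^ 2 = 1 → y ^ 2 = 1 → x * y = y * x := by
    intro x hx y hy hx2 hy2
    have hxi : x⁻¹ = x := inv_eq_of_mul_eq_one_right (by rw [← pow_two, hx2])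
    have hyi : y⁻¹ = y := inv_eq_of_mul_eq_one_right (by rw [← pow_two, hy2])
    have h2 := sq_eq_one_of_real hS hF h (mul_mem hx hy) hx (by
      rw [mul_inv_rev, hyi, hxi, ← mul_assoc x x y, ← pow_two, hx2, one_mul])
    rw [pow_two] at h2
    have h3 := eq_inv_of_mul_eq_one_left h2
    rwa [mul_inv_rev, hxi, hyi] at h3
  let E : Subgroup Ω :=
    { carrier := {x | x ∈ S ∧ x ^ 2 = 1}
      one_mem' := ⟨one_mem S, one_pow 2⟩
      mul_mem' := fun {a b} ha hb => ⟨mul_mem ha.1 hb.1, by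
        rw [(show Commute a b from hcomm a ha.1 b hb.1 ha.2 hb.2).mul_pow, ha.2, hb.2, one_mul]⟩
      inv_mem' := fun {a} ha => ⟨inv_mem ha.1, by rw [inv_pow, ha.2, inv_one]⟩ }
  have hEsc : F.StronglyClosed E := ⟨fun x hx => hx.1, fun R hR φ hφ x => ⟨apply_mem hφ x, by
    rw [← map_pow, show x ^ 2 = 1 from Subtype.ext (hR x.2).2, map_one]⟩⟩
  have hEn : F.IsNormal E := by
    refine isNormal_of_weaklyClosed_series hS hF hEsc (n := 1) ![⊥, E] rfl rfl ?_ ?_ ?_
    · refine Fin.monotone_iff_le_succ.mpr fun i => ?_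
      fin_cases i
      exact bot_le
    · intro i
      fin_cases i
      refine Subgroup.commutator_le.mpr fun a ha b hb => Subgroup.mem_bot.2 ?_
      exact commutatorElement_eq_one_iff_mul_comm.2 (hcomm a ha.1 b hb.1 ha.2 hb.2)
    · intro i
      fin_cases i
      refine ⟨bot_le, fun φ hφ => le_bot_iff.mp ?_⟩
      rintro _ ⟨x, rfl⟩
      rw [show x = 1 from Subtype.ext (Subgroup.mem_bot.mp x.2), map_one]
      exact one_mem _
  have hEc : ∀ e ∈ E, ∀ g ∈ S, g * e = e * g := by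
    intro e he g hg
    obtain ⟨z, ⟨-, hzC⟩, φ, hφ, hφg⟩ := h g hg
    obtain ⟨ψ, hψ, hψx, -⟩ := hEn.2 (Subgroup.zpowers g) φ hφ
    set gP : ↥(Subgroup.zpowers g ⊔ E) := ⟨g, Subgroup.mem_sup_left (Subgroup.mem_zpowers g)⟩
    set eP : ↥(Subgroup.zpowers g ⊔ E) := ⟨e, Subgroup.mem_sup_right he⟩
    have hψg : ψ gP = z := (hψx ⟨g, Subgroup.mem_zpowers g⟩).trans hφg
    refine congrArg Subtype.val (F.injective_of_mem hψ (?_ : ψ (gP * eP) = ψ (eP * gP)))
    rw [map_mul, map_mul, hψg]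
    exact (Subgroup.mem_centralizer_iff.1 hzC _ (apply_mem hψ eP)).symm
  have key : ∀ k : ℕ, ∀ g ∈ S, g ^ 2 ^ k = 1 → ∀ t ∈ S, t * g = g * t := by
    intro k
    induction k with
    | zero => intro g hg hg1 t _; rw [pow_zero, pow_one] at hg1; rw [hg1, mul_one, one_mul]
    | succ k ih =>
      intro g hg hgk
      have hsq : ∀ t ∈ S, t * g ^ 2 = g ^ 2 * t :=
        ih _ (pow_mem hg 2) (by rw [← pow_mul, ← pow_succ', hgk])
      obtain ⟨z, ⟨hzS, hzC⟩, φ, hφ, hφg⟩ := h g hg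
      have hle : Subgroup.zpowers (g ^ 2) ≤ Subgroup.zpowers g :=
        Subgroup.zpowers_le.2 (pow_mem (Subgroup.mem_zpowers g) 2)
      obtain ⟨θ, hθ, hθx⟩ := exists_aut_extending hS hF (restrict_mem hφ hle) (by
          rintro ⟨_, j, rfl⟩ t ht
          exact ((show Commute t (g ^ 2) from hsq t ht).zpow_right j).eq)
        (fun x t ht => by
          have hxz : φ (Subgroup.inclusion hle x) ∈ Subgroup.centralizer (S : Set Ω) := by
            obtain ⟨j, hj⟩ := hle x.2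
            rw [show Subgroup.inclusion hle x =
              (⟨g, Subgroup.mem_zpowers g⟩ : Subgroup.zpowers g) ^ j from
                Subtype.ext (by simpa using hj.symm), map_zpow, hφg]
            exact zpow_mem (show z ∈ Subgroup.centralizer (S : Set Ω) from hzC) j
          exact Subgroup.mem_centralizer_iff.1 hxz t ht)
      have hθg : θ ⟨g ^ 2, pow_mem hg 2⟩ = ⟨z, hzS⟩ ^ 2 := Subtype.ext <| by
        rw [hθx (g ^ 2) (Subgroup.mem_zpowers _)]
        show φ _ = z ^ 2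
        rw [← hφg, ← map_pow]
        exact congrArg φ (Subtype.ext rfl)
      set r := θ.symm ⟨z, hzS⟩ with hr
      have hrc : ∀ t : S, t * r = r * t := fun t => θ.injective (by
        rw [map_mul, map_mul, hr, MulEquiv.apply_symm_apply]
        exact Subtype.ext (Subgroup.mem_centralizer_iff.1 hzC _ (θ t).2))
      have hr2 : r ^ 2 = ⟨g ^ 2, pow_mem hg 2⟩ := θ.injective (by
        rw [hθg, map_pow, hr, MulEquiv.apply_symm_apply])
      have hrcom : Commute g ((r : Ω)⁻¹) :=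
        (show Commute g (r : Ω) from congrArg Subtype.val (hrc ⟨g, hg⟩)).inv_right
      have hwE : g * (r : Ω)⁻¹ ∈ E := by
        refine ⟨mul_mem hg (inv_mem r.2), ?_⟩
        rw [hrcom.mul_pow, inv_pow, show (r : Ω) ^ 2 = g ^ 2 by
          simpa using congrArg Subtype.val hr2, mul_inv_cancel]
      intro t ht
      have h1 : Commute t (g * (r : Ω)⁻¹) := hEc _ hwE t ht
      have h2 : Commute t (r : Ω) := congrArg Subtype.val (hrc ⟨t, ht⟩)
      have h3 := h1.mul_right h2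
      rwa [inv_mul_cancel_right] at h3
  refine ⟨⟨fun a b => Subtype.ext ?_⟩⟩
  obtain ⟨k, hk⟩ := hS b
  exact key k b b.2 (by simpa using congrArg Subtype.val hk) a a.2

end CfsgLib.FusionModels.CentralConj2
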