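import Cfsg.Agent.Lib.FusionModels.CentralAutomizer
import Cfsg.Agent.Lib.FusionModels.LocalModel
import Cfsg.Agent.Lib.FusionBasics.KSystem
import Cfsg.Agent.Lib.Alperin.Theorem

/-!
A central subgroup `T` of `S` fixed by the normalizer system of `J(S)` in a saturated fusion system
(`p` odd) is weakly closed, or some cyclic group of order prime to `p` of automorphisms of `T` in
the system is transitive on the nontrivial elements of its commutator with `T`.
-/

set_option autoImplicit false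
set_option linter.style.haveILetI false
set_option linter.unusedSectionVars false

namespace CfsgLib.FusionModels.CentralWeakClosure

open Cfsg Cfsg.FusionSystem CfsgLib.Alperin CfsgLib.NormalPComplement
open CfsgLib.FusionModels.CentralAutomizer CfsgLib.FFModules
open scoped Pointwise

universe u

variable {Ω : Type u} [Group Ω] {S : Subgroup Ω}

/-- `φ` maps the elements of `T` in its source into `T`. -/
def Fixes (T : Subgroup Ω) {R : Subgroup Ω} (φ : R →* Ω) : Prop := ∀ x : R, (x : Ω) ∈ T → φ x ∈ T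

/-- An automorphism of `X` in the system moves `T`. -/
def Moving (F : FusionSystem S) (T X : Subgroup Ω) : Prop :=
  T ≤ X ∧ X ≤ S ∧ ∃ α ∈ F.autGroup X, ¬ Fixes T (X.subtype.comp α.toMonoidHom)

theorem Fixes.exists_preimage {T R : Subgroup Ω} [Finite T] {φ : R →* Ω} (h : Fixes T φ)
    (hinj : Function.Injective φ) (hTR : T ≤ R) {y : Ω} (hy : y ∈ T) :
    ∃ x : R, (x : Ω) ∈ T ∧ φ x = y := by
  let f : T → T := fun t => ⟨φ ⟨t, hTR t.2⟩, h _ t.2⟩
  have hf : Function.Injective f := fun a b e =>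
    Subtype.ext (congrArg (fun x : R => (x : Ω)) (hinj (congrArg Subtype.val e)))
  obtain ⟨t, ht⟩ := Finite.injective_iff_surjective.1 hf ⟨y, hy⟩
  exact ⟨⟨t, hTR t.2⟩, t.2, congrArg Subtype.val ht⟩

theorem map_thompsonSubgroupAOf_subgroupOf {R R' : Subgroup Ω} {φ : R →* Ω}
    (hinj : Function.Injective φ) (hr : φ.range = R') :
    ((thompsonSubgroupAOf R).subgroupOf R).map φ = thompsonSubgroupAOf R' := by
  have h1 : thompsonSubgroupAOf R = (thompsonSubgroupAOf (⊤ : Subgroup R)).map R.subtype := by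
    rw [map_thompsonSubgroupAOf R.subtype_injective, ← MonoidHom.range_eq_map, Subgroup.range_subtype]
  rw [h1, Subgroup.subgroupOf, Subgroup.comap_map_eq_self_of_injective R.subtype_injective,
    map_thompsonSubgroupAOf hinj, ← MonoidHom.range_eq_map, hr]

theorem le_thompsonSubgroupAOf_of_central {R T : Subgroup Ω} [Finite R] (hTR : T ≤ R)
    (hTC : T ≤ Subgroup.centralizer (R : Set Ω)) : T ≤ thompsonSubgroupAOf R := by
  haveI := fun B : Subgroup R => (inferInstance : Finite B)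
  obtain ⟨A₀, hA₀⟩ := exists_isMaxAbelian (⊤ : Subgroup R)
  have hA : IsMaxAbelian R (A₀.map R.subtype) := by
    have h := (isMaxAbelian_map_iff R.subtype_injective (P := ⊤) (A := A₀)).2 hA₀
    rwa [← MonoidHom.range_eq_map, Subgroup.range_subtype] at h
  set A := A₀.map R.subtype
  haveI := hA.comm
  have hsup : IsMulCommutative ↥(A ⊔ T) := Subgroup.le_centralizer_iff_isMulCommutative.1 (by
    rw [ThompsonJ.centralizer_sup']
    exact le_inf (sup_le A.le_centralizer (hTC.trans (Subgroup.centralizer_le hA.le)))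
      (sup_le (Subgroup.le_centralizer_iff.1 (hTC.trans (Subgroup.centralizer_le hA.le)))
        (hTC.trans (Subgroup.centralizer_le hTR))))
  haveI : Finite ↥(A ⊔ T) := Finite.of_injective _ (Subgroup.inclusion_injective (sup_le hA.le hTR))
  have h := Subgroup.eq_of_le_of_card_ge (le_sup_left : A ≤ A ⊔ T)
    (hA.card_le _ (sup_le hA.le hTR) hsup)
  exact (le_sup_right.trans h.ge).trans (le_thompsonSubgroupAOf hA)

variable [Finite S] {p : ℕ} [Fact p.Prime] {F : FusionSystem S} {T : Subgroup Ω}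

/-- A map onto `J(S)` fixes `T`. -/
theorem fixes_thompson (hT : T ≤ S ⊓ Subgroup.centralizer (S : Set Ω))
    (hJT : ∀ NJ : FusionSystem (normalizerIn S (thompsonSubgroupAOf S)),
      F.IsNormalizerSystem (thompsonSubgroupAOf S) NJ →
      ∀ NT : FusionSystem (normalizerIn S T), F.IsNormalizerSystem T NT → NJ.IsSubsystemOf NT)
    {φ : ↥(thompsonSubgroupAOf S) →* Ω} (hφ : φ ∈ F.Hom (thompsonSubgroupAOf S))
    (hr : φ.range = thompsonSubgroupAOf S) : Fixes T φ := by
  have hJS : thompsonSubgroupAOf S ≤ S := thompsonSubgroupAOf_le S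
  obtain ⟨NJ, hNJ⟩ := FusionBasics.exists_normalizerSystem F hJS
  obtain ⟨NT, hNT⟩ := FusionBasics.exists_normalizerSystem F (le_inf_iff.1 hT).1
  have hmem : φ ∈ NJ.Hom (thompsonSubgroupAOf S) := by
    rw [hNJ _]
    refine ⟨hφ, le_normalizerIn hJS, fun x => le_normalizerIn hJS (hr.le ⟨x, rfl⟩),
      φ.comp (Subgroup.inclusion (sup_le le_rfl le_rfl)), restrict_mem hφ _, fun x => rfl, ?_⟩
    refine le_antisymm ?_ fun y hy => ?_
    · rintro _ ⟨x, -, rfl⟩
      exact hr.le ⟨_, rfl⟩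
    · obtain ⟨x, rfl⟩ := hr.ge hy
      exact ⟨⟨x, Subgroup.mem_sup_left x.2⟩, x.2, rfl⟩
  have h1 : φ ∈ NT.Hom (thompsonSubgroupAOf S) := hJT NJ hNJ NT hNT _ hmem
  rw [hNT _] at h1
  obtain ⟨-, -, -, ψ, -, hψφ, hψT⟩ := h1
  intro x hx
  rw [← hψφ]
  exact hψT.le ⟨_, hx, rfl⟩

theorem not_moving_top (hT : T ≤ S ⊓ Subgroup.centralizer (S : Set Ω))
    (hJT : ∀ NJ : FusionSystem (normalizerIn S (thompsonSubgroupAOf S)),
      F.IsNormalizerSystem (thompsonSubgroupAOf S) NJ →
      ∀ NT : FusionSystem (normalizerIn S T), F.IsNormalizerSystem T NT → NJ.IsSubsystemOf NT) :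
    ¬ Moving F T S := by
  rintro ⟨-, -, α, hα, hne⟩
  set φ : S →* Ω := S.subtype.comp α.toMonoidHom with hφ
  have hφF : φ ∈ F.Hom S := (mem_autGroup_iff F le_rfl).1 hα
  have hφr : φ.range = S := by
    rw [hφ, MonoidHom.range_comp, MonoidHom.range_eq_top.mpr α.surjective,
      ← MonoidHom.range_eq_map, Subgroup.range_subtype]
  set χ := φ.comp (Subgroup.inclusion (thompsonSubgroupAOf_le S))
  have hχr : χ.range = thompsonSubgroupAOf S := by
    rw [range_comp_inclusion]
    exact map_thompsonSubgroupAOf_subgroupOf (F.injective_of_mem hφF) hφr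
  refine hne fun x hx => ?_
  have hxJ : (x : Ω) ∈ thompsonSubgroupAOf S :=
    le_thompsonSubgroupAOf_of_central (le_inf_iff.1 hT).1 (le_inf_iff.1 hT).2 hx
  exact fixes_thompson hT hJT (restrict_mem hφF _) hχr ⟨x, hxJ⟩ hx

/-- If the automorphisms of the large subgroups fix `T`, so do all maps from large subgroups. -/
theorem fixes_of_not_moving (hS : IsPGroup p S) (hF : F.IsSaturated p)
    (hT : T ≤ S ⊓ Subgroup.centralizer (S : Set Ω))
    (htop : ¬ Moving F T S) {m : ℕ}
    (hm : ∀ Q : Subgroup Ω, m < Nat.card (normalizerIn S Q) → ¬ Moving F T Q) :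
    ∀ (R : Subgroup Ω) (φ : R →* Ω), φ ∈ F.Hom R → T ≤ R → m ≤ Nat.card R → Fixes T φ := by
  suffices h : ∀ (n : ℕ) (R : Subgroup Ω) (φ : R →* Ω), Nat.card S - Nat.card R = n →
      φ ∈ F.Hom R → T ≤ R → m ≤ Nat.card R → Fixes T φ from fun R φ => h _ R φ rfl
  intro n
  induction n using Nat.strong_induction_on with
  | _ n ih =>
  intro R φ hn hφ hTR hmR
  have hTS : T ≤ S := (le_inf_iff.1 hT).1
  have hTN : ∀ P : Subgroup Ω, P ≤ S → T ≤ normalizerIn S P := fun P hP => le_inf hTS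
    (((le_inf_iff.1 hT).2.trans (Subgroup.centralizer_le hP)).trans
      (Subgroup.centralizer_le_normalizer _))
  haveI := finite_of_le hTS
  have hRS : R ≤ S := dom_le hφ
  rcases hRS.eq_or_lt with heq | hlt
  · subst heq
    obtain ⟨α, hα, hαx⟩ := exists_aut_of_hom F hφ (eq_self_of_isConj (isConj_of_hom hφ))
    intro x hx
    by_contra hc
    refine htop ⟨hTR, le_rfl, α, hα, fun h => hc ?_⟩
    rw [← hαx x]
    exact h x hx
  haveI := finite_of_le hRS
  have hbig : ∀ R' : Subgroup Ω, R' < S → Nat.card R' = Nat.card R →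
      ∀ ψ : ↥(normalizerIn S R') →* Ω, ψ ∈ F.Hom (normalizerIn S R') → Fixes T ψ := by
    intro R' hR' hc ψ hψ
    haveI := finite_of_le (normalizerIn_le S R')
    have h1 : Nat.card R' < Nat.card (normalizerIn S R') := by
      have hlt' := lt_normalizerIn hS hR'
      exact lt_of_le_of_ne (Subgroup.card_le_of_le hlt'.le) fun e =>
        hlt'.ne (Subgroup.eq_of_le_of_card_ge hlt'.le e.ge)
    have h2 : Nat.card (normalizerIn S R') ≤ Nat.card S := Subgroup.card_le_of_le (normalizerIn_le S R')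
    exact ih _ (by omega) _ ψ rfl hψ (hTN R' hR'.le) (by omega)
  obtain ⟨Q, hRQ, hQ⟩ := exists_isFullyNormalized F hRS
  have hcR : Nat.card φ.range = Nat.card R := card_range_eq (F.injective_of_mem hφ)
  have hne : ∀ R' : Subgroup Ω, R' ≤ S → Nat.card R' = Nat.card R → R' < S := fun R' hR' hc =>
    lt_of_le_of_ne hR' fun h => hlt.ne (Subgroup.eq_of_le_of_card_ge hRS (by rw [← hc, h]))
  have hQS : Q < S := hne Q hQ.1 (Alperin.IsConj.card_eq hRQ)
  have hR'S : φ.range < S := hne _ (range_le hφ) hcR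
  obtain ⟨ψ₁, hψ₁, -, hm₁⟩ := exists_hom_normalizerIn_of_fullyNormalized hS hF hQ hRQ
  obtain ⟨ψ₂, hψ₂, -, hm₂⟩ := exists_hom_normalizerIn_of_fullyNormalized hS hF hQ
    (Alperin.IsConj.trans (Alperin.IsConj.symm (isConj_of_hom hφ)) hRQ)
  let a₁ : R →* Ω := ψ₁.comp (Subgroup.inclusion (le_normalizerIn hRS))
  let a₂ : φ.range →* Ω := ψ₂.comp (Subgroup.inclusion (le_normalizerIn (range_le hφ)))
  have ha₁r : a₁.range = Q := (range_comp_inclusion _ _).trans hm₁
  have ha₂r : a₂.range = Q := (range_comp_inclusion _ _).trans hm₂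
  have hF₁ : a₁ ∈ F.Hom R := restrict_mem hψ₁ _
  have hF₂ : a₂ ∈ F.Hom φ.range := restrict_mem hψ₂ _
  have hfix₁ : Fixes T a₁ := fun x hx => hbig R hlt rfl ψ₁ hψ₁ _ hx
  set e₁ := isoOfHom a₁ (F.injective_of_mem hF₁) ha₁r
  set e₂ := isoOfHom a₂ (F.injective_of_mem hF₂) ha₂r
  set e₀ := isoOfHom φ (F.injective_of_mem hφ) rfl
  let α : MulAut Q := (e₁.symm.trans e₀).trans e₂
  have hTQ : T ≤ Q := fun t ht => by
    obtain ⟨x, -, hx⟩ := hfix₁.exists_preimage (F.injective_of_mem hF₁) hTR ht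
    exact hx ▸ ha₁r.le ⟨x, rfl⟩
  have hαF : α ∈ F.autGroup Q := by
    refine (mem_autGroup_iff F hQ.1).mpr ?_
    have h1 : φ.range.subtype.comp (e₁.symm.trans e₀).toMonoidHom ∈ F.Hom Q :=
      comp_mem_apply (isoOfHom_symm_mem hF₁ ha₁r) hφ (fun y => (e₁.symm y).2) fun y => rfl
    exact comp_mem_apply h1 hF₂ (fun y => (e₀ (e₁.symm y)).2) fun y => rfl
  have hαfix : Fixes T (Q.subtype.comp α.toMonoidHom) := by
    haveI := finite_of_le hQ.1
    have hc1 : Nat.card Q < Nat.card (normalizerIn S Q) := by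
      haveI := finite_of_le (normalizerIn_le S Q)
      have hlt' := lt_normalizerIn hS hQS
      exact lt_of_le_of_ne (Subgroup.card_le_of_le hlt'.le) fun e =>
        hlt'.ne (Subgroup.eq_of_le_of_card_ge hlt'.le e.ge)
    by_contra hc
    exact hm Q (by rw [Alperin.IsConj.card_eq hRQ] at hc1; omega) ⟨hTQ, hQ.1, α, hαF, hc⟩
  intro x hx
  -- `a₂ (φ x)` lies in `T`
  have h1 : ((e₂ (e₀ x) : Q) : Ω) ∈ T := by
    have := hαfix (e₁ x) (hfix₁ x hx)
    simpa [α] using this
  haveI := finite_of_le (normalizerIn_le S φ.range)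
  obtain ⟨y, hy, hye⟩ := (hbig _ hR'S hcR ψ₂ hψ₂).exists_preimage (F.injective_of_mem hψ₂)
    (hTN φ.range (range_le hφ)) h1
  have hxy : y = Subgroup.inclusion (le_normalizerIn (range_le hφ)) (e₀ x) :=
    F.injective_of_mem hψ₂ hye
  rw [hxy] at hy
  exact hy

/-- **Central subgroups fixed by the normalizer system of `J(S)`.** -/
theorem weaklyClosed_or_hasCyclicAutomizer (hS : IsPGroup p S) (hF : F.IsSaturated p) (hp : p ≠ 2)
    (hT : T ≤ S ⊓ Subgroup.centralizer (S : Set Ω))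
    (hJT : ∀ NJ : FusionSystem (normalizerIn S (thompsonSubgroupAOf S)),
      F.IsNormalizerSystem (thompsonSubgroupAOf S) NJ →
      ∀ NT : FusionSystem (normalizerIn S T), F.IsNormalizerSystem T NT → NJ.IsSubsystemOf NT) :
    F.WeaklyClosed T ∨ ∃ X : Subgroup (MulAut T), X ≤ F.autGroup T ∧ X ≠ ⊥ ∧ IsCyclic X ∧
      (Nat.card X).Coprime p ∧ ∀ a b : T,
        a ∈ Subgroup.closure {y : T | ∃ ψ ∈ X, ∃ t : T, y = ψ t * t⁻¹} →
        b ∈ Subgroup.closure {y : T | ∃ ψ ∈ X, ∃ t : T, y = ψ t * t⁻¹} →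
        a ≠ 1 → b ≠ 1 → ∃ ψ ∈ X, ψ a = b := by
  classical
  have hTS : T ≤ S := (le_inf_iff.1 hT).1
  have hTC : T ≤ Subgroup.centralizer (S : Set Ω) := (le_inf_iff.1 hT).2
  haveI := finite_of_le hTS
  have htop := not_moving_top (F := F) hT hJT
  by_cases hbad : ∃ X, Moving F T X
  swap
  · push Not at hbad
    refine Or.inl ⟨hTS, fun φ hφ => ?_⟩
    have hfix := fixes_of_not_moving (m := 0) hS hF hT htop (fun Q _ => hbad Q) T φ hφ le_rfl
      (Nat.zero_le _)
    refine Subgroup.eq_of_le_of_card_ge ?_ (card_range_eq (F.injective_of_mem hφ)).ge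
    rintro _ ⟨x, rfl⟩
    exact hfix x x.2
  refine Or.inr ?_
  set 𝒳 : Set (Subgroup Ω) := {X | Moving F T X} with h𝒳
  have hfin : 𝒳.Finite := Set.Finite.subset
    (Set.finite_range fun K : Subgroup S => K.map S.subtype)
    fun X hX => ⟨X.subgroupOf S, Subgroup.map_subgroupOf_eq_of_le hX.2.1⟩
  obtain ⟨X₁, hX₁, hmax₁⟩ := Set.exists_max_image 𝒳
    (fun X => Nat.card (normalizerIn S X)) hfin hbad
  set m := Nat.card (normalizerIn S X₁) with hm
  obtain ⟨X, ⟨hX, hXm⟩, hmax⟩ := Set.exists_max_image {X | X ∈ 𝒳 ∧ Nat.card (normalizerIn S X) = m}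
    (fun X => Nat.card X) (hfin.subset fun X h => h.1) ⟨X₁, hX₁, rfl⟩
  have hfix := fixes_of_not_moving (m := m) hS hF hT htop
    (fun Q hQ hc => (hmax₁ Q hc).not_gt hQ)
  obtain ⟨hTX, hXS, α₀, hα₀, hα₀T⟩ := hX
  -- a fully normalized one
  obtain ⟨Q, hXQ, hQ⟩ := exists_isFullyNormalized F hXS
  obtain ⟨ψ, hψ, -, hψm⟩ := exists_hom_normalizerIn_of_fullyNormalized hS hF hQ hXQ
  have hψfix : Fixes T ψ := hfix _ ψ hψ (hTX.trans (le_normalizerIn hXS)) hXm.ge
  let a : X →* Ω := ψ.comp (Subgroup.inclusion (le_normalizerIn hXS))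
  have har : a.range = Q := (range_comp_inclusion _ _).trans hψm
  have haF : a ∈ F.Hom X := restrict_mem hψ _
  have hafix : Fixes T a := fun x hx => hψfix _ hx
  have hTQ : T ≤ Q := fun t ht => by
    obtain ⟨x, -, hx⟩ := hafix.exists_preimage (F.injective_of_mem haF) hTX ht
    exact hx ▸ har.le ⟨x, rfl⟩
  set e := isoOfHom a (F.injective_of_mem haF) har with he
  let α : MulAut Q := (e.symm.trans α₀).trans e
  have hα : α ∈ F.autGroup Q := by
    refine (mem_autGroup_iff F hQ.1).mpr ?_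
    have h1 : X.subtype.comp (e.symm.trans α₀).toMonoidHom ∈ F.Hom Q :=
      comp_mem_apply (isoOfHom_symm_mem haF har) ((mem_autGroup_iff F hXS).1 hα₀)
        (fun y => (e.symm y).2) fun y => rfl
    exact comp_mem_apply h1 haF (fun y => (α₀ (e.symm y)).2) fun y => rfl
  have hαT : ¬ Fixes T (Q.subtype.comp α.toMonoidHom) := by
    intro h
    refine hα₀T fun x hx => ?_
    have h1 : a (α₀ x) ∈ T := by
      have := h (e x) (hafix x hx)
      simpa [α, he] using this
    obtain ⟨y, hy, hye⟩ := hafix.exists_preimage (F.injective_of_mem haF) hTX h1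
    rw [F.injective_of_mem haF hye] at hy
    exact hy
  have hQmov : Moving F T Q := ⟨hTQ, hQ.1, α, hα, hαT⟩
  have hQm : Nat.card (normalizerIn S Q) = m :=
    le_antisymm (hmax₁ Q hQmov) (hXm.ge.trans (hQ.2 X (Alperin.IsConj.symm hXQ)))
  have hQS : Q < S := lt_of_le_of_ne hQ.1 fun e => htop (e ▸ hQmov)
  -- centric
  have hQc : F.IsCentric Q := by
    refine isCentric_of_fullyCentralized hS hF
      (centralized_automized_of_fullyNormalized hS hF hQ).1 ?_
    set φ : Q →* Ω := Q.subtype.comp α.toMonoidHom with hφ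
    have hφF : φ ∈ F.Hom Q := (mem_autGroup_iff F hQ.1).1 hα
    have hφr : φ.range = Q := by
      rw [hφ, MonoidHom.range_comp, MonoidHom.range_eq_top.mpr α.surjective,
        ← MonoidHom.range_eq_map, Subgroup.range_subtype]
    obtain ⟨χ, hχ, hext⟩ := (receptive_of_fullyNormalized hS hF hQ).2 Q φ hφF hφr
    have hle : Q ⊔ centralizerIn S Q ≤ extender S Q φ :=
      sup_le (le_extender hφF) (centralizerIn_le_extender Q φ)
    set χ' := χ.comp (Subgroup.inclusion hle)
    haveI := finite_of_le (sup_le hQ.1 (centralizerIn_le S Q) : Q ⊔ centralizerIn S Q ≤ S)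
    have hmap : (Q.subgroupOf (extender S Q φ)).map χ = Q :=
      (map_subgroupOf_of_extends (le_extender hφF) hext).trans hφr
    have hχr : χ'.range = Q ⊔ centralizerIn S Q := by
      refine Subgroup.eq_of_le_of_card_ge ?_
        (card_range_eq (F.injective_of_mem (restrict_mem hχ hle))).ge
      rw [range_comp_inclusion, Subgroup.subgroupOf_sup (le_extender hφF)
        (centralizerIn_le_extender Q φ), Subgroup.map_sup, hmap]
      refine sup_le le_sup_left ?_
      rintro _ ⟨c, hc, rfl⟩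
      exact Subgroup.mem_sup_right (apply_mem_centralizerIn hχ (le_extender hφF) hmap c
        (Subgroup.mem_subgroupOf.1 hc).2)
    obtain ⟨β, hβ, hβx⟩ := exists_aut_of_hom F (restrict_mem hχ hle) hχr
    have hmov : Moving F T (Q ⊔ centralizerIn S Q) := by
      refine ⟨hTQ.trans le_sup_left, sup_le hQ.1 (centralizerIn_le S Q), β, hβ, fun h => hαT ?_⟩
      intro x hx
      have h1 := h ⟨x, Subgroup.mem_sup_left x.2⟩ hx
      simp only [MonoidHom.comp_apply, MulEquiv.coe_toMonoidHom, Subgroup.coe_subtype, hβx] at h1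
      rw [show χ (Subgroup.inclusion hle ⟨x, Subgroup.mem_sup_left x.2⟩) = φ x from hext x x.2 _] at h1
      exact h1
    have hN : normalizerIn S Q ≤ normalizerIn S (Q ⊔ centralizerIn S Q) := by
      have hmaps : ∀ g ∈ normalizerIn S Q, ∀ y ∈ Q ⊔ centralizerIn S Q,
          g * y * g⁻¹ ∈ Q ⊔ centralizerIn S Q := by
        intro g hg y hy
        have hle2 : Q ⊔ centralizerIn S Q ≤
            (Q ⊔ centralizerIn S Q).comap (MulAut.conj g).toMonoidHom := by
          refine sup_le (fun q hq => Subgroup.mem_sup_left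
            ((Subgroup.mem_normalizer_iff.1 hg.2 q).1 hq)) fun c hc => Subgroup.mem_sup_right ?_
          show g * c * g⁻¹ ∈ _
          refine ⟨S.mul_mem (S.mul_mem hg.1 hc.1) (S.inv_mem hg.1), fun q hq => ?_⟩
          have h1 : g⁻¹ * q * g ∈ Q := by
            simpa using (Subgroup.mem_normalizer_iff.1 ((Subgroup.normalizer (Q : Set Ω)).inv_mem hg.2) q).1 hq
          calc q * (g * c * g⁻¹) = g * (g⁻¹ * q * g * c) * g⁻¹ := by group
            _ = g * (c * (g⁻¹ * q * g)) * g⁻¹ := by rw [hc.2 _ h1]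
            _ = g * c * g⁻¹ * q := by group
        exact hle2 hy
      refine fun g hg => ⟨hg.1, Subgroup.mem_normalizer_iff.2 fun y => ⟨hmaps g hg y, fun hy => ?_⟩⟩
      have := hmaps g⁻¹ (inv_mem hg) _ hy
      simpa [mul_assoc] using this
    haveI := finite_of_le (normalizerIn_le S (Q ⊔ centralizerIn S Q))
    have hm' : Nat.card (normalizerIn S (Q ⊔ centralizerIn S Q)) = m :=
      le_antisymm (hmax₁ _ hmov) (hQm.ge.trans (Subgroup.card_le_of_le hN))
    have h2 := hmax _ ⟨hmov, hm'⟩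
    rw [← Alperin.IsConj.card_eq hXQ] at h2
    exact le_sup_right.trans (Subgroup.eq_of_le_of_card_ge le_sup_left h2).ge
  -- the model
  obtain ⟨L, _, ι, ρ, hL⟩ := exists_localModel hS hF hQ hQc (autInducedBy_le_autGroup F hQ.1) le_rfl
  haveI := hL.finite
  haveI := finite_of_le (normalizerIn_le S Q)
  have hQN : Q ≤ (normalizerIn S Q) := le_normalizerIn hQ.1
  have hTN : T ≤ (normalizerIn S Q) := hTQ.trans hQN
  have hNp : IsPGroup p (normalizerIn S Q) := isPGroup_of_le hS (normalizerIn_le S Q)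
  let Rs : Sylow p L := (show IsPGroup p ι.range from
    hNp.of_surjective ι.rangeRestrict ι.rangeRestrict_surjective).toSylow hL.index
  have hRs : (Rs : Subgroup L) = ι.range := rfl
  set T' : Subgroup L := (T.subgroupOf (normalizerIn S Q)).map ι with hT'
  have hmemT' : ∀ m : (normalizerIn S Q), ι m ∈ T' ↔ (m : Ω) ∈ T := fun m => by
    rw [hT', Subgroup.mem_map_iff_mem hL.inj]
    exact Subgroup.mem_subgroupOf
  set Q' : Subgroup L := (Q.subgroupOf (normalizerIn S Q)).map ι with hQ'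
  haveI hQ'n : Q'.Normal := ⟨by
    rintro _ ⟨q, hq, rfl⟩ l
    have hq' : (q : Ω) ∈ Q := Subgroup.mem_subgroupOf.1 hq
    rw [show q = ⟨((⟨q, hq'⟩ : Q) : Ω), q.2⟩ from rfl,
      hL.conj_apply l ⟨q, hq'⟩ q.2 (hQN (ρ l ⟨q, hq'⟩).2)]
    exact Subgroup.mem_map_of_mem ι (Subgroup.mem_subgroupOf.2 (ρ l ⟨q, hq'⟩).2)⟩
  have hJN : thompsonSubgroupAOf (normalizerIn S Q) ≤ (normalizerIn S Q) := thompsonSubgroupAOf_le (normalizerIn S Q)
  have hTJ : T ≤ thompsonSubgroupAOf (normalizerIn S Q) :=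
    le_thompsonSubgroupAOf_of_central hTN (hTC.trans (Subgroup.centralizer_le (normalizerIn_le S Q)))
  have hJmap : thompsonSubgroupAOf (Rs : Subgroup L) = ((thompsonSubgroupAOf (normalizerIn S Q)).subgroupOf (normalizerIn S Q)).map ι := by
    rw [hRs, MonoidHom.range_eq_map, ← map_thompsonSubgroupAOf hL.inj]
    congr 1
    rw [← Subgroup.comap_map_eq_self_of_injective (normalizerIn S Q).subtype_injective (thompsonSubgroupAOf (⊤ : Subgroup (normalizerIn S Q))),
      map_thompsonSubgroupAOf (normalizerIn S Q).subtype_injective, ← MonoidHom.range_eq_map, Subgroup.range_subtype]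
    rfl
  -- `N_L(J)` normalizes `T'`
  have hJl : Subgroup.normalizer (thompsonSubgroupAOf (Rs : Subgroup L) : Set L) ≤
      Subgroup.normalizer (T' : Set L) := by
    intro l hl
    rw [hJmap] at hl
    have hex : ∀ x : ↥(thompsonSubgroupAOf (normalizerIn S Q)), ∃ y : (normalizerIn S Q), (y : Ω) ∈ thompsonSubgroupAOf (normalizerIn S Q) ∧
        ι y = l * ι ⟨x, hJN x.2⟩ * l⁻¹ := by
      intro x
      obtain ⟨y, hy, hye⟩ := (Subgroup.mem_normalizer_iff.1 hl (ι ⟨x, hJN x.2⟩)).1
        (Subgroup.mem_map_of_mem ι (Subgroup.mem_subgroupOf.2 x.2))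
      exact ⟨y, Subgroup.mem_subgroupOf.1 hy, hye⟩
    choose y hy hye using hex
    let φ : ↥(thompsonSubgroupAOf (normalizerIn S Q)) →* Ω := MonoidHom.mk' (fun x => (y x : Ω)) fun x z => by
      have : y (x * z) = y x * y z := hL.inj (by
        rw [map_mul, hye, hye, hye,
          show (⟨((x * z : ↥(thompsonSubgroupAOf (normalizerIn S Q))) : Ω), hJN (x * z).2⟩ : (normalizerIn S Q)) =
            ⟨(x : Ω), hJN x.2⟩ * ⟨(z : Ω), hJN z.2⟩ from rfl, map_mul]
        group)
      rw [this]; rfl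
    have hφF : φ ∈ F.Hom (thompsonSubgroupAOf (normalizerIn S Q)) :=
      hL.hom l _ hJN φ fun x => ⟨(y x).2, (hye x).symm⟩
    haveI := finite_of_le (hJN.trans (normalizerIn_le S Q))
    have hφr : φ.range = thompsonSubgroupAOf (normalizerIn S Q) := by
      refine Subgroup.eq_of_le_of_card_ge ?_ (card_range_eq (F.injective_of_mem hφF)).ge
      rintro _ ⟨x, rfl⟩
      exact hy x
    have hφT : Fixes T φ := by
      rcases (normalizerIn_le S Q).eq_or_lt with heq | hlt
      · have key : ∀ (P : Subgroup Ω) (χ : P →* Ω), P = thompsonSubgroupAOf S → χ ∈ F.Hom P →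
            χ.range = P → Fixes T χ := by
          rintro P χ rfl hχ hχr
          exact fixes_thompson hT hJT hχ hχr
        exact key _ φ (by rw [show (normalizerIn S Q) = S from heq]) hφF hφr
      · obtain ⟨β, hβ, hβx⟩ := exists_aut_of_hom F hφF hφr
        have hgt : m < Nat.card (normalizerIn S (thompsonSubgroupAOf (normalizerIn S Q))) := by
          have hlt' := lt_normalizerIn hS (show (normalizerIn S Q) < S from hlt)
          haveI := finite_of_le (normalizerIn_le S (normalizerIn S Q))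
          haveI := finite_of_le (normalizerIn_le S (thompsonSubgroupAOf (normalizerIn S Q)))
          rw [← hQm]
          refine lt_of_lt_of_le (lt_of_le_of_ne (Subgroup.card_le_of_le hlt'.le) fun e =>
            hlt'.ne (Subgroup.eq_of_le_of_card_ge hlt'.le e.ge)) (Subgroup.card_le_of_le fun g hg => ?_)
          exact ⟨hg.1, normalizer_le_normalizer_thompsonSubgroupAOf (normalizerIn S Q) hg.2⟩
        intro x hx
        by_contra hc
        refine (hmax₁ (thompsonSubgroupAOf (normalizerIn S Q)) ⟨hTJ, hJN.trans (normalizerIn_le S Q), β, hβ,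
          fun h => hc ?_⟩).not_gt hgt
        rw [← hβx x]
        exact h x hx
    refine LLemma.mem_normalizer_of_conj_le fun g hg => ?_
    obtain ⟨_, ⟨t, ht, rfl⟩, rfl⟩ := (Subgroup.mem_smul_pointwise_iff_exists _ _ _).1 hg
    show l * ι t * l⁻¹ ∈ T'
    rw [show t = ⟨((⟨t, hTJ (Subgroup.mem_subgroupOf.1 ht)⟩ : ↥(thompsonSubgroupAOf (normalizerIn S Q))) : Ω), t.2⟩ from rfl,
      ← hye, hmemT']
    exact hφT _ (Subgroup.mem_subgroupOf.1 ht)
  -- `L` moves `T'`
  have hne : Subgroup.normalizer (T' : Set L) ≠ ⊤ := by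
    intro htop'
    obtain ⟨l, hl⟩ : α ∈ ρ.range := hL.range_eq.ge hα
    refine hαT fun x hx => ?_
    have h1 := (Subgroup.mem_normalizer_iff.1 (htop'.ge (Subgroup.mem_top l)) (ι ⟨x, hQN x.2⟩)).1
      ((hmemT' _).2 hx)
    rw [hL.conj_apply l x (hQN x.2) (hQN (ρ l x).2), hmemT', hl] at h1
    exact h1
  obtain ⟨X', hconj, hX'ne, hX'cyc, hX'cop, hX'tr⟩ := hasCyclicAutomizer hp Rs (Q := Q') (T := T')
    (((isPGroup_of_le hS hQ.1).of_equiv (Subgroup.subgroupOfEquivOfLe hQN).symm).map ι)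
    (Subgroup.map_mono (Subgroup.comap_mono hTQ))
    (by
      rintro _ ⟨t, ht, rfl⟩ _ ⟨s, rfl⟩
      rw [← map_mul, ← map_mul]
      exact congrArg ι (Subtype.ext (hTC (Subgroup.mem_subgroupOf.1 ht) (s : Ω) s.2.1)))
    hJl hne
  -- back to `T`
  let eT : T ≃* T' := (Subgroup.subgroupOfEquivOfLe hTN).symm.trans
    ((T.subgroupOf (normalizerIn S Q)).equivMapOfInjective ι hL.inj)
  have heT : ∀ t : T, ((eT t : T') : L) = ι ⟨t, hTN t.2⟩ := fun t => rfl
  refine ⟨X'.map (MulAut.congr eT.symm).toMonoidHom, ?_, ?_, ?_, ?_, transitive_congr eT.symm hX'tr⟩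
  · rintro _ ⟨ψ', hψ', rfl⟩
    obtain ⟨l, hl⟩ := hconj ψ' hψ'
    refine (mem_autGroup_iff F hTS).2 (hL.hom l T hTN _ fun t => ⟨hTN (((MulAut.congr eT.symm) ψ') t).2, ?_⟩)
    rw [← heT, ← hl]
    exact (congrArg Subtype.val (eT.apply_symm_apply (ψ' (eT t)))).symm.trans (heT _)
  · exact fun h0 => hX'ne
      ((Subgroup.map_eq_bot_iff_of_injective _ (MulAut.congr eT.symm).injective).1 h0)
  · exact isCyclic_of_surjective _ ((MulAut.congr eT.symm).toMonoidHom.subgroupMap_surjective X')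
  · rwa [card_congr_map]

end CfsgLib.FusionModels.CentralWeakClosure
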