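import Cfsg.Agent.Lib.FusionBasics.PPower.Inner
import Cfsg.Agent.Lib.PGroups.Aut

/-!
A system with a focal chain from `S` to `1` is inner.
-/

set_option autoImplicit false

namespace CfsgLib.FusionModels

open Cfsg Cfsg.FusionSystem CfsgLib.Alperin

universe u

variable {Ω : Type u} [Group Ω] {S : Subgroup Ω} [Finite S] {p : ℕ} [Fact p.Prime]

theorem hom_eq_inner_of_focal_chain (hS : IsPGroup p S) {F : FusionSystem S}
    (hF : F.IsSaturated p) (n : ℕ) (Q : Fin (n + 1) → Subgroup Ω) (hQ0 : Q 0 = S)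
    (hQn : Q (Fin.last n) = ⊥)
    (hstep : ∀ i : Fin n, Subgroup.closure {y : Ω | ∃ x ∈ Q i.castSucc,
      ∃ φ ∈ F.Hom (Subgroup.zpowers x), y = x⁻¹ * φ ⟨x, Subgroup.mem_zpowers x⟩} ≤ Q i.succ) :
    ∀ P : Subgroup Ω, F.Hom P = (innerFusionSystem S).Hom P := by
  refine CfsgLib.FusionBasics.PPower.hom_eq_inner_of_hyperfocal_eq_bot hS hF ?_
  refine le_bot_iff.mp ((Subgroup.closure_le _).mpr ?_)
  rintro _ ⟨P, α, x, hP, hα, rfl⟩
  haveI := finite_of_le hP
  have hP' := isPGroup_of_le hS hP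
  have htriv : ∀ β : F.autGroup P, (orderOf β).Coprime p → β = 1 := by
    intro β hβ
    have hord : (orderOf (β : MulAut P)).Coprime p := by rwa [Subgroup.orderOf_coe]
    have hmem := (mem_autGroup_iff F hP).mp β.2
    have key : ∀ (i : Fin (n + 1)) (v : P), (v : Ω) ∈ Q i → (β : MulAut P) v = v := by
      intro i
      induction i using Fin.reverseInduction with
      | last =>
        intro v hv
        rw [hQn, Subgroup.mem_bot] at hv
        rw [show v = 1 from Subtype.ext hv, map_one]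
      | cast i ih =>
        intro v hv
        refine CfsgLib.PGroups.fixed_of_fixed_diff hP' _ hord (ih _ (hstep i ?_))
        refine Subgroup.subset_closure ⟨v, hv, _,
          restrict_mem hmem ((Subgroup.zpowers_le).mpr v.2), ?_⟩
        rfl
    refine Subtype.ext (MulEquiv.ext fun v => key 0 v ?_)
    rw [hQ0]
    exact hP v.2
  have hbot : pResidual p (F.autGroup P) = ⊥ := by
    refine le_bot_iff.mp ((Subgroup.closure_le _).mpr fun β hβ => ?_)
    exact Subgroup.mem_bot.mpr (htriv β hβ)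
  rw [hbot, Subgroup.mem_bot] at hα
  show (x : Ω)⁻¹ * _ ∈ ((⊥ : Subgroup Ω) : Set Ω)
  rw [hα]
  simp

end CfsgLib.FusionModels
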