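import Cfsg.Agent.Lib.FusionModels.NormalTests
import Cfsg.Agent.Lib.FusionModels.MaxClassEssential
import Cfsg.Agent.Lib.FusionModels.Transvection
import Cfsg.Agent.Lib.PGroups.Basic
import Cfsg.Agent.Lib.PGroups.ClassTwo
import Cfsg.Agent.Lib.PGroups.Frattini
import Cfsg.Agent.Lib.PGroups.Extraspecial
import Cfsg.Agent.Lib.Signalizer.Generation
import Cfsg.Agent.Lib.ReflectionsSpinor.POmegaQuotThms

/-!
A strongly closed generalized extraspecial subgroup other than `E × A`, `E` of order `p³` generated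
by elements of order `p`, is normal (Stancu).
-/

set_option autoImplicit false
set_option linter.style.haveILetI false
set_option linter.unusedSectionVars false

namespace CfsgLib.FusionModels.GenExtraspecial

open Cfsg Cfsg.FusionSystem CfsgLib.Alperin CfsgLib.FusionSub
open scoped commutatorElement

section Group

variable {G : Type*} [Group G] [Finite G] {p : ℕ} [Fact p.Prime]

theorem zpow_eq_one_of {a b : G} (ha : a ^ p = 1) (hb : b ≠ 1) {i : ℤ} (h : b ^ i = 1)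
    (hb' : b ^ p = 1) : a ^ i = 1 := by
  have h1 : (p : ℤ) ∣ i := by
    rw [← orderOf_eq_prime hb' hb]
    exact orderOf_dvd_iff_zpow_eq_one.mpr h
  obtain ⟨k, rfl⟩ := h1
  rw [zpow_mul, zpow_natCast, ha, one_zpow]

theorem commutatorElement_zpow_right {x y : G} (h : ∀ g : G, ⁅x, g⁆ ∈ Subgroup.center G) (n : ℤ) :
    ⁅x, y ^ n⁆ = ⁅x, y⁆ ^ n := by
  let f : G →* G := MonoidHom.mk' (fun g => ⁅x, g⁆)
    fun a b => CfsgLib.PGroups.commutatorElement_mul_right (h b)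
  exact map_zpow f y n

/-- The small case: `G ≅ E × A`. -/
theorem exists_product (hG : IsPGroup p G) {x y z : G}
    (hcom : ∀ a b : G, ⁅a, b⁆ ∈ Subgroup.zpowers z) (hpow : ∀ a : G, a ^ p ∈ Subgroup.zpowers z)
    (hzc : z ∈ Subgroup.center G) (hxy : ⁅x, y⁆ ≠ 1) (hzp : z ^ p = 1) (hxp : x ^ p = 1)
    (hyp : y ^ p = 1) (hdec : ∀ g : G, ∃ (i j : ℤ) (c : G), c ∈ Subgroup.center G ∧ g = x ^ i * y ^ j * c)
    (hZ : ∀ c ∈ Subgroup.center G, c ^ p = 1) :
    ∃ E A : Subgroup G, Cfsg.IsExtraspecial p E ∧ Nat.card E = p ^ 3 ∧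
      (∃ a s : E, a * a ^ (p - 1) = 1 ∧ s * a ≠ a * s) ∧
      A ≤ Subgroup.center G ∧ (∀ a ∈ A, a ^ p = 1) ∧ Nonempty (G ≃* E × A) := by
  have hp := (Fact.out : p.Prime)
  have hcc : ∀ a b : G, ⁅a, b⁆ ∈ Subgroup.center G := fun a b =>
    Subgroup.zpowers_le.mpr hzc (hcom a b)
  have hx1 : x ≠ 1 := fun h => hxy (by rw [h, commutatorElement_one_left])
  have hy1 : y ≠ 1 := fun h => hxy (by rw [h, commutatorElement_one_right])
  have hz1 : z ≠ 1 := fun h => hxy (by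
    have := hcom x y
    rw [h, Subgroup.zpowers_one_eq_bot, Subgroup.mem_bot] at this
    exact this)
  have hcxy : ⁅x, y⁆ ^ p = 1 := by
    obtain ⟨k, hk⟩ := hcom x y
    rw [← hk, ← zpow_natCast, ← zpow_mul, mul_comm, zpow_mul, zpow_natCast, hzp, one_zpow]
  have hyx : ⁅y, x⁆ ≠ 1 := fun h => hxy (by rw [← commutatorElement_inv, h, inv_one])
  have hcyx : ⁅y, x⁆ ^ p = 1 := by rw [← commutatorElement_inv, inv_pow, hcxy, inv_one]
  set N := Subgroup.zpowers x ⊔ Subgroup.zpowers z with hN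
  haveI hNn : N.Normal := ⟨fun n hn g => by
    have e : g * n * g⁻¹ = ⁅g, n⁆ * n := by simp only [commutatorElement_def]; group
    rw [e]
    exact N.mul_mem (Subgroup.mem_sup_right (hcom g n)) hn⟩
  haveI : (Subgroup.zpowers z).Normal := ⟨fun n hn g => by
    rw [Subgroup.mem_center_iff.mp (Subgroup.zpowers_le.mpr hzc hn) g, mul_inv_cancel_right]
    exact hn⟩
  have hxz : ∀ {i k : ℤ}, x ^ i * z ^ k ∈ Subgroup.center G → x ^ i = 1 := by
    intro i k h
    have h1 : x ^ i ∈ Subgroup.center G := by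
      simpa using Subgroup.mul_mem _ h (Subgroup.inv_mem _ (Subgroup.zpow_mem _ hzc k))
    have h2 : ⁅y, x ^ i⁆ = 1 := commutatorElement_eq_one_iff_mul_comm.mpr
      (Subgroup.mem_center_iff.mp h1 y)
    rw [commutatorElement_zpow_right (fun g => hcc y g)] at h2
    exact zpow_eq_one_of hxp hyx h2 hcyx
  have hNmem : ∀ n ∈ N, ∃ i k : ℤ, x ^ i * z ^ k = n := by
    intro n hn
    obtain ⟨u, ⟨i, rfl⟩, v, ⟨k, rfl⟩, rfl⟩ := Subgroup.mem_sup_of_normal_right.mp hn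
    exact ⟨i, k, rfl⟩
  set E := Subgroup.zpowers y ⊔ N with hE
  have hxE : x ∈ E := Subgroup.mem_sup_right (Subgroup.mem_sup_left (Subgroup.mem_zpowers x))
  have hyE : y ∈ E := Subgroup.mem_sup_left (Subgroup.mem_zpowers y)
  have hzE : z ∈ E := Subgroup.mem_sup_right (Subgroup.mem_sup_right (Subgroup.mem_zpowers z))
  have hEmem : ∀ e ∈ E, ∃ j i k : ℤ, y ^ j * (x ^ i * z ^ k) = e := by
    intro e he
    obtain ⟨u, ⟨j, rfl⟩, n, hn, rfl⟩ := Subgroup.mem_sup_of_normal_right.mp he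
    obtain ⟨i, k, rfl⟩ := hNmem n hn
    exact ⟨j, i, k, rfl⟩
  have hEcen : ∀ e ∈ E, e * x = x * e → e * y = y * e → e ∈ Subgroup.zpowers z := by
    intro e he hex hey
    obtain ⟨j, i, k, rfl⟩ := hEmem e he
    have hzk : ∀ g : G, Commute g (z ^ k) := fun g =>
      (Subgroup.mem_center_iff.mp (Subgroup.zpow_mem _ hzc k) g)
    have h1 : ⁅x, y ^ j⁆ = 1 := by
      have e1 : ⁅x, y ^ j * (x ^ i * z ^ k)⁆ = ⁅x, y ^ j⁆ * ⁅x, x ^ i * z ^ k⁆ :=
        CfsgLib.PGroups.commutatorElement_mul_right (hcc _ _)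
      have e2 : ⁅x, x ^ i * z ^ k⁆ = 1 := commutatorElement_eq_one_iff_mul_comm.mpr
        ((((Commute.refl x).zpow_right i).mul_right (hzk x)))
      rw [e2, mul_one, commutatorElement_eq_one_iff_mul_comm.mpr hex.symm] at e1
      exact e1.symm
    rw [commutatorElement_zpow_right (fun g => hcc x g)] at h1
    have hyj : y ^ j = 1 := zpow_eq_one_of hyp hxy h1 hcxy
    rw [hyj, one_mul] at hey ⊢
    have h2 : ⁅y, x ^ i⁆ = 1 := by
      have e1 : ⁅y, x ^ i * z ^ k⁆ = ⁅y, x ^ i⁆ * ⁅y, z ^ k⁆ :=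
        CfsgLib.PGroups.commutatorElement_mul_right (hcc _ _)
      rw [commutatorElement_eq_one_iff_mul_comm.mpr hey.symm,
        commutatorElement_eq_one_iff_mul_comm.mpr (hzk y).eq, mul_one] at e1
      exact e1.symm
    rw [commutatorElement_zpow_right (fun g => hcc y g)] at h2
    rw [zpow_eq_one_of hxp hyx h2 hcyx, one_mul]
    exact ⟨k, rfl⟩
  obtain ⟨A, hAZ, hzA, hAsup, -⟩ := CfsgLib.Signalizer.exists_compl_hyperplane
    (A := Subgroup.center G) ⟨inferInstance, hZ⟩ hzc hz1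
  have hAc : ∀ a ∈ A, ∀ g : G, g * a = a * g := fun a ha => Subgroup.mem_center_iff.mp (hAZ ha)
  have hzAbot : ∀ k : ℤ, z ^ k ∈ A → z ^ k = 1 := by
    intro k hk
    by_contra hne
    refine hzA ?_
    have heq : Subgroup.zpowers (z ^ k) = Subgroup.zpowers z :=
      Subgroup.eq_of_le_of_card_ge (Subgroup.zpowers_le.mpr (Subgroup.zpow_mem _ (Subgroup.mem_zpowers z) k))
        (by rw [Nat.card_zpowers, Nat.card_zpowers, orderOf_eq_prime hzp hz1, orderOf_eq_prime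
          (by rw [← zpow_natCast, ← zpow_mul, mul_comm, zpow_mul, zpow_natCast, hzp, one_zpow]) hne])
    exact (Subgroup.zpowers_le.mpr hk) (heq.ge (Subgroup.mem_zpowers z))
  let f : E × A →* G := MonoidHom.mk' (fun q => (q.1 : G) * (q.2 : G)) fun q r => by
    show ((q.1 : G) * r.1) * ((q.2 : G) * r.2) = _
    calc ((q.1 : G) * r.1) * ((q.2 : G) * r.2) = (q.1 : G) * ((r.1 : G) * q.2) * r.2 := by group
      _ = (q.1 : G) * ((q.2 : G) * r.1) * r.2 := by rw [hAc _ q.2.2 r.1]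
      _ = _ := by group
  have hinj : Function.Injective f := by
    refine (injective_iff_map_eq_one f).mpr fun q hq => ?_
    have he : (q.1 : G) = ((q.2 : G))⁻¹ := eq_inv_of_mul_eq_one_left hq
    have hcen : ∀ g : G, (q.1 : G) * g = g * q.1 := fun g => by
      rw [he]; exact (hAc _ (A.inv_mem q.2.2) g).symm
    obtain ⟨k, hk⟩ := hEcen _ q.1.2 (hcen x) (hcen y)
    have h1 : (q.1 : G) = 1 := by
      rw [← hk]
      refine hzAbot k ?_
      have hk' : z ^ k = (q.1 : G) := hk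
      rw [hk', he]
      exact A.inv_mem q.2.2
    have h2 : (q.2 : G) = 1 := by
      rw [h1] at he
      exact inv_eq_one.mp he.symm
    exact Prod.ext (Subtype.ext h1) (Subtype.ext h2)
  have hsurj : Function.Surjective f := by
    intro g
    obtain ⟨i, j, c, hc, rfl⟩ := hdec g
    rw [← hAsup] at hc
    obtain ⟨a, ha, v, ⟨k, rfl⟩, rfl⟩ := Subgroup.mem_sup_of_normal_right.mp hc
    refine ⟨(⟨x ^ i * y ^ j * z ^ k, E.mul_mem (E.mul_mem (E.zpow_mem hxE i) (E.zpow_mem hyE j))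
      (E.zpow_mem hzE k)⟩, ⟨a, ha⟩), ?_⟩
    show x ^ i * y ^ j * z ^ k * a = x ^ i * y ^ j * (a * z ^ k)
    rw [mul_assoc (x ^ i * y ^ j), hAc a ha (z ^ k)]
  have hEcard : Nat.card E = p ^ 3 := by
    have hzz : Nat.card (Subgroup.zpowers z) = p := by rw [Nat.card_zpowers, orderOf_eq_prime hzp hz1]
    have hxx : Nat.card (Subgroup.zpowers x) = p := by rw [Nat.card_zpowers, orderOf_eq_prime hxp hx1]
    have hyy : Nat.card (Subgroup.zpowers y) = p := by rw [Nat.card_zpowers, orderOf_eq_prime hyp hy1]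
    have hNc : Nat.card N = p * p := by
      rw [hN, CfsgLib.BGAppendix.card_sup_eq_mul _ _ (by rw [Subgroup.normalizer_eq_top]; exact le_top)
        ((Subgroup.eq_bot_iff_forall _).mpr fun e he => ?_), hxx, hzz]
      obtain ⟨i, rfl⟩ := he.1
      exact hxz (i := i) (k := 0) (by rw [zpow_zero, mul_one]; exact Subgroup.zpowers_le.mpr hzc he.2)
    rw [hE, CfsgLib.BGAppendix.card_sup_eq_mul _ _ (by rw [Subgroup.normalizer_eq_top]; exact le_top)
      ((Subgroup.eq_bot_iff_forall _).mpr fun e he => ?_), hNc, hyy, pow_succ, pow_two, mul_comm]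
    obtain ⟨j, rfl⟩ := he.1
    obtain ⟨i, k, hik⟩ := hNmem _ he.2
    have h1 : ⁅x, y ^ j⁆ = 1 := by
      rw [← (show x ^ i * z ^ k = y ^ j from hik)]
      exact commutatorElement_eq_one_iff_mul_comm.mpr
        (((Commute.refl x).zpow_right i).mul_right
          (Subgroup.mem_center_iff.mp (Subgroup.zpow_mem _ hzc k) x)).eq
    rw [commutatorElement_zpow_right (fun g => hcc x g)] at h1
    exact zpow_eq_one_of hyp hxy h1 hcxy
  refine ⟨E, A, ?_, hEcard, ⟨⟨x, hxE⟩, ⟨y, hyE⟩, ?_, fun h => hxy ?_⟩, hAZ,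
    fun a ha => hZ a (hAZ ha), ⟨(MulEquiv.ofBijective f ⟨hinj, hsurj⟩).symm⟩⟩
  · have hcenE : Subgroup.center E = (Subgroup.zpowers z).subgroupOf E := by
      ext e
      constructor
      · intro he
        exact hEcen e e.2 (congrArg Subtype.val (Subgroup.mem_center_iff.mp he ⟨x, hxE⟩)).symm
          (congrArg Subtype.val (Subgroup.mem_center_iff.mp he ⟨y, hyE⟩)).symm
      · exact fun he => Subgroup.mem_center_iff.mpr fun g => Subtype.ext
          (Subgroup.mem_center_iff.mp (Subgroup.zpowers_le.mpr hzc he) g)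
    have hcardZ : Nat.card (Subgroup.center E) = p := by
      rw [hcenE, Nat.card_congr (Subgroup.subgroupOfEquivOfLe (Subgroup.zpowers_le.mpr hzE)).toEquiv,
        Nat.card_zpowers, orderOf_eq_prime hzp hz1]
    have hle : commutator E ≤ Subgroup.center E := by
      rw [commutator_def, Subgroup.commutator_le]
      intro a _ b _
      rw [hcenE]
      exact hcom a b
    have heq : commutator E = Subgroup.center E := by
      refine Subgroup.eq_of_le_of_card_ge hle ?_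
      rw [hcardZ]
      have hne : (⁅(⟨x, hxE⟩ : E), ⟨y, hyE⟩⁆ : E) ≠ 1 := fun h => hxy (congrArg Subtype.val h)
      have hmem : (⁅(⟨x, hxE⟩ : E), ⟨y, hyE⟩⁆ : E) ∈ commutator E :=
        Subgroup.commutator_mem_commutator (Subgroup.mem_top _) (Subgroup.mem_top _)
      rw [← orderOf_eq_prime (Subtype.ext hcxy : (⁅(⟨x, hxE⟩ : E), ⟨y, hyE⟩⁆ : E) ^ p = 1) hne]
      exact Nat.le_of_dvd Nat.card_pos (Subgroup.orderOf_dvd_natCard _ hmem)
    have hEp : IsPGroup p E := hG.to_subgroup E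
    refine ⟨⟨hEp, le_antisymm (CfsgLib.PGroups.frattini_le_of (p := p) hle fun e => ?_) ?_, heq⟩,
      hcardZ⟩
    · rw [hcenE]
      exact hpow e
    · rw [← heq]
      exact CfsgLib.PGroups.commutator_le_frattini hEp
  · rw [← pow_succ', Nat.sub_add_cancel hp.pos]
    exact Subtype.ext hxp
  · have := congrArg Subtype.val h
    exact commutatorElement_eq_one_iff_mul_comm.mpr this.symm

/-- The two transvections generate `-1` on their plane. -/
theorem exists_torus {C : Type*} [Group C] (hab : ∀ a b : C, a * b = b * a) {u v : MulAut C}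
    {d e : C} (hud : u d = d) (hue : u e = e * d) (hve : v e = e) (hvd : v d = d * e⁻¹)
    (hu : ∀ c, ∃ j : ℤ, c⁻¹ * u c = d ^ j) (hv : ∀ c, ∃ i : ℤ, c⁻¹ * v c = e ^ i) :
    ((u * v * u) ^ 2) d = d⁻¹ ∧ (u * v * u) ^ 2 * u = u * (u * v * u) ^ 2 := by
  have hwd : (u * v * u) d = e⁻¹ := by
    show u (v (u d)) = e⁻¹
    rw [hud, hvd, map_mul, hud, map_inv, hue, mul_inv_rev, ← mul_assoc, mul_inv_cancel, one_mul]
  have hwe : (u * v * u) e = d := by
    show u (v (u e)) = d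
    rw [hue, map_mul, hve, hvd, hab d, ← mul_assoc, mul_inv_cancel, one_mul, hud]
  have hνd : ((u * v * u) ^ 2) d = d⁻¹ := by
    rw [pow_two, MulAut.mul_apply, hwd, map_inv, hwe]
  have hνe : ((u * v * u) ^ 2) e = e⁻¹ := by
    rw [pow_two, MulAut.mul_apply, hwe, hwd]
  refine ⟨hνd, MulEquiv.ext fun c => ?_⟩
  obtain ⟨j, hj⟩ := hu c
  have hc1 : u (c * (e ^ j)⁻¹) = c * (e ^ j)⁻¹ := by
    rw [map_mul, map_inv, map_zpow, hue, (show Commute e d from hab e d).mul_zpow, mul_inv_rev,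
      eq_mul_of_inv_mul_eq hj, ← mul_assoc, mul_inv_cancel_right]
  obtain ⟨i, hi⟩ := hv (c * (e ^ j)⁻¹)
  set c2 := c * (e ^ j)⁻¹ * d ^ i with hc2
  have hu2 : u c2 = c2 := by rw [hc2, map_mul, hc1, map_zpow, hud]
  have hv2 : v c2 = c2 := by
    rw [hc2, map_mul, eq_mul_of_inv_mul_eq hi, map_zpow, hvd,
      (show Commute d e⁻¹ from hab d e⁻¹).mul_zpow, hab (d ^ i), ← mul_assoc, inv_zpow,
      mul_inv_cancel_right]
  have hν2 : ((u * v * u) ^ 2) c2 = c2 := by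
    simp only [pow_two, MulAut.mul_apply, hu2, hv2]
  have hcdec : c = c2 * (d ^ i)⁻¹ * e ^ j := by rw [hc2]; group
  show ((u * v * u) ^ 2) (u c) = u (((u * v * u) ^ 2) c)
  rw [hcdec]
  simp only [map_mul, map_inv, map_zpow, hu2, hν2, hνd, hud, hue, hνe, inv_inv]
  congr 2
  rw [mul_inv_rev, hab d⁻¹ e⁻¹]

end Group

variable {Ω : Type*} [Group Ω] {S : Subgroup Ω} [Finite S] {p : ℕ} [Fact p.Prime]

/-- If a noncentral element of order `p` and its partner generate an abelian index `p` subgroup `C` in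
which an automorphism moves the commutator `z` to it, all elements outside `C` having order `p²`
is impossible for odd `p`. -/
theorem false_of_exponent (hS : IsPGroup p S) {F : FusionSystem S} (hF : F.IsSaturated p) (hp : p ≠ 2)
    {P C : Subgroup Ω} (hP : F.StronglyClosed P) (hCP : C ≤ P)
    (hab : ∀ a b : C, a * b = b * a) (hSC : S ≤ Subgroup.normalizer (C : Set Ω))
    (hexp : ∀ c ∈ C, c ^ p = 1) (hCC : ∀ e ∈ P, (∀ c ∈ C, e * c = c * e) → e ∈ C)
    {z y : Ω} (hyP : y ∈ P) (hzC : z ∈ C) (hzp : z ^ p = 1) (hzy : y * z * y⁻¹ = z)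
    (hcom : ∀ c ∈ C, y * c * y⁻¹ * c⁻¹ ∈ Subgroup.zpowers z) (hyz : y ^ p ∈ Subgroup.zpowers z)
    (hy1 : y ^ p ≠ 1) {g : MulAut C} (hg : g ∈ F.autGroup C)
    (hgz : y * ((g ⟨z, hzC⟩ : C) : Ω) * y⁻¹ ≠ ((g ⟨z, hzC⟩ : C) : Ω))
    (hgz' : y * ((g⁻¹ ⟨z, hzC⟩ : C) : Ω) * y⁻¹ ≠ ((g⁻¹ ⟨z, hzC⟩ : C) : Ω)) : False := by
  have hCS : C ≤ S := hCP.trans hP.1
  have hyS : y ∈ S := hP.1 hyP
  haveI := finite_of_le hCS
  let u : MulAut C := conjAut C y (hSC hyS)
  have huA : u ∈ F.autGroup C := autInducedBy_le_autGroup F hCS (conjAut_mem hyS (hSC hyS))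
  set e := g ⟨z, hzC⟩ with he
  have he1 : e ≠ 1 := fun h => hgz (by rw [h]; simp)
  have hep : e ^ p = 1 := Subtype.ext (hexp _ e.2)
  set d := e⁻¹ * u e with hd
  have huz : ∀ c : C, ∃ j : ℤ, c⁻¹ * u c = (⟨z, hzC⟩ : C) ^ j := by
    intro c
    obtain ⟨j, hj⟩ := hcom c c.2
    refine ⟨j, (hab _ _).trans (Subtype.ext ?_)⟩
    show y * (c : Ω) * y⁻¹ * (c : Ω)⁻¹ = (z : Ω) ^ j
    exact hj.symm
  have hd1 : d ≠ 1 := fun h => hgz (congrArg Subtype.val (inv_mul_eq_one.mp h).symm)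
  obtain ⟨j₀, hj₀⟩ := huz e
  have hz1 : (⟨z, hzC⟩ : C) ≠ 1 := fun h => he1 (by rw [he, h, map_one])
  have hdp : d ^ p = 1 := Subtype.ext (hexp _ d.2)
  have hzd : ∀ a ∈ Subgroup.zpowers (⟨z, hzC⟩ : C), ∃ k : ℤ, d ^ k = a := by
    intro a ha
    obtain ⟨k, hk⟩ := exists_pow_eq_of_prime_card (p := p)
      (U := Subgroup.zpowers (⟨z, hzC⟩ : C))
      (by rw [Nat.card_zpowers, orderOf_eq_prime (Subtype.ext hzp) hz1]) hd1 ⟨j₀, hj₀.symm⟩ ha
    exact ⟨k, by rw [zpow_natCast, hk]⟩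
  have huC : ∀ c : C, ∃ j : ℤ, c⁻¹ * u c = d ^ j := by
    intro c
    obtain ⟨j, hj⟩ := huz c
    obtain ⟨k, hk⟩ := hzd _ ⟨j, rfl⟩
    exact ⟨k, hj.trans hk.symm⟩
  have hud : u d = d := by
    have hfix : u ⟨z, hzC⟩ = ⟨z, hzC⟩ := Subtype.ext hzy
    rw [hd, hj₀, map_zpow, hfix]
  have hue : u e = e * d := by rw [hd, mul_inv_cancel_left]
  let v := g * u * g⁻¹
  have hvA : v ∈ F.autGroup C :=
    (F.autGroup C).mul_mem ((F.autGroup C).mul_mem hg huA) ((F.autGroup C).inv_mem hg)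
  have hv : ∀ c : C, ∃ i : ℤ, c⁻¹ * v c = e ^ i := by
    intro c
    obtain ⟨j, hj⟩ := huz (g⁻¹ c)
    refine ⟨j, ?_⟩
    have := congrArg g hj
    rw [map_mul, map_inv, MulAut.apply_inv_self, map_zpow] at this
    exact this
  have hve : v e = e := by
    show g (u (g⁻¹ e)) = e
    rw [he, MulAut.inv_apply_self, show u ⟨z, hzC⟩ = ⟨z, hzC⟩ from Subtype.ext hzy]
  obtain ⟨b, hb⟩ := hv d
  have hvpow : ∀ (c : C) (i : ℤ), c⁻¹ * v c = e ^ i → ∀ k : ℕ, c⁻¹ * (v ^ k) c = (e ^ i) ^ k := by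
    intro c i hi k
    induction k with
    | zero => simp
    | succ k ih =>
      rw [pow_succ', MulAut.mul_apply, eq_mul_of_inv_mul_eq ih, map_mul, eq_mul_of_inv_mul_eq hi,
        map_pow, map_zpow, hve, ← mul_assoc, inv_mul_cancel_left, ← pow_succ']
  have heb : e ^ b ≠ 1 := by
    intro h
    rw [h, inv_mul_eq_one] at hb
    refine hd1 ?_
    have h1 : u (g⁻¹ d) = g⁻¹ d := by
      apply g.injective
      rw [MulAut.apply_inv_self]
      exact hb.symm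
    -- `g⁻¹` fixes the line, hence `z` would be fixed
    have hall : ∀ a ∈ Subgroup.zpowers (⟨z, hzC⟩ : C), u (g⁻¹ a) = g⁻¹ a := by
      intro a ha
      obtain ⟨k, rfl⟩ := hzd a ha
      rw [map_zpow, map_zpow, h1]
    exact (hgz' (congrArg Subtype.val (hall _ (Subgroup.mem_zpowers _)))).elim
  obtain ⟨k, hk⟩ := exists_pow_eq_of_prime_card (p := p) (U := Subgroup.zpowers e)
    (by rw [Nat.card_zpowers, orderOf_eq_prime hep he1]) heb ⟨b, rfl⟩
    (Subgroup.inv_mem _ (Subgroup.mem_zpowers e))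
  have hvk : ∀ c : C, ∃ i : ℤ, c⁻¹ * (v ^ k) c = e ^ i := by
    intro c
    obtain ⟨i, hi⟩ := hv c
    exact ⟨i * k, by rw [hvpow c i hi k, zpow_mul, zpow_natCast]⟩
  have hvd : (v ^ k) d = d * e⁻¹ := by
    rw [eq_mul_of_inv_mul_eq (hvpow d b hb k), hk]
  have hvke : (v ^ k) e = e := by
    have := hvpow e 0 (by rw [hve]; simp) k
    rw [zpow_zero, one_pow, inv_mul_eq_one] at this
    exact this.symm
  obtain ⟨hνd, hνu⟩ := exists_torus hab hud hue hvke hvd huC hvk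
  set ν := (u * v ^ k * u) ^ 2 with hνdef
  have hνA : ν ∈ F.autGroup C := (F.autGroup C).pow_mem
    ((F.autGroup C).mul_mem ((F.autGroup C).mul_mem huA ((F.autGroup C).pow_mem hvA k)) huA) 2
  have hfn : F.IsFullyNormalized C := isFullyNormalized_of_le_normalizer F hCS hSC
  have hνhom := (mem_autGroup_iff F hCS).mp hνA
  have hrange : (C.subtype.comp ν.toMonoidHom).range = C := by
    refine le_antisymm ?_ fun c hc => ⟨ν⁻¹ ⟨c, hc⟩, ?_⟩
    · rintro _ ⟨c, rfl⟩; exact (ν c).2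
    · show ((ν (ν⁻¹ ⟨c, hc⟩) : C) : Ω) = c
      simp
  obtain ⟨ψ, hψ, hψx⟩ := (receptive_of_fullyNormalized hS hF hfn).2 C _ hνhom hrange
  have hye : y ∈ extender S C (C.subtype.comp ν.toMonoidHom) :=
    mem_extender_iff.mpr ⟨hyS, hSC hyS, y, hyS, fun c hc =>
      congrArg (fun a : C => (a : Ω)) (DFunLike.congr_fun hνu c)⟩
  set y' := ψ ⟨y, hye⟩ with hy'
  have hy'P : y' ∈ P := stronglyClosed_apply hP hψ _ hyP
  have hCe : C ≤ extender S C (C.subtype.comp ν.toMonoidHom) := le_extender hνhom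
  have hψc : ∀ c : C, ψ ⟨c, hCe c.2⟩ = ((ν c : C) : Ω) := fun c => hψx c c.2 (hCe c.2)
  have hact : ∀ c ∈ C, (y⁻¹ * y') * c = c * (y⁻¹ * y') := by
    intro c hc
    have h1 : ψ (⟨y, hye⟩ * ⟨(ν⁻¹ ⟨c, hc⟩ : C), hCe (ν⁻¹ ⟨c, hc⟩).2⟩ * ⟨y, hye⟩⁻¹) =
        y' * c * y'⁻¹ := by
      rw [map_mul, map_mul, map_inv, hψc, MulAut.apply_inv_self]
    have h2 : ψ (⟨y, hye⟩ * ⟨(ν⁻¹ ⟨c, hc⟩ : C), hCe (ν⁻¹ ⟨c, hc⟩).2⟩ * ⟨y, hye⟩⁻¹) =
        y * c * y⁻¹ := by
      refine (hψc (u (ν⁻¹ ⟨c, hc⟩))).trans ?_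
      have := DFunLike.congr_fun hνu (ν⁻¹ ⟨c, hc⟩)
      rw [MulAut.mul_apply, MulAut.mul_apply, MulAut.apply_inv_self] at this
      exact congrArg Subtype.val this
    have h3 := h1.symm.trans h2
    calc (y⁻¹ * y') * c = y⁻¹ * (y' * c * y'⁻¹) * y' := by group
      _ = y⁻¹ * (y * c * y⁻¹) * y' := by rw [h3]
      _ = c * (y⁻¹ * y') := by group
  set c0 := y⁻¹ * y' with hc0
  have hc0C : c0 ∈ C := hCC c0 (P.mul_mem (P.inv_mem hyP) hy'P) hact
  have hpy : y' ^ p = y ^ p := by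
    have e1 : y' = y * c0 := by rw [hc0, mul_inv_cancel_left]
    obtain ⟨i, hi⟩ := hcom c0 hc0C
    have hw : ⁅c0, y⁆ = ((z : Ω) ^ i)⁻¹ := by
      rw [show (z : Ω) ^ i = y * c0 * y⁻¹ * c0⁻¹ from hi, commutatorElement_def]; group
    have hzy' : Commute ((z : Ω) ^ i)⁻¹ y := by
      have h1 : Commute y z := by
        show y * z = z * y
        conv_rhs => rw [← hzy]
        group
      exact (h1.zpow_right i).inv_right.symm
    have hzc : Commute ((z : Ω) ^ i)⁻¹ c0 := by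
      have h1 : Commute c0 z := congrArg Subtype.val (hab ⟨c0, hc0C⟩ ⟨z, hzC⟩)
      exact (h1.zpow_right i).inv_right.symm
    obtain ⟨m, hm⟩ := CfsgLib.PGroups.dvd_choose_two_of_odd ((Fact.out : p.Prime).odd_of_ne_two hp)
    rw [e1, CfsgLib.PGroups.mul_pow_of_commute (by rw [hw]; exact hzy') (by rw [hw]; exact hzc),
      hexp c0 hc0C, mul_one, hw, inv_pow, hm, ← zpow_natCast ((z : Ω) ^ i), ← zpow_mul,
      Nat.cast_mul, show i * ((p : ℤ) * m) = p * (i * m) by ring, zpow_mul, zpow_natCast, hzp,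
      one_zpow, inv_one, mul_one]
  -- `y ^ p` is inverted by `ν` and fixed by `ψ`
  obtain ⟨i, hi⟩ := hyz
  have hyC : y ^ p ∈ C := hi ▸ C.zpow_mem hzC i
  obtain ⟨kk, hkk⟩ := hzd ⟨y ^ p, hyC⟩ ⟨i, Subtype.ext hi⟩
  have hinv : ν ⟨y ^ p, hyC⟩ = (⟨y ^ p, hyC⟩ : C)⁻¹ := by
    rw [← hkk, map_zpow, hνd, inv_zpow]
  have h1 : ψ (⟨y, hye⟩ ^ p) = ((ν ⟨y ^ p, hyC⟩ : C) : Ω) := hψc ⟨y ^ p, hyC⟩
  rw [map_pow, ← hy', hpy, hinv] at h1
  have h2 : (y ^ p) ^ 2 = 1 := by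
    rw [pow_two]
    nth_rewrite 1 [h1]
    exact inv_mul_cancel _
  have hord : orderOf (y ^ p) = p := orderOf_eq_prime (hexp _ hyC) hy1
  have h3 := orderOf_dvd_of_pow_eq_one h2
  rw [hord] at h3
  exact hp ((Nat.prime_dvd_prime_iff_eq Fact.out Nat.prime_two).mp h3)

end CfsgLib.FusionModels.GenExtraspecial
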