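import Cfsg.Agent.Lib.FusionModels.GenExtraspecial

/-!
Generalized extraspecial strongly closed subgroups are normal outside the list `E × A`.
-/

set_option autoImplicit false
set_option linter.style.haveILetI false
set_option linter.unusedSectionVars false

namespace CfsgLib.FusionModels.GenExtraspecial

open Cfsg Cfsg.FusionSystem CfsgLib.Alperin CfsgLib.FusionSub
open scoped commutatorElement

variable {Ω : Type*} [Group Ω] {S : Subgroup Ω} [Finite S] {p : ℕ} [Fact p.Prime]

theorem exists_small_copy (A : Type*) [CommGroup A] [Finite A] :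
    ∃ (B : Type) (_ : CommGroup B), Nonempty (A ≃* B) := by
  let e : {_i : Fin (Nat.card A) // True} ≃ A :=
    (Equiv.subtypeUnivEquiv fun _ => trivial).trans (Finite.equivFin A).symm
  letI := e.commGroup
  exact ⟨_, inferInstance, ⟨e.mulEquiv.symm⟩⟩

theorem exists_small_copy' (A : Type*) [Group A] [Finite A] :
    ∃ (B : Type) (_ : Group B), Nonempty (A ≃* B) := by
  let e : {_i : Fin (Nat.card A) // True} ≃ A :=
    (Equiv.subtypeUnivEquiv fun _ => trivial).trans (Finite.equivFin A).symm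
  letI := e.group
  exact ⟨_, inferInstance, ⟨e.mulEquiv.symm⟩⟩

/-- The excluded groups. -/
def IsExcluded (p : ℕ) (P : Type*) [Group P] : Prop :=
  (p = 2 ∧ ∃ (A : Type) (_ : CommGroup A), (∀ a : A, a ^ 2 = 1) ∧ Nonempty (P ≃* DihedralGroup 4 × A)) ∨
  (p ≠ 2 ∧ ∃ (E : Type) (_ : Group E) (A : Type) (_ : CommGroup A), Cfsg.IsExtraspecial p E ∧
    Nat.card E = p ^ 3 ∧ Monoid.exponent E = p ∧ (∀ a : A, a ^ p = 1) ∧ Nonempty (P ≃* E × A))

set_option maxHeartbeats 1000000 in
theorem weaklyClosed_commutator (hS : IsPGroup p S) {F : FusionSystem S} (hF : F.IsSaturated p)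
    {P : Subgroup Ω} (hP : F.StronglyClosed P) (hge : frattini P = commutator P)
    (hcard : Nat.card (commutator P) = p) (hex : ¬ IsExcluded p P) :
    F.WeaklyClosed ((commutator P).map P.subtype) := by
  have hp := (Fact.out : p.Prime)
  have hPS := hP.1
  haveI := finite_of_le hPS
  have hG : IsPGroup p P := isPGroup_of_le hS hPS
  obtain ⟨⟨z, hzK⟩, hz1'⟩ : ∃ z : commutator P, z ≠ 1 := by
    haveI : Nontrivial (commutator P) := Finite.one_lt_card_iff_nontrivial.mp (by rw [hcard]; exact hp.one_lt)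
    exact exists_ne 1
  have hz1 : z ≠ 1 := fun h => hz1' (Subtype.ext h)
  have hzp : z ^ p = 1 := by
    have := pow_card_eq_one' (x := (⟨z, hzK⟩ : commutator P))
    rw [hcard] at this
    exact congrArg Subtype.val this
  have hKz : commutator P = Subgroup.zpowers z := (Subgroup.eq_of_le_of_card_ge
    (Subgroup.zpowers_le.mpr hzK) (by rw [hcard, Nat.card_zpowers, orderOf_eq_prime hzp hz1])).symm
  have hcom : ∀ a b : P, ⁅a, b⁆ ∈ Subgroup.zpowers z := fun a b =>
    hKz ▸ Subgroup.commutator_mem_commutator (Subgroup.mem_top a) (Subgroup.mem_top b)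
  have hpow : ∀ a : P, a ^ p ∈ Subgroup.zpowers z := fun a => by
    rw [← hKz, ← hge]; exact CfsgLib.PGroups.pow_mem_frattini hG a
  have hzc : z ∈ Subgroup.center P := CfsgLib.PGroups.le_center_of_card_eq_prime hG hcard hzK
  have hcc : ∀ a b : P, ⁅a, b⁆ ∈ Subgroup.center P := fun a b =>
    Subgroup.zpowers_le.mpr hzc (hcom a b)
  set Z0 := Subgroup.zpowers (z : Ω) with hZ0
  have hmapK : (commutator P).map P.subtype = Z0 := by
    rw [hKz, MonoidHom.map_zpowers]; rfl
  have hZ0P : Z0 ≤ P := Subgroup.zpowers_le.mpr z.2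
  have hZ0S : Z0 ≤ S := hZ0P.trans hPS
  have hmemZ0 : ∀ a : P, (a : Ω) ∈ Z0 ↔ a ∈ Subgroup.zpowers z := fun a => by
    rw [← hmapK, ← hKz]
    exact Subgroup.mem_map_iff_mem P.subtype_injective
  -- `z` is central in `S`
  have hzS : ∀ s ∈ S, s * (z : Ω) = z * s := by
    haveI hN : (Z0.subgroupOf S).Normal := by
      refine ⟨fun a ha s => ?_⟩
      have haP : (a : Ω) ∈ P := hZ0P ha
      obtain ⟨e, -, he⟩ := exists_aut_of_hom' F (F.conj_mem hPS s.2)
        fun y => stronglyClosed_conj hP s.2 y.2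
      show (s : Ω) * a * (s : Ω)⁻¹ ∈ Z0
      have h1 : ((e ⟨a, haP⟩ : P) : Ω) = (s : Ω) * a * (s : Ω)⁻¹ := he ⟨a, haP⟩
      rw [← h1, hmemZ0, ← hKz]
      refine (Subgroup.characteristic_iff_map_eq.mp inferInstance e).le ⟨⟨a, haP⟩, ?_, rfl⟩
      rw [hKz]
      exact (hmemZ0 _).mp ha
    have hle := CfsgLib.PGroups.le_center_of_card_eq_prime hS (N := Z0.subgroupOf S) (by
      rw [Nat.card_congr (Subgroup.subgroupOfEquivOfLe hZ0S).toEquiv, hZ0, Nat.card_zpowers,
        orderOf_eq_prime (by exact_mod_cast congrArg Subtype.val hzp) fun h => hz1 (Subtype.ext h)])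
    intro s hs
    exact congrArg Subtype.val (Subgroup.mem_center_iff.mp
      (hle (show (⟨z, hPS z.2⟩ : S) ∈ Z0.subgroupOf S from Subgroup.mem_zpowers _)) ⟨s, hs⟩)
  have hfn : F.IsFullyNormalized Z0 := isFullyNormalized_of_le_normalizer F hZ0S fun s hs =>
    Subgroup.centralizer_le_normalizer _ fun w hw => by
      obtain ⟨k, rfl⟩ := hw
      exact ((show Commute s (z : Ω) from hzS s hs).zpow_right k).symm
  -- extending maps onto `Z0`
  have hext : ∀ (x : P) (χ : Subgroup.zpowers (x : Ω) →* Ω), χ ∈ F.Hom (Subgroup.zpowers (x : Ω)) →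
      χ ⟨x, Subgroup.mem_zpowers _⟩ = z →
      ∃ ψ ∈ F.Hom (centralizerIn S (Subgroup.zpowers (x : Ω))),
        ∀ h : (x : Ω) ∈ centralizerIn S (Subgroup.zpowers (x : Ω)), ψ ⟨x, h⟩ = z := by
    intro x χ hχ hχx
    have hr : χ.range = Z0 := by
      refine le_antisymm ?_ (Subgroup.zpowers_le.mpr ⟨_, hχx⟩)
      rintro _ ⟨⟨w, i, rfl⟩, rfl⟩
      have : χ (⟨x, Subgroup.mem_zpowers _⟩ ^ i) = (z : Ω) ^ i := by rw [map_zpow, hχx]
      exact ⟨i, this.symm⟩
    obtain ⟨ψ, hψ, hψx⟩ := (receptive_of_fullyNormalized hS hF hfn).2 _ χ hχ hr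
    refine ⟨_, restrict_mem hψ (centralizerIn_le_extender _ χ), fun h => ?_⟩
    exact (hψx x (Subgroup.mem_zpowers _) (centralizerIn_le_extender _ χ h)).trans hχx
  have hcentr : ∀ (x : P) (y : Ω), y ∈ S → Commute y (x : Ω) →
      y ∈ centralizerIn S (Subgroup.zpowers (x : Ω)) := fun x y hy hc => ⟨hy, fun w hw => by
    obtain ⟨k, rfl⟩ := hw
    exact (hc.zpow_right k).symm.eq⟩
  have hcen : ∀ (x : P) (χ : Subgroup.zpowers (x : Ω) →* Ω), χ ∈ F.Hom (Subgroup.zpowers (x : Ω)) →
      χ ⟨x, Subgroup.mem_zpowers _⟩ = z → (∀ g : P, g * x = x * g) → x ∈ Subgroup.zpowers z := by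
    intro x χ hχ hχx hx
    obtain ⟨ψ, hψ, hψx⟩ := hext x χ hχ hχx
    have hPC : P ≤ centralizerIn S (Subgroup.zpowers (x : Ω)) := fun y hy =>
      hcentr x y (hPS hy) (congrArg Subtype.val (hx ⟨y, hy⟩))
    obtain ⟨e, -, he⟩ := exists_aut_of_hom' F (restrict_mem hψ hPC)
      fun y => stronglyClosed_apply hP (restrict_mem hψ hPC) y y.2
    have hex' : e x = z := Subtype.ext ((he x).trans (hψx _))
    rw [← hKz]
    refine (Subgroup.characteristic_iff_comap_eq.mp inferInstance e).le ?_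
    show e x ∈ commutator P
    rw [hex']
    exact hzK
  -- the main step
  have hmain : ∀ (x : P) (χ : Subgroup.zpowers (x : Ω) →* Ω), χ ∈ F.Hom (Subgroup.zpowers (x : Ω)) →
      χ ⟨x, Subgroup.mem_zpowers _⟩ = z → x ∈ Subgroup.zpowers z := by
    intro x χ hχ hχx
    by_contra hxz
    have hxnc : ¬ ∀ g : P, g * x = x * g := fun h => hxz (hcen x χ hχ hχx h)
    obtain ⟨ψ, hψ, hψx⟩ := hext x χ hχ hχx
    set C : Subgroup Ω := (Subgroup.centralizer ({x} : Set P)).map P.subtype with hC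
    have hCmem : ∀ g : P, (g : Ω) ∈ C ↔ g * x = x * g := fun g => by
      rw [hC, ← Subgroup.mem_centralizer_singleton_iff (k := g) (g := x)]
      exact Subgroup.mem_map_iff_mem P.subtype_injective
    have hCP : C ≤ P := Subgroup.map_subtype_le _
    have hCle : C ≤ centralizerIn S (Subgroup.zpowers (x : Ω)) := fun c hc =>
      hcentr x c (hPS (hCP hc)) (congrArg Subtype.val ((hCmem ⟨c, hCP hc⟩).mp hc))
    set ψC := ψ.comp (Subgroup.inclusion hCle) with hψC'
    have hψC : ψC ∈ F.Hom C := restrict_mem hψ hCle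
    have hxC : (x : Ω) ∈ C := (hCmem x).mpr rfl
    have hψCx : ψC ⟨x, hxC⟩ = z := hψx _
    have hψCP : ∀ c : C, ψC c ∈ P := fun c => stronglyClosed_apply hP hψC c (hCP c.2)
    have hzC : (z : Ω) ∈ C := (hCmem z).mpr (Subgroup.mem_center_iff.mp hzc x).symm
    have hxp : x ^ p = 1 := by
      have h1 : ψC (⟨x, hxC⟩ ^ p) = 1 := by
        rw [map_pow, hψCx]
        exact congrArg Subtype.val hzp
      have := F.injective_of_mem hψC (h1.trans (map_one ψC).symm)
      exact Subtype.ext (congrArg (fun w : C => (w : Ω)) this :)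
    have hno : ∀ d : C, (d : Ω) ∈ Z0 → d ≠ 1 → ψC d ∈ Z0 → False := by
      intro d hd hd1 hψd
      obtain ⟨k, hk⟩ := exists_pow_eq_of_prime_card (p := p) (U := Z0)
        (by rw [hZ0, Nat.card_zpowers, orderOf_eq_prime (by exact_mod_cast congrArg Subtype.val hzp)
          fun h => hz1 (Subtype.ext h)])
        (fun h => hd1 (Subtype.ext h)) hd (Subgroup.mem_zpowers (z : Ω))
      obtain ⟨m, hm⟩ : ∃ m : ℤ, (z : Ω) ^ m = ψC ⟨z, hzC⟩ := by
        have e1 : (⟨z, hzC⟩ : C) = d ^ k := Subtype.ext hk.symm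
        rw [e1, map_pow]
        exact Subgroup.pow_mem _ hψd k
      have e2 : (⟨z, hzC⟩ : C) = (⟨x, hxC⟩ : C) ^ m := F.injective_of_mem hψC (by
        rw [map_zpow, hψCx, hm])
      have e3 : z = x ^ m := Subtype.ext (congrArg (fun w : C => (w : Ω)) e2)
      refine hxz ?_
      have heq : Subgroup.zpowers z = Subgroup.zpowers x := Subgroup.eq_of_le_of_card_ge
        (Subgroup.zpowers_le.mpr ⟨m, e3.symm⟩) (by
          rw [Nat.card_zpowers, Nat.card_zpowers, orderOf_eq_prime hzp hz1,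
            orderOf_eq_prime hxp (fun h => hz1 (by rw [e3, h, one_zpow]))])
      rw [heq]
      exact Subgroup.mem_zpowers x
    have hCab : ∀ a b : C, a * b = b * a := by
      intro a b
      by_contra hne
      refine hno ⁅a, b⁆ ?_ (fun h => hne (commutatorElement_eq_one_iff_mul_comm.mp h)) ?_
      · exact (hmemZ0 ⁅(⟨a, hCP a.2⟩ : P), ⟨b, hCP b.2⟩⁆).mpr (hcom _ _)
      · rw [map_commutatorElement]
        exact (hmemZ0 ⁅(⟨ψC a, hψCP a⟩ : P), ⟨ψC b, hψCP b⟩⁆).mpr (hcom _ _)
    have hCexp : ∀ c ∈ C, c ^ p = 1 := by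
      intro c hc
      by_contra hne
      refine hno (⟨c, hc⟩ ^ p) ?_ (fun h => hne (congrArg Subtype.val h)) ?_
      · exact (hmemZ0 (⟨c, hCP hc⟩ ^ p)).mpr (hpow _)
      · rw [map_pow]
        exact (hmemZ0 (⟨ψC ⟨c, hc⟩, hψCP _⟩ ^ p)).mpr (hpow _)
    have hCab' : ∀ a b : P, a * x = x * a → b * x = x * b → a * b = b * a := fun a b ha hb =>
      Subtype.ext (congrArg (fun w : C => (w : Ω))
        (hCab ⟨a, (hCmem a).mpr ha⟩ ⟨b, (hCmem b).mpr hb⟩))
    have hdec : ∀ y : P, ⁅x, y⁆ ≠ 1 → ∀ g : P, ∃ (i j : ℤ) (c : P),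
        c ∈ Subgroup.center P ∧ g = x ^ i * y ^ j * c := by
      intro y hy g
      have hgen : ∀ w ∈ Subgroup.zpowers z, ∃ k : ℤ, ⁅x, y⁆ ^ k = w := fun w hw => by
        obtain ⟨k, hk⟩ := exists_pow_eq_of_prime_card (p := p) (U := Subgroup.zpowers z)
          (by rw [Nat.card_zpowers, orderOf_eq_prime hzp hz1]) hy (hcom x y) hw
        exact ⟨k, by rw [zpow_natCast, hk]⟩
      obtain ⟨j, hj⟩ := hgen _ (hcom x g)
      have hc1 : (y ^ j)⁻¹ * g * x = x * ((y ^ j)⁻¹ * g) := by
        refine (commutatorElement_eq_one_iff_mul_comm.mp ?_).symm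
        rw [CfsgLib.PGroups.commutatorElement_mul_right (hcc _ _),
          CfsgLib.PGroups.commutatorElement_inv_right' (hcc _ _),
          commutatorElement_zpow_right (fun w => hcc x w), hj, inv_mul_cancel]
      obtain ⟨i, hi⟩ := hgen _ (hcom ((y ^ j)⁻¹ * g) y)
      set c := (x ^ i)⁻¹ * ((y ^ j)⁻¹ * g) with hc
      have hcx : c * x = x * c :=
        ((((Commute.refl x).zpow_right i).inv_right).mul_right (hc1.symm : Commute x _)).eq.symm
      have hcy : c * y = y * c := by
        refine commutatorElement_eq_one_iff_mul_comm.mp ?_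
        rw [hc, CfsgLib.PGroups.commutatorElement_mul_left (hcc _ _),
          CfsgLib.PGroups.commutatorElement_inv_left' (hcc _ _)]
        have e2 : ⁅x ^ i, y⁆ = ⁅x, y⁆ ^ i := by
          rw [← commutatorElement_inv, commutatorElement_zpow_right (fun w => hcc y w),
            ← commutatorElement_inv y x, inv_zpow]
        rw [e2, hi, inv_mul_cancel]
      have hccen : c ∈ Subgroup.center P := by
        rw [Subgroup.mem_center_iff]
        intro w
        obtain ⟨j', hj'⟩ := hgen _ (hcom x w)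
        have hw1 : (y ^ j')⁻¹ * w * x = x * ((y ^ j')⁻¹ * w) := by
          refine (commutatorElement_eq_one_iff_mul_comm.mp ?_).symm
          rw [CfsgLib.PGroups.commutatorElement_mul_right (hcc _ _),
            CfsgLib.PGroups.commutatorElement_inv_right' (hcc _ _),
            commutatorElement_zpow_right (fun u => hcc x u), hj', inv_mul_cancel]
        have c1 : Commute ((y ^ j')⁻¹ * w) c := hCab' _ _ hw1 hcx
        have c2 : Commute y c := hcy.symm
        have := (c2.zpow_left j').mul_left c1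
        rwa [mul_inv_cancel_left] at this
      refine ⟨i, j * 1, c * ⁅(y ^ j : P), x ^ i⁆, Subgroup.mul_mem _ hccen (hcc _ _), ?_⟩
      rw [mul_one, Subgroup.mem_center_iff.mp hccen ⁅(y ^ j : P), x ^ i⁆ |>.symm,
        ← mul_assoc (x ^ i * y ^ j) ⁅(y ^ j : P), x ^ i⁆ c]
      have e3 : x ^ i * y ^ j * ⁅(y ^ j : P), x ^ i⁆ = y ^ j * x ^ i := by
        rw [Subgroup.mem_center_iff.mp (hcc (y ^ j) (x ^ i)) (x ^ i * y ^ j), commutatorElement_def]
        group
      rw [e3, hc]
      group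
    obtain ⟨g₀, hg₀⟩ := not_forall.mp hxnc
    have hg₀' : ⁅x, g₀⁆ ≠ 1 := fun h => hg₀ (commutatorElement_eq_one_iff_mul_comm.mp h).symm
    have hcent : ∀ c ∈ Subgroup.center P, c ^ p = 1 := fun c hc => Subtype.ext (by
      rw [Subgroup.coe_pow]
      exact hCexp c ((hCmem c).mpr (Subgroup.mem_center_iff.mp hc x).symm))
    by_cases hex1 : ∃ y : P, ⁅x, y⁆ ≠ 1 ∧ y ^ p = 1
    · obtain ⟨y, hy, hyp⟩ := hex1
      obtain ⟨E, A, hE, hEc, ⟨a, b, ha, hab⟩, hAZ, hAp, ⟨f⟩⟩ :=
        exists_product hG hcom hpow hzc hy hzp hxp hyp (hdec y hy) hcent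
      letI : CommGroup A := { (inferInstance : Group A) with
        mul_comm := fun u v => Subtype.ext (Subgroup.mem_center_iff.mp (hAZ v.2) u) }
      obtain ⟨A', hA', ⟨eA⟩⟩ := exists_small_copy A
      have hA'p : ∀ u : A', u ^ p = 1 := fun u => by
        obtain ⟨w, rfl⟩ := eA.surjective u
        rw [← map_pow, show w ^ p = 1 from Subtype.ext (hAp w w.2), map_one]
      refine hex ?_
      by_cases hp2 : p = 2
      · subst hp2
        obtain ⟨eD⟩ := CfsgLib.ReflectionsSpinor.POmegaQuot.nonempty_dihedral (Y := E)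
          (by rw [hEc]; norm_num) (a := a) (by simpa using ha) hab
        exact Or.inl ⟨rfl, A', hA', hA'p, ⟨f.trans (eD.prodCongr eA)⟩⟩
      · obtain ⟨E', hE', ⟨eE⟩⟩ := exists_small_copy' E
        refine Or.inr ⟨hp2, E', hE', A', hA', CfsgLib.PGroups.IsExtraspecial.of_mulEquiv eE hE, ?_, ?_, hA'p,
          ⟨f.trans (eE.prodCongr eA)⟩⟩
        · rw [← hEc]
          exact Nat.card_congr eE.symm.toEquiv
        · have hall : ∀ u : E', u ^ p = 1 := fun u => by
            obtain ⟨e, rfl⟩ := eE.surjective u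
            rw [← map_pow, ← map_one eE]
            congr 1
            refine Subtype.ext ?_
            rw [Subgroup.coe_pow]
            obtain ⟨i, j, c, hc, he⟩ := hdec y hy (e : P)
            have hcm : ∀ u v : P, ⁅u, v⁆ ^ p = 1 := fun u v => by
              obtain ⟨k, hk⟩ := hcom u v
              rw [← hk, ← zpow_natCast, ← zpow_mul, mul_comm, zpow_mul, zpow_natCast, hzp, one_zpow]
            have hodd := (Fact.out : p.Prime).odd_of_ne_two hp2
            rw [he, CfsgLib.PGroups.mul_pow_of_central_odd (hcc _ _) hodd (hcm _ _),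
              CfsgLib.PGroups.mul_pow_of_central_odd (hcc _ _) hodd (hcm _ _), hcent c hc,
              ← zpow_natCast (x ^ i), ← zpow_mul, mul_comm i, zpow_mul, zpow_natCast, hxp, one_zpow,
              ← zpow_natCast (y ^ j), ← zpow_mul, mul_comm j, zpow_mul, zpow_natCast, hyp, one_zpow,
              one_mul, one_mul]
            rfl
          have hdvd : Monoid.exponent E' ∣ p := Monoid.exponent_dvd_of_forall_pow_eq_one hall
          rcases (Nat.dvd_prime hp).mp hdvd with h | h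
          · exfalso
            haveI := Monoid.exp_eq_one_iff.mp h
            rw [Nat.card_congr eE.toEquiv, Nat.card_unique] at hEc
            exact absurd hEc (Nat.one_lt_pow (by norm_num) hp.one_lt).ne
          · exact h
    push Not at hex1
    by_cases hp2 : p = 2
    · subst hp2
      refine hex1 (x * g₀) ?_ ?_
      · rw [CfsgLib.PGroups.commutatorElement_mul_right (hcc _ _), commutatorElement_self, one_mul]
        exact hg₀'
      · have hz2 : ∀ w ∈ Subgroup.zpowers z, w ≠ 1 → w = z := by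
          intro w hw hw1
          obtain ⟨k, rfl⟩ := hw
          rcases Int.even_or_odd' k with ⟨m, rfl | rfl⟩
          · exact absurd (by show z ^ (2 * m) = 1
                             rw [zpow_mul, zpow_two, ← pow_two, hzp, one_zpow]) hw1
          · show z ^ (2 * m + 1) = z
            rw [zpow_add, zpow_mul, zpow_two, ← pow_two, hzp, one_zpow, one_mul, zpow_one]
        rw [CfsgLib.PGroups.mul_pow_of_central (hcc _ _), hxp, one_mul,
          hz2 _ (hpow g₀) (hex1 g₀ hg₀'), show Nat.choose 2 2 = 1 from rfl, pow_one,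
          hz2 _ (hcom _ _) (fun h => hg₀' (by rw [← commutatorElement_inv, h, inv_one])),
          ← pow_two, hzp]
    -- `p` odd, all elements outside `C` of order `p²`
    haveI := finite_of_le (hCP.trans hPS)
    have hout : ∀ w : P, w ^ p = 1 → (w : Ω) ∈ C := fun w hw => (hCmem w).mpr
      (commutatorElement_eq_one_iff_mul_comm.mp (by
        by_contra h
        exact hex1 w h hw)).symm
    obtain ⟨g, hg, hgx⟩ := exists_aut_of_hom' F hψC fun c => hout ⟨ψC c, hψCP c⟩ (Subtype.ext (by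
      rw [Subgroup.coe_pow]
      show ψC c ^ p = 1
      rw [← map_pow, show c ^ p = 1 from Subtype.ext (hCexp c c.2), map_one]))
    have hSC : S ≤ Subgroup.normalizer (C : Set Ω) := by
      have key : ∀ s ∈ S, ∀ c ∈ C, s * c * s⁻¹ ∈ C := fun s hs c hc => by
        refine hout ⟨_, stronglyClosed_conj hP hs (hCP hc)⟩ (Subtype.ext ?_)
        rw [Subgroup.coe_pow]
        show (s * c * s⁻¹) ^ p = 1
        rw [conj_pow, hCexp c hc, mul_one, mul_inv_cancel]
      refine fun s hs => Subgroup.mem_normalizer_iff.mpr fun c => ⟨key s hs c, fun hc => ?_⟩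
      have := key s⁻¹ (S.inv_mem hs) _ hc
      simpa [mul_assoc] using this
    refine false_of_exponent hS hF hp2 hP hCP hCab hSC hCexp ?_ g₀.2 hzC
      (congrArg Subtype.val hzp) ?_ ?_ ((hmemZ0 _).mpr (hpow g₀)) ?_ hg ?_ ?_
    · exact fun e he hcomm => (hCmem ⟨e, he⟩).mpr (Subtype.ext (hcomm x hxC))
    · rw [hzS _ (hPS g₀.2), mul_inv_cancel_right]
    · intro c hc
      exact (hmemZ0 ⁅g₀, (⟨c, hCP hc⟩ : P)⁆).mpr (hcom _ _)
    · exact fun h => hex1 g₀ hg₀' (Subtype.ext (by rw [Subgroup.coe_pow]; exact h))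
    · intro h
      set w : P := ⟨_, hCP (g ⟨z, hzC⟩).2⟩ with hw
      have hwx : w * x = x * w := (hCmem w).mp (g ⟨z, hzC⟩).2
      have hwy : g₀ * w = w * g₀ := Subtype.ext (mul_inv_eq_iff_eq_mul.mp h)
      have hwc : ∀ u : P, u * w = w * u := by
        intro u
        obtain ⟨i, j, c, hc, rfl⟩ := hdec g₀ hg₀' u
        have c1 : Commute x w := hwx.symm
        have c2 : Commute g₀ w := hwy
        have c3 : Commute c w := (Subgroup.mem_center_iff.mp hc w).symm
        exact ((c1.zpow_left i).mul_left (c2.zpow_left j)).mul_left c3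
      obtain ⟨χ', hχ', -, hinv, -⟩ := exists_inverse
        (restrict_mem hψC (Subgroup.zpowers_le.mpr hzC)) (rfl : _ = _)
      have hr : Subgroup.zpowers (w : Ω) ≤
          (ψC.comp (Subgroup.inclusion (Subgroup.zpowers_le.mpr hzC))).range :=
        Subgroup.zpowers_le.mpr ⟨⟨z, Subgroup.mem_zpowers _⟩, (hgx ⟨z, hzC⟩).symm⟩
      have h1 : (χ'.comp (Subgroup.inclusion hr)) ⟨w, Subgroup.mem_zpowers _⟩ = z := by
        have hh := hinv ⟨z, Subgroup.mem_zpowers _⟩ ⟨_, rfl⟩
        refine Eq.trans ?_ hh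
        exact congrArg χ' (Subtype.ext (hgx ⟨z, hzC⟩))
      have := hcen w _ (restrict_mem hχ' hr) h1 hwc
      refine hno ⟨z, hzC⟩ (Subgroup.mem_zpowers _) (fun h => hz1 (Subtype.ext (congrArg
        (fun v : C => (v : Ω)) h))) ?_
      rw [← hgx]
      exact (hmemZ0 w).mpr this
    · intro h
      have e : (g⁻¹ ⟨z, hzC⟩ : C) = ⟨x, hxC⟩ := by
        apply g.injective
        rw [MulAut.apply_inv_self]
        exact Subtype.ext ((hgx ⟨x, hxC⟩).trans hψCx).symm
      rw [e] at h
      exact hg₀ (Subtype.ext (mul_inv_eq_iff_eq_mul.mp h))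
  -- conclusion
  rw [hmapK]
  refine ⟨hZ0S, fun φ hφ => ?_⟩
  haveI := finite_of_le hZ0S
  refine Subgroup.eq_of_le_of_card_ge ?_ (by rw [card_range_eq (F.injective_of_mem hφ)])
  set w : P := ⟨φ ⟨z, Subgroup.mem_zpowers _⟩, stronglyClosed_apply hP hφ _ z.2⟩ with hw
  obtain ⟨χ, hχ, -, hinv, -⟩ := exists_inverse hφ (rfl : φ.range = φ.range)
  have hle : Subgroup.zpowers (w : Ω) ≤ φ.range := Subgroup.zpowers_le.mpr ⟨_, rfl⟩
  have := hmain w _ (restrict_mem hχ hle) (hinv ⟨z, Subgroup.mem_zpowers _⟩ ⟨_, rfl⟩)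
  rintro _ ⟨⟨v, i, rfl⟩, rfl⟩
  have e : φ (⟨z, Subgroup.mem_zpowers _⟩ ^ i) = (w : Ω) ^ i := map_zpow φ _ i
  refine (show φ (⟨z, Subgroup.mem_zpowers _⟩ ^ i) ∈ Z0 from ?_)
  rw [e]
  exact Subgroup.zpow_mem _ ((hmemZ0 w).mpr this) i

theorem isNormal (hS : IsPGroup p S) {F : FusionSystem S} (hF : F.IsSaturated p)
    {P : Subgroup Ω} (hP : F.StronglyClosed P) (hge : frattini P = commutator P)
    (hcard : Nat.card (commutator P) = p) (hex : ¬ IsExcluded p P) : F.IsNormal P := by
  haveI := finite_of_le hP.1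
  have hK := weaklyClosed_commutator hS hF hP hge hcard hex
  refine isNormal_of_weaklyClosed_series hS hF hP (n := 2)
    ![⊥, (commutator P).map P.subtype, P] rfl rfl ?_ ?_ ?_
  · refine Fin.monotone_iff_le_succ.mpr fun i => ?_
    fin_cases i
    · exact bot_le
    · exact Subgroup.map_subtype_le _
  · intro i
    fin_cases i
    · show ⁅(commutator P).map P.subtype, P⁆ ≤ ⊥
      refine Subgroup.commutator_le.mpr ?_
      rintro _ ⟨k, hk, rfl⟩ b hb
      rw [Subgroup.mem_bot, commutatorElement_eq_one_iff_mul_comm]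
      exact congrArg Subtype.val (Subgroup.mem_center_iff.mp
        (CfsgLib.PGroups.le_center_of_card_eq_prime (isPGroup_of_le hS hP.1) hcard hk) ⟨b, hb⟩).symm
    · show ⁅P, P⁆ ≤ (commutator P).map P.subtype
      rw [Subgroup.map_subtype_commutator]
  · intro i
    fin_cases i
    · exact ⟨bot_le, fun φ hφ => le_antisymm (fun y hy => by
        obtain ⟨a, rfl⟩ := hy
        rw [show a = 1 from Subtype.ext (Subgroup.mem_bot.mp a.2), map_one]
        exact Subgroup.one_mem _) bot_le⟩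
    · exact hK

end CfsgLib.FusionModels.GenExtraspecial
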