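import Cfsg.Agent.Lib.FusionModels.MetacyclicTwoGroup
import Cfsg.Agent.Lib.FusionModels.NormalTests
import Cfsg.Agent.Lib.CoprimeAction.Aut
import Cfsg.Prelude.Def_OddOrderLocal

/-!
A strongly closed metacyclic 2-subgroup which is not dihedral, semidihedral or quaternion is normal.
-/

set_option autoImplicit false
set_option linter.style.haveILetI false
set_option linter.unusedSectionVars false

namespace CfsgLib.FusionModels.MetacyclicTwo

open Cfsg Cfsg.FusionSystem CfsgLib.Alperin CfsgLib.FusionSub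

variable {Ω : Type*} [Group Ω] {S : Subgroup Ω} [Finite S]

theorem isPGroup_of_odd_trivial {A : Type*} [Group A] [Finite A]
    (h : ∀ a : A, (orderOf a).Coprime 2 → a = 1) : IsPGroup 2 A := by
  intro g
  refine ⟨(orderOf g).factorization 2, h _ ?_⟩
  rw [orderOf_pow_of_dvd (pow_ne_zero _ Nat.prime_two.ne_zero) (Nat.ordProj_dvd _ 2)]
  exact (Nat.coprime_ordCompl Nat.prime_two (orderOf_pos g).ne').symm

theorem isNormal_of_metacyclic (hS : IsPGroup 2 S) {F : FusionSystem S} (hF : F.IsSaturated 2)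
    {P : Subgroup Ω} (hP : F.StronglyClosed P) (hm : Cfsg.IsMetacyclic P)
    (hd : ¬ ∃ m : ℕ, Nonempty (P ≃* DihedralGroup m))
    (hq : ¬ ∃ m : ℕ, Nonempty (P ≃* QuaternionGroup m)) (hsd : ¬ Cfsg.IsQuasiDihedral P) :
    F.IsNormal P := by
  refine (Cfsg.Agent.S5086.result 2 hS F hF P).mpr ⟨hP, fun R hc hr => ?_⟩
  haveI := finite_of_le hP.1
  haveI := finite_of_le hc.1
  haveI := finite_autGroup F hc.1
  by_contra hPR
  have hPp : IsPGroup 2 P := isPGroup_of_le hS hP.1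
  have hRp : IsPGroup 2 R := isPGroup_of_le hS hc.1
  set T : Subgroup P := R.subgroupOf P with hT
  set A := F.autGroup R with hA
  -- the action of `Aut_F(R)` on `T`
  have hmemP : ∀ (β : A) (x : R), (x : Ω) ∈ P → (((β : MulAut R) x : R) : Ω) ∈ P := fun β x hx =>
    CfsgLib.FusionBasics.aut_apply_mem_of_stronglyClosed hP hc.1 β.2 x hx
  let f : A → T → T := fun β u =>
    ⟨⟨_, hmemP β ⟨((u : P) : Ω), u.2⟩ (u : P).2⟩, ((β : MulAut R) ⟨((u : P) : Ω), u.2⟩).2⟩
  have hfmul : ∀ β u v, f β (u * v) = f β u * f β v := fun β u v => Subtype.ext (Subtype.ext (by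
    show (((β : MulAut R) (⟨((u : P) : Ω), u.2⟩ * ⟨((v : P) : Ω), v.2⟩) : R) : Ω) = _
    rw [map_mul]
    rfl))
  have hfcomp : ∀ β δ u, f (β * δ) u = f β (f δ u) := fun β δ u => Subtype.ext (Subtype.ext rfl)
  have hfone : ∀ u, f 1 u = u := fun u => Subtype.ext (Subtype.ext rfl)
  let ρ : A →* MulAut T :=
    { toFun := fun β =>
        { toFun := f β
          invFun := f β⁻¹
          left_inv := fun u => by rw [← hfcomp, inv_mul_cancel, hfone]
          right_inv := fun u => by rw [← hfcomp, mul_inv_cancel, hfone]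
          map_mul' := hfmul β }
      map_one' := MulEquiv.ext hfone
      map_mul' := fun β δ => MulEquiv.ext (hfcomp β δ) }
  let Φ0 : Subgroup (MulAut T) :=
    { carrier := {δ | ∀ u : T, u⁻¹ * δ u ∈ frattini T}
      one_mem' := fun u => by simp
      mul_mem' := fun {b c} hb hc u => by
        have h' := (frattini T).mul_mem (hc u) (hb (c u))
        simpa [mul_assoc, MulAut.mul_apply] using h'
      inv_mem' := fun {b} hb u => by
        have h' := (frattini T).inv_mem (hb (b⁻¹ u))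
        rw [MulAut.apply_inv_self] at h'
        simpa using h' }
  haveI hΦn : Φ0.Normal := ⟨fun δ hδ γ u => by
    have h1 := (Subgroup.characteristic_iff_map_eq.mp (inferInstance : (frattini T).Characteristic) γ).le
      ⟨_, hδ (γ⁻¹ u), rfl⟩
    change γ ((γ⁻¹ u)⁻¹ * δ (γ⁻¹ u)) ∈ _ at h1
    rw [map_mul, map_inv, MulAut.apply_inv_self] at h1
    exact h1⟩
  let K0 : Subgroup A :=
    { carrier := {β | ∀ x : R, (((β : MulAut R) x * x⁻¹ : R) : Ω) ∈ P}
      one_mem' := fun x => by simp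
      mul_mem' := fun {b c} hb hc x => by
        have h' := P.mul_mem (hb ((c : MulAut R) x)) (hc x)
        simpa [mul_assoc] using h'
      inv_mem' := fun {b} hb x => by
        have h' := P.inv_mem (hb ((b : MulAut R)⁻¹ x))
        simpa using h' }
  haveI hK0n : K0.Normal := ⟨fun δ hδ γ x => by
    have h1 := hmemP γ _ (hδ ((γ : MulAut R)⁻¹ x))
    rw [map_mul, map_inv, MulAut.apply_inv_self] at h1
    exact h1⟩
  let K : Subgroup A := K0 ⊓ Φ0.comap ρ
  haveI hKn : K.Normal := Subgroup.normal_inf_normal _ _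
  have hle : ∀ (L : Subgroup A), L.Normal → IsPGroup 2 L → ∀ t (htP : t ∈ P),
      ∀ (ht : t ∈ Subgroup.normalizer (R : Set Ω)),
      (⟨conjAut R t ht, autInducedBy_le_autGroup F hc.1 (conjAut_mem (hP.1 htP) ht)⟩ : A) ∈ L →
      t ∈ R := by
    intro L hL hLp t htP ht hmem
    have h1 : (⟨conjAut R t ht, autInducedBy_le_autGroup F hc.1 (conjAut_mem (hP.1 htP) ht)⟩ : A) ∈
        pCore 2 A :=
      le_sSup (show L ∈ {N : Subgroup A | N.Normal ∧ IsPGroup 2 N} from ⟨hL, hLp⟩) hmem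
    refine mem_of_conjAut_mem_inn hc.1 (hc.2 R (isConj_refl F hc.1)) (hP.1 htP)
      (α := conjAut R t ht) (fun _ => rfl) ?_
    rw [← hr.2]
    exact ⟨_, h1, rfl⟩
  have hconjK0 : ∀ t (htP : t ∈ P) (ht : t ∈ Subgroup.normalizer (R : Set Ω)),
      (⟨conjAut R t ht, autInducedBy_le_autGroup F hc.1 (conjAut_mem (hP.1 htP) ht)⟩ : A) ∈ K0 := by
    intro t htP ht x
    show t * (x : Ω) * t⁻¹ * (x : Ω)⁻¹ ∈ P
    have := P.mul_mem htP (stronglyClosed_conj hP (hc.1 x.2) (P.inv_mem htP))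
    simpa [mul_assoc] using this
  have hΦp : IsPGroup 2 Φ0 :=
    CfsgLib.CoprimeAction.isPGroup_of_trivial_on_frattini_quotient (hPp.to_subgroup T) Φ0
      fun a ha => ha
  have hKp : IsPGroup 2 K := by
    refine isPGroup_of_odd_trivial fun b hb => Subtype.ext (Subtype.ext (MulEquiv.ext fun x => ?_))
    have hρ : ρ b = 1 := by
      obtain ⟨k, hk⟩ := IsPGroup.iff_orderOf.mp hΦp ⟨ρ b, Subgroup.mem_comap.mp (Subgroup.mem_inf.mp b.2).2⟩
      replace hk := (Subgroup.orderOf_coe _).trans hk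
      have hdvd : orderOf (ρ b) ∣ orderOf b := by
        rw [← Subgroup.orderOf_coe b]
        exact orderOf_map_dvd ρ (b : A)
      exact orderOf_eq_one_iff.mp (Nat.eq_one_of_dvd_coprimes (hb.pow_right k) hdvd hk.dvd)
    have hb' : (orderOf ((b : A) : MulAut R)).Coprime 2 := by
      rwa [Subgroup.orderOf_coe, Subgroup.orderOf_coe]
    refine CfsgLib.PGroups.fixed_of_fixed_diff hRp _ hb' ?_
    have hdP : ((x⁻¹ * ((b : A) : MulAut R) x : R) : Ω) ∈ P := by
      have h1 := (Subgroup.mem_inf.mp b.2).1 x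
      have h2 := stronglyClosed_conj hP (S.inv_mem (hc.1 x.2)) h1
      simpa [mul_assoc] using h2
    have h3 := DFunLike.congr_fun hρ (⟨⟨_, hdP⟩, (x⁻¹ * ((b : A) : MulAut R) x).2⟩ : T)
    exact Subtype.ext (congrArg (fun w : T => ((w : P) : Ω)) h3)
  -- an element of `P ∩ N(R)` outside `R`
  obtain ⟨g, hg, hgN, hgR⟩ := exists_mem_normalizer_not_mem hS
    (lt_of_le_of_ne (le_sup_left : R ≤ R ⊔ P) fun h => hPR (le_sup_right.trans h.ge))
    (sup_le hc.1 hP.1)
  have hRN : R ≤ Subgroup.normalizer (P : Set Ω) := hc.1.trans (stronglyClosed_le_normalizer hP)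
  have hg' : g ∈ ((R ⊔ P : Subgroup Ω) : Set Ω) := hg
  rw [Subgroup.coe_mul_of_left_le_normalizer_right R P hRN] at hg'
  obtain ⟨a, ha, t₁, ht₁, rfl⟩ := Set.mem_mul.mp hg'
  have ht₁N : t₁ ∈ Subgroup.normalizer (R : Set Ω) := by
    have := Subgroup.mul_mem _ (Subgroup.inv_mem _ (Subgroup.le_normalizer ha)) hgN
    rwa [inv_mul_cancel_left] at this
  have ht₁R : t₁ ∉ R := fun h => hgR (R.mul_mem ha h)
  obtain ⟨t, htP, htN, htR, ht2⟩ : ∃ t ∈ P, t ∈ Subgroup.normalizer (R : Set Ω) ∧ t ∉ R ∧ t ^ 2 ∈ R := by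
    classical
    obtain ⟨k, hk⟩ := hPp ⟨t₁, ht₁⟩
    have hex : ∃ i, t₁ ^ 2 ^ i ∈ R := ⟨k, by
      rw [show t₁ ^ 2 ^ k = 1 from congrArg Subtype.val hk]; exact R.one_mem⟩
    have h0 : Nat.find hex ≠ 0 := fun h => ht₁R (by
      have := Nat.find_spec hex
      rwa [h, pow_zero, pow_one] at this)
    obtain ⟨j, hj⟩ := Nat.exists_eq_succ_of_ne_zero h0
    refine ⟨t₁ ^ 2 ^ j, P.pow_mem ht₁ _, Subgroup.pow_mem _ ht₁N _, Nat.find_min hex (by omega), ?_⟩
    have := Nat.find_spec hex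
    rwa [hj, pow_succ, pow_mul] at this
  have htT : (⟨t, htP⟩ : P) ∈ Subgroup.normalizer (T : Set P) :=
    Subgroup.mem_normalizer_iff.mpr fun u => (Subgroup.mem_normalizer_iff.mp htN (u : Ω))
  have hmove : ∃ u : T, ¬ u⁻¹ * T.normalizerMonoidHom ⟨⟨t, htP⟩, htT⟩ u ∈ frattini T := by
    by_contra hno
    push Not at hno
    refine htR (hle K hKn hKp t htP htN (Subgroup.mem_inf.mpr ⟨hconjK0 t htP htN, Subgroup.mem_comap.mpr ?_⟩))
    intro u
    exact hno u
  obtain ⟨β, hβK, hβodd, hβ1⟩ : ∃ β ∈ K0, (orderOf β).Coprime 2 ∧ β ≠ 1 := by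
    by_contra hno
    push Not at hno
    have hK0p : IsPGroup 2 K0 := isPGroup_of_odd_trivial fun b hb =>
      Subtype.ext (hno b b.2 (by rwa [Subgroup.orderOf_coe]))
    exact htR (hle K0 hK0n hK0p t htP htN (hconjK0 t htP htN))
  have hγodd : Odd (orderOf (ρ β)) :=
    Nat.Coprime.odd_of_right (Nat.Coprime.of_dvd_left (orderOf_map_dvd ρ β) hβodd)
  have hγm : ∃ u : T, ¬ u⁻¹ * ρ β u ∈ frattini T := by
    by_contra hno
    push Not at hno
    apply hβ1
    have hmem : β ∈ K := Subgroup.mem_inf.mpr ⟨hβK, Subgroup.mem_comap.mpr hno⟩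
    obtain ⟨k, hk⟩ := IsPGroup.iff_orderOf.mp hKp ⟨β, hmem⟩
    replace hk := (Subgroup.orderOf_coe _).trans hk
    exact orderOf_eq_one_iff.mp (Nat.eq_one_of_dvd_coprimes (hβodd.pow_right k) dvd_rfl hk.dvd)
  obtain ⟨N, hNn, hNc, hQc⟩ := hm
  haveI := hNn
  haveI := hNc
  haveI := hQc
  rcases maxClass_of_config (N := N) hPp htT (fun h => htR h) ht2 hmove (ρ β) hγodd hγm with h | h | h
  · exact hd h
  · exact hq h
  · exact hsd h

end CfsgLib.FusionModels.MetacyclicTwo
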