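import Cfsg.Agent.Lib.TwoGroups.Basic
import Cfsg.Agent.Lib.PGroups.Frattini
import Cfsg.Prelude.Def_CaseTheorems
import Mathlib.GroupTheory.SpecificGroups.Dihedral
import Mathlib.GroupTheory.SpecificGroups.Quaternion
import Mathlib.GroupTheory.SpecificGroups.Cyclic

/-!
A metacyclic 2-group in which an element outside a subgroup `T`, squaring into `T`, moves `T/Φ(T)`
while an automorphism of odd order of `T` does the same, is of maximal class.
-/

set_option autoImplicit false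
set_option linter.style.haveILetI false
set_option linter.unusedSectionVars false

namespace CfsgLib.FusionModels.MetacyclicTwo

open scoped commutatorElement

/-- In a finite cyclic 2-group the cyclic subgroups form a chain. -/
theorem mem_zpowers_or {C : Type*} [Group C] [Finite C] [IsCyclic C] (hC : IsPGroup 2 C) (u v : C) :
    u ∈ Subgroup.zpowers v ∨ v ∈ Subgroup.zpowers u := by
  have key : ∀ u v : C, orderOf u ∣ orderOf v → u ∈ Subgroup.zpowers v := by
    intro u v hd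
    classical
    haveI := Fintype.ofFinite C
    have h1 : ((Finset.univ.filter fun a : C => a ^ orderOf v = 1)).card ≤ orderOf v :=
      IsCyclic.card_pow_eq_one_le (orderOf_pos v)
    let s : Finset C := (Subgroup.zpowers v : Set C).toFinite.toFinset
    have hs : s ⊆ Finset.univ.filter fun a : C => a ^ orderOf v = 1 := by
      intro a ha
      have ha' : a ∈ Subgroup.zpowers v := by simpa [s] using ha
      obtain ⟨i, rfl⟩ := ha'
      refine Finset.mem_filter.mpr ⟨Finset.mem_univ _, ?_⟩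
      show (v ^ i) ^ orderOf v = 1
      rw [← zpow_natCast, ← zpow_mul, mul_comm, zpow_mul, zpow_natCast, pow_orderOf_eq_one, one_zpow]
    have hcard : s.card = orderOf v := by
      rw [← Nat.card_zpowers v]
      exact (Nat.card_eq_card_finite_toFinset _).symm
    have heq := Finset.eq_of_subset_of_card_le hs (hcard ▸ h1)
    have hu : u ∈ s := heq ▸ Finset.mem_filter.mpr ⟨Finset.mem_univ _, orderOf_dvd_iff_pow_eq_one.mp hd⟩
    simpa [s] using hu
  obtain ⟨i, hi⟩ := IsPGroup.iff_orderOf.mp hC u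
  obtain ⟨j, hj⟩ := IsPGroup.iff_orderOf.mp hC v
  rcases le_total i j with h | h
  · exact Or.inl (key u v (by rw [hi, hj]; exact pow_dvd_pow 2 h))
  · exact Or.inr (key v u (by rw [hi, hj]; exact pow_dvd_pow 2 h))

/-- An odd power generates in a 2-group. -/
theorem mem_zpowers_zpow_of_odd {G : Type*} [Group G] [Finite G] (hG : IsPGroup 2 G) {g : G} {i : ℤ}
    (hi : Odd i) : g ∈ Subgroup.zpowers (g ^ i) := by
  obtain ⟨k, hk⟩ := IsPGroup.iff_orderOf.mp hG g
  have hcop : IsCoprime i ((2 ^ k : ℕ) : ℤ) := by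
    push_cast
    exact (((Nat.prime_iff_prime_int.mp Nat.prime_two).coprime_iff_not_dvd.mpr (by
      obtain ⟨m, rfl⟩ := hi
      omega)).symm).pow_right
  obtain ⟨a, b, hab⟩ := hcop
  refine ⟨a, ?_⟩
  show (g ^ i) ^ a = g
  rw [← zpow_mul, mul_comm]
  conv_rhs => rw [← zpow_one g, ← hab, zpow_add, mul_comm b, zpow_mul g ((2 ^ k : ℕ) : ℤ), zpow_natCast,
    ← hk, pow_orderOf_eq_one, one_zpow, mul_one]

variable {G : Type*} [Group G] [Finite G]

theorem sq_mem_frattini' (hG : IsPGroup 2 G) {T : Subgroup G} (u : T) : u ^ 2 ∈ frattini T :=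
  CfsgLib.PGroups.pow_mem_frattini (hG.to_subgroup T) u

/-- A cyclic-by-cyclic 2-group in which `b`, squaring into the kernel, acts on it with exponent
`≡ 3 (mod 4)` is dihedral, semidihedral or quaternion. -/
theorem maxClass_of_twist (hG : IsPGroup 2 G) {N : Subgroup G} [N.Normal] [IsCyclic (G ⧸ N)] {x b : G}
    (hN : N = Subgroup.zpowers x) {q : ℤ} (hq : b * x * b⁻¹ = x ^ q) (hq4 : q % 4 = 3)
    (ho : 4 ∣ orderOf x) (hb : b ^ 2 ∈ N) :
    (∃ m : ℕ, Nonempty (G ≃* DihedralGroup m)) ∨ (∃ m : ℕ, Nonempty (G ≃* QuaternionGroup m)) ∨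
      Cfsg.IsQuasiDihedral G := by
  have hxN : x ∈ N := hN ▸ Subgroup.mem_zpowers x
  set π := QuotientGroup.mk' N with hπ
  obtain ⟨n, hn⟩ := IsPGroup.iff_orderOf.mp hG x
  have hn2 : 2 ≤ n := by
    by_contra h
    rw [hn] at ho
    have : (2 : ℕ) ^ n ≤ 2 ^ 1 := Nat.pow_le_pow_right (by norm_num) (by omega)
    have := Nat.le_of_dvd (by positivity) ho
    omega
  -- the quotient has order two, generated by the image of `b`
  obtain ⟨w, hw⟩ := IsCyclic.exists_generator (α := G ⧸ N)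
  obtain ⟨y, rfl⟩ := QuotientGroup.mk'_surjective N w
  obtain ⟨k, hk⟩ : ∃ k : ℕ, π y ^ k = π b := by
    obtain ⟨k, hk⟩ := mem_powers_iff_mem_zpowers.mpr (hw (π b))
    exact ⟨k, hk⟩
  obtain ⟨s, hs⟩ : ∃ s : ℤ, x ^ s = y * x * y⁻¹ :=
    (hN ▸ ‹N.Normal›.conj_mem x hxN y : y * x * y⁻¹ ∈ Subgroup.zpowers x)
  have hiter : ∀ i : ℕ, y ^ i * x * (y ^ i)⁻¹ = x ^ (s ^ i) := by
    intro i
    induction i with
    | zero => simp
    | succ i ih =>
      rw [pow_succ', mul_inv_rev, show y * y ^ i * x * ((y ^ i)⁻¹ * y⁻¹) = y * (y ^ i * x * (y ^ i)⁻¹) * y⁻¹ by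
        group, ih, CfsgLib.TwoGroups.conj_zpow_eq hs.symm, pow_succ']
  have hqs : (4 : ℤ) ∣ s ^ k - q := by
    obtain ⟨j, hj⟩ : ∃ j : ℤ, x ^ j = (y ^ k)⁻¹ * b := by
      have : (y ^ k)⁻¹ * b ∈ N := QuotientGroup.eq.mp (by
        show π (y ^ k) = π b
        rw [map_pow, hk])
      rw [hN] at this
      exact Subgroup.mem_zpowers_iff.mp this
    have e : b = y ^ k * x ^ j := by rw [hj, mul_inv_cancel_left]
    have h1 : x ^ q = x ^ (s ^ k) := by
      rw [← hq, ← hiter k, e]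
      group
    rw [CfsgLib.TwoGroups.zpow_eq_zpow_iff_dvd hn] at h1
    refine dvd_trans ?_ h1
    obtain ⟨c, hc⟩ := pow_dvd_pow (2 : ℕ) hn2
    exact ⟨c, by rw [hc]; push_cast; ring⟩
  have hs4 : s % 4 = 1 ∨ s % 4 = 3 ∨ s % 4 = 0 ∨ s % 4 = 2 := by omega
  have hkodd : Odd k := by
    by_contra hev
    rw [Nat.not_odd_iff_even] at hev
    obtain ⟨l, rfl⟩ := hev
    have h2 : (s ^ (l + l)) % 4 = 0 ∨ (s ^ (l + l)) % 4 = 1 := by
      rw [← two_mul, pow_mul]
      generalize l = i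
      induction i with
      | zero => simp
      | succ i ih =>
        rw [pow_succ, pow_two, Int.mul_emod, Int.mul_emod s s]
        rcases ih with hi | hi <;> rcases hs4 with h | h | h | h <;> simp [← pow_two, hi, h]
    omega
  have hbgen : ∀ g : G, g ∈ N ∨ b⁻¹ * g ∈ N := by
    intro g
    have hyb : π y ∈ Subgroup.zpowers (π b) := by
      rw [← hk, ← zpow_natCast]
      exact mem_zpowers_zpow_of_odd (hG.to_quotient N) (by exact_mod_cast hkodd)
    obtain ⟨i, hi⟩ : ∃ i : ℤ, π b ^ i = π g := Subgroup.zpowers_le.mpr hyb (hw (π g))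
    have hb2 : π b ^ (2 : ℤ) = 1 := by
      rw [zpow_two, ← pow_two, ← map_pow]; exact (QuotientGroup.eq_one_iff _).mpr hb
    rcases Int.even_or_odd' i with ⟨m, rfl | rfl⟩
    · left
      rw [← QuotientGroup.eq_one_iff]
      show π g = 1
      rw [← hi, zpow_mul, hb2, one_zpow]
    · right
      refine QuotientGroup.eq.mp ?_
      show π b = π g
      rw [← hi, zpow_add, zpow_mul, hb2, one_zpow, one_mul, zpow_one]
  have hbN : b ∉ N := by
    intro hbN
    rw [hN] at hbN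
    obtain ⟨i, rfl⟩ := hbN
    have h1 : x ^ q = x ^ (1 : ℤ) := by rw [← hq, zpow_one]; group
    rw [CfsgLib.TwoGroups.zpow_eq_zpow_iff_dvd hn] at h1
    have : (4 : ℤ) ∣ 1 - q := dvd_trans (by
      obtain ⟨c, hc⟩ := pow_dvd_pow (2 : ℕ) hn2
      exact ⟨c, by rw [hc]; push_cast; ring⟩) h1
    omega
  have hcard : Nat.card G = 2 * orderOf x := by
    have hidx : N.index = 2 := by
      rw [Subgroup.index_eq_card, Nat.card_eq_two_iff' (1 : G ⧸ N)]
      refine ⟨π b, fun h => hbN ((QuotientGroup.eq_one_iff b).mp h), fun u hu => ?_⟩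
      obtain ⟨g, rfl⟩ := QuotientGroup.mk'_surjective N u
      rcases hbgen g with h | h
      · exact absurd ((QuotientGroup.eq_one_iff g).mpr h) hu
      · exact (QuotientGroup.eq.mpr h).symm
    rw [← N.card_mul_index, hidx, hN, Nat.card_zpowers, mul_comm]
  have hbx : b ∉ Subgroup.zpowers x := hN ▸ hbN
  -- the relations
  obtain ⟨j, hj⟩ : ∃ j : ℤ, x ^ j = b ^ 2 := (hN ▸ hb : b ^ 2 ∈ Subgroup.zpowers x)
  obtain ⟨r, hr⟩ : ∃ r : ℤ, q = 4 * r + 3 := ⟨q / 4, by omega⟩
  have hodd : IsCoprime ((2 ^ n : ℕ) : ℤ) (2 * r + 1) := by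
    push_cast
    exact (((Nat.prime_iff_prime_int.mp Nat.prime_two).coprime_iff_not_dvd.mpr (by omega))).pow_left
  have h2j : ((2 ^ n : ℕ) : ℤ) ∣ 2 * j := by
    have h1 : x ^ (q * j) = x ^ j := by
      rw [← CfsgLib.TwoGroups.conj_zpow_eq hq j, hj]; group
    rw [CfsgLib.TwoGroups.zpow_eq_zpow_iff_dvd hn] at h1
    refine hodd.dvd_of_dvd_mul_right ?_
    have e : 2 * j * (2 * r + 1) = -(j - q * j) := by rw [hr]; ring
    rw [e]
    exact dvd_neg.mpr h1
  have hq2 : ((2 ^ n : ℕ) : ℤ) ∣ 2 * (q + 1) := by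
    have h1 : x ^ (q * q) = x ^ (1 : ℤ) := by
      have h2 : b ^ 2 * x * (b ^ 2)⁻¹ = x ^ (q * q) := by
        rw [pow_two, show b * b * x * (b * b)⁻¹ = b * (b * x * b⁻¹) * b⁻¹ by group, hq,
          CfsgLib.TwoGroups.conj_zpow_eq hq]
      rw [← h2, ← hj, zpow_one]; group
    rw [CfsgLib.TwoGroups.zpow_eq_zpow_iff_dvd hn] at h1
    refine hodd.dvd_of_dvd_mul_right ?_
    have e : 2 * (q + 1) * (2 * r + 1) = -(1 - q * q) := by rw [hr]; ring
    rw [e]
    exact dvd_neg.mpr h1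
  have hhalf : ∀ i : ℤ, ((2 ^ n : ℕ) : ℤ) ∣ 2 * i → x ^ i = 1 ∨ x ^ i = x ^ (2 ^ (n - 1) : ℕ) := by
    intro i hi
    obtain ⟨c, hc⟩ := hi
    have e2 : ((2 ^ n : ℕ) : ℤ) = 2 * ((2 ^ (n - 1) : ℕ) : ℤ) := by
      have : 2 ^ n = 2 * 2 ^ (n - 1) := by rw [← pow_succ']; congr 1; omega
      exact_mod_cast this
    rw [e2, mul_assoc] at hc
    have hi' : i = ((2 ^ (n - 1) : ℕ) : ℤ) * c := mul_left_cancel₀ (by norm_num) hc
    rw [hi']
    rcases Int.even_or_odd' c with ⟨d, rfl | rfl⟩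
    · left
      rw [← mul_assoc, mul_comm ((2 ^ (n - 1) : ℕ) : ℤ), ← e2, zpow_mul, zpow_natCast, ← hn,
        pow_orderOf_eq_one, one_zpow]
    · right
      rw [mul_add, mul_one, ← mul_assoc, mul_comm ((2 ^ (n - 1) : ℕ) : ℤ) 2, ← e2, zpow_add, zpow_mul,
        zpow_natCast, ← hn, pow_orderOf_eq_one, one_zpow, one_mul, zpow_natCast]
  rcases hhalf _ hq2 with hm1 | hm1
  · -- `b` inverts `x`
    have hinv : b * x * b⁻¹ = x⁻¹ := by
      rw [hq, eq_inv_iff_mul_eq_one, ← zpow_add_one]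
      exact hm1
    rcases hhalf _ h2j with hb1 | hb1
    · exact Or.inl ⟨_, CfsgLib.TwoGroups.nonempty_mulEquiv_dihedral rfl hcard hbx (hj ▸ hb1) hinv⟩
    · refine Or.inr (Or.inl ⟨2 ^ (n - 1), CfsgLib.TwoGroups.nonempty_mulEquiv_quaternion (x := x) (y := b)
        ?_ ?_ hbx (hj ▸ hb1) hinv⟩)
      · rw [hn, ← pow_succ']; congr 1; omega
      · have : 2 ^ n = 2 * 2 ^ (n - 1) := by rw [← pow_succ']; congr 1; omega
        rw [hcard, hn]
        omega
  · -- semidihedral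
    refine Or.inr (Or.inr ?_)
    have hn3 : 3 ≤ n := by
      by_contra h
      have hn' : n = 2 := by omega
      subst hn'
      rw [← zpow_natCast x (2 ^ (2 - 1)), CfsgLib.TwoGroups.zpow_eq_zpow_iff_dvd hn] at hm1
      push_cast at hm1
      norm_num at hm1
      omega
    have hq' : b * x * b⁻¹ = x ^ (2 ^ (n - 1) - 1 : ℕ) := by
      rw [hq, pow_sub _ Nat.one_le_two_pow, ← hm1, pow_one, zpow_add_one, mul_inv_cancel_right]
    refine ⟨n, hn3, by rw [hcard, hn, ← pow_succ'], x, ?_⟩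
    rcases hhalf _ h2j with hb1 | hb1
    · refine ⟨b, hn, ?_, hq'⟩
      rw [orderOf_eq_prime_iff]
      exact ⟨hj ▸ hb1, fun h => hbN (h ▸ N.one_mem)⟩
    · refine ⟨b * x, hn, ?_, ?_⟩
      · rw [orderOf_eq_prime_iff]
        refine ⟨?_, fun h => hbN ?_⟩
        · have e : (b * x) ^ 2 = b * x * b⁻¹ * b ^ 2 * x := by rw [pow_two (b * x), pow_two b]; group
          rw [e, hq, ← hj, ← zpow_add, ← zpow_add_one, show q + j + 1 = (q + 1) + j by ring, zpow_add,
            hm1, hb1, ← pow_add, ← two_mul, ← pow_succ', show n - 1 + 1 = n by omega, ← hn,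
            pow_orderOf_eq_one]
        · rw [eq_inv_of_mul_eq_one_left h]
          exact N.inv_mem hxN
      · rw [← hq']; group

/-- The configuration at a centric radical subgroup forces maximal class. -/
theorem maxClass_of_config (hG : IsPGroup 2 G) {N : Subgroup G} [N.Normal] [IsCyclic N] [IsCyclic (G ⧸ N)]
    {T : Subgroup G} {t : G} (htN : t ∈ Subgroup.normalizer (T : Set G)) (htT : t ∉ T) (ht2 : t ^ 2 ∈ T)
    (hmove : ∃ u : T, ¬ u⁻¹ * T.normalizerMonoidHom ⟨t, htN⟩ u ∈ frattini T)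
    (γ : MulAut T) (hγ : Odd (orderOf γ)) (hγm : ∃ u : T, ¬ u⁻¹ * γ u ∈ frattini T) :
    (∃ m : ℕ, Nonempty (G ≃* DihedralGroup m)) ∨ (∃ m : ℕ, Nonempty (G ≃* QuaternionGroup m)) ∨
      Cfsg.IsQuasiDihedral G := by
  set π := QuotientGroup.mk' N with hπ
  obtain ⟨x, hx⟩ : ∃ x : G, N = Subgroup.zpowers x := by
    obtain ⟨g, hg⟩ := IsCyclic.exists_generator (α := N)
    refine ⟨g, le_antisymm (fun y hy => ?_) (Subgroup.zpowers_le.mpr g.2)⟩
    obtain ⟨i, hi⟩ := hg ⟨y, hy⟩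
    exact ⟨i, by simpa using congrArg Subtype.val hi⟩
  haveI hTn : IsCyclic (N.subgroupOf T) := by
    let f : N.subgroupOf T →* N := MonoidHom.mk' (fun u => ⟨((u : T) : G), u.2⟩) fun _ _ => rfl
    exact isCyclic_of_injective f fun u v h =>
      Subtype.ext (Subtype.ext (congrArg (fun w : N => (w : G)) h))
  obtain ⟨a, ha⟩ := IsCyclic.exists_generator (α := N.subgroupOf T)
  have hamem : ∀ u : T, (u : G) ∈ N → ∃ i : ℤ, (a : T) ^ i = u := fun u hu => by
    obtain ⟨i, hi⟩ := ha ⟨u, hu⟩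
    exact ⟨i, by simpa using congrArg Subtype.val hi⟩
  obtain ⟨b, hb⟩ : ∃ b : T, ∀ u : T, ∃ (i : ℤ) (n : T), (n : G) ∈ N ∧ u = b ^ i * n := by
    haveI : IsCyclic (T.map π) := inferInstance
    obtain ⟨g, hg⟩ := IsCyclic.exists_generator (α := T.map π)
    obtain ⟨b, hb, hbe⟩ := g.2
    refine ⟨⟨b, hb⟩, fun u => ?_⟩
    obtain ⟨i, hi⟩ := hg ⟨π u, u, u.2, rfl⟩
    refine ⟨i, (⟨b, hb⟩ ^ i : T)⁻¹ * u, ?_, by group⟩
    have h1 : π b ^ i = π u := by rw [hbe]; exact congrArg Subtype.val hi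
    rw [← QuotientGroup.eq_one_iff]
    show π ((((⟨b, hb⟩ : T) ^ i)⁻¹ * u : T) : G) = 1
    simp [h1]
  have hsq : ∀ (u : T) (i : ℤ), Even i → u ^ i ∈ frattini T := fun u i hi => by
    obtain ⟨m, rfl⟩ := hi
    rw [← two_mul, zpow_mul, zpow_two, ← pow_two]
    exact Subgroup.zpow_mem _ (sq_mem_frattini' hG u) m
  set q := QuotientGroup.mk' (frattini T) with hqdef
  have hqab : ∀ u v : T, Commute (q u) (q v) := fun u v => by
    rw [commute_iff_eq, ← commutatorElement_eq_one_iff_mul_comm, ← map_commutatorElement]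
    exact (QuotientGroup.eq_one_iff _).mpr (CfsgLib.PGroups.commutator_le_frattini (hG.to_subgroup T)
      (Subgroup.commutator_mem_commutator (Subgroup.mem_top _) (Subgroup.mem_top _)))
  have hq2 : ∀ u : T, q u ^ (2 : ℤ) = 1 := fun u => by
    rw [← map_zpow]
    exact (QuotientGroup.eq_one_iff _).mpr (hsq u 2 even_two)
  have hqe : ∀ (u : T) (r : ℤ), q u ^ (2 * r) = 1 := fun u r => by rw [zpow_mul, hq2, one_zpow]
  have hqo : ∀ (u : T) (r : ℤ), q u ^ (2 * r + 1) = q u := fun u r => by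
    rw [zpow_add, hqe, one_mul, zpow_one]
  have habelG : ∀ g h : G, π g * π h = π h * π g := fun g h => IsMulCommutative.is_comm.comm _ _
  -- a mover moves `b` by an element generating `T ∩ N`
  have hmb : ∀ t' : G, ∀ h : t' ∈ Subgroup.normalizer (T : Set G),
      (∃ u : T, ¬ u⁻¹ * T.normalizerMonoidHom ⟨t', h⟩ u ∈ frattini T) →
      ∃ i : ℤ, Odd i ∧ T.normalizerMonoidHom ⟨t', h⟩ b * b⁻¹ = (a : T) ^ i ∧ q a ≠ 1 ∧
        q (T.normalizerMonoidHom ⟨t', h⟩ b) ≠ q b := by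
    intro t' h hmv
    set c := T.normalizerMonoidHom ⟨t', h⟩ with hc
    have hdiff : ((c b * b⁻¹ : T) : G) ∈ N := by
      rw [← QuotientGroup.eq_one_iff]
      show π ((c b : G) * (b : G)⁻¹) = 1
      rw [show ((c b : T) : G) = t' * b * t'⁻¹ from rfl, map_mul, map_mul, map_mul, map_inv, map_inv,
        habelG t', mul_inv_cancel_right, mul_inv_cancel]
    obtain ⟨i, hi⟩ := hamem _ hdiff
    have hne : q (c b) ≠ q b := by
      intro hcb
      obtain ⟨u, hu⟩ := hmv
      obtain ⟨k, n, hn, rfl⟩ := hb u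
      obtain ⟨l, hl⟩ := hamem n hn
      refine hu ((QuotientGroup.eq_one_iff _).mp ?_)
      show q ((b ^ k * n)⁻¹ * c (b ^ k * n)) = 1
      have e1 : q ((b ^ k * n)⁻¹ * c (b ^ k * n)) =
          (q b ^ k * q (a : T) ^ l)⁻¹ * (q (c b) ^ k * q (c a) ^ l) := by
        rw [← hl]; simp only [map_mul, map_inv, map_zpow]
      obtain ⟨m, hm⟩ := hamem (c a) (‹N.Normal›.conj_mem _ a.2 t')
      have hcaq : q (c a) = q (a : T) ^ m := by rw [← hm, map_zpow]
      rw [e1, hcb]
      rcases Int.even_or_odd' m with ⟨r, hr | hr⟩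
      · have ha0 : q a = 1 := by
          obtain ⟨w, hw⟩ : ∃ w : T, c w = a := c.surjective a
          have h1 : (w : G) ∈ N := by
            have e : (w : G) = t'⁻¹ * (t' * w * t'⁻¹) * t'⁻¹⁻¹ := by group
            rw [e]
            refine ‹N.Normal›.conj_mem _ ?_ _
            rw [show t' * (w : G) * t'⁻¹ = ((c w : T) : G) from rfl, hw]
            exact a.2
          obtain ⟨l', hl'⟩ := hamem w h1
          rw [← hw, ← hl', map_zpow, map_zpow, hcaq, hr, hqe, one_zpow]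
        simp [hcaq, ha0]
      · rw [hcaq, hr, hqo, inv_mul_cancel]
    have hne' : q ((a : T) ^ i) ≠ 1 := by
      rw [hi, map_mul, map_inv, ne_eq, mul_inv_eq_one]
      exact hne
    refine ⟨i, ?_, hi.symm, fun h1 => hne' (by rw [map_zpow, h1, one_zpow]), hne⟩
    rcases Int.even_or_odd i with he | ho
    · exact absurd ((QuotientGroup.eq_one_iff _).mpr (hsq _ _ he)) hne'
    · exact ho
  obtain ⟨i₀, hi₀, hdiff₀, ha1, -⟩ := hmb t htN hmove
  -- some element of `t T` lies in `N`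
  obtain ⟨u₀, hu₀⟩ : ∃ u : T, t * u ∈ N := by
    by_contra hno
    push Not at hno
    have hcyc : IsPGroup 2 (G ⧸ N) := hG.to_quotient N
    rcases mem_zpowers_or hcyc (π b) (π t) with ⟨k, hk⟩ | ⟨k, hk⟩
    · have hk' : π t ^ k = π b := hk
      rcases Int.even_or_odd' k with ⟨m, rfl | rfl⟩
      · have h2m : t ^ (2 * m) ∈ T := by
          rw [zpow_mul, zpow_two, ← pow_two]
          exact T.zpow_mem ht2 m
        have hbn : ((((⟨_, h2m⟩ : T))⁻¹ * b : T) : G) ∈ N := by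
          rw [← QuotientGroup.eq_one_iff]
          show π ((t ^ (2 * m))⁻¹ * b) = 1
          rw [map_mul, map_inv, map_zpow, hk', inv_mul_cancel]
        obtain ⟨l, hl⟩ := hamem _ hbn
        have hbe : b = (⟨_, h2m⟩ : T) * (a : T) ^ l := by rw [hl, mul_inv_cancel_left]
        set c := T.normalizerMonoidHom ⟨t, htN⟩ with hc
        have hct : c ⟨_, h2m⟩ = ⟨_, h2m⟩ := Subtype.ext (show t * t ^ (2 * m) * t⁻¹ = t ^ (2 * m) by group)
        obtain ⟨i, hiodd, hi, -, hne⟩ := hmb t htN hmove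
        apply hne
        show q (c b) = q b
        obtain ⟨m', hm'⟩ := hamem (c a) (‹N.Normal›.conj_mem _ a.2 t)
        have hcaq : q (c a) = q (a : T) ^ m' := by rw [← hm', map_zpow]
        rw [hbe, map_mul, hct, map_mul, map_mul, map_zpow, map_zpow, map_zpow, hcaq]
        rcases Int.even_or_odd' m' with ⟨r, hr | hr⟩
        · exfalso
          apply ha1
          obtain ⟨w, hw⟩ : ∃ w : T, c w = a := c.surjective a
          have h1 : (w : G) ∈ N := by
            have e : (w : G) = t⁻¹ * (t * w * t⁻¹) * t⁻¹⁻¹ := by group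
            rw [e]
            refine ‹N.Normal›.conj_mem _ ?_ _
            rw [show t * (w : G) * t⁻¹ = ((c w : T) : G) from rfl, hw]
            exact a.2
          obtain ⟨l', hl'⟩ := hamem w h1
          rw [← hw, ← hl', map_zpow, map_zpow, hcaq, hr, hqe, one_zpow]
        · rw [hr, hqo]
      · refine hno (⟨t ^ (2 * m), by rw [zpow_mul, zpow_two, ← pow_two]; exact T.zpow_mem ht2 m⟩ * b⁻¹) ?_
        rw [← QuotientGroup.eq_one_iff]
        show π (t * (t ^ (2 * m) * (b : G)⁻¹)) = 1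
        rw [map_mul, map_mul, map_inv, map_zpow, ← hk', zpow_add, zpow_one]
        group
    · refine hno ((b ^ k)⁻¹) ?_
      rw [← QuotientGroup.eq_one_iff]
      show π (t * ((b ^ k : T) : G)⁻¹) = 1
      rw [map_mul, map_inv, Subgroup.coe_zpow, map_zpow, show π b ^ k = π t from hk, mul_inv_cancel]
  set s := t * (u₀ : G) with hsdef
  have hsN : s ∈ N := hu₀
  have hsn : s ∈ Subgroup.normalizer (T : Set G) := Subgroup.mul_mem _ htN (Subgroup.le_normalizer u₀.2)
  have hsT : s ∉ T := fun h => htT (by simpa [hsdef] using T.mul_mem h (T.inv_mem u₀.2))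
  have hs2 : s ^ 2 ∈ T := by
    have e : s ^ 2 = t * u₀ * t⁻¹ * t ^ 2 * u₀ := by rw [hsdef, pow_two, pow_two]; group
    rw [e]
    exact T.mul_mem (T.mul_mem ((Subgroup.mem_normalizer_iff.mp htN _).mp u₀.2) ht2) u₀.2
  have hsmove : ∃ u : T, ¬ u⁻¹ * T.normalizerMonoidHom ⟨s, hsn⟩ u ∈ frattini T := by
    obtain ⟨v, hv⟩ := hmove
    refine ⟨v, fun hf => hv ?_⟩
    set c := T.normalizerMonoidHom ⟨t, htN⟩ with hc
    have e : T.normalizerMonoidHom ⟨s, hsn⟩ v = c (u₀ * v * u₀⁻¹) := Subtype.ext (by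
      show s * v * s⁻¹ = t * (u₀ * v * (u₀ : G)⁻¹) * t⁻¹
      rw [hsdef]; group)
    have h1 := (QuotientGroup.eq_one_iff _).mpr hf
    change q (v⁻¹ * T.normalizerMonoidHom ⟨s, hsn⟩ v) = 1 at h1
    refine (QuotientGroup.eq_one_iff _).mp ?_
    show q (v⁻¹ * c v) = 1
    rw [← h1, e]
    simp only [map_mul, map_inv]
    congr 1
    exact ((hqab (c u₀) (c v)).mul_inv_cancel).symm
  obtain ⟨i, hiodd, hi, -, hne⟩ := hmb s hsn hsmove
  -- `T ∩ N = ⟨s²⟩`
  set a₂ : T := ⟨s ^ 2, hs2⟩ with ha₂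
  obtain ⟨es, hes⟩ : ∃ j : ℤ, x ^ j = s := (hx ▸ hsN : s ∈ Subgroup.zpowers x)
  have hA2 : ∀ m : ℤ, ((a₂ ^ m : T) : G) = s ^ (2 * m) := fun m => by
    rw [Subgroup.coe_zpow, zpow_mul, zpow_two, ← pow_two]
  have ha₂N : ∀ u : T, (u : G) ∈ N → ∃ l : ℤ, a₂ ^ l = u := by
    intro u hu
    obtain ⟨i', hi'⟩ := hamem u hu
    rcases mem_zpowers_or (hG.to_subgroup N) (⟨((a : T) : G), a.2⟩ : N) ⟨s, hsN⟩ with ⟨k, hk⟩ | ⟨k, hk⟩
    · have hk' : s ^ k = ((a : T) : G) := by simpa using congrArg Subtype.val hk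
      rcases Int.even_or_odd' k with ⟨m, rfl | rfl⟩
      · refine ⟨m * i', ?_⟩
        rw [← hi', zpow_mul]
        congr 1
        exact Subtype.ext ((hA2 m).trans hk')
      · exfalso
        apply hsT
        have e : s = (s ^ 2) ^ (-m) * s ^ (2 * m + 1) := by group
        rw [e, hk']
        exact T.mul_mem (T.zpow_mem hs2 _) (a : T).2
    · exfalso
      apply hsT
      have hk' : ((a : T) : G) ^ k = s := by simpa using congrArg Subtype.val hk
      rw [← hk']
      exact T.zpow_mem (a : T).2 k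
  -- the action of `b` on `N`
  obtain ⟨e, he⟩ : ∃ e : ℤ, x ^ e = (b : G) * x * (b : G)⁻¹ :=
    (hx ▸ ‹N.Normal›.conj_mem x (hx ▸ Subgroup.mem_zpowers x) b : (b : G) * x * (b : G)⁻¹ ∈ Subgroup.zpowers x)
  have hbs : ∀ j : ℤ, (b : G) * s ^ j * (b : G)⁻¹ = s ^ (e * j) := fun j => by
    rw [← hes, ← zpow_mul, CfsgLib.TwoGroups.conj_zpow_eq he.symm, ← zpow_mul]
    congr 1; ring
  set d := T.normalizerMonoidHom ⟨s, hsn⟩ b * b⁻¹ with hd
  have hdval : (d : G) = s ^ (1 - e) := by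
    show s * (b : G) * s⁻¹ * (b : G)⁻¹ = s ^ (1 - e)
    rw [show s * (b : G) * s⁻¹ * (b : G)⁻¹ = s * ((b : G) * s ^ (-1 : ℤ) * (b : G)⁻¹) by group, hbs]
    group
  have hdq : q d ≠ 1 := by
    rw [hd, map_mul, map_inv, ne_eq, mul_inv_eq_one]
    exact hne
  obtain ⟨e', he'⟩ : ∃ e', 1 - e = 2 * e' ∧ Odd e' := by
    rcases Int.even_or_odd' (1 - e) with ⟨m, hm | hm⟩
    · refine ⟨m, hm, ?_⟩
      by_contra hev
      rw [Int.not_odd_iff_even] at hev
      refine hdq ?_
      have e1 : d = a₂ ^ m := Subtype.ext (by rw [hdval, hm, hA2])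
      rw [e1]
      exact (QuotientGroup.eq_one_iff _).mpr (hsq _ _ hev)
    · exfalso
      apply hsT
      have e1 : s = (s ^ 2) ^ (-m) * s ^ (1 - e) := by rw [hm]; group
      rw [e1, ← hdval]
      exact T.mul_mem (T.zpow_mem hs2 _) d.2
  have he4 : e % 4 = 3 := by
    obtain ⟨he1, ⟨f, hf⟩⟩ := he'
    omega
  have ha₂q : q a₂ ≠ 1 := by
    intro h1
    refine hdq ?_
    have e1 : d = a₂ ^ e' := Subtype.ext (by rw [hdval, he'.1, hA2])
    rw [e1, map_zpow, h1, one_zpow]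
  -- the derived group of `T` is generated by `s⁴`
  have hba : (b : T) * a₂ * b⁻¹ = a₂ ^ e := Subtype.ext (by
    show (b : G) * s ^ 2 * (b : G)⁻¹ = ((a₂ ^ e : T) : G)
    rw [hA2, ← zpow_natCast, hbs]
    congr 1
    push_cast
    ring)
  have hcA : ⁅b, a₂⁆ = (a₂ ^ 2) ^ (-e') := by
    rw [commutatorElement_def, hba, ← zpow_natCast, ← zpow_mul, ← zpow_sub_one]
    congr 1
    push_cast
    linarith [he'.1]
  set M := Subgroup.zpowers (a₂ ^ 2) with hM
  haveI hMn : M.Normal := by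
    refine ⟨fun m hm u => ?_⟩
    obtain ⟨k, n, hn, rfl⟩ := hb u
    obtain ⟨l, rfl⟩ := ha₂N n hn
    obtain ⟨j, rfl⟩ := hm
    have hmb' : ∀ v ∈ M, b * v * b⁻¹ ∈ M := by
      rintro _ ⟨j', rfl⟩
      show b * (a₂ ^ 2) ^ j' * b⁻¹ ∈ M
      have e2 : (a₂ ^ e) ^ 2 = (a₂ ^ 2) ^ e := by
        rw [← zpow_natCast, ← zpow_natCast a₂, ← zpow_mul, ← zpow_mul, mul_comm]
      rw [← conj_zpow, ← conj_pow, hba, e2]
      exact Subgroup.zpow_mem _ (Subgroup.zpow_mem _ (Subgroup.mem_zpowers _) _) _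
    have hbn : b ∈ Subgroup.normalizer (M : Set T) := by
      have h1 : M.map (MulAut.conj b).toMonoidHom = M := Subgroup.eq_of_le_of_card_ge
        (by rintro _ ⟨v, hv, rfl⟩; exact hmb' v hv)
        (by rw [Subgroup.card_map_of_injective (MulAut.conj b).injective])
      refine Subgroup.mem_normalizer_iff.mpr fun v => ⟨hmb' v, fun hv => ?_⟩
      obtain ⟨w, hw, hwv⟩ := h1.ge hv
      rwa [← (MulAut.conj b).injective hwv]
    show b ^ k * a₂ ^ l * (a₂ ^ 2) ^ j * (b ^ k * a₂ ^ l)⁻¹ ∈ M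
    rw [show b ^ k * a₂ ^ l * (a₂ ^ 2) ^ j * (b ^ k * a₂ ^ l)⁻¹ =
      b ^ k * (a₂ ^ 2) ^ j * (b ^ k)⁻¹ by group]
    exact (Subgroup.mem_normalizer_iff.mp (Subgroup.zpow_mem _ hbn k) _).mp ⟨j, rfl⟩
  set μ := QuotientGroup.mk' M with hμ
  have hμba : Commute (μ b) (μ a₂) := by
    rw [commute_iff_eq, ← commutatorElement_eq_one_iff_mul_comm, ← map_commutatorElement]
    exact (QuotientGroup.eq_one_iff _).mpr (hcA ▸ Subgroup.zpow_mem _ (Subgroup.mem_zpowers _) _)
  have hμdec : ∀ u : T, ∃ k l : ℤ, μ u = μ b ^ k * μ a₂ ^ l ∧ q u = q b ^ k * q a₂ ^ l := by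
    intro u
    obtain ⟨k, n, hn, rfl⟩ := hb u
    obtain ⟨l, rfl⟩ := ha₂N n hn
    exact ⟨k, l, by rw [map_mul, map_zpow, map_zpow], by rw [map_mul, map_zpow, map_zpow]⟩
  have hMchar : ∀ (δ : MulAut T) (m : T), m ∈ M → δ m ∈ M := by
    have hMle : M = commutator T := by
      refine le_antisymm (Subgroup.zpowers_le.mpr ?_) ?_
      · have h1 := Subgroup.commutator_mem_commutator (H₁ := (⊤ : Subgroup T)) (H₂ := ⊤)
          (Subgroup.mem_top b) (Subgroup.mem_top a₂)
        rw [hcA, zpow_neg, Subgroup.inv_mem_iff] at h1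
        exact (Subgroup.zpowers_le.mpr h1) (mem_zpowers_zpow_of_odd (hG.to_subgroup T) he'.2)
      · rw [commutator_def, Subgroup.commutator_le]
        intro u _ v _
        refine (QuotientGroup.eq_one_iff _).mp ?_
        show μ ⁅u, v⁆ = 1
        rw [map_commutatorElement, commutatorElement_eq_one_iff_mul_comm]
        obtain ⟨k, l, hu, -⟩ := hμdec u
        obtain ⟨k', l', hv, -⟩ := hμdec v
        rw [hu, hv]
        exact ((((Commute.refl _).zpow_zpow k k').mul_right (hμba.zpow_zpow k l')).mul_left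
          ((hμba.zpow_zpow k' l).symm.mul_right ((Commute.refl _).zpow_zpow l l'))).eq
    intro δ m hm
    rw [hMle] at hm ⊢
    exact (Subgroup.characteristic_iff_map_eq.mp inferInstance δ).le ⟨m, hm, rfl⟩
  have hMphi : ∀ m ∈ M, q m = 1 := by
    rintro _ ⟨j, rfl⟩
    show q ((a₂ ^ 2) ^ j) = 1
    rw [map_zpow, show q (a₂ ^ 2) = 1 from
      (QuotientGroup.eq_one_iff _).mpr (sq_mem_frattini' hG a₂), one_zpow]
  -- `b² ∈ M`
  have hb2 : b ^ 2 ∈ M := by
    by_contra hb2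
    set Φ := frattini T with hΦ
    have hγΦ : ∀ (δ : MulAut T) (v : T), q v = 1 → q (δ v) = 1 := fun δ v hv =>
      (QuotientGroup.eq_one_iff _).mpr ((Subgroup.characteristic_iff_map_eq.mp inferInstance δ).le
        ⟨v, (QuotientGroup.eq_one_iff _).mp hv, rfl⟩)
    have hq1 : ∀ u : T, ∀ k l : ℤ, q u = q b ^ k * q a₂ ^ l → Even k →
        q u = 1 ∨ q u = q a₂ := by
      intro u k l hu hk
      obtain ⟨m, rfl⟩ := hk
      rw [← two_mul, zpow_mul, hq2, one_zpow, one_mul] at hu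
      rcases Int.even_or_odd' l with ⟨r, rfl | rfl⟩
      · left; rw [hu, zpow_mul, hq2, one_zpow]
      · right; rw [hu, zpow_add, zpow_mul, hq2, one_zpow, one_mul, zpow_one]
    have hfix : q (γ a₂) = q a₂ := by
      obtain ⟨k, l, hk1, hk2⟩ := hμdec (γ a₂)
      have hk : Even k := by
        by_contra hodd
        rw [Int.not_even_iff_odd] at hodd
        apply hb2
        have h1 : (γ a₂) ^ 2 ∈ M := by
          rw [← map_pow]
          exact hMchar γ _ (Subgroup.mem_zpowers _)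
        have h2 : μ b ^ (2 * k) = 1 := by
          have h3 : μ ((γ a₂) ^ 2) = 1 := (QuotientGroup.eq_one_iff _).mpr h1
          have ha2 : μ a₂ ^ (2 : ℤ) = 1 := by
            rw [← map_zpow, zpow_two, ← pow_two]
            exact (QuotientGroup.eq_one_iff _).mpr (Subgroup.mem_zpowers _)
          rw [map_pow, hk1, ← zpow_natCast, (hμba.zpow_zpow k l).mul_zpow, Nat.cast_ofNat,
            ← zpow_mul, ← zpow_mul, mul_comm l, zpow_mul (μ a₂), ha2, one_zpow, mul_one, mul_comm] at h3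
          exact h3
        refine (QuotientGroup.eq_one_iff _).mp ?_
        show μ (b ^ 2) = 1
        obtain ⟨m, hm⟩ := mem_zpowers_zpow_of_odd ((hG.to_subgroup T).to_quotient M) (g := μ b ^ (2 : ℤ))
          hodd
        change ((μ b ^ (2 : ℤ)) ^ k) ^ m = μ b ^ (2 : ℤ) at hm
        rw [show (μ b ^ (2 : ℤ)) ^ k = μ b ^ (2 * k) from (zpow_mul _ _ _).symm, h2, one_zpow] at hm
        rw [map_pow, ← zpow_natCast]
        exact hm.symm
      rcases hq1 _ k l hk2 hk with h | h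
      · exfalso
        apply ha₂q
        have := hγΦ γ⁻¹ _ h
        rwa [MulAut.inv_apply_self] at this
      · exact h
    have hlift : ∀ v w : T, q v = q w → q (γ v) = q (γ w) := fun v w h => by
      have h1 := hγΦ γ (v⁻¹ * w) (by rw [map_mul, map_inv, h, inv_mul_cancel])
      rw [map_mul, map_inv, map_mul, map_inv, inv_mul_eq_one] at h1
      exact h1
    obtain ⟨k, l, -, hk2⟩ := hμdec (γ b)
    have hkodd : Odd k := by
      by_contra hev
      rw [Int.not_odd_iff_even] at hev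
      obtain ⟨u, hu⟩ := γ.surjective b
      obtain ⟨k', l', -, hu2⟩ := hμdec u
      have h1 : q b = q (γ b) ^ k' * q a₂ ^ l' := by
        have h2 := hlift u (b ^ k' * a₂ ^ l') (by rw [hu2, map_mul, map_zpow, map_zpow])
        rw [hu, map_mul, map_mul, map_zpow, map_zpow, map_zpow, map_zpow, hfix] at h2
        exact h2
      have h3 : q b = 1 ∨ q b = q a₂ := by
        obtain ⟨m, rfl⟩ := hev
        refine hq1 b ((m + m) * k') (l * k' + l') ?_ ⟨m * k', by ring⟩
        conv_lhs => rw [h1, hk2, ((hqab b a₂).zpow_zpow (m + m) l).mul_zpow, ← zpow_mul, ← zpow_mul,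
          mul_assoc, ← zpow_add]
      apply hne
      have hsa : T.normalizerMonoidHom ⟨s, hsn⟩ a₂ = a₂ := Subtype.ext (by
        show s * s ^ 2 * s⁻¹ = s ^ 2
        group)
      have hcs : ∀ v w : T, q v = q w → q (T.normalizerMonoidHom ⟨s, hsn⟩ v) =
          q (T.normalizerMonoidHom ⟨s, hsn⟩ w) := fun v w h => by
        have h4 := hγΦ (T.normalizerMonoidHom ⟨s, hsn⟩) (v⁻¹ * w)
          (by rw [map_mul, map_inv, h, inv_mul_cancel])
        rw [map_mul, map_inv, map_mul, map_inv, inv_mul_eq_one] at h4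
        exact h4
      rcases h3 with h3 | h3
      · rw [h3]
        have := hγΦ (T.normalizerMonoidHom ⟨s, hsn⟩) b h3
        exact this
      · rw [hcs b a₂ h3, hsa, h3]
    have hγb : q (γ b) = q b * q a₂ ^ l := by
      obtain ⟨m, rfl⟩ := hkodd
      rw [hk2, zpow_add, zpow_mul, hq2, one_zpow, one_mul, zpow_one]
    have hiter : ∀ n : ℕ, q ((γ ^ n) b) = q b * q a₂ ^ (l * n) := by
      intro n
      induction n with
      | zero => simp
      | succ n ih =>
        rw [pow_succ', MulAut.mul_apply, hlift _ (b * a₂ ^ (l * n)) (by rw [ih, map_mul, map_zpow]),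
          map_mul, map_mul, hγb, map_zpow, map_zpow, hfix, mul_assoc, ← zpow_add]
        congr 2
        push_cast
        ring
    have hleven : q a₂ ^ l = 1 := by
      have h1 := hiter (orderOf γ)
      rw [pow_orderOf_eq_one, MulAut.one_apply, left_eq_mul] at h1
      rcases Int.even_or_odd' l with ⟨r, rfl | rfl⟩
      · rw [zpow_mul, hq2, one_zpow]
      · exfalso
        apply ha₂q
        obtain ⟨o, ho⟩ := hγ
        rw [ho, show (2 * r + 1) * ((2 * o + 1 : ℕ) : ℤ) = 2 * (2 * r * o + r + o) + 1 by push_cast; ring,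
          zpow_add, zpow_mul, hq2, one_zpow, one_mul, zpow_one] at h1
        exact h1
    obtain ⟨u, hu⟩ := hγm
    apply hu
    refine (QuotientGroup.eq_one_iff _).mp ?_
    show q (u⁻¹ * γ u) = 1
    obtain ⟨k', l', -, hu2⟩ := hμdec u
    rw [map_mul, map_inv, hlift u (b ^ k' * a₂ ^ l') (by rw [hu2, map_mul, map_zpow, map_zpow]),
      map_mul, map_mul, map_zpow, map_zpow, map_zpow, map_zpow, hfix, hγb, hleven, mul_one, ← hu2,
      inv_mul_cancel]
  -- conclude
  refine maxClass_of_twist hG hx he.symm he4 ?_ ?_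
  · obtain ⟨n, hn⟩ := IsPGroup.iff_orderOf.mp hG x
    rw [hn]
    refine dvd_trans (by norm_num) (pow_dvd_pow 2 (show 2 ≤ n from ?_))
    by_contra hn2
    apply ha₂q
    have h1 : x ^ (2 : ℤ) = 1 := by
      rw [CfsgLib.TwoGroups.zpow_eq_one_iff_dvd hn]
      interval_cases n <;> norm_num
    have e1 : a₂ = 1 := Subtype.ext (by
      show s ^ 2 = 1
      rw [← hes, ← zpow_natCast, ← zpow_mul, mul_comm, zpow_mul, Nat.cast_ofNat, h1, one_zpow])
    rw [e1, map_one]
  · obtain ⟨j, hj⟩ := hb2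
    have : ((b : G)) ^ 2 = (s ^ 2) ^ (2 * j) := by
      have := congrArg Subtype.val hj
      simp only [Subgroup.coe_zpow, Subgroup.coe_pow] at this
      rw [← this, ha₂, zpow_mul, zpow_two, ← pow_two]
    rw [this]
    exact N.zpow_mem (N.pow_mem hsN 2) _

end CfsgLib.FusionModels.MetacyclicTwo
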