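import Cfsg.Agent.Lib.FusionModels.PStable
import Cfsg.Agent.Lib.FusionBasics.Group
import Cfsg.Prelude.Def_LocalEven

/-!
Stability in the normalizer form and stability of the fusion system of a group.
-/

set_option autoImplicit false
set_option linter.style.haveILetI false

namespace CfsgLib.FusionModels

open Cfsg Cfsg.FusionSystem CfsgLib.Alperin CfsgLib.FusionBasics

variable {G : Type*} [Group G]

/-- The map from `N_G(Q)` onto the automizer of `Q`. -/
noncomputable def toAutomizer (Q : Subgroup G) :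
    ↥(Subgroup.normalizer (Q : Set G)) →* ↥(autInducedBy (⊤ : Subgroup G) Q) where
  toFun g := ⟨conjAut Q g g.2, conjAut_mem (Subgroup.mem_top _) g.2⟩
  map_one' := Subtype.ext (MulEquiv.ext fun x => Subtype.ext (by simp))
  map_mul' a b := Subtype.ext (MulEquiv.ext fun x => Subtype.ext (by simp [mul_assoc]))

theorem toAutomizer_surjective (Q : Subgroup G) : Function.Surjective (toAutomizer Q) := by
  rintro ⟨α, hα⟩
  obtain ⟨g, -, hg⟩ := mem_autInducedBy_iff.mp hα
  exact ⟨⟨g, normalizer_of_induced hg⟩, Subtype.ext (MulEquiv.ext fun x => Subtype.ext (hg x).symm)⟩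

theorem ker_toAutomizer (Q : Subgroup G) : (toAutomizer Q).ker =
    (Subgroup.centralizer (Q : Set G)).subgroupOf (Subgroup.normalizer (Q : Set G)) := by
  ext g
  rw [MonoidHom.mem_ker, Subgroup.mem_subgroupOf, Subgroup.mem_centralizer_iff]
  constructor
  · intro h y hy
    have h1 : (g : G) * y * (g : G)⁻¹ = y :=
      congrArg (fun α : ↥(autInducedBy (⊤ : Subgroup G) Q) => (((α : MulAut Q) ⟨y, hy⟩ : Q) : G)) h
    calc y * (g : G) = (g : G) * y * (g : G)⁻¹ * g := by rw [h1]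
      _ = g * y := by group
  · intro h
    refine Subtype.ext (MulEquiv.ext fun x => Subtype.ext ?_)
    show (g : G) * x * (g : G)⁻¹ = x
    rw [← h x x.2]
    group

theorem quadratic_conjAut {Q : Subgroup G} {g : G} (hg : g ∈ Subgroup.normalizer (Q : Set G))
    (h : ⁅⁅Q, Subgroup.zpowers g⁆, Subgroup.zpowers g⁆ = ⊥) : IsQuadraticAut (conjAut Q g hg) := by
  intro a
  have hb : (a : G)⁻¹ * (g * a * g⁻¹) ∈ ⁅Q, Subgroup.zpowers g⁆ := by
    have := Subgroup.commutator_mem_commutator (Q.inv_mem a.2) (Subgroup.mem_zpowers g)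
    rwa [commutatorElement_def, inv_inv, mul_assoc, mul_assoc, ← mul_assoc g] at this
  have h1 := Subgroup.mem_bot.mp (h.le
    (Subgroup.commutator_mem_commutator hb (Subgroup.mem_zpowers g)))
  rw [commutatorElement_eq_one_iff_mul_comm] at h1
  refine Subtype.ext ?_
  simp only [Subgroup.coe_mul, Subgroup.coe_one, InvMemClass.coe_inv, conjAut_apply]
  calc g * (a : G)⁻¹ * g⁻¹ * a * (g * (a : G)⁻¹ * g⁻¹) * (g * (g * a * g⁻¹) * g⁻¹)
      = ((a : G)⁻¹ * (g * a * g⁻¹))⁻¹ * (g * ((a : G)⁻¹ * (g * a * g⁻¹))) * g⁻¹ := by group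
    _ = ((a : G)⁻¹ * (g * a * g⁻¹))⁻¹ * (((a : G)⁻¹ * (g * a * g⁻¹)) * g) * g⁻¹ := by rw [h1]
    _ = 1 := by group

theorem commutator_eq_bot_of_quadratic {Q : Subgroup G} {g : G}
    (hg : g ∈ Subgroup.normalizer (Q : Set G)) (h : IsQuadraticAut (conjAut Q g hg)) :
    ⁅⁅Q, Subgroup.zpowers g⁆, Subgroup.zpowers g⁆ = ⊥ := by
  rw [Subgroup.commutator_eq_bot_iff_le_centralizer, Subgroup.zpowers_eq_closure g,
    Subgroup.centralizer_closure]
  refine Subgroup.commutator_le.mpr fun q hq z hz => ?_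
  rw [← Subgroup.zpowers_eq_closure] at hz
  obtain ⟨n, rfl⟩ := hz
  rw [commutatorElement_def, Subgroup.mem_centralizer_singleton_iff]
  -- the displacements are fixed by `g`
  have hfix : ∀ a ∈ Q, g * (a⁻¹ * (g * a * g⁻¹)) = a⁻¹ * (g * a * g⁻¹) * g := fun a ha => by
    have h1 := congrArg Subtype.val (h.fixes_diff ⟨a, ha⟩)
    simp only [Subgroup.coe_mul, InvMemClass.coe_inv, conjAut_apply] at h1
    exact mul_inv_eq_iff_eq_mul.mp h1
  set b := q * (g * q⁻¹ * g⁻¹) with hb
  have hbg : Commute g b := by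
    have := hfix q⁻¹ (Q.inv_mem hq)
    rwa [inv_inv] at this
  have hconj : g * q⁻¹ * g⁻¹ = q⁻¹ * b := by rw [hb]; group
  have hnat : ∀ k : ℕ, g ^ k * q⁻¹ * (g ^ k)⁻¹ = q⁻¹ * b ^ k := fun k => by
    induction k with
    | zero => simp
    | succ k ih =>
      rw [pow_succ', mul_inv_rev]
      calc g * g ^ k * q⁻¹ * ((g ^ k)⁻¹ * g⁻¹) = g * (g ^ k * q⁻¹ * (g ^ k)⁻¹) * g⁻¹ := by group
        _ = g * q⁻¹ * (b ^ k * g⁻¹) := by rw [ih]; group
        _ = g * q⁻¹ * (g⁻¹ * b ^ k) := by rw [(hbg.inv_left.pow_right k).eq]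
        _ = g * q⁻¹ * g⁻¹ * b ^ k := by group
        _ = q⁻¹ * b ^ (k + 1) := by rw [hconj, pow_succ', mul_assoc]
  have hz : ∀ k : ℤ, g ^ k * q⁻¹ * (g ^ k)⁻¹ = q⁻¹ * b ^ k := by
    intro k
    obtain ⟨m, rfl | rfl⟩ := Int.eq_nat_or_neg k
    · rw [zpow_natCast, zpow_natCast]
      exact hnat m
    · rw [zpow_neg, zpow_natCast, zpow_neg, zpow_natCast, inv_inv]
      calc (g ^ m)⁻¹ * q⁻¹ * g ^ m = (g ^ m)⁻¹ * (q⁻¹ * b ^ m) * (b ^ m)⁻¹ * g ^ m := by group
        _ = (g ^ m)⁻¹ * (g ^ m * q⁻¹ * (g ^ m)⁻¹) * ((b ^ m)⁻¹ * g ^ m) := by rw [hnat]; group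
        _ = (g ^ m)⁻¹ * (g ^ m * q⁻¹ * (g ^ m)⁻¹) * (g ^ m * (b ^ m)⁻¹) := by
          rw [((hbg.pow_pow m m).inv_right.eq)]
        _ = q⁻¹ * (b ^ m)⁻¹ := by group
  have e : q * g ^ n * q⁻¹ * (g ^ n)⁻¹ = b ^ n := by
    calc q * g ^ n * q⁻¹ * (g ^ n)⁻¹ = q * (g ^ n * q⁻¹ * (g ^ n)⁻¹) := by group
      _ = b ^ n := by rw [hz]; group
  show q * g ^ n * q⁻¹ * (g ^ n)⁻¹ * g = g * (q * g ^ n * q⁻¹ * (g ^ n)⁻¹)
  rw [e]
  exact ((hbg.zpow_right n).eq).symm

variable [Finite G] {p : ℕ} [Fact p.Prime]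

omit [Fact p.Prime] in
theorem stableAt_iff_toAutomizer {S Q : Subgroup G} (hQ : Q ≤ S) :
    StableAt (groupFusionSystem S) p Q ↔ ∀ g : ↥(Subgroup.normalizer (Q : Set G)),
      IsQuadraticAut (conjAut Q g g.2) →
        QuotientGroup.mk (s := (Subgroup.centralizer (Q : Set G)).subgroupOf _) g ∈
          pCore p (↥(Subgroup.normalizer (Q : Set G)) ⧸
            (Subgroup.centralizer (Q : Set G)).subgroupOf _) := by
  let e := (QuotientGroup.quotientMulEquivOfEq (ker_toAutomizer Q).symm).trans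
    (QuotientGroup.quotientKerEquivOfSurjective _ (toAutomizer_surjective Q))
  have hcore := CfsgLib.Cores.map_pCore_equiv (p := p) e
  have hkey : ∀ g : ↥(Subgroup.normalizer (Q : Set G)),
      (QuotientGroup.mk (s := (Subgroup.centralizer (Q : Set G)).subgroupOf _) g ∈
        pCore p (↥(Subgroup.normalizer (Q : Set G)) ⧸
            (Subgroup.centralizer (Q : Set G)).subgroupOf _)) ↔
      conjAut Q g g.2 ∈ autCore (groupFusionSystem S) p Q := by
    intro g
    have h1 : conjAut Q g g.2 ∈ autCore (groupFusionSystem S) p Q ↔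
        toAutomizer Q g ∈ pCore p ↥(autInducedBy (⊤ : Subgroup G) Q) := by
      unfold autCore
      rw [group_autGroup hQ]
      exact ⟨fun ⟨b, hb, hbe⟩ => (Subtype.ext hbe : b = toAutomizer Q g) ▸ hb,
        fun h => ⟨_, h, rfl⟩⟩
    rw [h1, ← hcore, show toAutomizer Q g = e.toMonoidHom (QuotientGroup.mk g) from rfl]
    exact (Subgroup.mem_map_iff_mem e.injective).symm
  constructor
  · intro h g hq
    exact (hkey g).mpr (h _ (by rw [group_autGroup hQ]; exact conjAut_mem (Subgroup.mem_top _) g.2) hq)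
  · intro h χ hχ hq
    rw [group_autGroup hQ] at hχ
    obtain ⟨g, hg⟩ := toAutomizer_surjective Q ⟨χ, hχ⟩
    obtain rfl : conjAut Q g g.2 = χ := congrArg Subtype.val hg
    exact (hkey g).mp (h g hq)

theorem isNormalizerPStable_iff (P : Sylow p G) :
    IsNormalizerPStable p G ↔ ∀ Q : Subgroup G,
      (groupFusionSystem (P : Subgroup G)).IsFullyNormalized Q →
        StableAt (groupFusionSystem (P : Subgroup G)) p Q := by
  constructor
  · intro h Q hQ
    refine (stableAt_iff_toAutomizer hQ.1).mpr fun g hg => ?_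
    exact h Q (P.2.to_le hQ.1) g g.2 (commutator_eq_bot_of_quadratic g.2 hg)
  · intro h Q hQ g hg hq
    obtain ⟨T, hT⟩ := hQ.exists_le_sylow
    obtain ⟨u, hu⟩ := MulAction.exists_smul_eq G T P
    set c := (MulAut.conj u).toMonoidHom with hc
    set Q' := Q.map c with hQ'd
    have hQ' : Q' ≤ (P : Subgroup G) := by
      rw [← hu, Sylow.coe_subgroup_smul, Subgroup.pointwise_smul_def]
      exact Subgroup.map_mono hT
    have hg' : u * g * u⁻¹ ∈ Subgroup.normalizer (Q' : Set G) := by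
      rw [hQ'd, hc, ← Subgroup.map_equiv_normalizer_eq]
      exact ⟨g, hg, rfl⟩
    haveI := Finite.of_injective (fun R : Subgroup G => (R : Set G)) SetLike.coe_injective
    have hst : StableAt (groupFusionSystem (P : Subgroup G)) p Q' :=
      stableAt_of_forall_fullyNormalized h hQ'
    have h1 := (stableAt_iff_toAutomizer hQ').mp hst ⟨_, hg'⟩ (quadratic_conjAut hg' (by
      have e : Subgroup.zpowers (u * g * u⁻¹) = (Subgroup.zpowers g).map c :=
        (MonoidHom.map_zpowers c g).symm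
      rw [e, hQ'd, ← Subgroup.map_commutator, ← Subgroup.map_commutator, hq, Subgroup.map_bot]))
    let ec : ↥(Subgroup.normalizer (Q : Set G)) ≃* ↥(Subgroup.normalizer (Q' : Set G)) :=
      ((MulAut.conj u).subgroupMap _).trans
        (MulEquiv.subgroupCongr (Subgroup.map_equiv_normalizer_eq Q (MulAut.conj u)))
    have hmap : ((Subgroup.centralizer (Q : Set G)).subgroupOf _).map ec.toMonoidHom =
        (Subgroup.centralizer (Q' : Set G)).subgroupOf _ := by
      ext y
      obtain ⟨x, rfl⟩ := ec.surjective y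
      refine (Subgroup.mem_map_iff_mem (f := ec.toMonoidHom) ec.injective).trans ?_
      simp only [Subgroup.mem_subgroupOf, hQ'd, hc, ← map_conj_centralizer]
      exact (Subgroup.mem_map_iff_mem (MulAut.conj u).injective).symm
    let eq := QuotientGroup.congr _ _ ec hmap
    rw [← Subgroup.mem_map_iff_mem (f := eq.toMonoidHom) eq.injective,
      CfsgLib.Cores.map_pCore_equiv]
    exact h1

end CfsgLib.FusionModels
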