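import Cfsg.Agent.Lib.FFModules.MinimalParabolic.Commuting

/-!
A finite group acting on an abelian `p`-group `W` (`p` odd) whose `p`-torsion is a failure of
factorization module with a root pair `SL₂(q)` outside the stabilizer `M` of a subgroup `T`
centralized by a Sylow subgroup: the torus of the root pair induces on `T` a cyclic group of order
prime to `p` which is transitive on the nonzero elements of the commutator.
-/

set_option autoImplicit false
set_option linter.style.haveILetI false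
set_option linter.unusedSectionVars false

namespace CfsgLib.FusionModels.TorusAutomizer

open CfsgLib.FFModules CfsgLib.FFModules.MinimalParabolic CfsgLib.FFModules.SL2Pair Matrix
open scoped Pointwise MatrixGroups

variable {H W : Type*} [Group H] [AddCommGroup W] [DistribMulAction H W]

/-- The elements killed by `p`. -/
def omega (W : Type*) [AddCommGroup W] (p : ℕ) : AddSubgroup W := (nsmulAddMonoidHom p).ker

theorem mem_omega {p : ℕ} {w : W} : w ∈ omega W p ↔ p • w = 0 := Iff.rfl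

theorem smul_nsmul' (g : H) (n : ℕ) (w : W) : g • (n • w) = n • (g • w) :=
  map_nsmul (DistribSMul.toAddMonoidHom W g) n w

theorem smul_mem_omega {p : ℕ} (g : H) {w : W} (hw : w ∈ omega W p) : g • w ∈ omega W p := by
  rw [mem_omega, ← smul_nsmul', mem_omega.1 hw, smul_zero]

instance omegaAction (p : ℕ) : DistribMulAction H (omega W p) where
  smul g v := ⟨g • (v : W), smul_mem_omega g v.2⟩
  one_smul v := Subtype.ext (one_smul H (v : W))
  mul_smul g k v := Subtype.ext (mul_smul g k (v : W))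
  smul_zero g := Subtype.ext (smul_zero g)
  smul_add g v w := Subtype.ext (smul_add g (v : W) (w : W))

@[simp] theorem coe_smul_omega {p : ℕ} (g : H) (v : omega W p) : ((g • v : omega W p) : W) = g • (v : W) :=
  rfl

theorem pow_smul_of_fixed {g : H} {y d : W} (hy : g • y = y + d) (hd : g • d = d) (n : ℕ) :
    g ^ n • y = y + n • d := by
  induction n with
  | zero => simp
  | succ n ih => rw [pow_succ', mul_smul, ih, smul_add, hy, smul_nsmul', hd, succ_nsmul]; abel

theorem pow_smul_two {g : H} {w y c : W} (hw : g • w = w + y) (hy : g • y = y + c)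
    (hc : g • c = c) (n : ℕ) : g ^ n • w = w + n • y + n.choose 2 • c := by
  induction n with
  | zero => simp
  | succ n ih =>
    rw [pow_succ', mul_smul, ih, smul_add, smul_add, hw, smul_nsmul', hy, smul_nsmul', hc,
      Nat.choose_succ_succ', Nat.choose_one_right, nsmul_add, succ_nsmul, add_nsmul]
    abel

/-- An element of order prime to `p` fixing the `p`-torsion of an invariant subgroup fixes it. -/
theorem smul_eq_of_coprime {p : ℕ} (hW : ∀ w : W, ∃ k : ℕ, p ^ k • w = 0) {g : H} {m : ℕ}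
    (hg : g ^ m = 1) (hm : Nat.Coprime m p) {Y : AddSubgroup W} (hY : ∀ y ∈ Y, g • y ∈ Y)
    (hfix : ∀ y ∈ Y, p • y = 0 → g • y = y) : ∀ y ∈ Y, g • y = y := by
  intro y hy
  obtain ⟨k, hk⟩ := hW y
  induction k generalizing y with
  | zero => rw [pow_zero, one_nsmul] at hk; rw [hk, smul_zero]
  | succ k ih =>
    have h1 : g • (p • y) = p • y := ih _ (nsmul_mem hy p) (by rwa [← mul_nsmul', ← pow_succ])
    set d := g • y - y with hd
    have hdY : d ∈ Y := sub_mem (hY y hy) hy
    have hpd : p • d = 0 := by rw [hd, nsmul_sub, ← smul_nsmul', h1, sub_self]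
    have h2 := pow_smul_of_fixed (y := y) (d := d) (by rw [hd]; abel) (hfix d hdY hpd) m
    rw [hg, one_smul, left_eq_add] at h2
    have h3 : addOrderOf d ∣ Nat.gcd m p :=
      Nat.dvd_gcd (addOrderOf_dvd_of_nsmul_eq_zero h2) (addOrderOf_dvd_of_nsmul_eq_zero hpd)
    rw [hm.gcd_eq_one, Nat.dvd_one, AddMonoid.addOrderOf_eq_one_iff] at h3
    exact sub_eq_zero.1 h3

section Root

variable {V : Type*} [AddCommGroup V] [DistribMulAction H V]
variable [Finite H] [Finite V] {B : Subgroup H} {F : Type} [Field F] (R : RootPair B V F)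

theorem torus_mul (l m : Fˣ) : R.torus (l * m) = R.torus l * R.torus m := by
  rw [RootPair.torus, RootPair.torus, RootPair.torus, ← map_mul]
  refine congrArg _ (Subtype.ext ?_)
  rw [Matrix.SpecialLinearGroup.coe_mul]
  ext i j
  fin_cases i <;> fin_cases j <;>
    simp [RootPair.diagSL, Matrix.mul_apply, Fin.sum_univ_two, mul_comm]

/-- The torus as a homomorphism into the whole group. -/
noncomputable def torusHom : Fˣ →* H :=
  R.E.subtype.comp (MonoidHom.mk' R.torus (torus_mul R))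

@[simp] theorem torusHom_apply (l : Fˣ) : torusHom R l = (R.torus l : H) := rfl

/-- The central involution. -/
noncomputable def cInv : R.E := R.torus (-1)

theorem cInv_mul_self : cInv R * cInv R = 1 := by
  rw [cInv, ← torus_mul, neg_mul_neg, one_mul]
  exact map_one (MonoidHom.mk' R.torus (torus_mul R))

theorem cInv_comm (e : R.E) : cInv R * e = e * cInv R := by
  refine R.ρ.injective (Subtype.ext ?_)
  rw [map_mul, map_mul, Matrix.SpecialLinearGroup.coe_mul, Matrix.SpecialLinearGroup.coe_mul,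
    cInv, RootPair.torus, MulEquiv.apply_symm_apply]
  ext i j
  fin_cases i <;> fin_cases j <;> simp [RootPair.diagSL, Matrix.mul_apply, Fin.sum_univ_two]

theorem ψ_cInv (v : V) : R.ψ ((cInv R : H) • v) = -R.ψ v := by
  rw [cInv, R.ψ_torus]
  funext i
  fin_cases i <;> simp

theorem smul_cInv_eq_iff (h2 : (2 : F) ≠ 0) {v : V} :
    (cInv R : H) • v = v ↔ v ∈ fixedSub R.E := by
  refine ⟨fun e => (R.ker v).1 ?_, fun hv => hv _ (cInv R).2⟩
  have h1 := congrArg R.ψ e
  rw [ψ_cInv] at h1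
  funext i
  have h3 := congrFun h1 i
  rw [Pi.neg_apply, neg_eq_iff_add_eq_zero, ← two_mul] at h3
  exact (mul_eq_zero.1 h3).resolve_left h2

theorem weyl_pow_four : R.weyl ^ 4 = 1 := by
  refine R.ρ.injective (Subtype.ext ?_)
  rw [map_pow, map_one, RootPair.weyl, MulEquiv.apply_symm_apply, Matrix.SpecialLinearGroup.coe_pow,
    Matrix.SpecialLinearGroup.coe_one]
  ext i j
  fin_cases i <;> fin_cases j <;>
    simp [RootPair.weylSL, pow_succ, Matrix.mul_apply, Fin.sum_univ_two]

/-- The root group, the Weyl element and the torus generate `SL₂`. -/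
theorem eq_top_of_gen (X : Subgroup R.E) (hB : ∀ e : R.E, (e : H) ∈ B → e ∈ X) (hw : R.weyl ∈ X)
    (ht : ∀ l, R.torus l ∈ X) : X = ⊤ := by
  refine top_le_iff.1 fun e _ => ?_
  have hu : ∀ x : F, ∃ u ∈ X, ((R.ρ u : SL(2, F)) : Matrix (Fin 2) (Fin 2) F) = !![1, x; 0, 1] := by
    intro x
    obtain ⟨b, rfl⟩ := R.coord_bijective.2 x
    exact ⟨⟨b, R.le b.2⟩, hB _ b.2, R.ρ_eq b⟩
  have hd : ∀ l : Fˣ, ((R.ρ (R.torus l) : SL(2, F)) : Matrix (Fin 2) (Fin 2) F) =
      !![(l : F), 0; 0, ((l⁻¹ : Fˣ) : F)] := fun l => by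
    rw [RootPair.torus, MulEquiv.apply_symm_apply, RootPair.diagSL]
  have hw' : ((R.ρ R.weyl : SL(2, F)) : Matrix (Fin 2) (Fin 2) F) = !![0, 1; -1, 0] := by
    rw [RootPair.weyl, MulEquiv.apply_symm_apply, RootPair.weylSL]
  have hdet := (R.ρ e).2
  rw [Matrix.det_fin_two] at hdet
  set g := ((R.ρ e : SL(2, F)) : Matrix (Fin 2) (Fin 2) F) with hg
  by_cases hc : g 1 0 = 0
  · rw [hc, mul_zero, sub_zero] at hdet
    have ha : g 0 0 ≠ 0 := left_ne_zero_of_mul_eq_one hdet
    obtain ⟨u, huX, hu⟩ := hu (g 0 1 / g 0 0)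
    have he : e = R.torus (Units.mk0 _ ha) * u := by
      refine R.ρ.injective (Subtype.ext ?_)
      rw [map_mul, Matrix.SpecialLinearGroup.coe_mul, hd, hu]
      have h11 : g 1 1 = (g 0 0)⁻¹ := eq_inv_of_mul_eq_one_right hdet
      ext i j
      fin_cases i <;> fin_cases j <;>
        simp [Matrix.mul_apply, Fin.sum_univ_two, ← hg, hc, h11, mul_div_cancel₀ _ ha]
    rw [he]
    exact X.mul_mem (ht _) huX
  · obtain ⟨u₁, hu₁X, hu₁⟩ := hu (g 0 0 / g 1 0)
    obtain ⟨u₂, hu₂X, hu₂⟩ := hu (g 1 1 / g 1 0)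
    have he : e = u₁ * (R.weyl * R.torus (Units.mk0 _ (neg_ne_zero.2 hc))) * u₂ := by
      refine R.ρ.injective (Subtype.ext ?_)
      rw [map_mul, map_mul, map_mul, Matrix.SpecialLinearGroup.coe_mul,
        Matrix.SpecialLinearGroup.coe_mul, Matrix.SpecialLinearGroup.coe_mul, hd, hw', hu₁, hu₂]
      have h01 : g 0 1 = (g 0 0 * g 1 1 - 1) / g 1 0 :=
        (eq_div_iff hc).2 (by linear_combination -hdet)
      ext i j
      fin_cases i <;> fin_cases j <;>
        simp [Matrix.mul_apply, Fin.sum_univ_two, ← hg, h01, hc] <;> field_simp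
      ring
    rw [he]
    exact X.mul_mem (X.mul_mem hu₁X (X.mul_mem hw (ht _))) hu₂X

end Root

variable [Finite H] [Finite W] {p : ℕ} [Fact p.Prime]

/-- The torus of a root pair normalizes `B` and centralizes the minimal offenders commuting with
it; hence it lies in `M`. -/
theorem torus_mem {V : Type*} [AddCommGroup V] [DistribMulAction H V] [Finite V] (hp : p ≠ 2)
    {P : Sylow p H} {M : Subgroup H} (h : Setting p P M V) {B : Subgroup H} (hB : IsMin p B V)
    (hBP : B ≤ (P : Subgroup H)) {F : Type} [Field F] (R : RootPair B V F) (l : Fˣ) :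
    (R.torus l : H) ∈ M := by
  set 𝒮 : Set (Subgroup H) := {X | IsMin p X V ∧ X ≤ (P : Subgroup H) ∧ Nat.card X = Nat.card B}
  have hq : 2 < Nat.card B := by
    obtain ⟨n, hn⟩ := hB.isPGroup.exists_card_eq
    have hn0 : n ≠ 0 := fun e => hB.ne_bot (Subgroup.card_eq_one.1 (by simpa [e] using hn))
    have h5 : p ≤ Nat.card B := Nat.le_of_dvd Nat.card_pos (hn ▸ dvd_pow_self p hn0)
    have := (Fact.out : p.Prime).two_le
    omega
  set U : Subgroup H := sSup 𝒮 with hU
  have hBS : B ∈ 𝒮 := ⟨hB, hBP, rfl⟩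
  have hUP : U ≤ (P : Subgroup H) := sSup_le fun X hX => hX.2.1
  have hnU : Subgroup.normalizer (U : Set H) ≠ ⊤ := fun e => by
    haveI := Subgroup.normalizer_eq_top_iff.1 e
    have h1 : U ≤ Cfsg.pCore p H := le_pCore inferInstance (P.2.to_le hUP)
    rw [h.core, le_bot_iff] at h1
    exact hB.ne_bot (le_bot_iff.1 (h1 ▸ le_sSup hBS))
  have hPU : (P : Subgroup H) ≤ Subgroup.normalizer (U : Set H) := fun g hg => by
    refine LLemma.mem_normalizer_of_conj_le ?_
    rw [Subgroup.pointwise_smul_subset_iff]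
    refine sSup_le fun X hX => Subgroup.pointwise_smul_subset_iff.1 (le_sSup ?_)
    exact ⟨hX.1.smul g, (Subgroup.pointwise_smul_le_pointwise_smul_iff.2 hX.2.1).trans
      (LLemma.conj_eq_of_mem_normalizer (Subgroup.le_normalizer hg)).le,
      (card_smul_subgroup X g).trans hX.2.2⟩
  refine h.le_M_of_sylow_le hPU hnU (LLemma.mem_normalizer_of_conj_le ?_)
  rw [Subgroup.pointwise_smul_subset_iff]
  refine sSup_le fun X hX => Subgroup.pointwise_smul_subset_iff.1 ?_
  have hconj : ∀ y ∈ X, (R.torus l : H) * y * (R.torus l : H)⁻¹ ∈ U := by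
    intro y hy
    by_cases hXB : X = B
    · subst hXB
      exact le_sSup hX (R.torus_conj_mem l hy)
    · have hc := h.commute_of_le_pgroup P.2 hB hX.1 hX.2.2.symm hBP hX.2.1
      have hmv := h.moves_le_fixE hB hX.1 hX.2.2.symm hc (Ne.symm hXB) hq R
      have hx : MulAut.conj R.x • B ≤ R.E := le_sup_right.trans R.eq_sup.ge
      have hc2 := h.comm_of_moves_le (hB.smul R.x) hX.1
        ((card_smul_subgroup B R.x).trans hX.2.2.symm) (hmv.trans (fixedSub_anti hx))
      have hE : R.E ≤ Subgroup.centralizer (X : Set H) := by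
        rw [R.eq_sup]
        exact sup_le (fun a ha => Subgroup.mem_centralizer_iff.2 fun y hy => (hc a ha y hy).symm)
          (fun a ha => Subgroup.mem_centralizer_iff.2 fun y hy => (hc2 a ha y hy).symm)
      rw [← Subgroup.mem_centralizer_iff.1 (hE (R.torus l).2) y hy, mul_inv_cancel_right]
      exact le_sSup hX hy
  intro y hy
  obtain ⟨x, hx, rfl⟩ := (Subgroup.mem_smul_pointwise_iff_exists _ _ _).1 hy
  exact hconj x hx

/-- **The torus automizer.** -/
theorem exists_torus_automizer (hp : p ≠ 2) (hW : ∀ w : W, ∃ k : ℕ, p ^ k • w = 0)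
    {P : Sylow p H} {M : Subgroup H} (h : Setting p P M (omega W p)) (T : AddSubgroup W)
    (hPT : ∀ g ∈ (P : Subgroup H), ∀ t ∈ T, g • t = t) (hMT : ∀ g ∈ M, ∀ t ∈ T, g • t ∈ T)
    (hTM : ∀ g : H, (∀ t ∈ T, g • t = t) → g ∈ M) {B : Subgroup H}
    (hB : IsMin p B (omega W p)) (hBP : B ≤ (P : Subgroup H)) {F : Type} [Field F]
    (R : RootPair B (omega W p) F) (hE : ¬ R.E ≤ M) :
    (Nat.card Fˣ).Coprime p ∧ IsCyclic Fˣ ∧ ∃ f : Fˣ →* H, (∀ l, ∀ t ∈ T, f l • t ∈ T) ∧
      (∃ l, ∃ t ∈ T, f l • t ≠ t) ∧ ∃ K : AddSubgroup W, (∀ l, ∀ t ∈ T, f l • t - t ∈ K) ∧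
        ∀ a ∈ K, ∀ b ∈ K, a ≠ 0 → b ≠ 0 → ∃ l, f l • a = b := by
  classical
  haveI : Finite F := Nat.finite_of_card_ne_zero (by rw [R.card]; exact Nat.card_pos.ne')
  have hodd := (Fact.out : p.Prime).odd_of_ne_two hp
  have hpF : (p : F) = 0 := by
    obtain ⟨v, hv⟩ := R.surj ![1, 0]
    have h1 := congrArg R.ψ (h.exponent v)
    rw [map_nsmul, map_zero, hv] at h1
    simpa using congrFun h1 0
  have h2 : (2 : F) ≠ 0 := fun e => by
    obtain ⟨k, hk⟩ := hodd
    rw [hk] at hpF
    push_cast at hpF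
    rw [e, zero_mul, zero_add] at hpF
    exact one_ne_zero hpF
  obtain ⟨k, hk⟩ := hB.isPGroup.exists_card_eq
  have hk0 : k ≠ 0 := fun e => hB.ne_bot (Subgroup.card_eq_one.1 (by simpa [e] using hk))
  have hcop : (Nat.card Fˣ).Coprime p := by
    refine Nat.Coprime.symm ((Fact.out : p.Prime).coprime_iff_not_dvd.2 fun hd => ?_)
    rw [Nat.card_units, R.card, hk] at hd
    have h1 : p ∣ p ^ k := dvd_pow_self p hk0
    have h3 : 1 ≤ p ^ k := Nat.one_le_pow _ _ (Fact.out : p.Prime).pos
    have := Nat.dvd_sub h1 hd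
    rw [show p ^ k - (p ^ k - 1) = 1 by omega] at this
    exact (Fact.out : p.Prime).not_dvd_one this
  set z : H := (cInv R : H) with hz
  have hzz : ∀ w : W, z • z • w = w := fun w => by
    rw [← mul_smul, hz, ← Subgroup.coe_mul, cInv_mul_self, Subgroup.coe_one, one_smul]
  have hzc : ∀ (e : R.E) (w : W), z • (e : H) • w = (e : H) • z • w := fun e w => by
    rw [← mul_smul, ← mul_smul, hz, ← Subgroup.coe_mul, cInv_comm, Subgroup.coe_mul]
  -- the fixed points of `z`
  let Y : AddSubgroup W := (DistribSMul.toAddMonoidHom W z - AddMonoidHom.id W).ker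
  have hY : ∀ y, y ∈ Y ↔ z • y = y := fun y => by
    show z • y - y = 0 ↔ _
    exact sub_eq_zero
  have hYfix : ∀ (e : R.E) (m : ℕ), e ^ m = 1 → Nat.Coprime m p →
      ∀ y : W, z • y = y → (e : H) • y = y := by
    intro e m hm hmp y hy
    refine smul_eq_of_coprime hW (g := (e : H)) (by rw [← Subgroup.coe_pow, hm, Subgroup.coe_one])
      hmp (Y := Y) (fun y hy => ?_) (fun y hy hpy => ?_) y ((hY y).2 hy)
    · rw [hY] at hy ⊢
      rw [hzc, hy]
    · have h1 : (⟨y, mem_omega.2 hpy⟩ : omega W p) ∈ fixedSub R.E :=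
        (smul_cInv_eq_iff R h2).1 (Subtype.ext ((hY y).1 hy))
      exact congrArg Subtype.val (h1 _ e.2)
  have htor : ∀ (l : Fˣ) (y : W), z • y = y → (R.torus l : H) • y = y := fun l =>
    hYfix _ (Nat.card Fˣ) (by
      rw [show R.torus l = MonoidHom.mk' R.torus (torus_mul R) l from rfl, ← map_pow,
        pow_card_eq_one', map_one]) hcop
  have hT : ∀ (l : Fˣ), ∀ t ∈ T, (R.torus l : H) • t ∈ T := fun l =>
    hMT _ (torus_mem hp h hB hBP R l)
  -- `z` moves `T`
  obtain ⟨t₀, ht₀, hzt₀⟩ : ∃ t ∈ T, z • t ≠ t := by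
    by_contra hcon
    push Not at hcon
    refine hE fun e he => hTM e ?_
    let X : Subgroup R.E :=
      { carrier := {e | ∀ t ∈ T, (e : H) • t = t}
        one_mem' := fun t _ => one_smul H t
        mul_mem' := fun {a b} ha hb t ht => by rw [Subgroup.coe_mul, mul_smul, hb t ht, ha t ht]
        inv_mem' := fun {a} ha t ht => by rw [Subgroup.coe_inv, inv_smul_eq_iff, ha t ht] }
    have hX : X = ⊤ := eq_top_of_gen R X (fun e he t ht => hPT _ (hBP he) t ht)
      (fun t ht => hYfix _ 4 (weyl_pow_four R)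
        (by
          refine Nat.Coprime.symm ((Fact.out : p.Prime).coprime_iff_not_dvd.2 fun hd => ?_)
          have : p ∣ 2 := (Fact.out : p.Prime).dvd_of_dvd_pow (show p ∣ 2 ^ 2 from hd)
          exact hp ((Nat.prime_dvd_prime_iff_eq (Fact.out : p.Prime) Nat.prime_two).1 this))
        t (hcon t ht))
      (fun l t ht => htor l t (hcon t ht))
    exact (show (⟨e, he⟩ : R.E) ∈ X from hX ▸ Subgroup.mem_top _)
  -- the part of `T` inverted by `z`
  let K : AddSubgroup W := T ⊓ (DistribSMul.toAddMonoidHom W z + AddMonoidHom.id W).ker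
  have hK : ∀ w, w ∈ K ↔ w ∈ T ∧ z • w = -w := fun w => by
    show w ∈ T ∧ z • w + w = 0 ↔ _
    rw [add_eq_zero_iff_eq_neg]
  have hzT : ∀ t ∈ T, z • t ∈ T := hT (-1)
  have hKl : ∀ (l : Fˣ), ∀ a ∈ K, (R.torus l : H) • a ∈ K := fun l a ha => by
    rw [hK] at ha ⊢
    exact ⟨hT l a ha.1, by rw [hzc, ha.2, smul_neg]⟩
  -- `p`-torsion inverted by `z` is seen by `ψ`
  have hψ0 : ∀ v : omega W p, R.ψ v = 0 → z • (v : W) = -(v : W) → (v : W) = 0 := by
    intro v hv hzv
    have h1 : z • (v : W) = (v : W) := congrArg Subtype.val ((R.ker v).1 hv z (cInv R).2)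
    rw [h1, eq_neg_iff_add_eq_zero, ← two_nsmul] at hzv
    have h3 : addOrderOf (v : W) ∣ Nat.gcd 2 p := Nat.dvd_gcd (addOrderOf_dvd_of_nsmul_eq_zero hzv)
      (addOrderOf_dvd_of_nsmul_eq_zero (mem_omega.1 v.2))
    rw [((Nat.coprime_primes Nat.prime_two Fact.out).2 (Ne.symm hp)).gcd_eq_one, Nat.dvd_one,
      AddMonoid.addOrderOf_eq_one_iff] at h3
    exact h3
  have hline : ∀ v : omega W p, (v : W) ∈ K → R.ψ v 1 = 0 := fun v hv => (R.mem_fix v).1 fun b hb =>
    Subtype.ext (hPT b (hBP hb) _ ((hK _).1 hv).1)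
  have hne0 : ∀ v : omega W p, (v : W) ∈ K → (v : W) ≠ 0 → R.ψ v 0 ≠ 0 := fun v hv hv0 e =>
    hv0 (hψ0 v (funext fun i => by fin_cases i; exacts [e, hline v hv]) ((hK _).1 hv).2)
  -- `K` is killed by `p`
  have hKp : ∀ a ∈ K, p • a = 0 := by
    intro a ha
    obtain ⟨n, hn⟩ := hW a
    induction n generalizing a with
    | zero => rw [pow_zero, one_nsmul] at hn; rw [hn, nsmul_zero]
    | succ n ih =>
      have hpp : p • (p • a) = 0 := ih _ (nsmul_mem ha p) (by rwa [← mul_nsmul', ← pow_succ])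
      by_contra hpa
      set v₀ : omega W p := ⟨p • a, hpp⟩ with hv₀
      have hα : R.ψ v₀ 0 ≠ 0 := hne0 v₀ (nsmul_mem ha p) hpa
      set w : W := (R.weyl : H) • a with hw
      have hzw : z • w = -w := by rw [hw, hzc, ((hK a).1 ha).2, smul_neg]
      obtain ⟨b, hb, hb1⟩ : ∃ b ∈ B, b ≠ 1 := by
        by_contra hc
        push Not at hc
        exact hB.ne_bot ((Subgroup.eq_bot_iff_forall _).2 hc)
      set y : W := b • w - w with hy
      have hzb : ∀ u : W, z • u = -u → z • (b • u - u) = -(b • u - u) := fun u hu => by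
        rw [smul_sub, hzc ⟨b, R.le hb⟩, hu, smul_neg, neg_sub]; abel
      have hwp : p • w = ((R.weyl : H) • v₀ : omega W p) := (smul_nsmul' _ _ _).symm
      set v₁ : omega W p := b • ((R.weyl : H) • v₀) - (R.weyl : H) • v₀ with hv₁
      have hv₁y : (v₁ : W) = p • y := by
        rw [hy, nsmul_sub, ← smul_nsmul', hwp]; rfl
      have hψ₁ : R.ψ v₁ = ![-(R.coord ⟨b, hb⟩ * R.ψ v₀ 0), 0] := by
        rw [hv₁]
        refine (R.ψ_sub ⟨b, hb⟩ _).trans ?_
        rw [R.ψ_weyl]
        simp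
      have hc0 : R.coord ⟨b, hb⟩ ≠ 0 := fun e => hb1 (congrArg Subtype.val (R.coord_eq_zero.1 e))
      let l : Fˣ := Units.mk0 (-R.coord ⟨b, hb⟩) (neg_ne_zero.2 hc0)
      set u : W := (R.torus l : H) • a with hu
      have hupy : p • y = p • u := by
        have h1 : ((v₁ - (R.torus l : H) • v₀ : omega W p) : W) = p • y - p • u := by
          rw [AddSubgroup.coe_sub, hv₁y, hu, ← smul_nsmul']; rfl
        refine sub_eq_zero.1 (h1 ▸ hψ0 _ ?_ ?_)
        · rw [map_sub, hψ₁, R.ψ_torus, hline v₀ (nsmul_mem ha p)]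
          funext i
          fin_cases i <;> simp [l]
        · rw [h1, smul_sub, smul_nsmul', smul_nsmul', hzb w hzw, ((hK _).1 (hKl l a ha)).2,
            neg_nsmul, neg_nsmul]
          abel
      set v : omega W p := ⟨y - u, by rw [mem_omega, nsmul_sub, hupy, sub_self]⟩ with hv
      have hbu : b • u = u := hPT b (hBP hb) u ((hK _).1 (hKl l a ha)).1
      set c : W := b • y - y with hc
      have hcv : c = ((b • v - v : omega W p) : W) := by
        show b • y - y = b • (y - u) - (y - u)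
        rw [smul_sub b y u, hbu]; abel
      have hzy : z • y = -y := hzb w hzw
      have hbc : b • c = c := by
        refine sub_eq_zero.1 ?_
        have e : b • c - c = ((b • (b • v - v) - (b • v - v) : omega W p) : W) := by
          rw [AddSubgroup.coe_sub, coe_smul_omega, ← hcv]
        rw [e]
        refine hψ0 _ ?_ (e ▸ hzb c (hzb y hzy))
        refine (R.ψ_sub ⟨b, hb⟩ _).trans ?_
        rw [show R.ψ (b • v - v) = _ from R.ψ_sub ⟨b, hb⟩ v]
        funext i
        fin_cases i <;> simp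
      have hpc : p • c = 0 := hcv ▸ mem_omega.1 (b • v - v : omega W p).2
      have hexp := pow_smul_two (g := b) (w := w) (y := y) (c := c) (by rw [hy]; abel)
        (by rw [hc]; abel) hbc p
      rw [h.pow_eq_of_quad hB.toIsQuad hb, one_smul] at hexp
      obtain ⟨m, hm⟩ := (Fact.out : p.Prime).dvd_choose_self two_ne_zero
        (lt_of_le_of_ne (Fact.out : p.Prime).two_le (Ne.symm hp))
      rw [hm, mul_nsmul, hpc, nsmul_zero, add_zero, left_eq_add] at hexp
      have := congrArg (fun x : omega W p => R.ψ x 0) (show v₁ = 0 from Subtype.ext (hv₁y.trans hexp))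
      simp [hψ₁, hc0, hα] at this
  -- transitivity and the commutator
  have h2inj : ∀ w : W, w + w = 0 → w = 0 := fun w hw => by
    obtain ⟨n, hn⟩ := hW w
    rw [← two_nsmul] at hw
    have h3 : addOrderOf w ∣ Nat.gcd 2 (p ^ n) :=
      Nat.dvd_gcd (addOrderOf_dvd_of_nsmul_eq_zero hw) (addOrderOf_dvd_of_nsmul_eq_zero hn)
    rw [(((Nat.coprime_primes Nat.prime_two Fact.out).2 (Ne.symm hp)).pow_right n).gcd_eq_one,
      Nat.dvd_one, AddMonoid.addOrderOf_eq_one_iff] at h3
    exact h3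
  haveI : IsCyclic Fˣ := inferInstance
  refine ⟨hcop, this, torusHom R, fun l t ht => hT l t ht, ⟨-1, t₀, ht₀, hzt₀⟩, K,
    fun l t ht => ?_, fun a ha b hb ha0 hb0 => ?_⟩
  · rw [torusHom_apply, hK]
    have hd : (R.torus l : H) • t - t ∈ T := sub_mem (hT l t ht) ht
    refine ⟨hd, eq_neg_of_add_eq_zero_left ?_⟩
    have h1 := htor l (z • t + t) (by rw [smul_add, hzz, add_comm])
    rw [smul_sub, hzc, show z • t = (z • t + t) - t by abel, smul_sub, h1]
    abel
  · set va : omega W p := ⟨a, hKp a ha⟩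
    set vb : omega W p := ⟨b, hKp b hb⟩
    let l : Fˣ := Units.mk0 (R.ψ vb 0 / R.ψ va 0) (div_ne_zero (hne0 vb hb hb0) (hne0 va ha ha0))
    refine ⟨l, sub_eq_zero.1 ?_⟩
    rw [torusHom_apply]
    have h1 : ((((R.torus l : H) • va - vb : omega W p)) : W) = (R.torus l : H) • a - b := rfl
    rw [← h1]
    refine hψ0 _ ?_ ?_
    · rw [map_sub, R.ψ_torus, hline va ha]
      funext i
      fin_cases i <;> simp [l, hline vb hb, hne0 va ha ha0]
    · rw [h1, smul_sub, ((hK _).1 (hKl l a ha)).2, ((hK b).1 hb).2]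
      abel

end CfsgLib.FusionModels.TorusAutomizer
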