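import Cfsg.Agent.Lib.FusionModels.WalkGroup
import Cfsg.Agent.Lib.Alperin.Base
import Mathlib.GroupTheory.Coset.Basic
import Mathlib.GroupTheory.GroupAction.Quotient
import Mathlib.Data.Fintype.Perm

/-!
Every fusion system on a finite group is realized in a virtually free group.
-/

set_option autoImplicit false
set_option linter.style.haveILetI false
set_option linter.unusedSectionVars false

namespace CfsgLib.FusionModels.VirtuallyFree

open Cfsg Cfsg.FusionSystem CfsgLib.Alperin CfsgLib.FusionModels.WalkGroup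

universe u v

/-- Two semiregular actions on a finite group differ by a permutation. -/
theorem exists_perm_intertwine {A : Type u} [Group A] [Finite A] {P : Type v} [Group P]
    (f g : P →* A) (hf : Function.Injective f) (hg : Function.Injective g) :
    ∃ k : Equiv.Perm A, ∀ (x : P) (y : A), k (g x * y) = f x * k y := by
  have hcard : Nat.card (A ⧸ g.range) = Nat.card (A ⧸ f.range) := by
    have h1 := g.range.index_mul_card
    have h2 := f.range.index_mul_card
    have h3 : Nat.card f.range = Nat.card g.range :=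
      (Nat.card_congr (MonoidHom.ofInjective hf).toEquiv).symm.trans
        (Nat.card_congr (MonoidHom.ofInjective hg).toEquiv)
    rw [h3, ← h1] at h2
    exact (Nat.eq_of_mul_eq_mul_right Nat.card_pos h2).symm
  let e : A ⧸ g.range ≃ A ⧸ f.range := Classical.choice (Cardinal.eq.mp (Nat.cast_card.symm.trans ((congrArg Nat.cast hcard).trans Nat.cast_card)))
  let θ : g.range ≃* P := (MonoidHom.ofInjective hg).symm
  let r : A → g.range := fun z => ⟨(z : A ⧸ g.range).out⁻¹ * z,
    QuotientGroup.eq.mp (QuotientGroup.out_eq' _)⟩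
  let m : A → A := fun z => (e (z : A ⧸ g.range)).out * f (θ (r z))
  have hm : ∀ (z : A) (x : P), m (z * g x) = m z * f x := by
    intro z x
    have h1 : ((z * g x : A) : A ⧸ g.range) = (z : A ⧸ g.range) :=
      QuotientGroup.eq.mpr ⟨x⁻¹, by simp⟩
    have h2 : r (z * g x) = r z * ⟨g x, x, rfl⟩ :=
      Subtype.ext (by simp only [r, h1, Subgroup.coe_mul, mul_assoc])
    have h3 : θ ⟨g x, x, rfl⟩ = x := (MonoidHom.ofInjective hg).symm_apply_eq.mpr (Subtype.ext rfl)
    simp only [m, h1, h2, map_mul, h3, mul_assoc]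
  have hminj : Function.Injective m := by
    intro z z' h
    have hq : ∀ w : A, ((m w : A) : A ⧸ f.range) = e (w : A ⧸ g.range) := fun w => by
      conv_rhs => rw [← QuotientGroup.out_eq' (e (w : A ⧸ g.range))]
      exact QuotientGroup.eq.mpr ⟨(θ (r w))⁻¹, by simp [m]⟩
    have hz : (z : A ⧸ g.range) = (z' : A ⧸ g.range) := e.injective (by rw [← hq, ← hq, h])
    simp only [m, hz, mul_right_inj] at h
    have h4 := congrArg Subtype.val (θ.injective (hf h))
    simpa [r, hz] using h4
  let k : Equiv.Perm A := Equiv.ofBijective (fun y => (m y⁻¹)⁻¹)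
    (Finite.injective_iff_bijective.mp
      ((inv_injective.comp hminj).comp inv_injective))
  refine ⟨k, fun x y => ?_⟩
  show (m (g x * y)⁻¹)⁻¹ = f x * (m y⁻¹)⁻¹
  rw [mul_inv_rev (g x) y, ← map_inv g, hm, mul_inv_rev (m y⁻¹), ← map_inv f, inv_inv]

variable {Ω : Type u} [Group Ω] {S : Subgroup Ω}

/-- The left regular permutations. -/
def reg (S : Subgroup Ω) : ↥S →* Equiv.Perm ↥S := MulAction.toPermHom ↥S ↥S

theorem reg_injective : Function.Injective (reg S) := fun a b h => by
  simpa [reg] using Equiv.congr_fun h 1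

/-- The vertices. -/
abbrev Vx (S : Subgroup Ω) : Type u := Equiv.Perm ↥S ⧸ (reg S).range

/-- The base vertex. -/
abbrev base (S : Subgroup Ω) : Vx S := ((1 : Equiv.Perm ↥S) : Vx S)

theorem smul_base_eq_iff (k : Equiv.Perm ↥S) : k • base S = base S ↔ k ∈ (reg S).range := by
  rw [show k • base S = ((k : Equiv.Perm ↥S) : Vx S) from
    (congrArg _ (mul_one k) :), eq_comm, QuotientGroup.eq]
  simp

variable [Finite S] (F : FusionSystem S)

/-- The maps of the system. -/
abbrev Mor : Type u := Σ P : Subgroup Ω, {φ : P →* Ω // φ ∈ F.Hom P}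

variable {F}

/-- The inclusion of the source of a map into `S`. -/
def srcHom (i : Mor F) : i.1 →* ↥S := Subgroup.inclusion (dom_le i.2.2)

/-- A map, with values in `S`. -/
def tgtHom (i : Mor F) : i.1 →* ↥S := i.2.1.codRestrict S (apply_mem i.2.2)

theorem exists_perm_mor (i : Mor F) :
    ∃ k : Equiv.Perm ↥S, ∀ x : i.1, reg S (srcHom i x) * k = k * reg S (tgtHom i x) := by
  obtain ⟨k, hk⟩ := exists_perm_intertwine (srcHom i) (tgtHom i) (Subgroup.inclusion_injective _)
    (fun a b h => F.injective_of_mem i.2.2 (congrArg Subtype.val h))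
  exact ⟨k, fun x => Equiv.ext fun y => (hk x y).symm⟩

/-- The permutation of a map. -/
noncomputable def kk (i : Mor F) : Equiv.Perm ↥S := (exists_perm_mor i).choose

theorem kk_spec (i : Mor F) (x : i.1) :
    reg S (srcHom i x) * kk i = kk i * reg S (tgtHom i x) := (exists_perm_mor i).choose_spec x

variable (F) in
/-- The edges. -/
abbrev Ed : Type u := Σ i : Mor F, Equiv.Perm ↥S ⧸ ((reg S).comp (srcHom i)).range

/-- The start of an edge. -/
def src (e : Ed F) : Vx S :=
  Quotient.liftOn' e.2 (fun a => ((a : Equiv.Perm ↥S) : Vx S)) fun a b h => by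
    rw [QuotientGroup.leftRel_apply] at h
    obtain ⟨x, hx⟩ := h
    exact QuotientGroup.eq.mpr ⟨srcHom e.1 x, hx⟩

/-- The end of an edge. -/
noncomputable def tgt (e : Ed F) : Vx S :=
  Quotient.liftOn' e.2 (fun a => ((a * kk e.1 : Equiv.Perm ↥S) : Vx S)) fun a b h => by
    rw [QuotientGroup.leftRel_apply] at h
    obtain ⟨x, hx⟩ := h
    refine QuotientGroup.eq.mpr ⟨tgtHom e.1 x, ?_⟩
    rw [mul_inv_rev, mul_assoc, ← mul_assoc a⁻¹, ← show reg S (srcHom e.1 x) = a⁻¹ * b from hx,
      kk_spec, inv_mul_cancel_left]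

theorem src_smul (k : Equiv.Perm ↥S) (e : Ed F) : src (k • e) = k • src e := by
  obtain ⟨i, a⟩ := e
  induction a using QuotientGroup.induction_on with
  | H a => rfl

theorem tgt_smul (k : Equiv.Perm ↥S) (e : Ed F) : tgt (k • e) = k • tgt e := by
  obtain ⟨i, a⟩ := e
  induction a using QuotientGroup.induction_on with
  | H a =>
    show (((k * a * kk i : Equiv.Perm ↥S)) : Vx S) = ((k * (a * kk i) : Equiv.Perm ↥S) : Vx S)
    rw [mul_assoc]

set_option maxHeartbeats 1000000 in
open Classical in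
/-- A virtually free group realizing a fusion system. -/
theorem exists_virtually_free_realized (F : FusionSystem S) :
    ∃ (G : Type u) (_ : Group G) (ι : ↥S →* G), F.IsRealizedBy ι ∧
      (∀ H : Subgroup G, Finite ↥H → ∃ g : G, ∀ h ∈ H, g * h * g⁻¹ ∈ ι.range) ∧
      ∃ N : Subgroup G, N.Normal ∧ IsFreeGroup ↥N ∧ N.index ∣ (Nat.card ↥S).factorial := by
  let G := walkGroup (K := Equiv.Perm ↥S) (s := src (F := F)) (t := tgt) src_smul tgt_smul (base S)
  let ι : ↥S →* G := ((SemidirectProduct.inr (φ := act (Equiv.Perm ↥S) (Ed F))).comp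
    (reg S)).codRestrict G fun a => by
      rw [mem_walkGroup]
      show Walk src tgt (base S) (1 : FreeGroup (Ed F)).toWord (reg S a • base S)
      rw [FreeGroup.toWord_one, (smul_base_eq_iff _).mpr ⟨a, rfl⟩]
      rfl
  have hι : ∀ a, ((ι a : G) : FreeGroup (Ed F) ⋊[act (Equiv.Perm ↥S) (Ed F)] Equiv.Perm ↥S) =
      ⟨1, reg S a⟩ := fun a => rfl
  refine ⟨G, inferInstance, ι, ⟨fun a b h => reg_injective
    (congrArg (fun z : G => z.1.right) h), fun P hP φ hφ => ⟨fun h => ?_, ?_⟩⟩, ?_, ?_⟩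
  · -- a map of the system is a conjugation
    let i : Mor F := ⟨P, φ, h⟩
    let e : Ed F := ⟨i, ((1 : Equiv.Perm ↥S) : _ ⧸ _)⟩
    let z : G := ⟨⟨FreeGroup.of e, kk i⟩, by
      rw [mem_walkGroup, FreeGroup.toWord_of]
      refine ⟨rfl, ?_⟩
      show ((1 * kk i : Equiv.Perm ↥S) : Vx S) = ((kk i * 1 : Equiv.Perm ↥S) : Vx S)
      rw [one_mul, mul_one]⟩
    refine ⟨z⁻¹, fun x => ?_⟩
    rw [inv_inv, mul_assoc, eq_inv_mul_iff_mul_eq]
    refine Subtype.ext (SemidirectProduct.ext ?_ ?_)
    · have he : reg S (srcHom i x) • e = e :=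
        Sigma.ext rfl (heq_of_eq ((QuotientGroup.eq.mpr
          (show (reg S (srcHom i x) * 1)⁻¹ * 1 ∈ ((reg S).comp (srcHom i)).range from
            ⟨x⁻¹, by simp⟩)) :))
      show FreeGroup.of e * act _ _ (kk i) 1 =
        1 * act _ _ (reg S (srcHom i x)) (FreeGroup.of e)
      rw [map_one, mul_one, one_mul]
      exact ((FreeGroup.map.of).trans (congrArg FreeGroup.of he)).symm
    · exact (kk_spec i x).symm
  · -- a conjugation is a map of the system
    rintro ⟨g, hg⟩
    let P' : Vx S → Prop := fun y => ∀ a : Equiv.Perm ↥S, (a : Vx S) = y →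
      ∃ χ ∈ F.Hom P, ∀ (x : P) (hx : χ x ∈ S),
        reg S ⟨χ x, hx⟩ = a⁻¹ * reg S ⟨x, hP x.2⟩ * a
    have hshift : ∀ a : Equiv.Perm ↥S, (∃ χ ∈ F.Hom P, ∀ (x : P) (hx : χ x ∈ S),
        reg S ⟨χ x, hx⟩ = a⁻¹ * reg S ⟨x, hP x.2⟩ * a) → P' (a : Vx S) := by
      rintro a ⟨χ, hχ, hc⟩ b hb
      obtain ⟨c, hc'⟩ := QuotientGroup.eq.mp hb.symm
      let χ' : P →* Ω := (MulAut.conj ((c : Ω)⁻¹)).toMonoidHom.comp χ
      refine ⟨χ', comp_mem_apply hχ (F.conj_mem le_rfl (S.inv_mem c.2)) (apply_mem hχ)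
        (fun x => rfl), fun x hx => ?_⟩
      have h1 : (⟨χ' x, hx⟩ : ↥S) = c⁻¹ * ⟨χ x, apply_mem hχ x⟩ * c := Subtype.ext (by simp [χ'])
      rw [h1, map_mul, map_mul, map_inv, hc x (apply_mem hχ x),
        show b = a * reg S c by rw [hc', mul_inv_cancel_left]]
      group
    have hbase : P' (base S) := hshift 1 ⟨P.subtype, incl_mem F hP, fun x hx => by simp⟩
    let Good : Ed F → Prop := fun e => ∀ x : P, reg S ⟨x, hP x.2⟩ • e = e
    have hgood : ∀ (i : Mor F) (a : Equiv.Perm ↥S), Good ⟨i, (a : _ ⧸ _)⟩ → ∀ x : P, ∃ y : i.1,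
        reg S (srcHom i y) = a⁻¹ * reg S ⟨x, hP x.2⟩ * a := by
      intro i a he x
      have h1 := QuotientGroup.eq.mp (eq_of_heq (Sigma.ext_iff.mp (he x)).2)
      obtain ⟨y, hy⟩ := h1
      refine ⟨y⁻¹, ?_⟩
      rw [map_inv, map_inv, show reg S (srcHom i y) = _ from hy]
      simp only [smul_eq_mul]
      group
    have hfw : ∀ e : Ed F, Good e → P' (src e) → P' (tgt e) := by
      intro e
      obtain ⟨i, a⟩ := e
      induction a using QuotientGroup.induction_on with
      | H a =>
        intro he hs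
        obtain ⟨χ, hχ, hc⟩ := hs a rfl
        refine hshift (a * kk i) ?_
        have hmem : ∀ x : P, χ x ∈ i.1 := fun x => by
          obtain ⟨y, hy⟩ := hgood i a he x
          have h1 := congrArg Subtype.val (reg_injective (hy.trans (hc x (apply_mem hχ x)).symm))
          have h1' : (y : Ω) = χ x := h1
          exact h1' ▸ y.2
        refine ⟨i.2.1.comp (χ.codRestrict i.1 hmem), F.comp_mem hχ i.2.2 hmem, fun x hx => ?_⟩
        have h2 := kk_spec i ⟨χ x, hmem x⟩
        rw [show srcHom i ⟨χ x, hmem x⟩ = ⟨χ x, apply_mem hχ x⟩ from rfl, hc x] at h2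
        show reg S (tgtHom i ⟨χ x, hmem x⟩) = _
        rw [eq_inv_mul_of_mul_eq h2.symm]
        group
    have hbw : ∀ e : Ed F, Good e → P' (tgt e) → P' (src e) := by
      intro e
      obtain ⟨i, a⟩ := e
      induction a using QuotientGroup.induction_on with
      | H a =>
        intro he hs
        obtain ⟨χ, hχ, hc⟩ := hs (a * kk i) rfl
        refine hshift a ?_
        choose y hy using hgood i a he
        have hval : ∀ x : P, χ x = i.2.1 (y x) := fun x => by
          refine congrArg Subtype.val (reg_injective (a₁ := (⟨χ x, apply_mem hχ x⟩ : ↥S))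
            (a₂ := tgtHom i (y x)) ?_)
          rw [hc x, eq_inv_mul_of_mul_eq (kk_spec i (y x)).symm, hy]
          group
        obtain ⟨ψ, hψ, -, hinv, -⟩ := exists_inverse i.2.2 rfl
        have hmem : ∀ x : P, χ x ∈ i.2.1.range := fun x => ⟨y x, (hval x).symm⟩
        refine ⟨ψ.comp (χ.codRestrict _ hmem), F.comp_mem hχ hψ hmem, fun x hx => ?_⟩
        have h1 : ψ ⟨χ x, hmem x⟩ = (y x : Ω) := by
          rw [show (⟨χ x, hmem x⟩ : i.2.1.range) = ⟨i.2.1 (y x), y x, rfl⟩ from
            Subtype.ext (hval x)]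
          exact hinv (y x) _
        rw [show (⟨_, hx⟩ : ↥S) = srcHom i (y x) from Subtype.ext h1, hy]
    let gi : G := g⁻¹
    have hfix : ∀ x : P, act _ _ (reg S ⟨x, hP x.2⟩) gi.1.left = gi.1.left ∧
        gi.1.right * reg S ⟨φ x, hφ x⟩ = reg S ⟨x, hP x.2⟩ * gi.1.right := by
      intro x
      have h1 : gi * ι ⟨φ x, hφ x⟩ = ι ⟨x, hP x.2⟩ * gi := by
        show g⁻¹ * _ = _ * g⁻¹
        rw [hg x]; group
      have h2 := congrArg (fun z : G => z.1.left) h1
      have h3 := congrArg (fun z : G => z.1.right) h1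
      simp only [Subgroup.coe_mul, hι, SemidirectProduct.mul_left, SemidirectProduct.mul_right,
        map_one, mul_one, one_mul] at h2 h3
      exact ⟨h2.symm, h3⟩
    have hend : P' (gi.1.right • base S) := Walk.transport hfw hbw gi.2
      (fun l hl x => smul_eq_of_act_eq (hfix x).1 l hl) hbase
    obtain ⟨χ, hχ, hc⟩ := hend gi.1.right
      (congrArg (fun k : Equiv.Perm ↥S => (k : Vx S)) (mul_one gi.1.right).symm)
    refine mem_of_apply_eq hχ fun x => ?_
    have h1 : (⟨φ x, hφ x⟩ : ↥S) = ⟨χ x, apply_mem hχ x⟩ := reg_injective (by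
      rw [hc x, mul_assoc, ← (hfix x).2, inv_mul_cancel_left])
    exact congrArg Subtype.val h1
  · -- finite subgroups
    intro H hH
    obtain ⟨g, hg⟩ := exists_conj_stabilizer
      (fun y => QuotientGroup.induction_on y fun k => ⟨k, congrArg _ (mul_one k)⟩) H
    refine ⟨g, fun h hh => ?_⟩
    obtain ⟨h1, h2⟩ := hg h hh
    obtain ⟨a, ha⟩ := (smul_base_eq_iff _).mp h2
    exact ⟨a, Subtype.ext (SemidirectProduct.ext h1.symm ha)⟩
  · -- the free subgroup
    refine ⟨_, inferInstance, isFreeGroup_ker, ?_⟩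
    rw [Subgroup.index_ker, ← Nat.card_perm]
    exact Subgroup.card_subgroup_dvd_card _

end CfsgLib.FusionModels.VirtuallyFree
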