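import Mathlib.GroupTheory.FreeGroup.Reduce
import Mathlib.GroupTheory.FreeGroup.NielsenSchreier
import Mathlib.GroupTheory.SemidirectProduct
import Mathlib.Algebra.Group.Action.Sigma
import Mathlib.GroupTheory.OrderOfElement
import Mathlib.Algebra.BigOperators.Group.Finset.Basic
import Mathlib.Algebra.Order.BigOperators.Group.Finset
import Mathlib.Algebra.BigOperators.Ring.Finset
import Mathlib.Tactic.Group
import Mathlib.Tactic.Ring
import Mathlib.Tactic.Linarith

/-!
The group of pairs (reduced walk from a base vertex, group element carrying the base vertex to the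
end of the walk) of a graph with a group acting on it.  It is an extension of a subgroup of a free
group, and its finite subgroups fix a vertex of the universal tree.
-/

set_option autoImplicit false
set_option linter.style.haveILetI false
set_option linter.unusedSectionVars false

namespace CfsgLib.FusionModels.WalkGroup

universe u v w

section Words

variable {E : Type u} [DecidableEq E]

/-- A single letter as an element of the free group. -/
def letter (l : E × Bool) : FreeGroup E := FreeGroup.mk [l]

/-- The inverse letter. -/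
def flipLetter (l : E × Bool) : E × Bool := (l.1, !l.2)

theorem mk_isReduced {L : List (E × Bool)} (h : FreeGroup.IsReduced L) :
    (FreeGroup.mk L).toWord = L := by
  rw [FreeGroup.toWord_mk, ← FreeGroup.isReduced_iff_reduce_eq]
  exact h

theorem letter_mul_flip (l : E × Bool) : letter (flipLetter l) * letter l = 1 := by
  rw [letter, letter, FreeGroup.mul_mk]
  obtain ⟨e, b⟩ := l
  refine Quot.sound ?_
  cases b
  · exact FreeGroup.Red.Step.not (L₁ := []) (L₂ := []) (x := e) (b := true)
  · exact FreeGroup.Red.Step.not (L₁ := []) (L₂ := []) (x := e) (b := false)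

theorem mul_letter (y : FreeGroup E) (l : E × Bool) :
    (∃ L, y.toWord = L ++ [flipLetter l] ∧ FreeGroup.norm (y * letter l) + 1 = FreeGroup.norm y) ∨
      (y * letter l).toWord = y.toWord ++ [l] := by
  rcases List.eq_nil_or_concat y.toWord with h | ⟨L, m, h⟩
  · right
    rw [FreeGroup.toWord_eq_nil_iff.mp h, one_mul, letter, mk_isReduced FreeGroup.IsReduced.singleton]
    simp
  rw [List.concat_eq_append] at h
  have hy : FreeGroup.IsReduced y.toWord := FreeGroup.isReduced_toWord
  by_cases hm : m = flipLetter l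
  · left
    subst hm
    refine ⟨L, h, ?_⟩
    have hye : y = FreeGroup.mk L * letter (flipLetter l) := by
      rw [letter, FreeGroup.mul_mk, ← h, FreeGroup.mk_toWord]
    have hL : FreeGroup.IsReduced L := hy.infix (h ▸ (List.prefix_append _ _).isInfix)
    have hyl : y * letter l = FreeGroup.mk L := by
      rw [hye, mul_assoc, letter_mul_flip, mul_one]
    rw [FreeGroup.norm, hyl, mk_isReduced hL, FreeGroup.norm, h]
    simp
  · right
    have hml : FreeGroup.IsReduced ([m] ++ [l]) := by
      simp only [List.cons_append, List.nil_append, FreeGroup.isReduced_cons_cons,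
        FreeGroup.IsReduced.singleton, and_true]
      intro h1
      obtain ⟨e, b⟩ := m
      obtain ⟨e', b'⟩ := l
      simp only [flipLetter, Prod.mk.injEq, not_and] at hm
      have := hm h1
      revert this
      cases b <;> cases b' <;> simp
    have hred : FreeGroup.IsReduced (L ++ [m] ++ [l]) :=
      FreeGroup.IsReduced.append_overlap (h ▸ hy) hml (by simp)
    have : y * letter l = FreeGroup.mk (y.toWord ++ [l]) := by
      rw [← FreeGroup.mul_mk, FreeGroup.mk_toWord]; rfl
    rw [this, mk_isReduced (by rw [h]; exact hred)]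

theorem norm_convex (y : FreeGroup E) {l₁ l₂ : E × Bool} (h : FreeGroup.IsReduced [l₁, l₂]) :
    2 * FreeGroup.norm (y * letter l₁) ^ 2 + 2 ≤
      FreeGroup.norm y ^ 2 + FreeGroup.norm (y * letter l₁ * letter l₂) ^ 2 := by
  rcases mul_letter y l₁ with ⟨L, -, h1⟩ | h1
  · rcases mul_letter (y * letter l₁) l₂ with ⟨L', -, h2⟩ | h2
    · rw [← h1, ← h2]; ring_nf; omega
    · have h3 : FreeGroup.norm (y * letter l₁ * letter l₂) =
          FreeGroup.norm (y * letter l₁) + 1 := by simp [FreeGroup.norm, h2]
      rw [← h1, h3]; ring_nf; omega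
  · have h3 : FreeGroup.norm (y * letter l₁) = FreeGroup.norm y + 1 := by
      simp [FreeGroup.norm, h1]
    rcases mul_letter (y * letter l₁) l₂ with ⟨L', hL', -⟩ | h2
    · exfalso
      rw [h1] at hL'
      have he := (List.append_inj' hL' rfl).2
      rw [List.singleton_inj] at he
      rw [FreeGroup.isReduced_cons_cons] at h
      subst he
      exact absurd (h.1 rfl) (by simp [flipLetter])
    · have h4 : FreeGroup.norm (y * letter l₁ * letter l₂) = FreeGroup.norm y + 2 := by
        simp [FreeGroup.norm, h2, h1]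
      rw [h3, h4]; ring_nf; omega

theorem mk_take_succ (L : List (E × Bool)) (i : ℕ) (hi : i < L.length) :
    FreeGroup.mk (L.take (i + 1)) = FreeGroup.mk (L.take i) * letter L[i] := by
  rw [letter, FreeGroup.mul_mk, List.take_succ_eq_append_getElem hi]

end Words

section Graph

variable {K : Type u} [Group K] {V : Type v} [MulAction K V] {E : Type w} [DecidableEq E]
  [MulAction K E]

/-- The start of a letter. -/
def lsrc (s t : E → V) (l : E × Bool) : V := cond l.2 (s l.1) (t l.1)

/-- The end of a letter. -/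
def ltgt (s t : E → V) (l : E × Bool) : V := cond l.2 (t l.1) (s l.1)

/-- `L` is a walk from the first vertex to the second. -/
def Walk (s t : E → V) : V → List (E × Bool) → V → Prop
  | x, [], y => x = y
  | x, l :: L, y => lsrc s t l = x ∧ Walk s t (ltgt s t l) L y

variable {s t : E → V}

theorem walk_append {x z : V} {L₁ L₂ : List (E × Bool)} :
    Walk s t x (L₁ ++ L₂) z ↔ ∃ y, Walk s t x L₁ y ∧ Walk s t y L₂ z := by
  induction L₁ generalizing x with
  | nil => exact ⟨fun h => ⟨x, rfl, h⟩, fun ⟨y, hy, h⟩ => (show x = y from hy) ▸ h⟩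
  | cons l L ih =>
    simp only [List.cons_append, Walk, ih]
    exact ⟨fun ⟨h, y, h1, h2⟩ => ⟨y, ⟨h, h1⟩, h2⟩, fun ⟨y, ⟨h, h1⟩, h2⟩ => ⟨h, y, h1, h2⟩⟩

theorem Walk.end_unique {L : List (E × Bool)} : ∀ {x y y' : V},
    Walk s t x L y → Walk s t x L y' → y = y' := by
  induction L with
  | nil => intro x y y' h h'; exact (show x = y from h).symm.trans h'
  | cons l L ih => intro x y y' h h'; exact ih h.2 h'.2

theorem lsrc_not (e : E) (b : Bool) : lsrc s t (e, !b) = ltgt s t (e, b) := by cases b <;> rfl

theorem ltgt_not (e : E) (b : Bool) : ltgt s t (e, !b) = lsrc s t (e, b) := by cases b <;> rfl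

theorem Walk.step {x y : V} {L₁ L₂ : List (E × Bool)} (h : FreeGroup.Red.Step L₁ L₂)
    (hw : Walk s t x L₁ y) : Walk s t x L₂ y := by
  obtain ⟨A, B, e, b⟩ := h
  obtain ⟨m, h1, h2⟩ := walk_append.mp hw
  obtain ⟨h2a, h2b, h2c⟩ := h2
  rw [ltgt_not] at h2c
  exact walk_append.mpr ⟨m, h1, h2a ▸ h2c⟩

theorem Walk.red {x y : V} {L₁ L₂ : List (E × Bool)} (h : FreeGroup.Red L₁ L₂)
    (hw : Walk s t x L₁ y) : Walk s t x L₂ y := by
  induction h with
  | refl => exact hw
  | tail _ hs ih => exact ih.step hs

theorem Walk.mul {x y z : V} {a b : FreeGroup E} (ha : Walk s t x a.toWord y)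
    (hb : Walk s t y b.toWord z) : Walk s t x (a * b).toWord z := by
  rw [FreeGroup.toWord_mul]
  exact Walk.red FreeGroup.reduce.red (walk_append.mpr ⟨y, ha, hb⟩)

theorem Walk.invRev {L : List (E × Bool)} : ∀ {x y : V},
    Walk s t x L y → Walk s t y (FreeGroup.invRev L) x := by
  induction L with
  | nil => intro x y h; exact (show x = y from h).symm
  | cons l L ih =>
    rintro x y ⟨h1, h2⟩
    have : FreeGroup.invRev (l :: L) = FreeGroup.invRev L ++ [(l.1, !l.2)] := by
      simp [FreeGroup.invRev]
    rw [this]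
    exact walk_append.mpr ⟨_, ih h2, lsrc_not l.1 l.2, (ltgt_not l.1 l.2).trans h1⟩

theorem Walk.inv {x y : V} {a : FreeGroup E} (ha : Walk s t x a.toWord y) :
    Walk s t y a⁻¹.toWord x := by
  rw [FreeGroup.toWord_inv]
  exact ha.invRev

variable (K E) in
/-- The action on the free group on the edges. -/
def act : K →* MulAut (FreeGroup E) where
  toFun k := FreeGroup.freeGroupCongr (MulAction.toPerm k)
  map_one' := MulEquiv.ext fun x => by
    rw [show MulAction.toPerm (α := K) (β := E) 1 = Equiv.refl E from Equiv.ext (one_smul K),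
      FreeGroup.freeGroupCongr_refl]
    rfl
  map_mul' a b := MulEquiv.ext fun x => by
    show FreeGroup.map _ x = FreeGroup.map _ (FreeGroup.map _ x)
    rw [FreeGroup.map.comp]
    congr 2
    exact funext fun e => mul_smul a b e

theorem toWord_act (k : K) (x : FreeGroup E) :
    (act K E k x).toWord = x.toWord.map (fun l => (k • l.1, l.2)) := by
  show (FreeGroup.map (fun e : E => k • e) x).toWord = _
  conv_lhs => rw [← FreeGroup.mk_toWord (x := x), FreeGroup.map.mk]
  refine mk_isReduced (List.isChain_map (f := fun l : E × Bool => (k • l.1, l.2)) |>.mpr ?_)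
  exact (FreeGroup.isReduced_toWord (x := x)).imp fun a b hab h => hab (MulAction.injective k h)

theorem norm_act (k : K) (x : FreeGroup E) :
    FreeGroup.norm (act K E k x) = FreeGroup.norm x := by
  simp [FreeGroup.norm, toWord_act]

/-- Letters of a word fixed by `k` are fixed by `k`. -/
theorem smul_eq_of_act_eq {k : K} {x : FreeGroup E} (h : act K E k x = x) :
    ∀ l ∈ x.toWord, k • l.1 = l.1 := by
  have h1 := congrArg FreeGroup.toWord h
  rw [toWord_act] at h1
  intro l hl
  have := List.map_inj_left.mp (h1.trans (List.map_id _).symm) l hl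
  exact congrArg Prod.fst this

theorem Walk.smul (hs : ∀ (k : K) (e : E), s (k • e) = k • s e)
    (ht : ∀ (k : K) (e : E), t (k • e) = k • t e) (k : K) {L : List (E × Bool)} : ∀ {x y : V},
    Walk s t x L y → Walk s t (k • x) (L.map (fun l => (k • l.1, l.2))) (k • y) := by
  induction L with
  | nil => intro x y h; exact congrArg (k • ·) (show x = y from h)
  | cons l L ih =>
    rintro x y ⟨h1, h2⟩
    obtain ⟨e, b⟩ := l
    refine ⟨?_, ?_⟩
    · rw [← h1]; cases b
      · exact ht k e
      · exact hs k e
    · have : ltgt s t (k • e, b) = k • ltgt s t (e, b) := by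
        cases b
        · exact hs k e
        · exact ht k e
      show Walk s t (ltgt s t (k • e, b)) _ _
      rw [this]
      exact ih h2

theorem Walk.act_smul (hs : ∀ (k : K) (e : E), s (k • e) = k • s e)
    (ht : ∀ (k : K) (e : E), t (k • e) = k • t e) (k : K) {x y : V} {a : FreeGroup E}
    (h : Walk s t x a.toWord y) : Walk s t (k • x) (act K E k a).toWord (k • y) := by
  rw [toWord_act]
  exact h.smul hs ht k

/-- The walk group at `v₀`. -/
def walkGroup (hs : ∀ (k : K) (e : E), s (k • e) = k • s e)
    (ht : ∀ (k : K) (e : E), t (k • e) = k • t e) (v₀ : V) :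
    Subgroup (FreeGroup E ⋊[act K E] K) where
  carrier := {g | Walk s t v₀ g.left.toWord (g.right • v₀)}
  one_mem' := by
    show Walk s t v₀ (1 : FreeGroup E).toWord ((1 : K) • v₀)
    rw [FreeGroup.toWord_one, one_smul]
    rfl
  mul_mem' {g h} hg hh := by
    show Walk s t v₀ (g.left * act K E g.right h.left).toWord ((g.right * h.right) • v₀)
    rw [mul_smul]
    exact Walk.mul hg (Walk.act_smul hs ht g.right hh)
  inv_mem' {g} hg := by
    show Walk s t v₀ (act K E g.right⁻¹ g.left⁻¹).toWord (g.right⁻¹ • v₀)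
    have h1 := Walk.act_smul hs ht g.right⁻¹ (Walk.inv hg)
    rwa [inv_smul_smul] at h1

variable {hs : ∀ (k : K) (e : E), s (k • e) = k • s e}
  {ht : ∀ (k : K) (e : E), t (k • e) = k • t e} {v₀ : V}

theorem mem_walkGroup {g : FreeGroup E ⋊[act K E] K} :
    g ∈ walkGroup hs ht v₀ ↔ Walk s t v₀ g.left.toWord (g.right • v₀) := Iff.rfl

/-- The kernel of the projection to `K` is free. -/
theorem isFreeGroup_ker :
    IsFreeGroup ((SemidirectProduct.rightHom (φ := act K E)).comp
      (walkGroup hs ht v₀).subtype).ker := by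
  set G := walkGroup hs ht v₀
  set f := (SemidirectProduct.rightHom (φ := act K E)).comp G.subtype
  let e : ↥(G.comap (SemidirectProduct.inl (φ := act K E))) ≃* ↥f.ker :=
    { toFun := fun x => ⟨⟨SemidirectProduct.inl x.1, x.2⟩,
        SemidirectProduct.rightHom_inl (φ := act K E) x.1⟩
      invFun := fun y => ⟨y.1.1.left, by
        have h : y.1.1.right = 1 := y.2
        show (SemidirectProduct.inl (φ := act K E)) y.1.1.left ∈ G
        convert y.1.2 using 1
        exact SemidirectProduct.ext rfl h.symm⟩
      left_inv := fun x => Subtype.ext rfl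
      right_inv := fun y => by
        have h : y.1.1.right = 1 := y.2
        exact Subtype.ext (Subtype.ext (SemidirectProduct.ext rfl h.symm))
      map_mul' := fun a b =>
        Subtype.ext (Subtype.ext (map_mul (SemidirectProduct.inl (φ := act K E)) a.1 b.1)) }
  exact IsFreeGroup.ofMulEquiv e

/-- The exponent sum. -/
def expSum : FreeGroup E →* Multiplicative ℤ := FreeGroup.lift fun _ => Multiplicative.ofAdd 1

theorem expSum_act (k : K) (x : FreeGroup E) : expSum (act K E k x) = expSum x := by
  suffices expSum.comp (act K E k).toMonoidHom = (expSum : FreeGroup E →* _) from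
    DFunLike.congr_fun this x
  refine FreeGroup.ext_hom _ _ fun e => ?_
  simp [expSum, act, FreeGroup.freeGroupCongr]

theorem expSum_left_eq_one {g : FreeGroup E ⋊[act K E] K} (hg : IsOfFinOrder g) :
    expSum g.left = 1 := by
  let ε : FreeGroup E ⋊[act K E] K →* Multiplicative ℤ :=
    MonoidHom.mk' (fun g => expSum g.left) fun a b => by
      simp [expSum_act]
  obtain ⟨n, hn, h⟩ := isOfFinOrder_iff_pow_eq_one.mp hg
  have h1 : (ε g) ^ n = 1 := by rw [← map_pow, h, map_one]
  have h2 : (n : ℤ) * Multiplicative.toAdd (ε g) = 0 := by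
    simpa using congrArg Multiplicative.toAdd h1
  rcases mul_eq_zero.mp h2 with h3 | h3
  · omega
  · exact Multiplicative.toAdd.injective h3

theorem expSum_letter_ne (l : E × Bool) : expSum (letter l) ≠ 1 := by
  obtain ⟨e, b⟩ := l
  cases b <;> simp [expSum, letter, FreeGroup.lift_mk]

/-- A finite subgroup fixes a vertex of the tree, so is conjugate into the stabiliser of `v₀`. -/
theorem exists_conj_stabilizer (htr : ∀ x : V, ∃ k : K, k • v₀ = x)
    (H : Subgroup (walkGroup hs ht v₀)) [Finite H] :
    ∃ g : walkGroup hs ht v₀, ∀ h ∈ H,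
      ((g * h * g⁻¹ : walkGroup hs ht v₀) : FreeGroup E ⋊[act K E] K).left = 1 ∧
        ((g * h * g⁻¹ : walkGroup hs ht v₀) : FreeGroup E ⋊[act K E] K).right • v₀ = v₀ := by
  classical
  haveI := Fintype.ofFinite H
  let lf : H → FreeGroup E := fun h => h.1.1.left
  let rt : H → K := fun h => h.1.1.right
  let mv : H → FreeGroup E → FreeGroup E := fun h x => lf h * act K E (rt h) x
  have hlf : ∀ a b : H, lf (a * b) = lf a * act K E (rt a) (lf b) := fun a b => rfl
  let Vert : FreeGroup E → Prop := fun x => ∃ y, Walk s t v₀ x.toWord y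
  let F : FreeGroup E → ℕ := fun x => ∑ h : H, FreeGroup.norm ((lf h)⁻¹ * x) ^ 2
  have hFinv : ∀ (a : H) (x : FreeGroup E), F (mv a x) = F x := fun a x => by
    refine (Fintype.sum_equiv (Equiv.mulLeft a) _ _ fun h => ?_).symm
    show FreeGroup.norm ((lf h)⁻¹ * x) ^ 2 = FreeGroup.norm ((lf (a * h))⁻¹ * mv a x) ^ 2
    rw [hlf, show ((lf a * act K E (rt a) (lf h))⁻¹ * mv a x) = act K E (rt a) ((lf h)⁻¹ * x) by
      simp only [mv, map_mul, map_inv]; group, norm_act]
  have hVmv : ∀ (a : H) (x : FreeGroup E), Vert x → Vert (mv a x) := fun a x ⟨y, hy⟩ =>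
    ⟨rt a • y, Walk.mul a.1.2 (Walk.act_smul hs ht (rt a) hy)⟩
  have hex : ∃ n, ∃ x, Vert x ∧ F x = n := ⟨F 1, 1, ⟨v₀, rfl⟩, rfl⟩
  obtain ⟨v, hv, hFv⟩ := Nat.find_spec hex
  have hmin : ∀ x, Vert x → F v ≤ F x := fun x hx => hFv ▸ Nat.find_min' hex ⟨x, hx, rfl⟩
  have hfix : ∀ a : H, mv a v = v := by
    intro a
    set u := v⁻¹ * mv a v with hu
    set L := u.toWord with hL
    have hvu : mv a v = v * u := by rw [hu]; group
    obtain ⟨y₀, hy₀⟩ := hv
    obtain ⟨y₁, hy₁⟩ := hVmv a v ⟨y₀, hy₀⟩
    have hLw : Walk s t y₀ L y₁ := Walk.mul hy₀.inv hy₁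
    let A : ℕ → FreeGroup E := fun i => v * FreeGroup.mk (L.take i)
    have hA : ∀ i, Vert (A i) := fun i => by
      rw [← List.take_append_drop i L] at hLw
      obtain ⟨m, hm, -⟩ := walk_append.mp hLw
      refine ⟨m, Walk.mul hy₀ ?_⟩
      rw [mk_isReduced ((FreeGroup.isReduced_toWord (x := u)).infix (List.take_prefix i L).isInfix)]
      exact hm
    have hconv : ∀ i, i + 2 ≤ L.length → 2 * F (A (i + 1)) < F (A i) + F (A (i + 2)) := by
      intro i hi
      have hr : FreeGroup.IsReduced [L[i], L[i + 1]] := by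
        refine (FreeGroup.isReduced_toWord (x := u)).infix ⟨L.take i, L.drop (i + 2), ?_⟩
        rw [List.append_assoc]
        conv_rhs => rw [← hL, ← List.take_append_drop i L, List.drop_eq_getElem_cons (i := i) (by omega),
          List.drop_eq_getElem_cons (i := i + 1) (by omega)]
        rfl
      have hpt : ∀ h : H, 2 * FreeGroup.norm ((lf h)⁻¹ * A (i + 1)) ^ 2 + 2 ≤
          FreeGroup.norm ((lf h)⁻¹ * A i) ^ 2 + FreeGroup.norm ((lf h)⁻¹ * A (i + 2)) ^ 2 := by
        intro h
        have := norm_convex ((lf h)⁻¹ * A i) hr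
        simp only [A, mk_take_succ L (i + 1) (by omega), mk_take_succ L i (by omega),
          ← mul_assoc] at this ⊢
        exact this
      calc 2 * F (A (i + 1)) = ∑ h : H, 2 * FreeGroup.norm ((lf h)⁻¹ * A (i + 1)) ^ 2 :=
            Finset.mul_sum _ _ _
        _ < ∑ h : H, (FreeGroup.norm ((lf h)⁻¹ * A i) ^ 2 +
              FreeGroup.norm ((lf h)⁻¹ * A (i + 2)) ^ 2) := by
            refine Finset.sum_lt_sum_of_nonempty Finset.univ_nonempty fun h _ => ?_
            have := hpt h
            omega
        _ = F (A i) + F (A (i + 2)) := Finset.sum_add_distrib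
    have hA0 : A 0 = v := by simp [A, ← FreeGroup.one_eq_mk]
    have hAlen : A L.length = mv a v := by
      simp [A, hL, FreeGroup.mk_toWord, hvu]
    have hmono : ∀ i, i + 1 ≤ L.length →
        F v ≤ F (A i) ∧ F (A i) ≤ F (A (i + 1)) ∧ (1 ≤ i → F (A i) < F (A (i + 1))) := by
      intro i
      induction i with
      | zero =>
        intro _
        rw [hA0]
        exact ⟨le_rfl, hmin _ (hA 1), by omega⟩
      | succ i ih =>
        intro hi
        obtain ⟨h1, h2, -⟩ := ih (by omega)
        have h4 : 2 * F (A (i + 1)) < F (A i) + F (A (i + 1 + 1)) := hconv i (by omega)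
        exact ⟨by omega, by omega, fun _ => by omega⟩
    rcases Nat.lt_or_ge L.length 2 with hlt | hge
    · rcases Nat.lt_or_ge L.length 1 with h0 | h1
      · rw [← hAlen, show L.length = 0 by omega, hA0]
      · exfalso
        obtain ⟨l, hl⟩ := List.length_eq_one_iff.mp (show L.length = 1 by omega)
        have h3 : u = letter l := by rw [letter, ← hl, hL, FreeGroup.mk_toWord]
        refine expSum_letter_ne (E := E) l ?_
        rw [← h3, hu, map_mul, map_inv]
        simp only [mv, map_mul, expSum_act]
        have hfin : IsOfFinOrder a.1.1 :=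
          ((walkGroup hs ht v₀).subtype.comp H.subtype).isOfFinOrder (isOfFinOrder_of_finite a)
        show _ * (expSum a.1.1.left * _) = _
        rw [expSum_left_eq_one hfin, one_mul, inv_mul_cancel]
    · exfalso
      obtain ⟨h1, -, h3⟩ := hmono (L.length - 1) (by omega)
      have := h3 (by omega)
      rw [show L.length - 1 + 1 = L.length by omega, hAlen, hFinv] at this
      omega
  obtain ⟨y, hy⟩ := hv
  obtain ⟨k, rfl⟩ := htr y
  let g₀ : walkGroup hs ht v₀ := ⟨⟨v, k⟩, hy⟩
  refine ⟨g₀⁻¹, fun h hh => ?_⟩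
  have key : ((g₀⁻¹ * h * g₀⁻¹⁻¹ : walkGroup hs ht v₀) : FreeGroup E ⋊[act K E] K).left = 1 := by
    rw [inv_inv]
    simp only [Subgroup.coe_mul, Subgroup.coe_inv, SemidirectProduct.mul_left,
      SemidirectProduct.mul_right, SemidirectProduct.inv_left, SemidirectProduct.inv_right]
    rw [map_mul (act K E), MulAut.mul_apply, mul_assoc, ← map_mul, ← map_mul]
    have h1 : h.1.left * act K E h.1.right v = v := hfix ⟨h, hh⟩
    show act K E k⁻¹ (v⁻¹ * (h.1.left * act K E h.1.right v)) = 1
    rw [h1, inv_mul_cancel, map_one]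
  refine ⟨key, ?_⟩
  have hmem := (g₀⁻¹ * h * g₀⁻¹⁻¹).2
  rw [mem_walkGroup, key, FreeGroup.toWord_one] at hmem
  exact hmem.symm

/-- A property transported along walks fixed by `k`. -/
theorem Walk.transport {P : V → Prop} {good : E → Prop}
    (hfw : ∀ e, good e → P (s e) → P (t e)) (hbw : ∀ e, good e → P (t e) → P (s e))
    {L : List (E × Bool)} : ∀ {x y : V}, Walk s t x L y → (∀ l ∈ L, good l.1) → P x → P y := by
  induction L with
  | nil => intro x y h _ hx; exact (show x = y from h) ▸ hx
  | cons l L ih =>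
    rintro x y ⟨h1, h2⟩ hg hx
    obtain ⟨e, b⟩ := l
    refine ih h2 (fun l hl => hg l (List.mem_cons_of_mem _ hl)) ?_
    subst h1
    have hge : good e := hg (e, b) (List.mem_cons_self ..)
    cases b
    · exact hbw e hge hx
    · exact hfw e hge hx

end Graph

end CfsgLib.FusionModels.WalkGroup
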